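import Mathlib
import Cfsg.Prelude.Def_Local
import Cfsg.Prelude.Def_Transfer
import Cfsg.Agent.H22.PResidual
import Cfsg.Agent.H86.Basic
import Cfsg.Agent.H88.ClassBasic

/-! Normal subgroups meeting a cyclic Sylow subgroup properly. -/

namespace Cfsg.Agent.H88

open Subgroup
open scoped commutatorElement Pointwise

/-- A `p'`-element inducing a power map `≡ 1 (mod p)` on a cyclic `p`-group centralizes it. -/
theorem commute_of_pow_modEq_one {G : Type*} [Group G] {p n : ℕ} [Fact p.Prime] {w b : G} {i : ℤ}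
    (hw : orderOf w ∣ p ^ n) (hb : (orderOf b).Coprime p) (hi : b * w * b⁻¹ = w ^ i)
    (hip : (p : ℤ) ∣ i - 1) : Commute b w := by
  have hpow : ∀ j : ℕ, b ^ j * w * (b ^ j)⁻¹ = w ^ (i ^ j) := by
    intro j
    induction j with
    | zero => simp
    | succ j ih =>
      calc b ^ (j + 1) * w * (b ^ (j + 1))⁻¹ = b ^ j * (b * w * b⁻¹) * (b ^ j)⁻¹ := by
            rw [pow_succ]; group
        _ = (b ^ j * w * (b ^ j)⁻¹) ^ i := by rw [hi, conj_zpow]
        _ = w ^ (i ^ (j + 1)) := by rw [ih, ← zpow_mul, pow_succ]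
  have h1 : (p : ℤ) ^ (n + 1) ∣ i ^ (p ^ n) - 1 ^ (p ^ n) := dvd_sub_pow_of_dvd_sub hip n
  rw [one_pow] at h1
  have h2 : w ^ (i ^ (p ^ n) - 1) = 1 := by
    rw [← orderOf_dvd_iff_zpow_eq_one]
    refine dvd_trans ?_ h1
    exact_mod_cast hw.trans (pow_dvd_pow p n.le_succ)
  have h3 : Commute (b ^ (p ^ n)) w := by
    show b ^ (p ^ n) * w = w * b ^ (p ^ n)
    have := hpow (p ^ n)
    rw [show i ^ (p ^ n) = (i ^ (p ^ n) - 1) + 1 by ring, zpow_add_one, h2, one_mul] at this
    exact mul_inv_eq_iff_eq_mul.1 this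
  obtain ⟨m, hm⟩ := exists_pow_eq_self_of_coprime (x := b) ((hb.symm).pow_left n)
  exact hm ▸ h3.pow_left m

/-- If a Sylow `p`-subgroup is cyclic, a normal subgroup `H` with `p` dividing both `|H|` and
`|G : H|` is `p`-nilpotent and `G` is `p`-solvable. -/
theorem cyclic_sylow_normal_both_sides {G : Type*} [Group G] [Finite G] (p : ℕ) [hp : Fact p.Prime]
    (P : Sylow p G) (hP : IsCyclic (P : Subgroup G)) (H : Subgroup G) [H.Normal]
    (h1 : p ∣ Nat.card H) (h2 : p ∣ H.index) :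
    HasNormalPComplement p H ∧ IsPSolvable p G := by
  haveI := hP
  set U := (P : Subgroup G) ⊓ H with hU
  obtain ⟨w, hw⟩ := hP.exists_generator
  have hwgen : (P : Subgroup G) = zpowers (w : G) := by
    refine le_antisymm (fun y hy => ?_) (zpowers_le.2 w.2)
    obtain ⟨i, hi⟩ := mem_zpowers_iff.1 (hw ⟨y, hy⟩)
    exact mem_zpowers_iff.2 ⟨i, by simpa using congrArg Subtype.val hi⟩
  obtain ⟨n, hn⟩ := P.isPGroup'.exists_card_eq
  have hwo : orderOf (w : G) = p ^ n := by
    rw [← hn, orderOf_coe]; exact orderOf_eq_card_of_forall_mem_zpowers hw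
  have hPab : ∀ y ∈ (P : Subgroup G), ∀ z ∈ (P : Subgroup G), Commute y z := fun y hy z hz => by
    rw [hwgen] at hy hz
    obtain ⟨i, rfl⟩ := mem_zpowers_iff.1 hy
    obtain ⟨j, rfl⟩ := mem_zpowers_iff.1 hz
    exact Commute.zpow_zpow_self _ i j
  have hUidx : ¬ p ∣ (U.subgroupOf H).index := by
    rw [hU, inf_subgroupOf_right]
    exact H22.sylow_not_dvd_relIndex_normal P H
  have hUlt : U ≠ (P : Subgroup G) := fun he => P.not_dvd_index (h2.trans (index_dvd_of_le (inf_eq_left.1 he)))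
  have hUne : U ≠ ⊥ := by
    intro he
    rw [he, bot_subgroupOf, index_bot] at hUidx
    exact hUidx h1
  set C := centralizer (U : Set G) with hC
  have hPC : (P : Subgroup G) ≤ C := fun y hy => mem_centralizer_iff.2 fun z hz =>
    hPab z (inf_le_left (a := (P : Subgroup G)) hz) y hy
  -- a `p'`-element normalizing `P` and centralizing `U` centralizes `P`
  have hcentP : ∀ b : G, (orderOf b).Coprime p → (∀ y ∈ (P : Subgroup G), b * y * b⁻¹ ∈ (P : Subgroup G)) →
      b ∈ C → Commute b (w : G) := by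
    intro b hb hbP hbC
    obtain ⟨i, hi⟩ := mem_zpowers_iff.1 (hwgen ▸ hbP w w.2 : b * (w : G) * b⁻¹ ∈ zpowers (w : G))
    obtain ⟨u, hu, hu1⟩ := (bot_or_exists_ne_one U).resolve_left hUne
    refine commute_of_pow_modEq_one (n := n) (dvd_of_eq hwo) hb hi.symm ?_
    obtain ⟨j, rfl⟩ := mem_zpowers_iff.1 (hwgen ▸ inf_le_left (a := (P : Subgroup G)) hu)
    have hfix : b * (w : G) ^ j * b⁻¹ = (w : G) ^ j := by
      rw [← mem_centralizer_iff.1 hbC _ hu, mul_inv_cancel_right]
    rw [← conj_zpow, ← hi, ← zpow_mul] at hfix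
    have hd : ((p ^ n : ℕ) : ℤ) ∣ i * j - j := by
      rw [← hwo, orderOf_dvd_iff_zpow_eq_one, zpow_sub, hfix, mul_inv_cancel]
    have hj : ¬ ((p ^ n : ℕ) : ℤ) ∣ j := by
      rwa [← hwo, orderOf_dvd_iff_zpow_eq_one]
    by_contra hip
    apply hj
    have hcop : IsCoprime ((p ^ n : ℕ) : ℤ) (i - 1) := by
      push_cast
      exact ((Nat.prime_iff_prime_int.1 hp.out).coprime_iff_not_dvd.2 hip).pow_left
    refine hcop.dvd_of_dvd_mul_left ?_
    rwa [show (i - 1) * j = i * j - j by ring]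
  -- `C` has a normal `p`-complement
  have hCcomp : HasNormalPComplement p C := by
    let PC : Sylow p C := P.subtype hPC
    have hle : normalizer ((PC : Subgroup C) : Set C) ≤ centralizer ((PC : Subgroup C) : Set C) := by
      intro a ha
      rw [mem_centralizer_iff]
      intro y hy
      apply Subtype.ext
      obtain ⟨b₀, z, hb0, hz, hbz, ⟨k, hk⟩, hzp⟩ :=
        H86.exists_pPart_mul_pPrimePart (a : C) (isOfFinOrder_of_finite a) hp.out
      have hb0' : b₀ ∈ (PC : Subgroup C) := by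
        have hb0n : zpowers b₀ ≤ normalizer ((PC : Subgroup C) : Set C) :=
          zpowers_le.2 (zpowers_le.2 ha hb0)
        have := PC.is_maximal' (PC.isPGroup'.to_sup_of_normal_left'
          (IsPGroup.of_card (p := p) (n := k) (G := zpowers b₀) (by rw [Nat.card_zpowers, hk])) hb0n)
          le_sup_left
        exact (le_sup_right.trans (le_of_eq this)) (mem_zpowers b₀)
      have hzn : z ∈ normalizer ((PC : Subgroup C) : Set C) := zpowers_le.2 ha hz
      have hzw : Commute (z : G) (w : G) := by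
        refine hcentP z (by rwa [orderOf_coe]) (fun v hv => ?_) z.2
        exact ((mem_normalizer_iff.1 hzn ⟨v, hPC hv⟩).1 hv)
      have hy' : (y : G) ∈ (P : Subgroup G) := hy
      have hb' : (b₀ : G) ∈ (P : Subgroup G) := hb0'
      obtain ⟨j, hj⟩ := mem_zpowers_iff.1 (hwgen ▸ hy')
      have h3 : Commute (y : G) (z : G) := hj ▸ (hzw.symm.zpow_left j)
      have := ((hPab y hy' b₀ hb').mul_right h3).eq
      rw [← hbz]
      simpa using this
    exact ⟨PC, _, MonoidHom.normal_ker _, MonoidHom.ker_transferSylow_isComplement' PC hle⟩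
  set Kc := pResidual p C with hKcdef
  have hKcp : ¬ p ∣ Nat.card Kc := H22.hasNormalPComplement_iff.1 hCcomp
  have hKmem : ∀ c : C, c ∈ Kc ↔ (orderOf c).Coprime p := H22.mem_pResidual_iff_coprime hCcomp
  set K := Kc.map C.subtype with hK
  set N := normalizer (U : Set G) with hN
  have hCN : C ≤ N := centralizer_le_normalizer _
  have hNC : ∀ g ∈ N, ∀ c ∈ C, g * c * g⁻¹ ∈ C := by
    intro g hg c hc
    rw [mem_centralizer_iff]
    intro u hu
    have hu' : g⁻¹ * u * g ∈ (U : Set G) := by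
      simpa using (mem_normalizer_iff.1 (inv_mem hg) u).1 hu
    calc u * (g * c * g⁻¹) = g * ((g⁻¹ * u * g) * c) * g⁻¹ := by group
      _ = g * (c * (g⁻¹ * u * g)) * g⁻¹ := by rw [mem_centralizer_iff.1 hc _ hu']
      _ = _ := by group
  have hNK : N ≤ normalizer (K : Set G) := by
    intro g hg
    rw [mem_normalizer_iff]
    have hfw : ∀ g ∈ N, ∀ x ∈ K, g * x * g⁻¹ ∈ K := by
      rintro g hg _ ⟨c, hc, rfl⟩
      refine ⟨⟨g * c * g⁻¹, hNC g hg c c.2⟩, (hKmem _).2 ?_, rfl⟩
      rw [← orderOf_coe]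
      show (orderOf (MulAut.conj g (c : G))).Coprime p
      rw [show orderOf (MulAut.conj g (c : G)) = orderOf c from
        (orderOf_injective (MulAut.conj g).toMonoidHom (MulAut.conj g).injective _).trans (orderOf_coe _)]
      exact (hKmem c).1 hc
    intro x
    refine ⟨hfw g hg x, fun hx => ?_⟩
    simpa [mul_assoc] using hfw g⁻¹ (inv_mem hg) _ hx
  -- `N_H(U)` centralizes `U`
  have hmain : H ⊓ N ≤ C := by
    intro a ha
    obtain ⟨b₀, b, hb0, hb, hab, ⟨k, hk⟩, hbp⟩ :=
      H86.exists_pPart_mul_pPrimePart a (isOfFinOrder_of_finite a) hp.out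
    obtain ⟨haH, haN⟩ := mem_inf.1 ha
    have hb0U : b₀ ∈ U := by
      have hpb : IsPGroup p (zpowers b₀) := IsPGroup.of_card (n := k) (by rw [Nat.card_zpowers, hk])
      have hUp : IsPGroup p U := P.isPGroup'.to_le inf_le_left
      let US : Sylow p H := (hUp.comap_subtype (K := H)).toSylow hUidx
      have hle : zpowers b₀ ≤ H := zpowers_le.2 (zpowers_le.2 haH hb0)
      have hsup : IsPGroup p (U ⊔ zpowers b₀ : Subgroup G) :=
        hUp.to_sup_of_normal_left' hpb ((zpowers_le.2 haN).trans' (zpowers_le.2 hb0))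
      have := US.is_maximal' (hsup.comap_subtype (K := H)) (comap_mono le_sup_left)
      have hb0m : (⟨b₀, hle (mem_zpowers b₀)⟩ : H) ∈ (U ⊔ zpowers b₀).subgroupOf H :=
        mem_subgroupOf.2 (mem_sup_right (mem_zpowers b₀))
      change _ ∈ (U ⊔ zpowers b₀).comap H.subtype at hb0m
      rw [this] at hb0m
      exact hb0m
    have hb0C : b₀ ∈ C := hPC (inf_le_left (a := (P : Subgroup G)) hb0U)
    suffices hbC : b ∈ C by rw [← hab]; exact mul_mem hb0C hbC
    by_contra hbC
    have hbH : b ∈ H := zpowers_le.2 haH hb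
    have hbN : b ∈ N := zpowers_le.2 haN hb
    -- adjust `b` by an element of `C` to normalize `P`
    let PC : Sylow p C := P.subtype hPC
    have hbP : IsPGroup p (((P : Subgroup G).map (MulAut.conj b).toMonoidHom).subgroupOf C) :=
      (P.isPGroup'.map _).comap_subtype
    obtain ⟨Q, hQ⟩ := hbP.exists_le_sylow
    obtain ⟨c, hc⟩ := MulAction.exists_smul_eq C PC Q
    obtain ⟨c₁, k₁, hc₁, hk₁, hck⟩ : ∃ c₁ k₁ : C, c₁ ∈ (PC : Subgroup C) ∧ k₁ ∈ Kc ∧ k₁ * c₁ = c := by
      obtain ⟨⟨k₁, c₁⟩, hkc⟩ :=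
        (H22.isComplement'_pResidual_of_not_dvd PC hKcp).2 c
      exact ⟨c₁, k₁, c₁.2, k₁.2, hkc⟩
    set b' := (k₁ : G)⁻¹ * b with hb'
    have hb'P : ∀ y ∈ (P : Subgroup G), b' * y * b'⁻¹ ∈ (P : Subgroup G) := by
      intro y hy
      have h4 : (⟨b * y * b⁻¹, hNC b hbN y (hPC hy)⟩ : C) ∈ (Q : Subgroup C) :=
        hQ (mem_subgroupOf.2 ⟨y, hy, rfl⟩)
      rw [← hc, Sylow.coe_subgroup_smul] at h4
      obtain ⟨v, hv, hvy⟩ := mem_map.1 h4
      have hvy' : (c : G) * v * (c : G)⁻¹ = b * y * b⁻¹ := congrArg Subtype.val hvy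
      have : b' * y * b'⁻¹ = (c₁ : G) * v * (c₁ : G)⁻¹ := by
        rw [hb']
        calc (k₁ : G)⁻¹ * b * y * ((k₁ : G)⁻¹ * b)⁻¹ = (k₁ : G)⁻¹ * (b * y * b⁻¹) * k₁ := by group
          _ = (k₁ : G)⁻¹ * ((c : G) * v * (c : G)⁻¹) * k₁ := by rw [hvy']
          _ = _ := by rw [← hck]; push_cast; group
      rw [this]
      exact mul_mem (mul_mem hc₁ hv) (inv_mem hc₁)
    have hbU : ∀ u ∈ U, b' * u * b'⁻¹ = b * u * b⁻¹ := by
      intro u hu
      have h5 : b * u * b⁻¹ ∈ U := (mem_normalizer_iff.1 hbN u).1 hu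
      have h6 : (k₁ : G)⁻¹ * (b * u * b⁻¹) = b * u * b⁻¹ * (k₁ : G)⁻¹ :=
        (mem_centralizer_iff.1 (inv_mem k₁.2) _ h5).symm
      calc b' * u * b'⁻¹ = (k₁ : G)⁻¹ * (b * u * b⁻¹) * k₁ := by rw [hb']; group
        _ = _ := by rw [h6]; group
    obtain ⟨i, hi⟩ := mem_zpowers_iff.1 (hwgen ▸ hb'P w w.2 : b' * (w : G) * b'⁻¹ ∈ zpowers (w : G))
    have hip : ¬ (p : ℤ) ∣ i - 1 := by
      intro hip
      -- then `b` fixes `U` pointwise
      refine hbC (mem_centralizer_iff.2 fun u hu => ?_)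
      obtain ⟨j, rfl⟩ := mem_zpowers_iff.1 (hwgen ▸ inf_le_left (a := (P : Subgroup G)) hu)
      refine (commute_of_pow_modEq_one (p := p) (n := n) (w := (w : G) ^ j) (i := i) ?_ hbp ?_ hip).eq.symm
      · rw [← hwo]; exact orderOf_dvd_of_mem_zpowers (zpow_mem_zpowers _ j)
      · rw [← hbU _ hu, ← conj_zpow, ← hi, ← zpow_mul, ← zpow_mul, mul_comm]
    -- then `w` lies in `(H ⊓ N) K`
    have hW : (w : G) ∈ (((H ⊓ N : Subgroup G) : Set G) * (K : Set G)) := by
      rw [← coe_mul_of_left_le_normalizer_right _ _ (inf_le_right.trans hNK)]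
      have hb'W : b' ∈ (H ⊓ N) ⊔ K :=
        Subgroup.mul_mem _ (Subgroup.inv_mem _ (mem_sup_right (mem_map_of_mem C.subtype hk₁)))
          (mem_sup_left (mem_inf.2 ⟨hbH, hbN⟩))
      have hwN : (w : G) ∈ N := hCN (hPC w.2)
      have hcm : (w : G) ^ (i - 1) ∈ (H ⊓ N) ⊔ K := by
        have e : (w : G) ^ (i - 1) = b' * ((w : G) * b'⁻¹ * (w : G)⁻¹) := by
          rw [zpow_sub_one, hi]; group
        rw [e]
        refine mul_mem hb'W ?_
        have hWn : ∀ x ∈ (H ⊓ N) ⊔ K, (w : G) * x * (w : G)⁻¹ ∈ (H ⊓ N) ⊔ K := by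
          intro x hx
          have : ((H ⊓ N) ⊔ K).map (MulAut.conj (w : G)).toMonoidHom ≤ (H ⊓ N) ⊔ K := by
            rw [Subgroup.map_sup]
            refine sup_le_sup ?_ ?_
            · rintro _ ⟨z, hz, rfl⟩
              exact mem_inf.2 ⟨Subgroup.Normal.conj_mem inferInstance z hz.1 _,
                Subgroup.mul_mem _ (Subgroup.mul_mem _ hwN (mem_inf.1 hz).2) (Subgroup.inv_mem _ hwN)⟩
            · rintro _ ⟨z, hz, rfl⟩
              exact (mem_normalizer_iff.1 (hNK hwN) z).1 hz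
          exact this ⟨x, hx, rfl⟩
        exact hWn _ (inv_mem hb'W)
      have hcop : IsCoprime ((p ^ n : ℕ) : ℤ) (i - 1) := by
        push_cast
        exact ((Nat.prime_iff_prime_int.1 hp.out).coprime_iff_not_dvd.2 hip).pow_left
      obtain ⟨s, t, hst⟩ := hcop
      have e2 : (w : G) = ((w : G) ^ (i - 1)) ^ t := by
        conv_lhs => rw [← zpow_one (w : G), ← hst, zpow_add, mul_comm s, zpow_mul, zpow_natCast,
          ← hwo, pow_orderOf_eq_one, one_zpow, one_mul]
        rw [← zpow_mul, mul_comm]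
      rw [SetLike.mem_coe, e2]
      exact zpow_mem hcm t
    obtain ⟨h, hh, x, hx, hhx⟩ := hW
    obtain ⟨x', hx', rfl⟩ := hx
    have hhC : h ∈ C := by
      have : h = (w : G) * (x' : G)⁻¹ := eq_mul_inv_of_mul_eq hhx
      rw [this]
      exact mul_mem (hPC w.2) (inv_mem x'.2)
    -- compare the images in `C / O^p(C)`
    have h7 : QuotientGroup.mk' Kc ⟨h, hhC⟩ = QuotientGroup.mk' Kc ⟨w, hPC w.2⟩ :=
      QuotientGroup.eq.2 (by
        have : (⟨h, hhC⟩ : C)⁻¹ * ⟨w, hPC w.2⟩ = x' :=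
          Subtype.ext (show h⁻¹ * (w : G) = (x' : G) by rw [← hhx]; exact inv_mul_cancel_left h _)
        rwa [this])
    have h8 : orderOf (QuotientGroup.mk' Kc ⟨w, hPC w.2⟩) = p ^ n := by
      rw [← hwo]
      refine Nat.dvd_antisymm ((orderOf_map_dvd _ _).trans (dvd_of_eq (orderOf_mk _ _))) ?_
      refine orderOf_dvd_of_pow_eq_one ?_
      set e := orderOf (QuotientGroup.mk' Kc ⟨w, hPC w.2⟩)
      have h9 : (⟨w, hPC w.2⟩ : C) ^ e ∈ Kc := by
        rw [← QuotientGroup.eq_one_iff]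
        exact (map_pow (QuotientGroup.mk' Kc) _ e).trans (pow_orderOf_eq_one _)
      have h10 : (⟨w, hPC w.2⟩ : C) ^ e ∈ ((PC : Subgroup C) ⊓ Kc) := ⟨pow_mem (w.2 : (w : G) ∈ (P : Subgroup G)) e, h9⟩
      rw [(H22.hasNormalPComplement_iff_inf_eq_bot PC).1 hCcomp, mem_bot] at h10
      exact congrArg Subtype.val h10
    have h11 : p ^ n ∣ Nat.card H := by
      rw [← h8, ← h7]
      refine (orderOf_map_dvd _ _).trans ?_
      rw [orderOf_mk]
      exact orderOf_dvd_natCard H (mem_inf.1 hh).1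
    rw [← (U.subgroupOf H).card_mul_index] at h11
    have h12 := (Nat.Coprime.pow_left n ((hp.out.coprime_iff_not_dvd).2 hUidx)).dvd_of_dvd_mul_right h11
    rw [← hn, Nat.card_congr (subgroupOfEquivOfLe (inf_le_right : U ≤ H)).toEquiv] at h12
    exact hUlt (eq_of_le_of_card_ge inf_le_left (Nat.le_of_dvd Nat.card_pos h12))
  -- Burnside in `H`
  have hUp : IsPGroup p (U.subgroupOf H) := (P.isPGroup'.to_le inf_le_left).comap_subtype
  let US : Sylow p H := hUp.toSylow hUidx
  have hUS : (US : Subgroup H) = U.subgroupOf H := hUp.toSylow_coe hUidx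
  have hle : normalizer ((US : Subgroup H) : Set H) ≤ centralizer ((US : Subgroup H) : Set H) := by
    intro a ha
    rw [hUS] at ha ⊢
    have haN : (a : G) ∈ N := by
      rw [hN, mem_normalizer_iff]
      intro u
      constructor
      · intro hu
        exact (mem_normalizer_iff.1 ha ⟨u, (mem_inf.1 hu).2⟩).1 hu
      · intro hu
        have hmem : u ∈ H := by
          have := H.mul_mem (H.mul_mem (H.inv_mem a.2) (mem_inf.1 hu).2) a.2
          simpa [mul_assoc] using this
        exact (mem_normalizer_iff.1 ha ⟨u, hmem⟩).2 hu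
    have := hmain ⟨a.2, haN⟩
    rw [mem_centralizer_iff]
    intro u hu
    exact Subtype.ext (mem_centralizer_iff.1 this u hu)
  have hHcomp : HasNormalPComplement p H :=
    ⟨US, _, MonoidHom.normal_ker _, MonoidHom.ker_transferSylow_isComplement' US hle⟩
  refine ⟨hHcomp, ?_⟩
  -- the series
  have hfrat : N ⊔ H = ⊤ := by
    have := Sylow.normalizer_sup_eq_top US
    rwa [hUS, subgroupOf, map_comap_eq, range_subtype, inf_comm, inf_of_le_left (inf_le_right : U ≤ H)] at this
  have hnormal : ∀ M : Subgroup G, H ≤ M → N ≤ normalizer (M : Set G) → M.Normal := fun M hHM hM =>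
    normalizer_eq_top_iff.1 (top_unique (hfrat ▸ sup_le hM (hHM.trans le_normalizer)))
  have hjoin : ∀ M : Subgroup G, N ≤ normalizer (M : Set G) → N ≤ normalizer ((H ⊔ M : Subgroup G) : Set G) := by
    intro M hM g hg
    have hfw : ∀ g ∈ N, ∀ x ∈ H ⊔ M, g * x * g⁻¹ ∈ H ⊔ M := by
      intro g hg x hx
      have : (H ⊔ M).map (MulAut.conj g).toMonoidHom ≤ H ⊔ M := by
        rw [Subgroup.map_sup]
        refine sup_le_sup ?_ ?_
        · rintro _ ⟨z, hz, rfl⟩; exact Subgroup.Normal.conj_mem inferInstance z hz _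
        · rintro _ ⟨z, hz, rfl⟩; exact (mem_normalizer_iff.1 (hM hg) z).1 hz
      exact this ⟨x, hx, rfl⟩
    rw [mem_normalizer_iff]
    intro x
    refine ⟨hfw g hg x, fun hx => ?_⟩
    simpa [mul_assoc] using hfw g⁻¹ (inv_mem hg) _ hx
  have hCn : N ≤ normalizer (C : Set G) := by
    intro g hg
    rw [mem_normalizer_iff]
    intro x
    refine ⟨hNC g hg x, fun hx => ?_⟩
    simpa [mul_assoc] using hNC g⁻¹ (inv_mem hg) _ hx
  set KH := (pResidual p H).map H.subtype with hKH
  haveI hKHn : KH.Normal := by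
    haveI : (pResidual p H).Characteristic := inferInstance
    exact ConjAct.normal_of_characteristic_of_normal
  haveI hM3 : (H ⊔ K).Normal := hnormal _ le_sup_left (hjoin K hNK)
  haveI hM4 : (H ⊔ C).Normal := hnormal _ le_sup_left (hjoin C hCn)
  have hKHle : KH ≤ H := map_subtype_le _
  have hKC : K ≤ C := map_subtype_le _
  refine ⟨5, ![⊥, KH, H, H ⊔ K, H ⊔ C, ⊤], rfl, rfl, ?_, ?_, ?_⟩
  · refine Fin.monotone_iff_le_succ.2 fun i => ?_
    fin_cases i
    · exact bot_le
    · exact hKHle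
    · exact le_sup_left
    · exact sup_le_sup le_rfl hKC
    · exact le_top
  · intro i
    fin_cases i
    · exact inferInstanceAs (⊥ : Subgroup G).Normal
    · exact hKHn
    · exact inferInstanceAs H.Normal
    · exact hM3
    · exact hM4
    · exact inferInstanceAs (⊤ : Subgroup G).Normal
  · intro i
    fin_cases i
    · right
      show ((⊥ : Subgroup G).relIndex KH).Coprime p
      rw [relIndex_bot_left, hKH, card_map_of_injective H.subtype_injective]
      exact ((hp.out.coprime_iff_not_dvd).2 (H22.hasNormalPComplement_iff.1 hHcomp)).symm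
    · left
      show ∃ m, KH.relIndex H = p ^ m
      obtain ⟨m, hm⟩ := H22.exists_index_pResidual_eq (p := p) (G := H)
      exact ⟨m, by rw [relIndex, hKH, subgroupOf, comap_map_eq_self_of_injective H.subtype_injective]; exact hm⟩
    · right
      show (H.relIndex (H ⊔ K)).Coprime p
      rw [sup_comm, relIndex_sup_right]
      refine Nat.Coprime.coprime_dvd_left (relIndex_dvd_card _ _) ?_
      rw [hK, card_map_of_injective C.subtype_injective]
      exact ((hp.out.coprime_iff_not_dvd).2 hKcp).symm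
    · left
      show ∃ m, (H ⊔ K).relIndex (H ⊔ C) = p ^ m
      have e : H ⊔ C = (P : Subgroup G) ⊔ (H ⊔ K) := by
        refine le_antisymm (sup_le (le_sup_left.trans le_sup_right) ?_)
          (sup_le (hPC.trans le_sup_right) (sup_le_sup le_rfl hKC))
        intro c hc
        obtain ⟨⟨k₁, c₁⟩, hkc⟩ :=
          (H22.isComplement'_pResidual_of_not_dvd (P.subtype hPC) hKcp).2 ⟨c, hc⟩
        have : (k₁ : C).1 * (c₁ : C).1 = c := congrArg Subtype.val hkc
        rw [← this]
        exact mul_mem (mem_sup_right (mem_sup_right (mem_map_of_mem C.subtype k₁.2)))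
          (mem_sup_left c₁.2)
      obtain ⟨m, -, hm⟩ := (Nat.dvd_prime_pow hp.out).1
        (show (H ⊔ K).relIndex (H ⊔ C) ∣ p ^ n by
          rw [e, relIndex_sup_right, ← hn]; exact relIndex_dvd_card _ _)
      exact ⟨m, hm⟩
    · right
      show ((H ⊔ C).relIndex ⊤).Coprime p
      rw [relIndex_top_right]
      exact ((hp.out.coprime_iff_not_dvd).2 fun hd =>
        P.not_dvd_index (hd.trans (index_dvd_of_le (hPC.trans le_sup_right)))).symm

end Cfsg.Agent.H88
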