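import Cfsg.Agent.H44.PrimeDegreesSolvable
import Cfsg.Prelude.Def_DegreeGraph
import Cfsg.Agent.H25.Faithful
import Cfsg.Agent.H26.CharBasic

/-!
A non-solvable group has at least three primes dividing its character degrees.

In a non-abelian simple group take `g ≠ 1` central in a Sylow `q`-subgroup. A non-principal
character of degree prime to `p` not vanishing at `g` exists by column orthogonality, and its
degree cannot be a power of `q` by Burnside's lemma on coprime degree and class size.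
-/

set_option autoImplicit false

namespace Cfsg.Agent.H88.DegreePrimes

universe u

/-- A simple group has an irreducible degree `> 1` prime to `p` that is not a power of `q`. -/
theorem exists_degree_not_dvd_not_pow {S : Type u} [Group S] [Finite S] [IsSimpleGroup S]
    (hna : ¬ ∀ a b : S, a * b = b * a) {p q : ℕ} (hp : p.Prime) (hq : q.Prime)
    (hqS : q ∣ Nat.card S) :
    ∃ χ : Cfsg.IrrCharacter S, ¬ p ∣ Cfsg.charDegree (χ : S → ℂ) ∧
      ∀ k, Cfsg.charDegree (χ : S → ℂ) ≠ q ^ k := by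
  classical
  haveI := Fintype.ofFinite S
  haveI := Fact.mk hq
  let Q : Sylow q S := default
  haveI : Nontrivial (Q : Subgroup S) := by
    rw [Subgroup.nontrivial_iff_ne_bot]
    exact Sylow.ne_bot_of_dvd_card Q hqS
  haveI := Q.2.center_nontrivial
  obtain ⟨z, hz⟩ := exists_ne (1 : Subgroup.center (Q : Subgroup S))
  obtain ⟨g, hg⟩ : ∃ g, g = ((z : (Q : Subgroup S)) : S) := ⟨_, rfl⟩
  have hg1 : g ≠ 1 := fun h => hz (Subtype.ext (Subtype.ext (hg ▸ h)))
  have hle : (Q : Subgroup S) ≤ Subgroup.centralizer ({g} : Set S) := fun x hx =>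
    Subgroup.mem_centralizer_singleton_iff.mpr (by
      have := congrArg Subtype.val (Subgroup.mem_center_iff.mp z.2 ⟨x, hx⟩)
      simp only [Subgroup.coe_mul] at this
      rw [hg]; exact this)
  have hidx : ¬ q ∣ (Subgroup.centralizer ({g} : Set S)).index := fun h =>
    Q.not_dvd_index (h.trans (Subgroup.index_dvd_of_le hle))
  obtain ⟨n, ρ, hirr, hpn, hne, hne1⟩ := H25.exists_irr_not_dvd_ne_zero hp hg1
  haveI := hirr
  let χ : Cfsg.IrrCharacter S := ⟨ρ.character, H26.isIrrCharacter_char ρ⟩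
  have hdeg : Cfsg.charDegree (χ : S → ℂ) = n := H25.charDegree_character ρ
  refine ⟨χ, hdeg.symm ▸ hpn, fun k hk => ?_⟩
  have hcop : Nat.Coprime (Module.finrank ℂ (Fin n → ℂ))
      (Subgroup.centralizer ({g} : Set S)).index := by
    rw [Module.finrank_fin_fun, ← hdeg, hk]
    exact Nat.Coprime.pow_left _ (hq.coprime_iff_not_dvd.mpr hidx)
  have hnorm := (H25.char_eq_zero_or_norm_eq_of_coprime ρ g hcop).resolve_left hne
  refine H44.PrimeDeg.norm_ne hna (χ := χ) (fun h => hne1 ?_) hg1 ?_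
  · have h1 := congrArg Subtype.val h
    funext x
    exact (congrFun h1 x).trans (by rw [H26.oneIrr_val])
  · rw [hdeg]
    rw [Module.finrank_fin_fun] at hnorm
    exact hnorm

/-- A non-solvable group has a non-abelian simple section whose degrees divide degrees of `G`. -/
theorem false_of_section {G : Type u} [Group G] [Finite G] (hG : ¬ Group.IsSolvable G)
    (C : ∀ (S : Type u) [Group S] [Finite S] [IsSimpleGroup S], (¬ ∀ a b : S, a * b = b * a) →
      (∀ ψ : Cfsg.IrrCharacter S, ∃ χ : Cfsg.IrrCharacter G,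
        Cfsg.charDegree (ψ : S → ℂ) ∣ Cfsg.charDegree (χ : G → ℂ)) → False) : False := by
  classical
  haveI := Fintype.ofFinite G
  obtain ⟨n, hn⟩ := H44.PrimeDeg.exists_derived_stable (G := G)
  have hbot : derivedSeries G n ≠ ⊥ := fun h => hG ((Group.isSolvable_def G).mpr ⟨n, h⟩)
  set L := derivedSeries G n with hL
  haveI : L.Normal := derivedSeries_normal G n
  have hperf : ⁅L, L⁆ = L := by rw [hL, ← derivedSeries_succ]; exact hn
  have htop : commutator L = ⊤ := by
    refine Subgroup.map_injective L.subtype_injective ?_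
    rw [Subgroup.map_subtype_commutator, hperf, ← MonoidHom.range_eq_map, Subgroup.range_subtype]
  haveI : Nontrivial L := (Subgroup.nontrivial_iff_ne_bot L).mpr hbot
  obtain ⟨M, hM, hmax⟩ := (Set.toFinite {M : Subgroup L | M.Normal ∧ M ≠ ⊤}).exists_maximal
    ⟨⊥, inferInstance, bot_ne_top⟩
  obtain ⟨hMn, hMne⟩ := hM
  haveI := hMn
  haveI : Nontrivial (L ⧸ M) := by
    rw [← Finite.one_lt_card_iff_nontrivial]
    exact Subgroup.one_lt_index_of_ne_top hMne
  haveI : IsSimpleGroup (L ⧸ M) := ⟨fun H hH => by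
    set K := H.comap (QuotientGroup.mk' M) with hK
    have hMK : M ≤ K := fun m hm => by
      rw [hK, Subgroup.mem_comap, QuotientGroup.mk'_apply, (QuotientGroup.eq_one_iff m).mpr hm]
      exact H.one_mem
    have hHK : H = K.map (QuotientGroup.mk' M) :=
      (Subgroup.map_comap_eq_self_of_surjective (QuotientGroup.mk'_surjective M) H).symm
    by_cases hKtop : K = ⊤
    · exact Or.inr (by rw [hHK, hKtop, ← MonoidHom.range_eq_map,
        MonoidHom.range_eq_top.mpr (QuotientGroup.mk'_surjective M)])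
    · refine Or.inl ?_
      have hKM : K ≤ M := hmax ⟨inferInstance, hKtop⟩ hMK
      rw [hHK, Subgroup.map_eq_bot_iff, QuotientGroup.ker_mk']
      exact hKM⟩
  haveI := Fintype.ofFinite (L ⧸ M)
  haveI := Fintype.ofFinite L
  refine C (L ⧸ M) (fun hc => ?_) fun ψ => ?_
  · refine hMne (eq_top_iff.mpr ?_)
    rw [← htop, commutator_def, Subgroup.commutator_le]
    intro a _ b _
    rw [← QuotientGroup.eq_one_iff, commutatorElement_def]
    simp only [QuotientGroup.mk_mul, QuotientGroup.mk_inv]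
    rw [hc (a : L ⧸ M) b, mul_inv_cancel_right, mul_inv_cancel]
  · obtain ⟨χ, hχ⟩ := H44.exists_irr_over L (H44.inflate M ψ)
    have h := H44.degree_mul_index_inertia_dvd L χ (H44.inflate M ψ) hχ
    rw [H44.charDegree_inflate] at h
    exact ⟨χ, (Dvd.intro_left _ rfl).trans h⟩

/-- A non-solvable group has three degree primes. -/
theorem exists_three {G : Type u} [Group G] [Finite G] (hG : ¬ Group.IsSolvable G) :
    ∃ p q r : ℕ, p ≠ q ∧ q ≠ r ∧ p ≠ r ∧
      p ∈ Cfsg.degreePrimes G ∧ q ∈ Cfsg.degreePrimes G ∧ r ∈ Cfsg.degreePrimes G := by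
  classical
  by_contra hcon
  refine false_of_section hG fun S _ _ _ hna hdvd => ?_
  -- degree primes of `S` are degree primes of `G` dividing the order of `S`
  have hmem : ∀ (χ : Cfsg.IrrCharacter S) (r : ℕ), r.Prime →
      r ∣ Cfsg.charDegree (χ : S → ℂ) → r ∈ Cfsg.degreePrimes G ∧ r ∣ Nat.card S := by
    intro χ r hr h
    obtain ⟨φ, hφ⟩ := hdvd χ
    refine ⟨⟨hr, _, ⟨φ, rfl⟩, h.trans hφ⟩, h.trans ?_⟩
    haveI := Fintype.ofFinite S
    obtain ⟨m, ρ, hρ, e⟩ := id χ.2
    haveI := hρ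
    rw [← e, H25.charDegree_character, ← Module.finrank_fin_fun ℂ (n := m)]
    exact H25.finrank_dvd_card ρ
  have hcard : 1 < Nat.card S := Finite.one_lt_card
  obtain ⟨q₀, hq₀, hq₀S⟩ := Nat.exists_prime_and_dvd hcard.ne'
  obtain ⟨p₀, hp₀le, hp₀⟩ := Nat.exists_infinite_primes (Nat.card S + 1)
  have hp₀S : ¬ p₀ ∣ Nat.card S := fun h => by
    have := Nat.le_of_dvd (by omega) h; omega
  -- some degree of `S` has a prime divisor
  obtain ⟨χ, hχp, hχq⟩ := exists_degree_not_dvd_not_pow hna hp₀ hq₀ hq₀S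
  have h1 : Cfsg.charDegree (χ : S → ℂ) ≠ 1 := by simpa using hχq 0
  obtain ⟨q, hq, hqd⟩ := Nat.exists_prime_and_dvd h1
  obtain ⟨hqG, hqS⟩ := hmem χ q hq hqd
  obtain ⟨p, hp, hpq, hrest⟩ : ∃ p, p.Prime ∧ p ≠ q ∧
      ∀ r ∈ Cfsg.degreePrimes G, r ≠ q → r ∣ Nat.card S → r = p := by
    by_cases h : ∃ p ∈ Cfsg.degreePrimes G, p ≠ q
    · obtain ⟨p, hpG, hpq⟩ := h
      refine ⟨p, hpG.1, hpq, fun r hrG hrq _ => ?_⟩
      by_contra hne
      exact hcon ⟨p, q, r, hpq, Ne.symm hrq, Ne.symm hne, hpG, hqG, hrG⟩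
    · exact ⟨p₀, hp₀, fun e => hp₀S (e ▸ hqS), fun r hrG hrq _ => absurd ⟨r, hrG, hrq⟩ h⟩
  obtain ⟨ψ, hψp, hψq⟩ := exists_degree_not_dvd_not_pow hna hp hq hqS
  refine hψq _ (Nat.eq_prime_pow_of_unique_prime_dvd ?_ fun {r} hr hrd => ?_)
  · exact (H44.charDegree_pos ψ).ne'
  · by_contra hne
    obtain ⟨hrG, hrS⟩ := hmem ψ r hr hrd
    exact hψp (hrest r hrG hne hrS ▸ hrd)

end Cfsg.Agent.H88.DegreePrimes
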