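import Cfsg.Agent.H88.ParabolicCores
import Cfsg.Agent.H46.TypeE8
import Cfsg.Agent.S1054

/-!
# Iterated cores for the depth six parabolic subgroup of `E₈(2)`
-/

set_option autoImplicit false

namespace Cfsg.Agent.H88.IteratedCoresE8

open Cfsg.Lie Cfsg.Agent.H46 Cfsg.Agent.H88.LevelParabolic
open scoped Matrix MatrixGroups

theorem e8_levs : ∀ r < 240, tabE8.coord r 3 ≤ 6 := by decide +kernel

theorem e8_conn : ∀ r ∈ List.range' 120 120, ∀ r' ∈ List.range' 120 120, 1 ≤ tabE8.coord r 3 →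
    tabE8.coord r 3 = tabE8.coord r' 3 → (∀ j ∈ [0, 1, 2, 4, 5, 6, 7], tabE8.refl j r ≤ r) →
    (∀ j ∈ [0, 1, 2, 4, 5, 6, 7], tabE8.refl j r' ≤ r') → r = r' := by decide +kernel

theorem e8_exit : ∀ m ∈ [1, 2, 3, 4, 5, 6], ∃ r ∈ List.range' 120 120, tabE8.coord r 3 = m ∧
    tabE8.coord (tabE8.refl 3 r) 3 < (if m = 1 then 0 else m) := by decide +kernel

theorem e8_span : ∀ j ∈ [0, 1, 2, 4, 5, 6, 7], ∃ r ∈ List.range' 120 120,
    tabE8.coord r 3 = 1 ∧ tabE8.cart 8 j r = -1 := by decide +kernel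

theorem e8_low : ∀ r ∈ List.range' 120 120, 2 ≤ tabE8.coord r 3 →
    tabE8.coord r 3 - 1 ≤ tabE8.coord (tabE8.refl 3 r) 3 := by decide +kernel

theorem e8_rank : chevE8.rank = 8 := rfl

theorem e8_nroots : chevE8.nroots = 240 := by decide +kernel

/-- The fundamental root of coefficient six. -/
def a₀ : Fin chevE8.rank := ⟨3, by rw [e8_rank]; decide⟩

theorem lev_eq (r : ℕ) : lev goodE8 a₀ r = tabE8.coord r 3 := rfl

theorem mem_range_of_lev {r : ℕ} (hr : r < chevE8.nroots) (h : 1 ≤ lev goodE8 a₀ r) :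
    r ∈ List.range' 120 120 := by
  have := goodE8.isPosRoot_iff.1 (isPosRoot_of_lev goodE8 a₀ hr h)
  rw [e8_nroots] at this
  simp only [List.mem_range'_1]
  omega

theorem mem_others {j : ℕ} (hj : j < chevE8.rank) (hja : j ≠ a₀.val) : j ∈ [0, 1, 2, 4, 5, 6, 7] := by
  rw [e8_rank] at hj
  simp only [a₀] at hja
  simp only [List.mem_cons, List.not_mem_nil, or_false]
  omega

theorem lt_rank_of_mem {j : ℕ} (hj : j ∈ [0, 1, 2, 4, 5, 6, 7]) : j < chevE8.rank ∧ j ≠ a₀.val := by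
  refine (fun h => ⟨lt_of_lt_of_eq h.1 e8_rank.symm, h.2⟩ : j < 8 ∧ j ≠ a₀.val → _) ?_
  simp only [a₀]
  simp only [List.mem_cons, List.not_mem_nil, or_false] at hj
  omega

theorem conn (r r' : ℕ) (hr : r < chevE8.nroots) (hr' : r' < chevE8.nroots) (h : 1 ≤ lev goodE8 a₀ r)
    (he : lev goodE8 a₀ r = lev goodE8 a₀ r')
    (hm : ∀ j, j < chevE8.rank → j ≠ a₀.val → chevE8.reflectRoot j r ≤ r)
    (hm' : ∀ j, j < chevE8.rank → j ≠ a₀.val → chevE8.reflectRoot j r' ≤ r') : r = r' := by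
  refine e8_conn r (mem_range_of_lev hr h) r' (mem_range_of_lev hr' (he ▸ h)) h he (fun j hj => ?_) fun j hj => ?_
  · obtain ⟨h1, h2⟩ := lt_rank_of_mem hj
    exact le_of_eq_of_le (goodE8.refl_eq h1 hr) (hm j h1 h2)
  · obtain ⟨h1, h2⟩ := lt_rank_of_mem hj
    exact le_of_eq_of_le (goodE8.refl_eq h1 hr') (hm' j h1 h2)

theorem low : Low goodE8 a₀ := by
  intro r hr h
  have hr' := mem_range_of_lev hr (by omega)
  have e : chevE8.reflectRoot a₀ r = tabE8.refl 3 r := (goodE8.refl_eq a₀.2 hr).symm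
  rw [e]
  exact e8_low r hr' h

theorem exit {F : Type*} [Field F] {m : ℤ} (hm : m ∈ [1, 2, 3, 4, 5, 6]) (r : Fin chevE8.nroots)
    (hr : lev goodE8 a₀ r = m) : ∃ n ∈ chevE8.monomialSubgroup F, n ∈ par a₀ F ∧
      lev goodE8 a₀ (chevE8.reflectRoot a₀ (goodE8.perm n r)) < (if m = 1 then 0 else m) := by
  obtain ⟨s, hs, hs1, hs2⟩ := e8_exit m hm
  have hs' : s < chevE8.nroots := by
    rw [e8_nroots]; simp only [List.mem_range'_1] at hs; omega
  have h1 : 1 ≤ lev goodE8 a₀ r := by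
    rw [hr]; simp only [List.mem_cons, List.not_mem_nil, or_false] at hm; omega
  obtain ⟨n, hn, hnP, e⟩ := exists_perm_eq (F := F) goodE8 a₀ conn r ⟨s, hs'⟩ h1 (hr.trans hs1.symm)
  refine ⟨n, hn, hnP, ?_⟩
  rw [e]
  have e' : chevE8.reflectRoot a₀ s = tabE8.refl 3 s := (goodE8.refl_eq a₀.2 hs').symm
  show lev goodE8 a₀ (chevE8.reflectRoot a₀ s) < _
  rw [e']
  exact hs2

theorem span (j : ℕ) (hj : j < chevE8.rank) (hja : j ≠ a₀.val) :
    ∃ r, r < chevE8.nroots ∧ lev goodE8 a₀ r = 1 ∧ chevE8.cartan j r = -1 := by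
  obtain ⟨r, hr, h1, h2⟩ := e8_span j (mem_others hj hja)
  have hr' : r < chevE8.nroots := by
    rw [e8_nroots]; simp only [List.mem_range'_1] at hr; omega
  refine ⟨r, hr', h1, ?_⟩
  rw [goodE8.cartan_eq_cart hr' hj]
  exact h2

/-- The field with two elements. -/
abbrev K₂ : Type := ZMod 2

theorem eq_one_of_ne_zero (t : K₂) (ht : t ≠ 0) : t = 1 := by
  revert t; decide

theorem diagonal_eq_bot : chevE8.diagonalSubgroup K₂ = ⊥ := by
  rw [ChevalleyDatum.diagonalSubgroup, Subgroup.closure_eq_bot_iff]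
  rintro g ⟨r, t, hr, ht, hg⟩
  rw [goodE8.eq_hg hg, eq_one_of_ne_zero t ht, goodE8.hg_one hr]
  rfl

theorem finite_group : Finite ↥(chevE8.group K₂) := Subtype.finite

theorem main : ∃ (G : Type) (_ : Group G) (_ : Finite G) (M₁ M₂ : Subgroup G) (g : G) (A B : ℕ → Subgroup G),
    IsCoatom M₁ ∧ M₂ = M₁.map (MulAut.conj g).toMonoidHom ∧ M₁ ≠ M₂ ∧ M₁.normalCore = ⊥ ∧ A 0 = M₁ ∧ B 0 = M₂ ∧
    (∀ i, A (i + 1) = ((A i ⊓ B i).subgroupOf M₁).normalCore.map M₁.subtype) ∧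
    (∀ i, B (i + 1) = ((A i ⊓ B i).subgroupOf M₂).normalCore.map M₂.subtype) ∧ A 6 = ⊥ ∧ A 5 ≠ ⊥ := by
  obtain ⟨r, hr, h1, -⟩ := e8_exit 6 (by simp)
  have hr' : r < chevE8.nroots := by
    rw [e8_nroots]; simp only [List.mem_range'_1] at hr; omega
  haveI := finite_group
  refine Cfsg.Agent.H88.ParabolicCores.main goodE8 a₀ K₂ diagonal_eq_bot eq_one_of_ne_zero low
    (fun r hr => ?_) (fun m hm hm' r hr => ?_) span
    (fun r hr => e8_levs r (e8_nroots ▸ hr))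
    (Cfsg.Agent.S1054.result chevE8 (by simp)).1 r hr' h1
  · have := exit (F := K₂) (m := 1) (by simp) r hr
    rwa [if_pos rfl] at this
  · have hmem : m ∈ ([1, 2, 3, 4, 5, 6] : List ℤ) := by
      simp only [List.mem_cons, List.not_mem_nil, or_false]; omega
    have := exit (F := K₂) hmem r hr
    rwa [if_neg (by omega)] at this

end Cfsg.Agent.H88.IteratedCoresE8
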