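import Cfsg.Agent.H24.MaxClass
import Cfsg.Agent.H24.Power
import Cfsg.Agent.H82.SubgroupCount

/-!
Kulakoff's theorem: the number of subgroups of order `p ^ k` modulo `p ^ 2`.
-/

namespace Cfsg.Agent.H88.Kulakoff

open Subgroup
open scoped commutatorElement

universe u

section Hyperplanes

variable {G : Type u} [Group G] [Finite G] {p : ℕ} [hp : Fact p.Prime]

/-- The subgroups of index `p` containing `W`. -/
noncomputable def ov (p : ℕ) (W : Subgroup G) : Finset (Subgroup G) :=
  (Set.toFinite {M : Subgroup G | M.index = p ∧ W ≤ M}).toFinset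

@[simp] theorem mem_ov {W M : Subgroup G} : M ∈ ov p W ↔ M.index = p ∧ W ≤ M :=
  Set.Finite.mem_toFinset _

theorem index_eq_pow (hG : IsPGroup p G) (W : Subgroup G) : ∃ d, W.index = p ^ d := hG.index W

theorem frattini_le_of_index (hG : IsPGroup p G) {M : Subgroup G} (hM : M.index = p) :
    frattini G ≤ M := by
  refine iInf₂_le M (show IsCoatom M from ⟨fun h => ?_, fun K hK => ?_⟩)
  · rw [h, index_top] at hM
    exact hp.out.ne_one hM.symm
  · have h1 := index_dvd_of_le hK.le
    rw [hM] at h1
    rcases (Nat.dvd_prime hp.out).1 h1 with h2 | h2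
    · exact index_eq_one.1 h2
    · exfalso
      refine hK.ne (Subgroup.eq_of_le_of_card_ge hK.le ?_)
      have a := M.card_mul_index
      have b := K.card_mul_index
      rw [hM] at a
      rw [h2] at b
      exact (Nat.eq_of_mul_eq_mul_right hp.out.pos (b.trans a.symm)).le

theorem normal_of_frattini_le (hG : IsPGroup p G) {W : Subgroup G} (hW : frattini G ≤ W) :
    W.Normal :=
  Subgroup.Normal.of_commutator_le G ((H24.commutator_le_frattini hG).trans hW)

/-- The number of subgroups of index `p` over `W ⊇ Φ(G)` is `([G:W] - 1)/(p - 1)`. -/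
theorem card_ov (hG : IsPGroup p G) : ∀ (d : ℕ) (W : Subgroup G), frattini G ≤ W →
    W.index = p ^ d → (ov p W).card * (p - 1) = p ^ d - 1 := by
  intro d
  induction d with
  | zero =>
    intro W _ hW
    rw [pow_zero, index_eq_one] at hW
    have : ov p W = ∅ := Finset.eq_empty_of_forall_notMem fun M hM => by
      rw [mem_ov] at hM
      have h : M = ⊤ := top_le_iff.1 (hW ▸ hM.2)
      rw [h, index_top] at hM
      exact hp.out.ne_one hM.1.symm
    simp [this]
  | succ d ih =>
    intro W hW hWi
    classical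
    rcases Nat.eq_zero_or_pos d with rfl | hd
    · rw [pow_one] at hWi
      have : ov p W = {W} := Finset.eq_singleton_iff_unique_mem.2
        ⟨mem_ov.2 ⟨hWi, le_rfl⟩, fun M hM => by
          rw [mem_ov] at hM
          refine (Subgroup.eq_of_le_of_card_ge hM.2 ?_).symm
          have a := M.card_mul_index
          have b := W.card_mul_index
          rw [hM.1] at a
          rw [hWi] at b
          exact (Nat.eq_of_mul_eq_mul_right hp.out.pos (a.trans b.symm)).le⟩
      simp [this]
    haveI : Fintype G := Fintype.ofFinite G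
    haveI hWn : W.Normal := normal_of_frattini_le hG hW
    set out := Finset.univ.filter (fun x : G => x ∉ W) with hout
    set h := (ov p W).card with hh
    -- each element outside `W` spans a subgroup of index `p ^ d` with `W`
    have hspan : ∀ x ∈ out, (W ⊔ zpowers x).index = p ^ d := by
      intro x hx
      have hxW : x ∉ W := (Finset.mem_filter.1 hx).2
      have h1 : W.relIndex (W ⊔ zpowers x) = p := by
        rw [relIndex_sup_left]
        have hdvd : W.relIndex (zpowers x) ∣ p := by
          rw [← inf_relIndex_right]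
          have hle : zpowers (x ^ p) ≤ W ⊓ zpowers x :=
            le_inf (zpowers_le.2 (hW (H24.pow_mem_frattini hG x)))
              (zpowers_le.2 (pow_mem (mem_zpowers x) p))
          refine (relIndex_dvd_of_le_left _ hle).trans ?_
          have e := (zpowers (x ^ p)).subgroupOf (zpowers x) |>.card_mul_index
          change _ * (zpowers (x ^ p)).relIndex (zpowers x) = _ at e
          rw [Nat.card_congr (subgroupOfEquivOfLe (zpowers_le.2 (pow_mem (mem_zpowers x) p))).toEquiv,
            Nat.card_zpowers, Nat.card_zpowers, orderOf_pow' x hp.out.ne_zero] at e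
          have hd' : (orderOf x).gcd p ∣ orderOf x := Nat.gcd_dvd_left _ _
          obtain ⟨c, hc⟩ := hd'
          have hg : 0 < (orderOf x).gcd p := Nat.gcd_pos_of_pos_right _ hp.out.pos
          have h3 : orderOf x / (orderOf x).gcd p = c := Nat.div_eq_of_eq_mul_right hg hc
          rw [h3] at e
          have hcpos : 0 < c := Nat.pos_of_mul_pos_left (hc ▸ orderOf_pos x)
          have : (zpowers (x ^ p)).relIndex (zpowers x) = (orderOf x).gcd p :=
            Nat.eq_of_mul_eq_mul_left hcpos (e.trans (hc.trans (mul_comm _ _)))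
          rw [this]
          exact Nat.gcd_dvd_right _ _
        refine ((Nat.dvd_prime hp.out).1 hdvd).resolve_left fun h => hxW ?_
        exact relIndex_eq_one.1 h (mem_zpowers x)
      have h2 := relIndex_mul_index (le_sup_left : W ≤ W ⊔ zpowers x)
      rw [h1, hWi, pow_succ'] at h2
      exact Nat.eq_of_mul_eq_mul_left hp.out.pos h2
    -- double counting
    have hsum : (∑ M ∈ ov p W, (out.filter (fun x => x ∉ M)).card) +
        ∑ x ∈ out, (ov p (W ⊔ zpowers x)).card = out.card * h := by
      have e1 : ∑ M ∈ ov p W, (out.filter (fun x => x ∉ M)).card =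
          ∑ x ∈ out, ((ov p W).filter (fun M => x ∉ M)).card :=
        Finset.sum_card_bipartiteAbove_eq_sum_card_bipartiteBelow (r := fun M x => x ∉ M)
      have e2 : ∀ x ∈ out, ((ov p W).filter (fun M => x ∉ M)).card +
          (ov p (W ⊔ zpowers x)).card = h := by
        intro x _
        have : ov p (W ⊔ zpowers x) = (ov p W).filter (fun M => ¬ x ∉ M) := by
          ext M
          simp only [mem_ov, Finset.mem_filter, not_not, sup_le_iff, zpowers_le]
          tauto
        rw [this, hh]
        exact Finset.card_filter_add_card_filter_not (fun M => x ∉ M)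
      rw [e1, ← Finset.sum_add_distrib, Finset.sum_congr rfl e2, Finset.sum_const, smul_eq_mul]
    have hq : 0 < Nat.card W := Nat.card_pos
    have houtc : out.card + Nat.card W = Nat.card W * p ^ (d + 1) := by
      rw [← hWi, card_mul_index, Nat.card_eq_fintype_card (α := G), ← Finset.card_univ,
        ← Finset.card_filter_add_card_filter_not (s := (Finset.univ : Finset G)) (fun x => x ∉ W)]
      congr 1
      rw [Nat.card_eq_fintype_card, Fintype.card_subtype]
      simp
    have hM : ∀ M ∈ ov p W, (out.filter (fun x => x ∉ M)).card + Nat.card W * p ^ d =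
        Nat.card W * p ^ (d + 1) := by
      intro M hM
      rw [mem_ov] at hM
      have hs : out.filter (fun x => x ∉ M) = Finset.univ.filter (fun x => x ∉ M) := by
        ext x
        simp only [hout, Finset.mem_filter, Finset.mem_univ, true_and]
        exact ⟨fun h => h.2, fun h => ⟨fun hx => h (hM.2 hx), h⟩⟩
      have hMc : Nat.card M = Nat.card W * p ^ d := by
        have a := M.card_mul_index
        rw [hM.1, ← W.card_mul_index, hWi, pow_succ, ← mul_assoc] at a
        exact Nat.eq_of_mul_eq_mul_right hp.out.pos a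
      rw [hs, ← hMc, ← hWi, card_mul_index, Nat.card_eq_fintype_card (α := G), ← Finset.card_univ,
        ← Finset.card_filter_add_card_filter_not (s := (Finset.univ : Finset G)) (fun x => x ∉ M)]
      congr 1
      rw [Nat.card_eq_fintype_card, Fintype.card_subtype]
      simp
    have hM' : (∑ M ∈ ov p W, (out.filter (fun x => x ∉ M)).card) + h * (Nat.card W * p ^ d) =
        h * (Nat.card W * p ^ (d + 1)) := by
      have := Finset.sum_congr rfl hM
      rw [Finset.sum_add_distrib, Finset.sum_const, Finset.sum_const, smul_eq_mul, smul_eq_mul] at this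
      exact this
    have hx' : (∑ x ∈ out, (ov p (W ⊔ zpowers x)).card) * (p - 1) = out.card * (p ^ d - 1) := by
      rw [Finset.sum_mul, Finset.sum_congr rfl (fun x hx => ih _ (hW.trans le_sup_left) (hspan x hx)),
        Finset.sum_const, smul_eq_mul]
    -- cancellation
    have hp1 : 1 ≤ p := hp.out.one_le
    have hJ : 2 ≤ p ^ d := le_trans hp.out.two_le (Nat.le_self_pow (by omega) p)
    have hI : 1 ≤ p ^ (d + 1) := Nat.one_le_pow _ _ hp.out.pos
    zify [hp1, hI, (by omega : 1 ≤ p ^ d)] at hsum houtc hM' hx' ⊢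
    set P : ℤ := ∑ M ∈ ov p W, ((out.filter (fun x => x ∉ M)).card : ℤ)
    set X : ℤ := ∑ x ∈ out, ((ov p (W ⊔ zpowers x)).card : ℤ)
    have hqne : (Nat.card W : ℤ) * ((p : ℤ) ^ d - 1) ≠ 0 := by
      refine mul_ne_zero (by exact_mod_cast hq.ne') ?_
      have : (2 : ℤ) ≤ (p : ℤ) ^ d := by exact_mod_cast hJ
      omega
    refine mul_left_cancel₀ hqne ?_
    have e1 : (out.card : ℤ) = (Nat.card W : ℤ) * ((p : ℤ) ^ (d + 1) - 1) := by linarith
    have e2 : X = (h : ℤ) * ((Nat.card W : ℤ) * ((p : ℤ) ^ d - 1)) := by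
      have : X = (out.card : ℤ) * h - P := by linarith
      rw [this, e1]
      linarith [hM']
    rw [e2, e1] at hx'
    linear_combination hx'

/-- Modulo `p ^ 2`. -/
theorem card_ov_cast (hG : IsPGroup p G) {W : Subgroup G} (hW : frattini G ≤ W) {d : ℕ}
    (hWi : W.index = p ^ d) (hd : 1 ≤ d) :
    ((ov p W).card : ZMod (p ^ 2)) = 1 + if 2 ≤ d then (p : ZMod (p ^ 2)) else 0 := by
  have h := card_ov hG d W hW hWi
  by_cases h2 : 2 ≤ d
  · rw [if_pos h2]
    have hz : (p : ZMod (p ^ 2)) ^ 2 = 0 := by rw [← Nat.cast_pow, ZMod.natCast_self]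
    have hd0 : (p : ZMod (p ^ 2)) ^ d = 0 := by
      rw [show d = 2 + (d - 2) by omega, pow_add, hz, zero_mul]
    have hu : IsUnit ((p : ZMod (p ^ 2)) - 1) := by
      refine IsUnit.of_mul_eq_one (-((p : ZMod (p ^ 2)) + 1)) ?_
      linear_combination -hz
    have h' : ((ov p W).card : ZMod (p ^ 2)) * ((p : ZMod (p ^ 2)) - 1) = (p : ZMod (p ^ 2)) ^ d - 1 := by
      have := congrArg (fun n : ℕ => (n : ZMod (p ^ 2))) h
      simpa [Nat.cast_sub hp.out.one_le, Nat.cast_sub (Nat.one_le_pow d p hp.out.pos)] using this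
    refine hu.mul_right_cancel ?_
    rw [h', hd0]
    linear_combination -hz
  · obtain rfl : d = 1 := by omega
    rw [if_neg h2, add_zero, pow_one] at *
    have : (ov p W).card = 1 := by
      have := hp.out.two_le
      exact Nat.eq_of_mul_eq_mul_right (by omega) (h.trans (one_mul _).symm)
    rw [this, Nat.cast_one]

/-- Subgroups of `G` inside `N` are subgroups of `N`. -/
theorem card_filter_le (k : ℕ) (N : Subgroup G) :
    Nat.card {H : Subgroup G // Nat.card H = p ^ k ∧ H ≤ N} =
      Nat.card {H : Subgroup N // Nat.card H = p ^ k} :=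
  Nat.card_congr
    { toFun := fun H => ⟨H.1.subgroupOf N,
        (Nat.card_congr (subgroupOfEquivOfLe H.2.2).toEquiv).trans H.2.1⟩
      invFun := fun H => ⟨H.1.map N.subtype,
        (card_map_of_injective N.subtype_injective).trans H.2, map_subtype_le _⟩
      left_inv := fun H => Subtype.ext (by
        show (H.1.subgroupOf N).map N.subtype = H.1
        rw [subgroupOf_map_subtype, inf_eq_left.2 H.2.2])
      right_inv := fun H => Subtype.ext (by
        show (H.1.map N.subtype).subgroupOf N = H.1
        exact comap_map_eq_self_of_injective N.subtype_injective _) }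

/-- **Hall's enumeration principle** modulo `p ^ 2`. -/
theorem sum_ov (hG : IsPGroup p G) {m k : ℕ} (hm : Nat.card G = p ^ m) (hk : k + 2 ≤ m)
    (hΦ : ∃ d, 2 ≤ d ∧ (frattini G).index = p ^ d) :
    ((∑ M ∈ ov p (frattini G), Nat.card {H : Subgroup M // Nat.card H = p ^ k} : ℕ) : ZMod (p ^ 2))
      = (Nat.card {H : Subgroup G // Nat.card H = p ^ k} : ZMod (p ^ 2)) + p := by
  classical
  haveI : Fintype (Subgroup G) := Fintype.ofFinite _
  set T := (Finset.univ : Finset (Subgroup G)).filter (fun H : Subgroup G => Nat.card H = p ^ k) with hT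
  have hsubT : ∀ N : Subgroup G, Nat.card {H : Subgroup N // Nat.card H = p ^ k} =
      (T.filter (fun H => H ≤ N)).card := by
    intro N
    rw [← card_filter_le k N, Nat.card_eq_fintype_card, Fintype.card_subtype, hT, Finset.filter_filter]
  have hs : Nat.card {H : Subgroup G // Nat.card H = p ^ k} = T.card := by
    rw [Nat.card_eq_fintype_card, Fintype.card_subtype]
  have hd : ∀ H ∈ T, ∃ d, 1 ≤ d ∧ (H ⊔ frattini G).index = p ^ d := by
    intro H hH
    obtain ⟨d, hd⟩ := hG.index (H ⊔ frattini G)
    refine ⟨d, Nat.pos_of_ne_zero fun h0 => ?_, hd⟩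
    rw [h0, pow_zero, index_eq_one] at hd
    have : H = ⊤ := frattini_nongenerating hd
    have h := (Finset.mem_filter.1 hH).2
    rw [this, card_top, hm] at h
    have := Nat.pow_right_injective hp.out.two_le h
    omega
  choose! d hd1 hd2 using hd
  have e1 : (∑ M ∈ ov p (frattini G), Nat.card {H : Subgroup M // Nat.card H = p ^ k}) =
      ∑ H ∈ T, (ov p (H ⊔ frattini G)).card := by
    simp only [hsubT]
    rw [show (∑ M ∈ ov p (frattini G), (T.filter (fun H => H ≤ M)).card) =
      ∑ H ∈ T, ((ov p (frattini G)).filter (fun M => H ≤ M)).card from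
      Finset.sum_card_bipartiteAbove_eq_sum_card_bipartiteBelow (r := fun M H => H ≤ M)]
    refine Finset.sum_congr rfl fun H _ => congrArg _ ?_
    ext M
    simp only [Finset.mem_filter, mem_ov, sup_le_iff]
    tauto
  rw [e1, hs, Nat.cast_sum, Finset.sum_congr rfl (fun H hH =>
    card_ov_cast hG le_sup_right (hd2 H hH) (hd1 H hH)), Finset.sum_add_distrib, Finset.sum_const,
    nsmul_eq_mul, mul_one, ← Finset.sum_filter, Finset.sum_const, nsmul_eq_mul]
  congr 1
  -- `#T₂ ≡ 1 (mod p)`
  suffices key : (T.filter (fun H => 2 ≤ d H)).card ≡ 1 [MOD p] by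
    have := Nat.ModEq.mul_right' p key
    rw [one_mul, ← pow_two] at this
    have := (ZMod.natCast_eq_natCast_iff _ _ _).2 this
    push_cast at this
    exact this
  set Ns := (Finset.univ : Finset (Subgroup G)).filter
    (fun N => N.index = p ^ 2 ∧ frattini G ≤ N) with hNs
  have hcount : ∀ (W : Subgroup G) (j : ℕ), frattini G ≤ W → W.index = p ^ j → 2 ≤ j →
      ((Finset.univ : Finset (Subgroup G)).filter (fun N => N.index = p ^ 2 ∧ W ≤ N)).card ≡ 1 [MOD p] := by
    intro W j hW hj hj2
    haveI := normal_of_frattini_le hG hW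
    have hq : Nat.card (G ⧸ W) = p ^ j := by rw [← index_eq_card, hj]
    have h := H82.card_subgroups_modEq_one (G := G ⧸ W) hp.out (β := j - 2)
      (hq ▸ pow_dvd_pow p (by omega))
    have e : Nat.card {S : Subgroup (G ⧸ W) // Nat.card S = p ^ (j - 2)} =
        ((Finset.univ : Finset (Subgroup G)).filter (fun N => N.index = p ^ 2 ∧ W ≤ N)).card := by
      rw [← Fintype.card_subtype, ← Nat.card_eq_fintype_card]
      have hsur := QuotientGroup.mk'_surjective W
      have key : ∀ S : Subgroup (G ⧸ W), Nat.card S = p ^ (j - 2) ↔ S.index = p ^ 2 := by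
        intro S
        have e := S.card_mul_index
        rw [hq, show j = j - 2 + 2 by omega, pow_add] at e
        constructor <;> intro hS <;> rw [hS] at e
        · exact Nat.eq_of_mul_eq_mul_left (pow_pos hp.out.pos _) e
        · exact Nat.eq_of_mul_eq_mul_right (pow_pos hp.out.pos _) e
      refine Nat.card_congr
        { toFun := fun S => ⟨S.1.comap (QuotientGroup.mk' W),
            ((index_comap_of_surjective S.1 hsur).trans ((key _).1 S.2)),
            fun x hx => by
              show QuotientGroup.mk' W x ∈ S.1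
              rw [QuotientGroup.mk'_apply, (QuotientGroup.eq_one_iff x).2 hx]
              exact one_mem _⟩
          invFun := fun N => ⟨N.1.map (QuotientGroup.mk' W), (key _).2 (by
            rw [index_map_eq _ hsur (by rw [QuotientGroup.ker_mk']; exact N.2.2)]
            exact N.2.1)⟩
          left_inv := fun S => Subtype.ext (map_comap_eq_self_of_surjective hsur _)
          right_inv := fun N => Subtype.ext (comap_map_eq_self (by
            rw [QuotientGroup.ker_mk']; exact N.2.2)) }
    rwa [e] at h
  obtain ⟨d0, hd0, hd0'⟩ := hΦ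
  have hNs1 : Ns.card ≡ 1 [MOD p] := hcount _ d0 le_rfl hd0' hd0
  have e2 : ∑ N ∈ Ns, (T.filter (fun H => H ≤ N)).card = ∑ H ∈ T, (Ns.filter (fun N => H ≤ N)).card :=
    Finset.sum_card_bipartiteAbove_eq_sum_card_bipartiteBelow (r := fun N H => H ≤ N)
  rw [← ZMod.natCast_eq_natCast_iff] at hNs1 ⊢
  have eA : ∀ N ∈ Ns, ((T.filter (fun H => H ≤ N)).card : ZMod p) = 1 := by
    intro N hN
    have hN' := (Finset.mem_filter.1 hN).2.1
    have hdiv : p ^ k ∣ Nat.card N := by
      have e := N.card_mul_index
      rw [hN', hm, show m = m - 2 + 2 by omega, pow_add] at e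
      rw [Nat.eq_of_mul_eq_mul_right (pow_pos hp.out.pos 2) e]
      exact pow_dvd_pow p (by omega)
    have h := H82.card_subgroups_modEq_one (G := N) hp.out hdiv
    rw [hsubT, ← ZMod.natCast_eq_natCast_iff] at h
    simpa using h
  have eB : ∀ H ∈ T, ((Ns.filter (fun N => H ≤ N)).card : ZMod p) = if 2 ≤ d H then 1 else 0 := by
    intro H hH
    have hfilt : Ns.filter (fun N => H ≤ N) = (Finset.univ : Finset (Subgroup G)).filter
        (fun N => N.index = p ^ 2 ∧ H ⊔ frattini G ≤ N) := by
      ext N
      simp only [hNs, Finset.mem_filter, Finset.mem_univ, true_and, sup_le_iff]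
      tauto
    rw [hfilt]
    by_cases h2 : 2 ≤ d H
    · rw [if_pos h2]
      have := hcount _ (d H) le_sup_right (hd2 H hH) h2
      rw [← ZMod.natCast_eq_natCast_iff] at this
      simpa using this
    · rw [if_neg h2, Finset.card_eq_zero.2, Nat.cast_zero]
      refine Finset.eq_empty_of_forall_notMem fun N hN => ?_
      obtain ⟨-, hNi, hle⟩ := Finset.mem_filter.1 hN
      have := index_dvd_of_le hle
      rw [hNi, hd2 H hH] at this
      exact h2 ((Nat.pow_dvd_pow_iff_le_right hp.out.one_lt).1 this)
  have e3 := congrArg (fun n : ℕ => (n : ZMod p)) e2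
  simp only [Nat.cast_sum] at e3
  rw [Finset.sum_congr rfl eA, Finset.sum_congr rfl eB, Finset.sum_const, ← Finset.sum_filter,
    Finset.sum_const, nsmul_eq_mul, nsmul_eq_mul, mul_one, mul_one] at e3
  rw [← e3]
  simpa using hNs1

/-- For `k = m - 1`. -/
theorem card_maximal (hG : IsPGroup p G) {m : ℕ} (hm : Nat.card G = p ^ (m + 1)) :
    Nat.card {H : Subgroup G // Nat.card H = p ^ m} = (ov p (frattini G)).card := by
  classical
  haveI : Fintype (Subgroup G) := Fintype.ofFinite _
  rw [Nat.card_eq_fintype_card, Fintype.card_subtype]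
  congr 1
  ext H
  simp only [Finset.mem_filter, Finset.mem_univ, true_and, mem_ov]
  have e := H.card_mul_index
  rw [hm, pow_succ] at e
  constructor
  · intro h
    have hi : H.index = p := by
      rw [h] at e
      exact Nat.eq_of_mul_eq_mul_left (pow_pos hp.out.pos _) e
    exact ⟨hi, frattini_le_of_index hG hi⟩
  · rintro ⟨hi, -⟩
    rw [hi] at e
    exact Nat.eq_of_mul_eq_mul_right hp.out.pos e

theorem index_frattini (hG : IsPGroup p G) (hnc : ¬ IsCyclic G) :
    ∃ d, 2 ≤ d ∧ (frattini G).index = p ^ d := by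
  obtain ⟨d, hd⟩ := hG.index (frattini G)
  refine ⟨d, ?_, hd⟩
  by_contra hlt
  haveI : (frattini G).Normal := inferInstance
  rw [index_eq_card] at hd
  haveI := H24.isCyclic_of_card_pow_le hd (by omega)
  exact hnc (H24.isCyclic_of_quotient (frattini G) le_rfl)

end Hyperplanes

section Exceptional

variable {G : Type u} [Group G] [Finite G] {p : ℕ} [hp : Fact p.Prime]

theorem card_of_index {m : ℕ} (hm : Nat.card G = p ^ (m + 1)) {M : Subgroup G} (hM : M.index = p) :
    Nat.card M = p ^ m := by
  have e := M.card_mul_index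
  rw [hM, hm, pow_succ] at e
  exact Nat.eq_of_mul_eq_mul_right hp.out.pos e

theorem le_zpowers_pow {a : G} {j : ℕ} (S : Subgroup G) (hS : S ≤ zpowers a)
    (ha : orderOf a = Nat.card S * j) : S ≤ zpowers (a ^ j) := by
  intro y hy
  obtain ⟨i, rfl⟩ := mem_zpowers_iff.1 (hS hy)
  have h : (a ^ i) ^ Nat.card S = 1 :=
    orderOf_dvd_iff_pow_eq_one.1 (Subgroup.orderOf_dvd_natCard S hy)
  rw [← zpow_natCast, ← zpow_mul, ← orderOf_dvd_iff_zpow_eq_one, ha, Nat.cast_mul,
    mul_comm i, Int.mul_dvd_mul_iff_left (Int.natCast_ne_zero.2 Nat.card_pos.ne')] at h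
  obtain ⟨c, rfl⟩ := h
  exact mem_zpowers_iff.2 ⟨c, by rw [← zpow_natCast, ← zpow_mul]⟩

/-- Cyclic maximal subgroups of a non-cyclic group that is not of maximal class: a multiple of
`p` of them. -/
theorem cyclic_count_regular (hG : IsPGroup p G) {m : ℕ} (hm : Nat.card G = p ^ (m + 3))
    (hnc : ¬ IsCyclic G) (hreg : p = 2 → (commutator G).index ≠ 4)
    (hex : ∃ A : Subgroup G, A.index = p ∧ IsCyclic A) :
    ∃ K0 : Subgroup G, K0.index = p ∧ ∀ M : Subgroup G, M.index = p → (IsCyclic M ↔ M ≠ K0) := by
  obtain ⟨A, hAi, hAc⟩ := hex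
  obtain ⟨a, ha⟩ := (Subgroup.isCyclic_iff_exists_zpowers_eq_top A).1 hAc
  have hao : orderOf a = p ^ (m + 2) := by
    rw [← Nat.card_zpowers, ha, card_of_index (m := m + 2) hm hAi]
  have hAn : A.Normal :=
    normal_of_frattini_le hG (frattini_le_of_index hG hAi)
  set Ψ := zpowers (a ^ p ^ 2) with hΨ
  have hΨc : Nat.card Ψ = p ^ m := by
    rw [hΨ, Nat.card_zpowers, orderOf_pow' a (pow_ne_zero _ hp.out.ne_zero), hao,
      Nat.gcd_eq_right (pow_dvd_pow p (by omega)), Nat.pow_div (by omega) hp.out.pos]
    congr 1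
  have hΨA : Ψ ≤ A := zpowers_le.2 (ha ▸ pow_mem (mem_zpowers a) _)
  haveI hΨn : Ψ.Normal := ⟨fun y hy g => by
    have hle : zpowers (g * y * g⁻¹) ≤ A := zpowers_le.2 (hAn.conj_mem y (hΨA hy) g)
    obtain ⟨c, hc⟩ : ∃ c, orderOf y * c = p ^ m := by
      obtain ⟨c, hc⟩ := Subgroup.orderOf_dvd_natCard Ψ hy
      exact ⟨c, by rw [← hc, hΨc]⟩
    have h1 := le_zpowers_pow (zpowers (g * y * g⁻¹)) (j := c * p ^ 2) (a := a) (ha.symm ▸ hle) (by
      rw [Nat.card_zpowers, show g * y * g⁻¹ = MulAut.conj g y from rfl, MulEquiv.orderOf_eq,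
        ← mul_assoc, hc, hao, pow_add])
    have h2 : zpowers (a ^ (c * p ^ 2)) ≤ Ψ := zpowers_le.2 (by
      rw [mul_comm, pow_mul]; exact pow_mem (mem_zpowers _) c)
    exact h2 (h1 (mem_zpowers _))⟩
  have hΨq : Nat.card (G ⧸ Ψ) = p ^ 3 := by
    have e := Ψ.card_mul_index
    rw [hΨc, hm, pow_add, index_eq_card] at e
    exact Nat.eq_of_mul_eq_mul_left (pow_pos hp.out.pos _) e
  -- commutators of the quotient
  have hcen : ∀ x y : G ⧸ Ψ, ⁅x, y⁆ ∈ center (G ⧸ Ψ) ∧ (p = 2 → ⁅x, y⁆ = 1) ∧ ⁅x, y⁆ ^ p = 1 := by
    intro x y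
    by_cases hc : IsMulCommutative (G ⧸ Ψ)
    · have : ⁅x, y⁆ = 1 := commutatorElement_eq_one_iff_mul_comm.2 (hc.is_comm.comm x y)
      rw [this]
      exact ⟨one_mem _, fun _ => rfl, one_pow p⟩
    have hQ : IsPGroup p (G ⧸ Ψ) := hG.to_quotient Ψ
    have hcomm : commutator (G ⧸ Ψ) ≤ center (G ⧸ Ψ) ∧ Nat.card (center (G ⧸ Ψ)) = p := by
      obtain ⟨r, hr⟩ := H24.exists_card_pow hQ (center (G ⧸ Ψ))
      have hne : Nontrivial (G ⧸ Ψ) := by
        rw [← Finite.one_lt_card_iff_nontrivial, hΨq]
        exact Nat.one_lt_pow (by omega) hp.out.one_lt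
      haveI := hQ.center_nontrivial
      have hr0 : r ≠ 0 := fun h => by
        rw [h, pow_zero, Nat.card_eq_one_iff_unique] at hr
        exact not_subsingleton (center (G ⧸ Ψ)) hr.1
      have hr1 : r ≤ 1 := by
        by_contra hlt
        apply hc
        have e := (center (G ⧸ Ψ)).card_mul_index
        rw [hr, hΨq, index_eq_card] at e
        obtain ⟨s, hs⟩ := IsPGroup.iff_card.1 (hQ.to_quotient (center (G ⧸ Ψ)))
        rw [hs, ← pow_add] at e
        have := Nat.pow_right_injective hp.out.two_le e
        haveI := H24.isCyclic_of_card_pow_le hs (by omega)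
        exact H24.isMulCommutative_of_cyclic_quotient le_rfl
      obtain rfl : r = 1 := by omega
      rw [pow_one] at hr
      refine ⟨?_, hr⟩
      have e := (center (G ⧸ Ψ)).card_mul_index
      rw [hr, hΨq, pow_succ' p 2, index_eq_card] at e
      haveI := IsPGroup.isMulCommutative_of_card_eq_prime_sq
        (Nat.eq_of_mul_eq_mul_left hp.out.pos e)
      rw [_root_.commutator_def, commutator_le]
      intro u _ v _
      rw [← QuotientGroup.eq_one_iff, ← QuotientGroup.mk'_apply, map_commutatorElement,
        commutatorElement_eq_one_iff_mul_comm]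
      exact IsMulCommutative.is_comm.comm _ _
    have hmem : ⁅x, y⁆ ∈ center (G ⧸ Ψ) := hcomm.1 (by
      rw [_root_.commutator_def]; exact commutator_mem_commutator (mem_top _) (mem_top _))
    refine ⟨hmem, fun hp2 => ?_, orderOf_dvd_iff_pow_eq_one.1
      (hcomm.2 ▸ Subgroup.orderOf_dvd_natCard _ hmem)⟩
    exfalso
    apply hc
    -- `p = 2`: the derived subgroup is in `Ψ`
    subst hp2
    have hle : commutator G ≤ Ψ := by
      have hA' : commutator G ≤ A :=
        (H24.commutator_le_frattini hG).trans (frattini_le_of_index hG hAi)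
      obtain ⟨s, hs⟩ := H24.exists_card_pow hG (commutator G)
      obtain ⟨t, ht⟩ := hG.index (commutator G)
      have e := (commutator G).card_mul_index
      rw [hs, ht, hm, ← pow_add] at e
      have est := Nat.pow_right_injective hp.out.two_le e
      have ht3 : 3 ≤ t := by
        by_contra hlt
        have h4 := hreg rfl
        rw [ht] at h4
        have : t ≠ 2 := fun h => h4 (by rw [h]; norm_num)
        by_cases hna : IsMulCommutative G
        · rw [_root_.commutator_eq_bot G, index_bot, hm] at ht
          have := Nat.pow_right_injective hp.out.two_le ht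
          omega
        · have := H24.sq_le_index_commutator hG hna
          rw [ht, Nat.pow_le_pow_iff_right hp.out.one_lt] at this
          omega
      have hsm : s ≤ m := by omega
      refine (le_zpowers_pow (commutator G) (j := 2 ^ (m + 2 - s)) (a := a) (ha.symm ▸ hA') (by
        rw [hao, hs, ← pow_add]
        congr 1
        omega)).trans (zpowers_le.2 ?_)
      rw [show m + 2 - s = 2 + (m - s) by omega, pow_add, pow_mul]
      exact pow_mem (mem_zpowers _) _
    exact ⟨⟨fun u v => by
      obtain ⟨u, rfl⟩ := QuotientGroup.mk'_surjective Ψ u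
      obtain ⟨v, rfl⟩ := QuotientGroup.mk'_surjective Ψ v
      rw [← commutatorElement_eq_one_iff_mul_comm, ← map_commutatorElement, QuotientGroup.mk'_apply,
        QuotientGroup.eq_one_iff]
      exact hle (by rw [_root_.commutator_def]; exact commutator_mem_commutator (mem_top _) (mem_top _))⟩⟩
  have hAmem : ∀ x : G, x ^ p ∈ A := fun x => frattini_le_of_index hG hAi (H24.pow_mem_frattini hG x)
  have hhom : ∀ x y : G, (x * y) ^ p ^ (m + 1) = x ^ p ^ (m + 1) * y ^ p ^ (m + 1) := by
    intro x y
    obtain ⟨ψ, hψ, he⟩ : ∃ ψ ∈ Ψ, (x * y) ^ p = x ^ p * y ^ p * ψ := by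
      refine ⟨(x ^ p * y ^ p)⁻¹ * (x * y) ^ p, ?_, by group⟩
      rw [← QuotientGroup.eq]
      show (QuotientGroup.mk' Ψ) (x ^ p * y ^ p) = (QuotientGroup.mk' Ψ) ((x * y) ^ p)
      rw [map_mul, map_pow, map_pow, map_pow, map_mul]
      obtain ⟨h1, h2, h3⟩ := hcen (QuotientGroup.mk' Ψ y) (QuotientGroup.mk' Ψ x)
      by_cases hp2 : p = 2
      · have hc : Commute (QuotientGroup.mk' Ψ x) (QuotientGroup.mk' Ψ y) :=
          (commutatorElement_eq_one_iff_mul_comm.1 (h2 hp2)).symm
        rw [hc.mul_pow]
      · rw [H24.mul_pow_prime_of_class_two hp.out hp2 h1 h3]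
    haveI : IsMulCommutative A := IsCyclic.isMulCommutative
    have hc : ∀ u ∈ A, ∀ v ∈ A, Commute u v := fun u hu v hv =>
      congrArg Subtype.val (IsMulCommutative.is_comm.comm (⟨u, hu⟩ : A) ⟨v, hv⟩)
    have hψ1 : ψ ^ p ^ m = 1 :=
      orderOf_dvd_iff_pow_eq_one.1 (hΨc ▸ Subgroup.orderOf_dvd_natCard Ψ hψ)
    rw [pow_succ' p m, pow_mul, pow_mul, pow_mul, he,
      (hc _ (mul_mem (hAmem x) (hAmem y)) _ (hΨA hψ)).mul_pow, (hc _ (hAmem x) _ (hAmem y)).mul_pow,
      hψ1, mul_one]
  let f : G →* G := MonoidHom.mk' (fun x => x ^ p ^ (m + 1)) hhom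
  have hbound : ∀ x : G, x ^ p ^ (m + 2) = 1 := by
    intro x
    obtain ⟨j, hj⟩ := IsPGroup.iff_orderOf.1 hG x
    refine orderOf_dvd_iff_pow_eq_one.1 (hj ▸ pow_dvd_pow p ?_)
    have h1 : p ^ j ∣ p ^ (m + 3) := hm ▸ hj ▸ orderOf_dvd_natCard x
    have h2 := (Nat.pow_dvd_pow_iff_le_right hp.out.one_lt).1 h1
    by_contra hlt
    exact hnc (isCyclic_of_orderOf_eq_card x (by rw [hj, hm, show j = m + 3 by omega]))
  have hfimg : f.range = zpowers (a ^ p ^ (m + 1)) := by
    refine le_antisymm ?_ (zpowers_le.2 ⟨a, rfl⟩)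
    rintro _ ⟨x, rfl⟩
    have hsq : (f x) ^ p = 1 := by
      show (x ^ p ^ (m + 1)) ^ p = 1
      rw [← pow_mul, ← pow_succ]
      exact hbound x
    rcases (Nat.dvd_prime hp.out).1 (orderOf_dvd_of_pow_eq_one hsq) with h | h
    · rw [orderOf_eq_one_iff.1 h]
      exact one_mem _
    · refine le_zpowers_pow (zpowers (f x)) (a := a) (j := p ^ (m + 1)) (ha.symm ▸ ?_) ?_ (mem_zpowers _)
      · refine zpowers_le.2 ?_
        show x ^ p ^ (m + 1) ∈ A
        rw [pow_succ' p m, pow_mul]
        exact pow_mem (hAmem x) _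
      · rw [Nat.card_zpowers, h, hao, ← pow_succ']
  have hfA : a ^ p ^ (m + 1) ≠ 1 := fun h => by
    have := orderOf_dvd_of_pow_eq_one h
    rw [hao, Nat.pow_dvd_pow_iff_le_right hp.out.one_lt] at this
    omega
  have hK0 : f.ker.index = p := by
    rw [index_ker, hfimg, Nat.card_zpowers, orderOf_pow' a (pow_ne_zero _ hp.out.ne_zero), hao,
      Nat.gcd_eq_right (pow_dvd_pow p (by omega)), Nat.pow_div (by omega) hp.out.pos,
      show m + 2 - (m + 1) = 1 by omega, pow_one]
  refine ⟨f.ker, hK0, fun M hM => ⟨fun hMc h => ?_, fun hne => ?_⟩⟩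
  · obtain ⟨b, hb⟩ := (Subgroup.isCyclic_iff_exists_zpowers_eq_top M).1 hMc
    have hbo : orderOf b = p ^ (m + 2) := by
      rw [← Nat.card_zpowers, hb, card_of_index (m := m + 2) hm hM]
    have hb1 : b ^ p ^ (m + 1) = 1 := (h ▸ (hb ▸ mem_zpowers b) : b ∈ f.ker)
    have := orderOf_dvd_of_pow_eq_one hb1
    rw [hbo, Nat.pow_dvd_pow_iff_le_right hp.out.one_lt] at this
    omega
  · obtain ⟨x, hxM, hxK⟩ : ∃ x ∈ M, x ∉ f.ker := by
      by_contra hcon
      push Not at hcon
      refine hne (Subgroup.eq_of_le_of_card_ge hcon ?_)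
      rw [card_of_index (m := m + 2) hm hK0, card_of_index (m := m + 2) hm hM]
    have hxo : orderOf x = p ^ (m + 2) := orderOf_eq_prime_pow hxK (hbound x)
    exact isCyclic_of_orderOf_eq_card (⟨x, hxM⟩ : M)
      (by rw [Subgroup.orderOf_mk, hxo, card_of_index (m := m + 2) hm hM])

/-- The noncyclic maximal subgroups of a `2`-group with `[G:G'] = 4` again have this property, and
an odd number of its maximal subgroups are cyclic. -/
theorem maximal_class_step [Fact (Nat.Prime 2)] {m : ℕ} (hm : Nat.card G = 2 ^ (m + 3))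
    (hidx : (commutator G).index = 4) :
    (∀ M : Subgroup G, M.index = 2 → ¬ IsCyclic M → 1 ≤ m → (⁅M, M⁆).relIndex M = 4) ∧
    ∃ A : Subgroup G, A.index = 2 ∧ IsCyclic A ∧ ((∀ M : Subgroup G, M.index = 2 → IsCyclic M → M = A) ∨
      ∀ M : Subgroup G, M.index = 2 → IsCyclic M) := by
  obtain ⟨⟨A, hAc, hAi⟩, hcl, hcen⟩ := H24.two_group_commutator_index_four G (m + 3) hm (by omega) hidx
  have hZ : Nat.card (center G) = 2 := hcen (by omega)
  have hG : IsPGroup 2 G := IsPGroup.of_card hm
  have hna : ¬ IsMulCommutative G := fun h => by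
    have := H24.class_le_one_of_comm h
    omega
  haveI : IsMulCommutative A := IsCyclic.isMulCommutative
  obtain ⟨hZA, hAcard⟩ := H24.card_abelian_index_two hna (C := A) inferInstance hAi
  have hcA : Nat.card A = 2 ^ (m + 2) := card_of_index (m := m + 2) hm hAi
  have hG' : Nat.card (commutator G) = 2 ^ (m + 1) := by
    rw [hcA, hZ, pow_succ' 2 (m + 1)] at hAcard
    exact (Nat.eq_of_mul_eq_mul_left two_pos hAcard).symm
  obtain ⟨a, ha⟩ := (Subgroup.isCyclic_iff_exists_zpowers_eq_top A).1 hAc
  have haA : a ∈ A := ha ▸ mem_zpowers a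
  have hao : orderOf a = 2 ^ (m + 2) := by rw [← Nat.card_zpowers, ha, hcA]
  have hG'A : commutator G ≤ A :=
    (H24.commutator_le_frattini hG).trans (frattini_le_of_index hG hAi)
  have hG'eq : commutator G = zpowers (a ^ 2) := by
    refine Subgroup.eq_of_le_of_card_ge ?_ ?_
    · exact le_zpowers_pow (commutator G) (ha.symm ▸ hG'A) (by rw [hao, hG', ← pow_succ])
    · rw [hG', Nat.card_zpowers, orderOf_pow' a two_ne_zero, hao,
        Nat.gcd_eq_right (dvd_pow_self 2 (by omega)), pow_succ 2 (m + 1),
        Nat.mul_div_cancel _ two_pos]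
  have hcommA : ∀ u ∈ A, ∀ v ∈ A, u * v = v * u := fun u hu v hv =>
    congrArg Subtype.val (IsMulCommutative.is_comm.comm (⟨u, hu⟩ : A) ⟨v, hv⟩)
  refine ⟨fun M hM hMc hm1 => ?_, A, hAi, hAc, ?_⟩
  · have hMA : ¬ M ≤ A := fun h => hMc (by
      have : M = A := Subgroup.eq_of_le_of_card_ge h (by rw [hcA, card_of_index (m := m + 2) hm hM])
      rw [this]; exact hAc)
    obtain ⟨t, htM, htA⟩ := SetLike.not_le_iff_exists.1 hMA
    have haA2 : a ^ 2 ∈ M := frattini_le_of_index hG hM (H24.pow_mem_frattini hG a)
    haveI hAn : A.Normal := normal_of_index_eq_two hAi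
    let g : A →* G :=
      MonoidHom.mk' (fun c => ⁅(c : G), t⁆) (fun c d => by
        have h1 : ⁅(d : G), t⁆ ∈ A := by
          rw [commutatorElement_def, mul_assoc (d : G) t, mul_assoc]
          exact mul_mem d.2 (hAn.conj_mem _ (inv_mem d.2) t)
        show ⁅(c : G) * d, t⁆ = ⁅(c : G), t⁆ * ⁅(d : G), t⁆
        calc ⁅(c : G) * d, t⁆ = (c : G) * ⁅(d : G), t⁆ * (c : G)⁻¹ * ⁅(c : G), t⁆ := by
              simp only [commutatorElement_def]; group
          _ = ⁅(d : G), t⁆ * ⁅(c : G), t⁆ := by rw [hcommA _ c.2 _ h1, mul_inv_cancel_right]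
          _ = ⁅(c : G), t⁆ * ⁅(d : G), t⁆ := by
              refine hcommA _ h1 _ ?_
              rw [commutatorElement_def, mul_assoc (c : G) t, mul_assoc]
              exact mul_mem c.2 (hAn.conj_mem _ (inv_mem c.2) t))
    have hker : g.ker.map A.subtype ≤ center G := by
      rintro _ ⟨c, hc, rfl⟩
      have hct : Commute t (c : G) :=
        (commutatorElement_eq_one_iff_mul_comm.1 (MonoidHom.mem_ker.1 hc)).symm
      refine mem_center_iff.2 fun x => ?_
      show x * (c : G) = c * x
      by_cases hx : x ∈ A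
      · exact hcommA x hx c c.2
      · have hxt : x * t⁻¹ ∈ A := by
          rw [mul_mem_iff_of_index_two hAi, inv_mem_iff]
          simp [hx, htA]
        have h1 : Commute (x * t⁻¹) (c : G) := hcommA _ hxt c c.2
        have := h1.mul_left hct
        rwa [inv_mul_cancel_right] at this
    have hrange : g.range = commutator G := by
      refine Subgroup.eq_of_le_of_card_ge ?_ ?_
      · rintro _ ⟨c, rfl⟩
        rw [_root_.commutator_def]
        exact commutator_mem_commutator (mem_top _) (mem_top _)
      · have e := g.ker.card_mul_index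
        rw [index_ker, hcA, pow_succ' 2 (m + 1), ← hG'] at e
        have hk : Nat.card g.ker ≤ 2 := by
          rw [← hZ, ← card_map_of_injective (K := g.ker) A.subtype_injective]
          exact Subgroup.card_le_of_le hker
        by_contra hlt
        push Not at hlt
        have := Nat.mul_le_mul hk (le_refl (Nat.card g.range))
        have := Nat.mul_lt_mul_of_pos_left hlt two_pos
        omega
    have ha4 : zpowers (a ^ 4) ≤ ⁅M, M⁆ := by
      rw [zpowers_le]
      obtain ⟨c, hc⟩ : a ^ 2 ∈ g.range := hrange.symm ▸ hG'eq.symm ▸ mem_zpowers _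
      have h4 : a ^ 4 = g (c * c) := by rw [map_mul, hc, ← pow_add]
      rw [h4]
      show ⁅((c : G) * c), t⁆ ∈ ⁅M, M⁆
      refine commutator_mem_commutator ?_ htM
      rw [← pow_two]
      exact frattini_le_of_index hG hM (H24.pow_mem_frattini hG _)
    have hup : (⁅M, M⁆).relIndex M ≤ 4 := by
      have hle : ⁅M, M⁆ ≤ M :=
        commutator_le.2 fun u hu v hv => mul_mem (mul_mem (mul_mem hu hv) (inv_mem hu)) (inv_mem hv)
      have h1 := Subgroup.card_le_of_le ha4
      rw [Nat.card_zpowers, orderOf_pow' a (by norm_num), hao, show (4 : ℕ) = 2 ^ 2 from rfl,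
        Nat.gcd_eq_right (pow_dvd_pow 2 (by omega)), Nat.pow_div (by omega) two_pos] at h1
      have e : Nat.card (⁅M, M⁆ : Subgroup G) * (⁅M, M⁆).relIndex M = 2 ^ (m + 2) := by
        rw [← card_of_index (m := m + 2) hm hM, relIndex,
          ← Nat.card_congr (subgroupOfEquivOfLe hle).toEquiv, card_mul_index]
      simp only [show m + 2 - 2 = m by omega] at h1
      rw [pow_add] at e
      by_contra hlt
      have := Nat.mul_le_mul h1 (show 5 ≤ (⁅M, M⁆).relIndex M by omega)
      have : 0 < 2 ^ m := by positivity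
      omega
    have hlow : 4 ≤ (⁅M, M⁆).relIndex M := by
      have hna' : ¬ IsMulCommutative M := fun h => by
        have hbot : ⁅M, M⁆ = ⊥ := by
          rw [eq_bot_iff, commutator_le]
          intro u hu v hv
          rw [mem_bot, commutatorElement_eq_one_iff_mul_comm]
          exact congrArg Subtype.val (h.is_comm.comm ⟨u, hu⟩ ⟨v, hv⟩)
        rw [hbot, relIndex_bot_left, card_of_index (m := m + 2) hm hM] at hup
        have : 2 ^ 3 ≤ 2 ^ (m + 2) := Nat.pow_le_pow_right two_pos (by omega)
        omega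
      have h := H24.sq_le_index_commutator (hG.to_subgroup M) hna'
      have : (_root_.commutator M).index = (⁅M, M⁆).relIndex M := by
        rw [← Subgroup.map_subtype_commutator M, relIndex, subgroupOf,
          comap_map_eq_self_of_injective M.subtype_injective]
      rw [this] at h
      simpa using h
    omega
  · by_cases huniq : ∀ M : Subgroup G, M.index = 2 → IsCyclic M → M = A
    · exact Or.inl huniq
    right
    push Not at huniq
    obtain ⟨B, hBi, hBc, hBA⟩ := huniq
    haveI : IsMulCommutative B := IsCyclic.isMulCommutative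
    have hcommB : ∀ u ∈ B, ∀ v ∈ B, u * v = v * u := fun u hu v hv =>
      congrArg Subtype.val (IsMulCommutative.is_comm.comm (⟨u, hu⟩ : B) ⟨v, hv⟩)
    obtain ⟨b, hbB, hbA⟩ : ∃ b ∈ B, b ∉ A := by
      by_contra hcon
      push Not at hcon
      exact hBA (Subgroup.eq_of_le_of_card_ge hcon
        (by rw [hcA, card_of_index (m := m + 2) hm hBi]))
    -- the Frattini subgroup is central, so `|G| = 8`
    have hΦ : zpowers (a ^ 2) ≤ center G := zpowers_le.2 (mem_center_iff.2 fun x => by
      have h1 : a ^ 2 ∈ B := frattini_le_of_index hG hBi (H24.pow_mem_frattini hG a)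
      have hb2 : Commute b (a ^ 2) := hcommB b hbB _ h1
      by_cases hx : x ∈ A
      · exact hcommA x hx _ (pow_mem haA 2)
      · have hxb : x * b⁻¹ ∈ A := by
          rw [mul_mem_iff_of_index_two hAi, inv_mem_iff]
          simp [hx, hbA]
        have h2 : Commute (x * b⁻¹) (a ^ 2) := hcommA _ hxb _ (pow_mem haA 2)
        have := h2.mul_left hb2
        rwa [inv_mul_cancel_right] at this)
    have hm0 : m = 0 := by
      have := Subgroup.card_le_of_le hΦ
      rw [← hG'eq, hG', hZ] at this
      by_contra h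
      have : 2 ^ 2 ≤ 2 ^ (m + 1) := Nat.pow_le_pow_right two_pos (by omega)
      omega
    subst hm0
    intro M hMi
    -- every element outside the centre has order four
    have hz : ∀ x : G, x ∈ A ∨ x ∈ B ∨ x * b⁻¹ ∈ A := fun x => by
      by_cases hx : x ∈ A
      · exact Or.inl hx
      · exact Or.inr (Or.inr (by rw [mul_mem_iff_of_index_two hAi, inv_mem_iff]; simp [hx, hbA]))
    have hA4 : Nat.card A = 4 := by rw [hcA]; norm_num
    have hbo : orderOf b = 4 := by
      obtain ⟨j, hj⟩ := IsPGroup.iff_orderOf.1 hG b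
      have hB4 : Nat.card B = 4 := by rw [card_of_index (m := 2) hm hBi]; norm_num
      have hd : orderOf b ∣ 4 := hB4 ▸ Subgroup.orderOf_dvd_natCard B hbB
      by_contra hne
      apply hbA
      have hb2 : b ^ 2 = 1 := by
        have h2 : orderOf b ∣ 2 := by
          have hmem : orderOf b ∈ Nat.divisors 4 := Nat.mem_divisors.2 ⟨hd, by norm_num⟩
          rw [show Nat.divisors 4 = {1, 2, 4} from rfl] at hmem
          simp only [Finset.mem_insert, Finset.mem_singleton] at hmem
          rcases hmem with h | h | h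
          · rw [h]; norm_num
          · rw [h]
          · exact absurd h hne
        exact orderOf_dvd_iff_pow_eq_one.1 h2
      -- the involution of `B` is `a ^ 2`
      obtain ⟨c, hc⟩ := (Subgroup.isCyclic_iff_exists_zpowers_eq_top B).1 hBc
      have hc4 : orderOf c = 4 := by rw [← Nat.card_zpowers, hc, hB4]
      obtain ⟨i, hi, rfl⟩ : ∃ i < 4, c ^ i = b := by
        obtain ⟨i, hi⟩ := mem_powers_iff_mem_zpowers.2 (hc.symm ▸ hbB : b ∈ zpowers c)
        exact ⟨i % 4, Nat.mod_lt _ (by norm_num), by rw [← hc4, pow_mod_orderOf]; exact hi⟩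
      rw [← pow_mul] at hb2
      have := hc4 ▸ orderOf_dvd_of_pow_eq_one hb2
      interval_cases i
      · rw [pow_zero]; exact one_mem A
      · omega
      · exact frattini_le_of_index hG hAi (H24.pow_mem_frattini hG c)
      · omega
    have hZeq : center G = zpowers (a ^ 2) :=
      (Subgroup.eq_of_le_of_card_ge hΦ (by rw [← hG'eq, hG', hZ]; norm_num)).symm
    have ha2 : a ^ 2 ≠ 1 := fun h => by
      have := orderOf_dvd_of_pow_eq_one h
      rw [hao] at this
      norm_num at this
    have hinv : ∀ x ∈ center G, x ≠ 1 → x = a ^ 2 := by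
      intro x hx hx1
      haveI : Fintype ↥(center G) := Fintype.ofFinite _
      by_contra hne
      have : 2 < Fintype.card ↥(center G) :=
        Fintype.two_lt_card_iff.2 ⟨⟨x, hx⟩, ⟨a ^ 2, hΦ (mem_zpowers _)⟩, 1,
          fun h => hne (congrArg Subtype.val h), fun h => hx1 (congrArg Subtype.val h),
          fun h => ha2 (congrArg Subtype.val h)⟩
      rw [← Nat.card_eq_fintype_card, hZ] at this
      omega
    have hb2 : b ^ 2 = a ^ 2 := hinv _ (hZeq ▸ hG'eq ▸ ?_) (fun h => by
      have := orderOf_dvd_of_pow_eq_one h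
      rw [hbo] at this
      norm_num at this)
    swap
    · have h1 : b ^ 2 ∈ A := frattini_le_of_index hG hAi (H24.pow_mem_frattini hG b)
      rw [hG'eq, ← hZeq, mem_center_iff]
      intro x
      rcases hz x with h | h | h
      · exact hcommA x h _ h1
      · exact hcommB x h _ (pow_mem hbB 2)
      · have h2 : Commute (x * b⁻¹) (b ^ 2) := hcommA _ h _ h1
        have := h2.mul_left ((Commute.refl b).pow_right 2)
        rwa [inv_mul_cancel_right] at this
    have hBb : B = zpowers b := (Subgroup.eq_of_le_of_card_ge (zpowers_le.2 hbB)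
      (by rw [Nat.card_zpowers, hbo, card_of_index (m := 2) hm hBi]; norm_num)).symm
    by_cases hMA : M ≤ A
    · have : M = A := Subgroup.eq_of_le_of_card_ge hMA
        (by rw [hcA, card_of_index (m := 2) hm hMi])
      rw [this]; exact hAc
    obtain ⟨x, hxM, hxA⟩ := SetLike.not_le_iff_exists.1 hMA
    refine isCyclic_of_orderOf_eq_card (⟨x, hxM⟩ : M) ?_
    rw [Subgroup.orderOf_mk, card_of_index (m := 2) hm hMi]
    have hu : x * b⁻¹ ∈ A := by
      rw [mul_mem_iff_of_index_two hAi, inv_mem_iff]; simp [hxA, hbA]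
    have hx2 : x ^ 2 ≠ 1 := by
      intro h
      set u := x * b⁻¹ with hudef
      have hub : u * (b * u * b⁻¹) * b ^ 2 = 1 := by
        rw [← h, hudef, pow_two, pow_two]; group
      haveI hAn : A.Normal := normal_of_index_eq_two hAi
      have hconj : b * u * b⁻¹ = u⁻¹ ∨ (u * u = 1 ∧ b * u * b⁻¹ = u) := by
        obtain ⟨i, hi, hiu⟩ : ∃ i < 4, a ^ i = u := by
          obtain ⟨i, hi⟩ := mem_powers_iff_mem_zpowers.2 (ha.symm ▸ hu : u ∈ zpowers a)
          exact ⟨i % 4, Nat.mod_lt _ (by norm_num), by
            rw [show (4 : ℕ) = orderOf a by rw [hao]; norm_num, pow_mod_orderOf]; exact hi⟩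
        have ha4 : a ^ 4 = 1 := orderOf_dvd_iff_pow_eq_one.1 (by rw [hao]; norm_num)
        have hba : b * a * b⁻¹ = a⁻¹ := by
          obtain ⟨l, hl, hla⟩ : ∃ l < 4, a ^ l = b * a * b⁻¹ := by
            obtain ⟨l, hl⟩ := mem_powers_iff_mem_zpowers.2
              (ha.symm ▸ hAn.conj_mem a haA b : b * a * b⁻¹ ∈ zpowers a)
            exact ⟨l % 4, Nat.mod_lt _ (by norm_num), by
              rw [show (4 : ℕ) = orderOf a by rw [hao]; norm_num, pow_mod_orderOf]; exact hl⟩
          have hlo : orderOf (a ^ l) = 4 := by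
            rw [hla, show b * a * b⁻¹ = MulAut.conj b a from rfl, MulEquiv.orderOf_eq, hao]
            norm_num
          have ha4' : orderOf a = 4 := by rw [hao]; norm_num
          interval_cases l
          · simp at hlo
          · exfalso
            rw [pow_one] at hla
            have hbc : Commute b a := mul_inv_eq_iff_eq_mul.1 hla.symm
            apply hna
            refine ⟨⟨fun y w => ?_⟩⟩
            have hcen : a ∈ center G := mem_center_iff.2 fun y => by
              rcases hz y with h | h | h
              · exact hcommA y h a haA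
              · obtain ⟨j, rfl⟩ := mem_zpowers_iff.1 (hBb ▸ h : y ∈ zpowers b)
                exact (hbc.zpow_left j).eq
              · have h2 : Commute (y * b⁻¹) a := hcommA _ h a haA
                have := h2.mul_left hbc
                rwa [inv_mul_cancel_right] at this
            have := Subgroup.card_le_of_le (zpowers_le.2 hcen)
            rw [Nat.card_zpowers, ha4', hZ] at this
            omega
          · rw [orderOf_pow' a (by norm_num), ha4'] at hlo; norm_num at hlo
          · rw [← hla, eq_inv_iff_mul_eq_one, ← pow_succ, ha4]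
        left
        rw [← hiu, ← conj_pow, hba, inv_pow]
      rcases hconj with h1 | ⟨h0, h1⟩
      · rw [h1, mul_inv_cancel, one_mul, hb2] at hub
        exact ha2 hub
      · rw [h1, h0, one_mul, hb2] at hub
        exact ha2 hub
    rw [show (2 : ℕ) ^ 2 = 2 ^ (1 + 1) from rfl]
    refine orderOf_eq_prime_pow (by simpa using hx2) ?_
    have h8 : x ^ 2 ∈ A := frattini_le_of_index hG hAi (H24.pow_mem_frattini hG x)
    have hx4 : orderOf x ∣ 4 := by
      have := card_of_index (m := 2) hm hMi
      exact (Subgroup.orderOf_dvd_natCard M hxM).trans (dvd_of_eq (this.trans (by norm_num)))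
    exact orderOf_dvd_iff_pow_eq_one.1 (hx4.trans (by norm_num))

/-- In a `2`-group that is not of maximal class, the maximal subgroups of maximal class: four of
seven, and then none is cyclic. -/
theorem maximal_class_count [Fact (Nat.Prime 2)] {m : ℕ} (hm : Nat.card G = 2 ^ (m + 4))
    (hreg : (commutator G).index ≠ 4) (hex : ∃ M : Subgroup G, M.index = 2 ∧ (⁅M, M⁆).relIndex M = 4) :
    (∀ M : Subgroup G, M.index = 2 → ¬ IsCyclic M) ∧
      ∃ Z : Subgroup G, frattini G ≤ Z ∧ Z.index = 4 ∧ (frattini G).index = 8 ∧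
        ∀ M : Subgroup G, M.index = 2 → ((⁅M, M⁆).relIndex M = 4 ↔ ¬ Z ≤ M) := by
  classical
  have hG : IsPGroup 2 G := IsPGroup.of_card hm
  obtain ⟨M, hMi, hM4⟩ := hex
  haveI hMn : M.Normal := normal_of_index_eq_two hMi
  have hcard : ∀ L : Subgroup G, L.index = 2 → Nat.card L = 2 ^ (m + 3) := fun L hL =>
    card_of_index (m := m + 3) hm hL
  have hM'le : ⁅M, M⁆ ≤ M :=
    commutator_le.2 fun u hu v hv => mul_mem (mul_mem (mul_mem hu hv) (inv_mem hu)) (inv_mem hv)
  have hM'idx : (⁅M, M⁆).index = 8 := by rw [← relIndex_mul_index hM'le, hM4, hMi]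
  have hna : ¬ IsMulCommutative G := fun h => by
    have hbot : ⁅M, M⁆ = ⊥ := by
      rw [eq_bot_iff, commutator_le]
      intro u _ v _
      rw [mem_bot, commutatorElement_eq_one_iff_mul_comm]
      exact h.is_comm.comm u v
    rw [hbot, index_bot, hm] at hM'idx
    have : 2 ^ 4 ≤ 2 ^ (m + 4) := Nat.pow_le_pow_right two_pos (by omega)
    omega
  have hM'G : ⁅M, M⁆ ≤ commutator G := by
    rw [_root_.commutator_def]; exact commutator_mono le_top le_top
  have hG'M : commutator G = ⁅M, M⁆ := by
    refine (Subgroup.eq_of_le_of_card_ge hM'G ?_).symm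
    obtain ⟨t, ht⟩ := hG.index (commutator G)
    have h1 := H24.sq_le_index_commutator hG hna
    rw [ht, Nat.pow_le_pow_iff_right one_lt_two] at h1
    have h2 : t ≠ 2 := fun h => hreg (by rw [ht, h]; norm_num)
    have h3 : 8 ≤ (commutator G).index := by
      rw [ht]; exact le_trans (by norm_num) (Nat.pow_le_pow_right two_pos (show 3 ≤ t by omega))
    have a := (commutator G).card_mul_index
    have b := (⁅M, M⁆).card_mul_index
    rw [hM'idx] at b
    have : Nat.card (commutator G) * 8 ≤ Nat.card (⁅M, M⁆ : Subgroup G) * 8 := by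
      rw [b, ← a]; exact Nat.mul_le_mul_left _ h3
    omega
  set D := commutator G with hD
  set K := ⁅D, (⊤ : Subgroup G)⁆ with hK
  haveI : D.Normal := inferInstance
  have hDne : D ≠ ⊥ := fun h => hna (commutator_eq_bot_iff (G := G) |>.1 h)
  haveI hKn : K.Normal := commutator_normal _ _
  have hKD : K ≤ D := commutator_le_left _ _
  have hDK : ¬ D ≤ K := fun h => by
    have heq : D = K := le_antisymm h hKD
    -- descend to a maximal proper `G`-subgroup of `D`
    obtain ⟨L, hL⟩ := Set.Finite.exists_maximal (s := {L : Subgroup G | L.Normal ∧ L < D})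
      (Set.toFinite _) ⟨⊥, inferInstance, bot_lt_iff_ne_bot.2 hDne⟩
    haveI := hL.1.1
    obtain ⟨L', hL'n, hLL', hL'D, hL'c, hcomm⟩ := H24.exists_normal_between hG hL.1.2.le hL.1.2.ne
    have hL'eq : L' = D := by
      rcases hL'D.lt_or_eq with h' | h'
      · exfalso
        have := le_antisymm hLL' (hL.2 ⟨hL'n, h'⟩ hLL')
        rw [← this] at hL'c
        have : 0 < Nat.card L := Nat.card_pos
        omega
      · exact h'
    rw [hL'eq, commutator_comm] at hcomm
    exact hL.1.2.not_ge (heq.le.trans hcomm)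
  have hKD4 : ∀ g : G, ∀ u ∈ D, ⁅u, g⁆ ∈ K := fun g u hu => commutator_mem_commutator hu (mem_top g)
  set π := QuotientGroup.mk' K with hπ
  have hcentral : ∀ u ∈ D, π u ∈ center (G ⧸ K) := fun u hu => mem_center_iff.2 fun q => by
    obtain ⟨g, rfl⟩ := QuotientGroup.mk'_surjective K q
    refine (commutatorElement_eq_one_iff_mul_comm.1 ?_).symm
    rw [← map_commutatorElement, hπ, QuotientGroup.mk'_apply, QuotientGroup.eq_one_iff]
    exact hKD4 g u hu
  have hcb : ∀ u v : G, π ⁅u, v⁆ ∈ center (G ⧸ K) := fun u v => hcentral _ (by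
    rw [hD, _root_.commutator_def]; exact commutator_mem_commutator (mem_top _) (mem_top _))
  -- bilinearity
  have hbl : ∀ u v w : G, π ⁅u * v, w⁆ = π ⁅u, w⁆ * π ⁅v, w⁆ := fun u v w => by
    have h1 : π ⁅u * v, w⁆ = π u * π ⁅v, w⁆ * (π u)⁻¹ * π ⁅u, w⁆ := by
      rw [← map_inv, ← map_mul, ← map_mul, ← map_mul]
      congr 1
      simp only [commutatorElement_def]; group
    rw [h1, mem_center_iff.1 (hcb v w) (π u), mul_inv_cancel_right,
      mem_center_iff.1 (hcb v w) (π ⁅u, w⁆)]
  have hbr : ∀ u v w : G, π ⁅w, u * v⁆ = π ⁅w, u⁆ * π ⁅w, v⁆ := fun u v w => by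
    rw [← commutatorElement_inv (u * v) w, ← commutatorElement_inv u w, ← commutatorElement_inv v w,
      map_inv, map_inv, map_inv, hbl, mul_inv_rev, mem_center_iff.1 (inv_mem (hcb u w)) _]
  have hDker : ∀ u ∈ D, ∀ v : G, π ⁅u, v⁆ = 1 := fun u hu v => by
    rw [hπ, QuotientGroup.mk'_apply, QuotientGroup.eq_one_iff]; exact hKD4 v u hu
  have hgoodM : ∀ L : Subgroup G, L.index = 2 →
      ((⁅L, L⁆).relIndex L = 4 ↔ ∃ u ∈ L, ∃ v ∈ L, π ⁅u, v⁆ ≠ 1) := by
    intro L hL
    haveI : L.Normal := normal_of_index_eq_two hL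
    have hLle : ⁅L, L⁆ ≤ L :=
      commutator_le.2 fun u hu v hv => mul_mem (mul_mem (mul_mem hu hv) (inv_mem hu)) (inv_mem hv)
    have hLD : ⁅L, L⁆ ≤ D := by rw [hD, _root_.commutator_def]; exact commutator_mono le_top le_top
    have hDidx : D.index = 8 := by rw [hG'M, hM'idx]
    constructor
    · intro h4
      by_contra hcon
      push Not at hcon
      apply hDK
      have hLD' : ⁅L, L⁆ = D := by
        refine Subgroup.eq_of_le_of_card_ge hLD ?_
        have a := (⁅L, L⁆).card_mul_index
        have b := D.card_mul_index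
        rw [← relIndex_mul_index hLle, h4, hL] at a
        rw [hDidx] at b
        omega
      rw [← hLD', commutator_le]
      intro u hu v hv
      have := hcon u hu v hv
      rwa [hπ, QuotientGroup.mk'_apply, QuotientGroup.eq_one_iff] at this
    · rintro ⟨u, hu, v, hv, huv⟩
      have hLD' : ⁅L, L⁆ = D := by
        haveI : (⁅L, L⁆).Normal := commutator_normal L L
        refine le_antisymm hLD ?_
        -- `D = [L,L] K`, then `[L,L] = D`
        by_contra hne
        obtain ⟨N, hN⟩ := Set.Finite.exists_maximal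
          (s := {S : Subgroup G | S.Normal ∧ ⁅L, L⁆ ≤ S ∧ S < D}) (Set.toFinite _)
          ⟨⁅L, L⁆, inferInstance, le_rfl, lt_of_le_not_ge hLD hne⟩
        haveI := hN.1.1
        obtain ⟨N', hN'n, hNN', hN'D, hN'c, hcomm⟩ :=
          H24.exists_normal_between hG hN.1.2.2.le hN.1.2.2.ne
        have hN'eq : N' = D := by
          rcases hN'D.lt_or_eq with h' | h'
          · exfalso
            have := le_antisymm hNN' (hN.2 ⟨hN'n, hN.1.2.1.trans hNN', h'⟩ hNN')
            rw [← this] at hN'c
            have : 0 < Nat.card N := Nat.card_pos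
            omega
          · exact h'
        rw [hN'eq, commutator_comm] at hcomm
        -- `K < D` with index two, and `⁅u, v⁆ ∉ K`
        have hKN : K ≤ N := hcomm
        have hNc : Nat.card D = 2 * Nat.card N := hN'eq ▸ hN'c
        have hK2 : Nat.card D ≤ 2 * Nat.card K := by
          -- `M` is two-generated modulo `D`, so `D / K` is generated by one involution
          obtain ⟨x, hx, y, hy, hxy⟩ : ∃ x ∈ M, ∃ y ∈ M, π ⁅x, y⁆ ≠ 1 := by
            by_contra hcon
            push Not at hcon
            apply hDK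
            rw [hG'M, commutator_le]
            intro x hx y hy
            have := hcon x hx y hy
            rwa [hπ, QuotientGroup.mk'_apply, QuotientGroup.eq_one_iff] at this
          have hsq : ∀ g ∈ M, g * g ∈ D := by
            intro g hg
            haveI : ((⁅M, M⁆).subgroupOf M).Normal := inferInstance
            have hq : Nat.card (M ⧸ (⁅M, M⁆).subgroupOf M) = 4 := hM4
            have hnc : ¬ IsCyclic (M ⧸ (⁅M, M⁆).subgroupOf M) := fun hc => by
              have hΦ : (⁅M, M⁆).subgroupOf M ≤ frattini M := by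
                refine le_trans ?_ (H24.commutator_le_frattini (hG.to_subgroup M))
                rw [← Subgroup.map_subtype_commutator M, subgroupOf,
                  comap_map_eq_self_of_injective M.subtype_injective]
              have := H24.isCyclic_of_quotient _ hΦ
              haveI : IsMulCommutative M := IsCyclic.isMulCommutative
              exact hxy (by
                rw [show ⁅x, y⁆ = 1 from commutatorElement_eq_one_iff_mul_comm.2
                  (congrArg Subtype.val (IsMulCommutative.is_comm.comm (⟨x, hx⟩ : M) ⟨y, hy⟩)),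
                  map_one])
            have h2 : (QuotientGroup.mk' ((⁅M, M⁆).subgroupOf M) ⟨g, hg⟩) ^ 2 = 1 := by
              set q := QuotientGroup.mk' ((⁅M, M⁆).subgroupOf M) ⟨g, hg⟩
              by_contra hne2
              exact hnc (isCyclic_of_orderOf_eq_card q (by
                rw [hq]
                have hd : orderOf q ∣ 2 ^ (1 + 1) := (orderOf_dvd_natCard q).trans (by rw [hq]; norm_num)
                exact (orderOf_eq_prime_pow (p := 2) (n := 1) (by simpa using hne2)
                  (orderOf_dvd_iff_pow_eq_one.1 hd)).trans (by norm_num)))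
            rw [pow_two, ← map_mul, QuotientGroup.mk'_apply, QuotientGroup.eq_one_iff] at h2
            rw [hG'M]
            exact h2
          set c := π ⁅x, y⁆ with hc
          have hc2 : c * c = 1 := by rw [hc, ← hbl, hDker _ (hsq x hx) y]
          -- all commutators of `M` are `1` or `c`
          have hxD : x ∉ D := fun h => hxy (hDker x h y)
          have hyD : y ∉ D := fun h => hxy (by
            rw [hc, ← commutatorElement_inv y x, map_inv, hDker y h x, inv_one])
          have hxyD : x⁻¹ * y ∉ D := fun h => hxy (by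
            rw [hc, show y = x * (x⁻¹ * y) by group, hbr, commutatorElement_self, map_one, one_mul,
              ← commutatorElement_inv (x⁻¹ * y) x, map_inv, hDker _ h x, inv_one])
          have hM4elem : ∀ g ∈ M, g ∈ D ∨ x⁻¹ * g ∈ D ∨ y⁻¹ * g ∈ D ∨ (x * y)⁻¹ * g ∈ D := by
            intro g hg
            by_contra hcon
            push Not at hcon
            haveI : Fintype (M ⧸ D.subgroupOf M) := Fintype.ofFinite _
            have hq : Fintype.card (M ⧸ D.subgroupOf M) = 4 := by
              rw [← Nat.card_eq_fintype_card, hG'M]; exact hM4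
            let mk : M → M ⧸ D.subgroupOf M := fun w => (w : M ⧸ D.subgroupOf M)
            have hne : ∀ w w' : M, (w : G)⁻¹ * w' ∉ D → mk w ≠ mk w' := fun w w' h he =>
              h (show (w : G)⁻¹ * w' ∈ D from (QuotientGroup.eq (s := D.subgroupOf M) (a := w) (b := w')).1 he)
            have hxyD' : x * y ∉ D := fun h => hxyD (by
              have := mul_mem (inv_mem (hsq x hx)) h
              rwa [show (x * x)⁻¹ * (x * y) = x⁻¹ * y by group] at this)
            have h5 := Finset.card_le_univ ({mk 1, mk ⟨x, hx⟩, mk ⟨y, hy⟩,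
              mk ⟨x * y, mul_mem hx hy⟩, mk ⟨g, hg⟩} : Finset (M ⧸ D.subgroupOf M))
            rw [hq, Finset.card_insert_of_notMem, Finset.card_insert_of_notMem,
              Finset.card_insert_of_notMem, Finset.card_insert_of_notMem, Finset.card_singleton] at h5
            · omega
            · simp only [Finset.mem_singleton]
              exact hne _ _ hcon.2.2.2
            · simp only [Finset.mem_insert, Finset.mem_singleton, not_or]
              refine ⟨hne _ _ ?_, hne _ _ hcon.2.2.1⟩
              show y⁻¹ * (x * y) ∉ D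
              intro h
              have := Normal.conj_mem inferInstance _ h y
              exact hxD (by rwa [show y * (y⁻¹ * (x * y)) * y⁻¹ = x by group] at this)
            · simp only [Finset.mem_insert, Finset.mem_singleton, not_or]
              refine ⟨hne _ _ hxyD, hne _ _ ?_, hne _ _ hcon.2.1⟩
              show x⁻¹ * (x * y) ∉ D
              rwa [inv_mul_cancel_left]
            · simp only [Finset.mem_insert, Finset.mem_singleton, not_or]
              refine ⟨hne _ _ ?_, hne _ _ ?_, hne _ _ ?_, hne _ _ ?_⟩ <;>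
                simp only [OneMemClass.coe_one, inv_one, one_mul]
              exacts [hxD, hyD, hxyD', hcon.1]
          have hval : ∀ g ∈ M, ∀ h ∈ M, π ⁅g, h⁆ = 1 ∨ π ⁅g, h⁆ = c := by
            have hshift : ∀ s w, s⁻¹ * w ∈ D → ∀ r, π ⁅w, r⁆ = π ⁅s, r⁆ ∧ π ⁅r, w⁆ = π ⁅r, s⁆ := by
              intro s w hw r
              have e : w = s * (s⁻¹ * w) := by group
              constructor
              · rw [e, hbl, hDker _ hw r, mul_one]
              · rw [e, hbr, ← commutatorElement_inv (s⁻¹ * w) r, map_inv, hDker _ hw r, inv_one,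
                  mul_one]
            have hcinv : c⁻¹ = c := inv_eq_of_mul_eq_one_right hc2
            have hyx : π ⁅y, x⁆ = c := by rw [← commutatorElement_inv x y, map_inv, ← hc, hcinv]
            have rep : ∀ g ∈ M, ∃ s ∈ ({1, x, y, x * y} : Set G), s⁻¹ * g ∈ D := by
              intro g hg
              rcases hM4elem g hg with h | h | h | h
              · exact ⟨1, by simp, by simpa using h⟩
              · exact ⟨x, by simp, h⟩
              · exact ⟨y, by simp, h⟩
              · exact ⟨x * y, by simp, h⟩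
            intro g hg h hh
            obtain ⟨s, hs, hsg⟩ := rep g hg
            obtain ⟨r, hr, hrh⟩ := rep h hh
            rw [(hshift s g hsg h).1, (hshift r h hrh s).2]
            simp only [Set.mem_insert_iff, Set.mem_singleton_iff] at hs hr
            rcases hs with rfl | rfl | rfl | rfl <;> rcases hr with rfl | rfl | rfl | rfl <;>
              simp [hbl, hbr, ← hc, hyx, hc2]
          have hmap : D.map π ≤ zpowers c := by
            rw [hG'M, map_commutator, commutator_le]
            rintro _ ⟨g, hg, rfl⟩ _ ⟨h, hh, rfl⟩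
            rw [← map_commutatorElement]
            rcases hval g hg h hh with h' | h' <;> rw [h']
            exacts [one_mem _, mem_zpowers c]
          have hcard2 : Nat.card (D.map π) ≤ 2 := by
            refine (Subgroup.card_le_of_le hmap).trans ?_
            rw [Nat.card_zpowers]
            exact Nat.le_of_dvd two_pos (orderOf_dvd_of_pow_eq_one ((pow_two c).trans hc2))
          have e : Nat.card D = Nat.card K * Nat.card (D.map π) := by
            have h1 : K.relIndex D = Nat.card (D.map π) := by
              conv_lhs => rw [← QuotientGroup.ker_mk' K]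
              rw [relIndex_ker]
            rw [← h1, relIndex, ← Nat.card_congr (subgroupOfEquivOfLe hKD).toEquiv, card_mul_index]
          rw [e, mul_comm 2]
          exact Nat.mul_le_mul_left _ hcard2
        have hKeq : K = N := Subgroup.eq_of_le_of_card_ge hKN (by omega)
        exact huv (by
          rw [hπ, QuotientGroup.mk'_apply, QuotientGroup.eq_one_iff, hKeq]
          exact hN.1.2.1 (commutator_mem_commutator hu hv))
      have a := D.card_mul_index
      rw [hDidx, hm] at a
      have b : Nat.card D * (⁅L, L⁆).relIndex L = 2 ^ (m + 3) := by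
        rw [← hcard L hL, ← hLD', relIndex, ← Nat.card_congr (subgroupOfEquivOfLe hLle).toEquiv,
          card_mul_index]
      rw [pow_succ 2 (m + 3), ← b] at a
      have : 0 < Nat.card D := Nat.card_pos
      nlinarith
  obtain ⟨x, hx, y, hy, hxy⟩ := (hgoodM M hMi).1 hM4
  have hsqD : ∀ g : G, g * g ∈ D := by
    intro g
    by_contra hgg
    have hgM : g * g ∈ M := mul_self_mem_of_index_two hMi g
    have hc2 : ∀ w, π ⁅g * g, w⁆ = π ⁅g, w * w⁆ := fun w => by rw [hbl, hbr]
    -- modulo `K` the element `g * g` commutes with `M`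
    have hww : ∀ w ∈ M, w * w ∈ D := by
      intro w hw
      haveI : ((⁅M, M⁆).subgroupOf M).Normal := inferInstance
      have hq : Nat.card (M ⧸ (⁅M, M⁆).subgroupOf M) = 4 := hM4
      have hnc : ¬ IsCyclic (M ⧸ (⁅M, M⁆).subgroupOf M) := fun hc => by
        have hΦ : (⁅M, M⁆).subgroupOf M ≤ frattini M := by
          refine le_trans ?_ (H24.commutator_le_frattini (hG.to_subgroup M))
          rw [← Subgroup.map_subtype_commutator M, subgroupOf,
            comap_map_eq_self_of_injective M.subtype_injective]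
        have := H24.isCyclic_of_quotient _ hΦ
        haveI : IsMulCommutative M := IsCyclic.isMulCommutative
        exact hxy (by
          rw [show ⁅x, y⁆ = 1 from commutatorElement_eq_one_iff_mul_comm.2
            (congrArg Subtype.val (IsMulCommutative.is_comm.comm (⟨x, hx⟩ : M) ⟨y, hy⟩)),
            map_one])
      have h2 : (QuotientGroup.mk' ((⁅M, M⁆).subgroupOf M) ⟨w, hw⟩) ^ 2 = 1 := by
        set q := QuotientGroup.mk' ((⁅M, M⁆).subgroupOf M) ⟨w, hw⟩
        by_contra hne2
        exact hnc (isCyclic_of_orderOf_eq_card q (by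
          rw [hq]
          have hd : orderOf q ∣ 2 ^ (1 + 1) := (orderOf_dvd_natCard q).trans (by rw [hq]; norm_num)
          exact (orderOf_eq_prime_pow (p := 2) (n := 1) (by simpa using hne2)
            (orderOf_dvd_iff_pow_eq_one.1 hd)).trans (by norm_num)))
      rw [pow_two, ← map_mul, QuotientGroup.mk'_apply, QuotientGroup.eq_one_iff] at h2
      rw [hG'M]
      exact h2
    have hcommM : ∀ w ∈ M, π ⁅g * g, w⁆ = 1 := fun w hw => by
      rw [hc2, ← commutatorElement_inv (w * w) g, map_inv, hDker _ (hww w hw) g, inv_one]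
    -- `{g*g, z} D` is all of `M`
    obtain ⟨z, hz, hzg⟩ : ∃ z ∈ M, z ∉ D ⊔ zpowers (g * g) := by
      by_contra hcon
      push Not at hcon
      have hle : M ≤ D ⊔ zpowers (g * g) := hcon
      apply hxy
      have hD1 : ∀ w ∈ D ⊔ zpowers (g * g), π w ∈ centralizer ({π x} : Set (G ⧸ K)) := by
        intro w hw
        have : D ⊔ zpowers (g * g) ≤ (centralizer ({π x} : Set (G ⧸ K))).comap π := by
          refine sup_le (fun u hu => ?_) (zpowers_le.2 ?_)
          · rw [mem_comap, mem_centralizer_singleton_iff]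
            exact (mem_center_iff.1 (hcentral u hu) (π x)).symm
          · rw [mem_comap, mem_centralizer_singleton_iff]
            refine commutatorElement_eq_one_iff_mul_comm.1 ?_
            rw [← map_commutatorElement]
            exact hcommM x hx
        exact this hw
      have := mem_centralizer_singleton_iff.1 (hD1 y (hle hy))
      rw [map_commutatorElement, commutatorElement_eq_one_iff_mul_comm]
      exact this.symm
    have htop : D ⊔ zpowers (g * g) ⊔ zpowers z = M := by
      refine Subgroup.eq_of_le_of_card_ge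
        (sup_le (sup_le (hG'M ▸ hM'le) (zpowers_le.2 hgM)) (zpowers_le.2 hz)) ?_
      have h1 : D < D ⊔ zpowers (g * g) :=
        lt_of_le_of_ne le_sup_left fun h => hgg (h.symm ▸ mem_sup_right (mem_zpowers _))
      have h2 : D ⊔ zpowers (g * g) < D ⊔ zpowers (g * g) ⊔ zpowers z :=
        lt_of_le_of_ne le_sup_left fun h => hzg (h.symm ▸ mem_sup_right (mem_zpowers _))
      have i1 := index_dvd_of_le h1.le
      have i2 := index_dvd_of_le h2.le
      obtain ⟨d0, e0⟩ := hG.index D
      obtain ⟨d1, e1⟩ := hG.index (D ⊔ zpowers (g * g))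
      obtain ⟨d2, e2⟩ := hG.index (D ⊔ zpowers (g * g) ⊔ zpowers z)
      have l1 := index_strictAnti h1
      have l2 := index_strictAnti h2
      rw [e0, e1] at l1
      rw [e1, e2] at l2
      have hD3 : d0 = 3 := by
        have : (2 : ℕ) ^ d0 = 2 ^ 3 := by rw [← e0, hG'M, hM'idx]; norm_num
        exact Nat.pow_right_injective le_rfl this
      have m1 := (Nat.pow_lt_pow_iff_right one_lt_two).1 l1
      have m2 := (Nat.pow_lt_pow_iff_right one_lt_two).1 l2
      have a := (D ⊔ zpowers (g * g) ⊔ zpowers z).card_mul_index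
      have b := M.card_mul_index
      rw [e2] at a
      rw [hMi] at b
      have hle2 : (2 : ℕ) ^ d2 ≤ 2 ^ 1 := Nat.pow_le_pow_right two_pos (by omega)
      rw [pow_one] at hle2
      have := Nat.mul_le_mul_left (Nat.card (D ⊔ zpowers (g * g) ⊔ zpowers z : Subgroup G)) hle2
      omega
    apply hxy
    have hall : ∀ u ∈ M, ∀ v ∈ M, π ⁅u, v⁆ = 1 := by
      have hle : M ≤ (center (G ⧸ K) ⊔ zpowers (π (g * g)) ⊔ zpowers (π z)).comap π := by
        rw [← htop]
        refine sup_le (sup_le (fun u hu => ?_) (zpowers_le.2 ?_)) (zpowers_le.2 ?_)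
        · exact mem_sup_left (mem_sup_left (hcentral u hu))
        · exact mem_sup_left (mem_sup_right (mem_zpowers _))
        · exact mem_sup_right (mem_zpowers _)
      have hgz : Commute (π (g * g)) (π z) := commutatorElement_eq_one_iff_mul_comm.1 (by
        rw [← map_commutatorElement]; exact hcommM z hz)
      have hab : IsMulCommutative (center (G ⧸ K) ⊔ zpowers (π (g * g)) ⊔ zpowers (π z) : Subgroup _) := by
        refine H24.isMulCommutative_sup_zpowers (H24.isMulCommutative_sup_zpowers inferInstance ?_) ?_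
        · rw [mem_centralizer_iff]
          intro w hw
          exact (mem_center_iff.1 hw _).symm
        · have hle' : center (G ⧸ K) ⊔ zpowers (π (g * g)) ≤ centralizer ({π z} : Set (G ⧸ K)) :=
            sup_le (fun w hw => mem_centralizer_singleton_iff.2 (mem_center_iff.1 hw (π z)).symm)
              (zpowers_le.2 (mem_centralizer_singleton_iff.2 hgz.eq))
          rw [mem_centralizer_iff]
          exact fun w hw => mem_centralizer_singleton_iff.1 (hle' hw)
      intro u hu v hv
      rw [map_commutatorElement, commutatorElement_eq_one_iff_mul_comm]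
      exact congrArg Subtype.val (hab.is_comm.comm ⟨_, hle hu⟩ ⟨_, hle hv⟩)
    exact hall x hx y hy
  have hΦ : frattini G = D := le_antisymm
    (H24.frattini_le_of (p := 2) D le_rfl fun g => by rw [pow_two]; exact hsqD g)
    (H24.commutator_le_frattini hG)
  have hD8 : D.index = 8 := by rw [hG'M, hM'idx]
  set Z := (center (G ⧸ K)).comap π with hZ
  have hDZ : D ≤ Z := fun u hu => hcentral u hu
  have hcenZ : ∀ z, z ∈ Z ↔ ∀ w, π ⁅z, w⁆ = 1 := by
    intro z
    rw [hZ, mem_comap, mem_center_iff]
    constructor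
    · intro h w
      rw [map_commutatorElement, commutatorElement_eq_one_iff_mul_comm]
      exact (h (π w)).symm
    · intro h q
      obtain ⟨w, rfl⟩ := QuotientGroup.mk'_surjective K q
      have := h w
      rw [map_commutatorElement, commutatorElement_eq_one_iff_mul_comm] at this
      exact this.symm
  -- the commutator form takes two values
  set c := π ⁅x, y⁆ with hc
  have hc2 : c * c = 1 := by rw [hc, ← hbl, hDker _ (hsqD x) y]
  have hgen : ∀ g ∈ M, g ∈ D ⊔ zpowers x ⊔ zpowers y := by
    intro g hg
    have hle : D ⊔ zpowers x ⊔ zpowers y ≤ M :=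
      sup_le (sup_le (hG'M ▸ hM'le) (zpowers_le.2 hx)) (zpowers_le.2 hy)
    have hxD : x ∉ D := fun h => hxy (hDker x h y)
    have hyDx : y ∉ D ⊔ zpowers x := fun h => by
      have hsub : D ⊔ zpowers x ≤ (centralizer ({π x} : Set (G ⧸ K))).comap π := by
        refine sup_le (fun u hu => ?_) (zpowers_le.2 ?_) <;> rw [mem_comap, mem_centralizer_singleton_iff]
        exact (mem_center_iff.1 (hcentral u hu) (π x)).symm
      apply hxy
      rw [hc, map_commutatorElement, commutatorElement_eq_one_iff_mul_comm]
      exact (mem_centralizer_singleton_iff.1 (hsub h)).symm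
    have h1 : D < D ⊔ zpowers x :=
      lt_of_le_of_ne le_sup_left fun h => hxD (h.symm ▸ mem_sup_right (mem_zpowers _))
    have h2 : D ⊔ zpowers x < D ⊔ zpowers x ⊔ zpowers y :=
      lt_of_le_of_ne le_sup_left fun h => hyDx (h.symm ▸ mem_sup_right (mem_zpowers _))
    obtain ⟨d1, e1⟩ := hG.index (D ⊔ zpowers x)
    obtain ⟨d2, e2⟩ := hG.index (D ⊔ zpowers x ⊔ zpowers y)
    have l1 := index_strictAnti h1
    have l2 := index_strictAnti h2
    rw [hD8, e1, show (8 : ℕ) = 2 ^ 3 from rfl] at l1
    rw [e1, e2] at l2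
    have m1 := (Nat.pow_lt_pow_iff_right one_lt_two).1 l1
    have m2 := (Nat.pow_lt_pow_iff_right one_lt_two).1 l2
    have : D ⊔ zpowers x ⊔ zpowers y = M := by
      refine Subgroup.eq_of_le_of_card_ge hle ?_
      have a := (D ⊔ zpowers x ⊔ zpowers y).card_mul_index
      have b := M.card_mul_index
      rw [e2] at a
      rw [hMi] at b
      have hle2 : (2 : ℕ) ^ d2 ≤ 2 ^ 1 := Nat.pow_le_pow_right two_pos (by omega)
      rw [pow_one] at hle2
      have := Nat.mul_le_mul_left (Nat.card (D ⊔ zpowers x ⊔ zpowers y : Subgroup G)) hle2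
      omega
    rwa [this]
  have hval : ∀ g : G, ∀ w ∈ ({x, y} : Set G), π ⁅g, w⁆ = 1 ∨ π ⁅g, w⁆ = c := by
    intro g w _
    have hmem : π ⁅g, w⁆ ∈ zpowers c := by
      have hDimg : D.map π ≤ zpowers c := by
        rw [hG'M, map_commutator, commutator_le]
        rintro _ ⟨u, hu, rfl⟩ _ ⟨v, hv, rfl⟩
        have key : ∀ u ∈ M, ∀ v ∈ ({x, y} : Set G), π ⁅u, v⁆ ∈ zpowers c := by
          intro u hu v hv
          have hsub : D ⊔ zpowers x ⊔ zpowers y ≤
              { carrier := {r | π ⁅r, v⁆ ∈ zpowers c}
                one_mem' := by simp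
                mul_mem' := fun {r s} hr hs => by
                  show π ⁅r * s, v⁆ ∈ zpowers c
                  rw [hbl]; exact mul_mem hr hs
                inv_mem' := fun {r} hr => by
                  show π ⁅r⁻¹, v⁆ ∈ zpowers c
                  have h1 := hbl r⁻¹ r v
                  rw [inv_mul_cancel, commutatorElement_one_left, map_one] at h1
                  rw [eq_inv_of_mul_eq_one_left h1.symm]
                  exact inv_mem hr } := by
            refine sup_le (sup_le (fun r hr => ?_) (zpowers_le.2 ?_)) (zpowers_le.2 ?_)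
            · show π ⁅r, v⁆ ∈ zpowers c
              rw [hDker r hr v]; exact one_mem _
            · show π ⁅x, v⁆ ∈ zpowers c
              rcases hv with rfl | rfl
              · simp
              · exact mem_zpowers c
            · show π ⁅y, v⁆ ∈ zpowers c
              rcases hv with rfl | rfl
              · rw [← commutatorElement_inv v y, map_inv]; exact inv_mem (mem_zpowers c)
              · simp
          exact hsub (hgen u hu)
        rw [← map_commutatorElement]
        have hsub : D ⊔ zpowers x ⊔ zpowers y ≤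
            { carrier := {r | π ⁅u, r⁆ ∈ zpowers c}
              one_mem' := by simp
              mul_mem' := fun {r s} hr hs => by
                show π ⁅u, r * s⁆ ∈ zpowers c
                rw [hbr]; exact mul_mem hr hs
              inv_mem' := fun {r} hr => by
                show π ⁅u, r⁻¹⁆ ∈ zpowers c
                have h1 := hbr r⁻¹ r u
                rw [inv_mul_cancel, commutatorElement_one_right, map_one] at h1
                rw [eq_inv_of_mul_eq_one_left h1.symm]
                exact inv_mem hr } := by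
          refine sup_le (sup_le (fun r hr => ?_) (zpowers_le.2 ?_)) (zpowers_le.2 ?_)
          · show π ⁅u, r⁆ ∈ zpowers c
            rw [← commutatorElement_inv r u, map_inv, hDker r hr u, inv_one]; exact one_mem _
          · exact key u hu x (Or.inl rfl)
          · exact key u hu y (Or.inr rfl)
        exact hsub (hgen v hv)
      exact hDimg (mem_map_of_mem π (by
        rw [hD, _root_.commutator_def]; exact commutator_mem_commutator (mem_top _) (mem_top _)))
    obtain ⟨i, hi⟩ := mem_zpowers_iff.1 hmem
    rw [← hi]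
    rcases Int.even_or_odd' i with ⟨t, rfl | rfl⟩
    · left; rw [zpow_mul, zpow_two, hc2, one_zpow]
    · right; rw [zpow_add, zpow_mul, zpow_two, hc2, one_zpow, one_mul, zpow_one]
  -- an element of `Z` outside `M`
  obtain ⟨g, hgM⟩ : ∃ g, g ∉ M := by
    by_contra hcon
    push Not at hcon
    rw [show M = ⊤ from eq_top_iff.2 fun w _ => hcon w, index_top] at hMi
    omega
  have hcases : ∀ w : G, π ⁅w, x⁆ = 1 → π ⁅w, y⁆ = 1 → π ⁅w, g⁆ = 1 → w ∈ Z := by
    intro w h1 h2 h3
    rw [hcenZ]
    intro v
    let S : Subgroup G :=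
      { carrier := {v | π ⁅w, v⁆ = 1}
        one_mem' := by simp
        mul_mem' := fun {r s} hr hs => by
          show π ⁅w, r * s⁆ = 1
          rw [hbr, show π ⁅w, r⁆ = 1 from hr, show π ⁅w, s⁆ = 1 from hs, one_mul]
        inv_mem' := fun {r} hr => by
          show π ⁅w, r⁻¹⁆ = 1
          have h1 := hbr r⁻¹ r w
          rw [inv_mul_cancel, commutatorElement_one_right, map_one,
            show π ⁅w, r⁆ = 1 from hr, mul_one] at h1
          exact h1.symm }
    have hMS : M ≤ S := fun r hr => by
      have hsub : D ⊔ zpowers x ⊔ zpowers y ≤ S :=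
        sup_le (sup_le (fun r hr => show π ⁅w, r⁆ = 1 by
          rw [← commutatorElement_inv r w, map_inv, hDker r hr w, inv_one]) (zpowers_le.2 h1))
          (zpowers_le.2 h2)
      exact hsub (hgen r hr)
    show v ∈ S
    by_cases hv : v ∈ M
    · exact hMS hv
    · have : g⁻¹ * v ∈ M := by
        rw [mul_mem_iff_of_index_two hMi, inv_mem_iff]; simp [hv, hgM]
      simpa using mul_mem (show g ∈ S from h3) (hMS this)
  obtain ⟨z, hzZ, hzM⟩ : ∃ z ∈ Z, z ∉ M := by
    have hyx : π ⁅y, x⁆ = c := by
      rw [← commutatorElement_inv x y, map_inv, ← hc, inv_eq_of_mul_eq_one_right hc2]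
    obtain ⟨g1, hg1M, hg1x⟩ : ∃ g1, g1 ∉ M ∧ π ⁅g1, x⁆ = 1 := by
      rcases hval g x (Or.inl rfl) with h | h
      · exact ⟨g, hgM, h⟩
      · refine ⟨g * y, fun h' => hgM ?_, by rw [hbl, h, hyx, hc2]⟩
        simpa using mul_mem h' (inv_mem hy)
    obtain ⟨g2, hg2M, hg2x, hg2y⟩ : ∃ g2, g2 ∉ M ∧ π ⁅g2, x⁆ = 1 ∧ π ⁅g2, y⁆ = 1 := by
      rcases hval g1 y (Or.inr rfl) with h | h
      · exact ⟨g1, hg1M, hg1x, h⟩
      · refine ⟨g1 * x, fun h' => hg1M ?_, by rw [hbl, hg1x, commutatorElement_self, map_one, one_mul],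
          by rw [hbl, h, ← hc, hc2]⟩
        simpa using mul_mem h' (inv_mem hx)
    refine ⟨g2, hcases g2 hg2x hg2y ?_, hg2M⟩
    have hm2 : g2⁻¹ * g ∈ M := by
      rw [mul_mem_iff_of_index_two hMi, inv_mem_iff]; simp [hgM, hg2M]
    have hsub : π ⁅g2, g2⁻¹ * g⁆ = 1 := by
      let S : Subgroup G :=
        { carrier := {v | π ⁅g2, v⁆ = 1}
          one_mem' := by simp
          mul_mem' := fun {r s} hr hs => by
            show π ⁅g2, r * s⁆ = 1
            rw [hbr, show π ⁅g2, r⁆ = 1 from hr, show π ⁅g2, s⁆ = 1 from hs, one_mul]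
          inv_mem' := fun {r} hr => by
            show π ⁅g2, r⁻¹⁆ = 1
            have h1 := hbr r⁻¹ r g2
            rw [inv_mul_cancel, commutatorElement_one_right, map_one,
              show π ⁅g2, r⁆ = 1 from hr, mul_one] at h1
            exact h1.symm }
      have : D ⊔ zpowers x ⊔ zpowers y ≤ S :=
        sup_le (sup_le (fun r hr => show π ⁅g2, r⁆ = 1 by
          rw [← commutatorElement_inv r g2, map_inv, hDker r hr g2, inv_one]) (zpowers_le.2 hg2x))
          (zpowers_le.2 hg2y)
      exact this (hgen _ hm2)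
    have h2 := hbr g2 (g2⁻¹ * g) g2
    rwa [commutatorElement_self, map_one, one_mul, mul_inv_cancel_left, hsub] at h2
  have hZi : Z.index = 4 := by
    have hlt : D < Z := lt_of_le_of_ne hDZ fun h => hzM (hM'le (hG'M ▸ h.symm ▸ hzZ))
    have l1 := index_strictAnti hlt
    obtain ⟨d, e⟩ := hG.index Z
    rw [hD8, e, show (8 : ℕ) = 2 ^ 3 from rfl] at l1
    have m1 := (Nat.pow_lt_pow_iff_right one_lt_two).1 l1
    rw [e]
    have hd2 : 2 ≤ d := by
      by_contra hlt'
      have hq : IsCyclic ((G ⧸ K) ⧸ center (G ⧸ K)) := by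
        refine H24.isCyclic_of_card_pow_le (p := 2) (k := d) ?_ (by omega)
        rw [← index_eq_card, ← index_comap_of_surjective (center (G ⧸ K)) (QuotientGroup.mk'_surjective K)]
        exact e
      have := H24.isMulCommutative_of_cyclic_quotient (G := G ⧸ K) (N := center (G ⧸ K)) le_rfl
      apply hxy
      rw [hc, map_commutatorElement, commutatorElement_eq_one_iff_mul_comm]
      exact this.is_comm.comm _ _
    rw [show d = 2 by omega]; norm_num
  refine ⟨?_, Z, hΦ ▸ hDZ, hZi, hΦ ▸ hD8, fun L hL => ⟨fun h hle => ?_, fun hle => ?_⟩⟩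
  · intro L hL hLc
    obtain ⟨b, hb⟩ := (Subgroup.isCyclic_iff_exists_zpowers_eq_top L).1 hLc
    have hbo : orderOf b = 2 ^ (m + 3) := by rw [← Nat.card_zpowers, hb, hcard L hL]
    have hle : D ≤ L := hΦ ▸ frattini_le_of_index hG hL
    have hDc : Nat.card D = 2 ^ (m + 1) := by
      have := D.card_mul_index
      rw [hD8, hm, show 2 ^ (m + 4) = 2 ^ (m + 1) * 8 by rw [pow_add, pow_add]; ring] at this
      exact Nat.eq_of_mul_eq_mul_right (by norm_num) this
    have h4 := le_zpowers_pow D (hb.symm ▸ hle) (j := 4) (by rw [hbo, hDc, pow_add, pow_add]; ring)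
    obtain ⟨i, hi⟩ := mem_zpowers_iff.1 (h4 (hsqD b))
    have h5 : b ^ ((4 * i : ℤ) - 2) = 1 := by
      rw [zpow_sub, zpow_mul, zpow_two, show (4 : ℤ) = ((4 : ℕ) : ℤ) from rfl, zpow_natCast, hi,
        mul_inv_cancel]
    have h6 := orderOf_dvd_iff_zpow_eq_one.2 h5
    rw [hbo] at h6
    have h7 : ((4 : ℕ) : ℤ) ∣ 4 * i - 2 :=
      dvd_trans (Int.natCast_dvd_natCast.2 (show 4 ∣ 2 ^ (m + 3) from
        ⟨2 ^ (m + 1), by rw [pow_add, pow_add]; ring⟩)) h6
    omega
  · obtain ⟨u, hu, v, hv, huv⟩ := (hgoodM L hL).1 h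
    apply huv
    have hsup : L ≤ (centralizer ({π u} : Set (G ⧸ K))).comap π := by
      intro w hw
      rw [mem_comap, mem_centralizer_singleton_iff]
      -- `L = Z ⊔ ⟨u⟩` or `L = Z`
      by_cases huZ : u ∈ Z
      · exact ((mem_center_iff.1 huZ) (π w)).symm ▸ rfl
      · have heq : Z ⊔ zpowers u = L := by
          refine Subgroup.eq_of_le_of_card_ge (sup_le hle (zpowers_le.2 hu)) ?_
          have hlt : Z < Z ⊔ zpowers u :=
            lt_of_le_of_ne le_sup_left fun h => huZ (h.symm ▸ mem_sup_right (mem_zpowers u))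
          obtain ⟨d, e⟩ := hG.index (Z ⊔ zpowers u)
          have l1 := index_strictAnti hlt
          rw [hZi, e, show (4 : ℕ) = 2 ^ 2 from rfl] at l1
          have m1 := (Nat.pow_lt_pow_iff_right one_lt_two).1 l1
          have a := (Z ⊔ zpowers u).card_mul_index
          have b := L.card_mul_index
          rw [e] at a
          rw [hL] at b
          have hle2 : (2 : ℕ) ^ d ≤ 2 ^ 1 := Nat.pow_le_pow_right two_pos (by omega)
          rw [pow_one] at hle2
          have := Nat.mul_le_mul_left (Nat.card (Z ⊔ zpowers u : Subgroup G)) hle2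
          omega
        have hsub : Z ⊔ zpowers u ≤ (centralizer ({π u} : Set (G ⧸ K))).comap π := by
          refine sup_le (fun r hr => ?_) (zpowers_le.2 ?_) <;> rw [mem_comap, mem_centralizer_singleton_iff]
          exact (mem_center_iff.1 hr (π u)).symm
        exact mem_centralizer_singleton_iff.1 (hsub (heq.symm ▸ hw))
    rw [map_commutatorElement, commutatorElement_eq_one_iff_mul_comm]
    exact (mem_centralizer_singleton_iff.1 (hsup hv)).symm
  · rw [hgoodM L hL]
    by_contra hcon
    push Not at hcon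
    -- an abelian maximal subgroup modulo `K` contains the centre
    obtain ⟨w, hwZ, hwL⟩ := SetLike.not_le_iff_exists.1 hle
    apply hxy
    have hall : ∀ u v : G, π ⁅u, v⁆ = 1 := by
      have hlift : ∀ u, u ∈ L ∨ w⁻¹ * u ∈ L := fun u => by
        by_cases hu : u ∈ L
        · exact Or.inl hu
        · exact Or.inr (by rw [mul_mem_iff_of_index_two hL, inv_mem_iff]; simp [hu, hwL])
      have hw1 : ∀ v, π ⁅w, v⁆ = 1 := (hcenZ w).1 hwZ
      have hred : ∀ u ∈ L, ∀ v, π ⁅u, v⁆ = 1 := by
        intro u hu v
        rcases hlift v with hv | hv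
        · exact hcon u hu v hv
        · rw [show v = w * (w⁻¹ * v) by group, hbr, hcon u hu _ hv, mul_one,
            ← commutatorElement_inv w u, map_inv, hw1, inv_one]
      intro u v
      rcases hlift u with hu | hu
      · exact hred u hu v
      · rw [show u = w * (w⁻¹ * u) by group, hbl, hw1, one_mul, hred _ hu v]
    exact hall x y

end Exceptional

open Classical in
/-- **Kulakoff's theorem**, with the groups of maximal class. -/
theorem kulakoff : ∀ (m : ℕ) (G : Type u) [Group G] [Finite G] (p : ℕ) [Fact p.Prime],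
    Nat.card G = p ^ m → ¬ IsCyclic G → ∀ k, 1 ≤ k → k < m →
    (((p = 2 → 3 ≤ m → (commutator G).index ≠ 4) ∨ k + 1 = m) →
        (Nat.card {H : Subgroup G // Nat.card H = p ^ k} : ZMod (p ^ 2)) = 1 + p) ∧
      (p = 2 → (commutator G).index = 4 → k + 2 ≤ m →
        (Nat.card {H : Subgroup G // Nat.card H = p ^ k} : ZMod (p ^ 2)) = 1) := by
  intro m
  induction m using Nat.strong_induction_on with
  | _ m ih =>
    intro G _ _ p hpf hG hnc k hk1 hk2
    have hp : p.Prime := hpf.out
    have hpg : IsPGroup p G := IsPGroup.of_card hG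
    obtain ⟨d, hd2, hdi⟩ := index_frattini hpg hnc
    have hh : ((ov p (frattini G)).card : ZMod (p ^ 2)) = 1 + p := by
      rw [card_ov_cast hpg le_rfl hdi (by omega), if_pos hd2]
    rcases Nat.lt_or_ge (k + 1) m with hlow | hhigh
    swap
    · obtain rfl : m = k + 1 := by omega
      exact ⟨fun _ => by rw [card_maximal hpg hG, hh], fun _ _ h => absurd h (by omega)⟩
    obtain ⟨j, rfl⟩ : ∃ j, m = j + 3 := ⟨m - 3, by omega⟩
    have hsum := sum_ov hpg hG (show k + 2 ≤ j + 3 by omega) ⟨d, hd2, hdi⟩
    -- values on the maximal subgroups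
    let Exc : Subgroup G → Prop := fun M =>
      IsCyclic M ∨ (p = 2 ∧ k + 3 ≤ j + 3 ∧ (⁅M, M⁆).relIndex M = 4)
    have hval : ∀ M ∈ ov p (frattini G),
        (Nat.card {H : Subgroup M // Nat.card H = p ^ k} : ZMod (p ^ 2)) =
          1 + p - (p : ZMod (p ^ 2)) * (if Exc M then 1 else 0) := by
      intro M hM
      rw [mem_ov] at hM
      have hMc : Nat.card M = p ^ (j + 2) := card_of_index (m := j + 2) hG hM.1
      by_cases hcyc : IsCyclic M
      · rw [if_pos (Or.inl hcyc : Exc M), mul_one, add_sub_cancel_right]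
        have h1 : Nat.card {H : Subgroup M // Nat.card H = p ^ k} = 1 := by
          rw [Nat.card_eq_one_iff_unique]
          refine ⟨⟨fun H K => Subtype.ext ((H82.eq_iff_card_eq_of_isCyclic' _ _).mpr
            (H.2.trans K.2.symm))⟩, ?_⟩
          obtain ⟨H, hH⟩ := Sylow.exists_subgroup_card_pow_prime p
            (show p ^ k ∣ Nat.card M from hMc ▸ pow_dvd_pow p (by omega))
          exact ⟨⟨H, hH⟩⟩
        rw [h1, Nat.cast_one]
      have h := ih (j + 2) (by omega) M p hMc hcyc k hk1 (by omega)
      have hrel : (_root_.commutator M).index = (⁅M, M⁆).relIndex M := by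
        rw [← Subgroup.map_subtype_commutator M, relIndex, subgroupOf,
          comap_map_eq_self_of_injective M.subtype_injective]
      rw [hrel] at h
      by_cases he : p = 2 ∧ k + 3 ≤ j + 3 ∧ (⁅M, M⁆).relIndex M = 4
      · rw [if_pos (Or.inr he : Exc M), mul_one, add_sub_cancel_right]
        exact h.2 he.1 he.2.2 (by omega)
      · rw [if_neg (show ¬ Exc M from fun hE => hE.elim hcyc he), mul_zero, sub_zero]
        refine h.1 ?_
        by_cases hk' : k + 3 ≤ j + 3
        · exact Or.inl fun hp2 _ h4 => he ⟨hp2, hk', h4⟩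
        · exact Or.inr (by omega)
    rw [Nat.cast_sum, Finset.sum_congr rfl hval, Finset.sum_sub_distrib, Finset.sum_const,
      nsmul_eq_mul, hh, ← Finset.mul_sum, ← Finset.sum_filter, Finset.sum_const, nsmul_eq_mul,
      mul_one] at hsum
    set e := ((ov p (frattini G)).filter Exc).card with he
    have hz : (p : ZMod (p ^ 2)) * p = 0 := by
      rw [← Nat.cast_mul, ← pow_two, ZMod.natCast_self]
    have hs : (Nat.card {H : Subgroup G // Nat.card H = p ^ k} : ZMod (p ^ 2)) =
        1 + p - (p : ZMod (p ^ 2)) * e := by linear_combination -hsum + hz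
    rw [hs]
    by_cases hmc : p = 2 ∧ (commutator G).index = 4
    swap
    · refine ⟨fun _ => ?_, fun h1 h2 _ => absurd ⟨h1, h2⟩ hmc⟩
      suffices hp_e : p ∣ e by
        obtain ⟨c, hc⟩ := hp_e
        rw [hc, Nat.cast_mul, ← mul_assoc, hz, zero_mul, sub_zero]
      -- the exceptional maximal subgroups
      by_cases hmax : ∃ M : Subgroup G, M.index = p ∧ p = 2 ∧ k + 3 ≤ j + 3 ∧ (⁅M, M⁆).relIndex M = 4
      · obtain ⟨M0, hM0, hp2, hk', hM04⟩ := hmax
        subst hp2
        obtain ⟨i, rfl⟩ : ∃ i, j = i + 1 := ⟨j - 1, by omega⟩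
        obtain ⟨hncy, Z, hΦZ, hZi, hΦi, hiff⟩ := maximal_class_count (m := i) hG
          (fun h4 => hmc ⟨rfl, h4⟩) ⟨M0, hM0, hM04⟩
        have hsplit : ((ov 2 (frattini G)).filter Exc) =
            (ov 2 (frattini G)).filter (fun M => ¬ Z ≤ M) := by
          refine Finset.filter_congr fun M hM => ?_
          rw [mem_ov] at hM
          constructor
          · intro hE
            rcases hE with hc | ⟨-, -, h4⟩
            · exact absurd hc (hncy M hM.1)
            · exact (hiff M hM.1).1 h4
          · exact fun hz' => Or.inr ⟨rfl, hk', (hiff M hM.1).2 hz'⟩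
        have hover : (ov 2 (frattini G)).filter (fun M => Z ≤ M) = ov 2 Z := by
          ext M
          simp only [Finset.mem_filter, mem_ov]
          exact ⟨fun h => ⟨h.1.1, h.2⟩, fun h => ⟨⟨h.1, hΦZ.trans h.2⟩, h.2⟩⟩
        have h7 := card_ov hpg 3 (frattini G) le_rfl (by rw [hΦi]; norm_num)
        have h3 := card_ov hpg 2 Z hΦZ (by rw [hZi]; norm_num)
        have hadd := Finset.card_filter_add_card_filter_not (s := ov 2 (frattini G)) (fun M => Z ≤ M)
        rw [hover] at hadd
        norm_num at h7 h3
        rw [he, hsplit]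
        exact ⟨2, by omega⟩
      push Not at hmax
      by_cases hex : ∃ A : Subgroup G, A.index = p ∧ IsCyclic A
      · obtain ⟨K0, hK0, hiff⟩ := cyclic_count_regular (m := j) hpg hG hnc
          (fun h2 h4 => hmc ⟨h2, h4⟩) hex
        have hE : ((ov p (frattini G)).filter Exc) = (ov p (frattini G)).erase K0 := by
          ext M
          simp only [Finset.mem_filter, Finset.mem_erase]
          constructor
          · rintro ⟨hM, hc | ⟨h1, h2, h3⟩⟩
            · exact ⟨(hiff M (mem_ov.1 hM).1).1 hc, hM⟩
            · exact absurd h3 (hmax M (mem_ov.1 hM).1 h1 h2)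
          · rintro ⟨hne, hM⟩
            exact ⟨hM, Or.inl ((hiff M (mem_ov.1 hM).1).2 hne)⟩
        have hK0mem : K0 ∈ ov p (frattini G) := mem_ov.2 ⟨hK0, frattini_le_of_index hpg hK0⟩
        rw [he, hE, Finset.card_erase_of_mem hK0mem, ← ZMod.natCast_eq_zero_iff]
        have hpos : 1 ≤ (ov p (frattini G)).card := Finset.card_pos.2 ⟨K0, hK0mem⟩
        rw [Nat.cast_sub hpos, Nat.cast_one]
        have := congrArg (ZMod.castHom (dvd_pow_self p two_ne_zero) (ZMod p)) hh
        rw [map_natCast, map_add, map_one, map_natCast, ZMod.natCast_self, add_zero] at this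
        rw [this, sub_self]
      · push Not at hex
        have : ((ov p (frattini G)).filter Exc) = ∅ := Finset.filter_eq_empty_iff.2 fun M hM hE => by
          rcases hE with hc | ⟨h1, h2, h3⟩
          · exact hex M (mem_ov.1 hM).1 hc
          · exact hmax M (mem_ov.1 hM).1 h1 h2 h3
        rw [he, this, Finset.card_empty]
        exact dvd_zero p
    · obtain ⟨rfl, h4⟩ := hmc
      refine ⟨fun h => absurd h4 (h.resolve_right (by omega) rfl (by omega)), fun _ _ _ => ?_⟩
      obtain ⟨hstep, A, hAi, hAc, hcy⟩ := maximal_class_step (m := j) hG h4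
      have hodd : Odd e := by
        have hΦ4 : (frattini G).index = 4 := by
          have h1 := index_dvd_of_le (H24.commutator_le_frattini hpg)
          rw [h4, hdi] at h1
          rw [hdi]
          have : d ≤ 2 := (Nat.pow_dvd_pow_iff_le_right one_lt_two).1 (h1 : 2 ^ d ∣ 2 ^ 2)
          rw [show d = 2 by omega]; norm_num
        have h3 := card_ov hpg 2 (frattini G) le_rfl (by rw [hΦ4]; norm_num)
        norm_num at h3
        by_cases hk' : k + 3 ≤ j + 3
        · have : ((ov 2 (frattini G)).filter Exc) = ov 2 (frattini G) :=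
            Finset.filter_eq_self.2 fun M hM => by
              by_cases hc : IsCyclic M
              · exact Or.inl hc
              · exact Or.inr ⟨rfl, hk', hstep M (mem_ov.1 hM).1 hc (by omega)⟩
          rw [he, this, h3]
          exact ⟨1, rfl⟩
        · rcases hcy with hu | hall
          · have : ((ov 2 (frattini G)).filter Exc) = {A} := by
              refine Finset.eq_singleton_iff_unique_mem.2 ⟨Finset.mem_filter.2
                ⟨mem_ov.2 ⟨hAi, frattini_le_of_index hpg hAi⟩, Or.inl hAc⟩, fun M hM => ?_⟩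
              obtain ⟨h1, hc | ⟨-, h2, -⟩⟩ := Finset.mem_filter.1 hM
              · exact hu M (mem_ov.1 h1).1 hc
              · exact absurd h2 hk'
            rw [he, this, Finset.card_singleton]
            exact odd_one
          · have : ((ov 2 (frattini G)).filter Exc) = ov 2 (frattini G) :=
              Finset.filter_eq_self.2 fun M hM => Or.inl (hall M (mem_ov.1 hM).1)
            rw [he, this, h3]
            exact ⟨1, rfl⟩
      obtain ⟨c, hc⟩ := hodd
      rw [hc]
      push_cast
      have hz' : (2 : ZMod (2 ^ 2)) * 2 = 0 := by decide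
      linear_combination -(c : ZMod (2 ^ 2)) * hz'

end Cfsg.Agent.H88.Kulakoff
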