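import Cfsg.Agent.H46.Simple
import Cfsg.Agent.H46.RootInst

/-!
# Maximal parabolic subgroups of Chevalley groups and the level filtration of their radicals

For a fundamental root `a`, the level of a root is its coefficient of `p_a`; `P` is the parabolic
subgroup omitting `a`, and `n_a` the corresponding monomial element.
-/

set_option autoImplicit false

namespace Cfsg.Agent.H88.LevelParabolic

open Cfsg.Lie Cfsg.Agent.H46
open scoped Matrix MatrixGroups

variable {D : ChevalleyDatum} (G : Good D) (a : Fin D.rank) {F : Type*} [Field F]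

/-- The level of a root. -/
def lev (r : ℕ) : ℤ := G.rc r a

/-- All fundamental roots but `a`. -/
def Jset : Set ℕ := {j | j ≠ a.val}

/-- The maximal parabolic subgroup. -/
def par (F : Type*) [Field F] : Subgroup (GL D.Idx F) := D.parabolicSubgroup F (Jset a)

/-- Roots of level at least `m`. -/
def Lset (m : ℤ) : Set ℕ := {r | r < D.nroots ∧ m ≤ lev G a r}

/-- Roots of level at least `m` sent by `g` to level at least `m'`. -/
def Tset (m m' : ℤ) (g : GL D.Idx F) : Set ℕ :=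
  {r | ∃ h : r < D.nroots, m ≤ lev G a r ∧ m' ≤ lev G a (G.perm g ⟨r, h⟩)}

theorem isPosRoot_of_lev {r : ℕ} (hr : r < D.nroots) (h : 1 ≤ lev G a r) : D.IsPosRoot r := by
  refine (G.isPosRoot_iff_not_neg hr).2 fun hn => ?_
  have := G.rc_nonneg (G.isPosRoot_neg hn) a
  rw [G.rc_neg hr, Pi.neg_apply] at this
  unfold lev at h
  omega

theorem inRootSub_iff_lev {r : ℕ} : D.InRootSub (Jset a) r ↔ r < D.nroots ∧ lev G a r = 0 := by
  rw [G.inRootSub_iff]
  refine and_congr_right fun _ => ⟨fun h => h a (by simp [Jset]), fun h k hk => ?_⟩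
  have : k = a := Fin.ext (by simpa [Jset] using hk)
  rw [this]; exact h

theorem mem_radSet_iff {r : ℕ} : r ∈ G.radSet (Jset a) ↔ r < D.nroots ∧ 1 ≤ lev G a r := by
  constructor
  · rintro ⟨hp, hn⟩
    refine ⟨hp.1, ?_⟩
    have h0 := G.rc_nonneg hp a
    have : lev G a r ≠ 0 := fun h => hn ((inRootSub_iff_lev G a).2 ⟨hp.1, h⟩)
    unfold lev at *
    omega
  · rintro ⟨hr, h⟩
    exact ⟨isPosRoot_of_lev G a hr h, fun h' => by have := ((inRootSub_iff_lev G a).1 h').2; omega⟩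

theorem radical_eq : D.unipotentRadical F (Jset a) = G.posSub (Lset G a 1) := by
  rw [G.unipotentRadical_eq]
  exact le_antisymm (G.posSub_mono fun r _ h => (mem_radSet_iff G a).1 h)
    (G.posSub_mono fun r _ h => (mem_radSet_iff G a).2 h)

theorem lev_comm {r s : ℕ} (hr : r < D.nroots) (hs : s < D.nroots) {c : ℕ × ℤ × ℕ × ℕ}
    (hc : c ∈ D.commTerms r s) : c.1 < D.nroots ∧ ∃ i j : ℤ, 1 ≤ i ∧ 1 ≤ j ∧
      lev G a c.1 = i * lev G a r + j * lev G a s := by
  obtain ⟨h1, h2, h3, h4⟩ := G.commTerms_spec hr hs hc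
  refine ⟨h1, (c.2.2.1 : ℤ), (c.2.2.2 : ℤ), by omega, by omega, ?_⟩
  show G.rc c.1 a = _
  rw [h4]; simp [lev]

theorem posClosed_Lset {m : ℤ} (hm : 0 ≤ m) : G.PosClosed (Lset G a m) := by
  intro r s hr hs hr' hs' _ c hc
  obtain ⟨h1, i, j, hi, hj, e⟩ := lev_comm G a hr.1 hs.1 hc
  refine ⟨h1, ?_⟩
  rw [e]
  nlinarith [hr'.2, hs'.2]

theorem posClosed_Tset {g : GL D.Idx F} (hg : g ∈ D.monomialSubgroup F) {m m' : ℤ}
    (hm : 0 ≤ m) (hm' : 0 ≤ m') : G.PosClosed (Tset G a m m' g) := by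
  intro r s hr hs hr' hs' _ c hc
  obtain ⟨hrn, hr1, hr2⟩ := hr'
  obtain ⟨hsn, hs1, hs2⟩ := hs'
  obtain ⟨h1, h2, h3, h4⟩ := G.commTerms_spec hrn hsn hc
  obtain ⟨-, -, L, hL⟩ := G.monRel_perm hg
  have e : G.rc (G.perm g ⟨c.1, h1⟩) = (c.2.2.1 : ℤ) • G.rc (G.perm g ⟨r, hrn⟩) +
      (c.2.2.2 : ℤ) • G.rc (G.perm g ⟨s, hsn⟩) := by
    rw [hL, hL, hL, ← map_smul, ← map_smul, ← map_add, ← h4]
  refine ⟨h1, ?_, ?_⟩
  · show m ≤ G.rc c.1 a
    rw [h4]; simp only [Pi.add_apply, Pi.smul_apply, smul_eq_mul]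
    unfold lev at hr1 hs1
    nlinarith
  · show m' ≤ G.rc (G.perm g ⟨c.1, h1⟩) a
    rw [e]; simp only [Pi.add_apply, Pi.smul_apply, smul_eq_mul]
    unfold lev at hr2 hs2
    nlinarith

theorem borel_le_par : D.borelSubgroup F ≤ par a F := le_sup_left

theorem xg_mem_par {r : ℕ} (hr : r < D.nroots) (h : 0 ≤ lev G a r) (t : F) : G.xg r t ∈ par a F := by
  refine G.xg_mem_parabolic ?_ t
  rcases eq_or_lt_of_le h with h | h
  · exact Or.inr ((inRootSub_iff_lev G a).2 ⟨hr, h.symm⟩)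
  · exact Or.inl (isPosRoot_of_lev G a hr (by omega))

theorem posSub_Lset_le_par {m : ℤ} : G.posSub (F := F) (Lset G a m) ≤ par a F :=
  (G.posSub_le_posUnipotent _).trans (le_sup_left.trans (borel_le_par a))

/-- Root elements with non-negative level normalise the level subgroups. -/
theorem xg_mem_normalizer_Lset {r : ℕ} (hr : r < D.nroots) (hlev : 0 ≤ lev G a r) {m : ℤ} (hm : 1 ≤ m) (t : F) :
    G.xg r t ∈ Subgroup.normalizer (G.posSub (F := F) (Lset G a m) : Set (GL D.Idx F)) := by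
  have key : ∀ t : F, ∀ g ∈ {g : GL D.Idx F | ∃ (s : ℕ) (v : F), (D.IsPosRoot s ∧ s ∈ Lset G a m) ∧ g = G.xg s v},
      (G.xg r t)⁻¹ * g * G.xg r t ∈ G.posSub (Lset G a m) := by
    rintro t g ⟨s, v, ⟨hs, hsT⟩, rfl⟩
    by_cases h : s = r
    · subst h
      rw [G.xg_inv, G.xg_add, G.xg_add]
      exact G.xg_mem_posSub hs hsT _
    · have hne : s ≠ D.neg r := by
        intro e
        have := hsT.2
        rw [lev, e, G.rc_neg hr, Pi.neg_apply] at this
        unfold lev at hlev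
        omega
      obtain ⟨w, hw, he⟩ := G.exists_comm hr hs.1 h hne t v
      rw [mul_assoc, he, mul_assoc, inv_mul_cancel_left]
      refine mul_mem (G.xg_mem_posSub hs hsT v) ((Subgroup.closure_le _).2 ?_ hw)
      rintro g ⟨c, hc, v', rfl⟩
      obtain ⟨h1, i, j, hi, hj, e⟩ := lev_comm G a hr hs.1 hc
      have : m ≤ lev G a c.1 := by rw [e]; nlinarith [hsT.2]
      exact G.xg_mem_posSub (S := Lset G a m) (isPosRoot_of_lev G a h1 (by omega)) ⟨h1, this⟩ v'
  refine mem_normalizer_closure (fun g hg => ?_) (key t)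
  have := key (-t) g hg
  rwa [← G.xg_inv, inv_inv] at this

theorem diagonal_le_normalizer_Lset {m : ℤ} :
    D.diagonalSubgroup F ≤ Subgroup.normalizer (G.posSub (F := F) (Lset G a m) : Set (GL D.Idx F)) := by
  intro g hg
  obtain ⟨z, rfl⟩ := G.mem_diagonal.1 hg
  have := G.torus_mem_normalizer_gen (F := F) (S := fun r => D.IsPosRoot r ∧ r ∈ Lset G a m)
    (fun r h => h.1.1) z
  have e : G.posSub (F := F) (Lset G a m) = Subgroup.closure {g : GL D.Idx F | ∃ (r : ℕ) (t : F),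
      (D.IsPosRoot r ∧ r ∈ Lset G a m) ∧ (g : Matrix D.Idx D.Idx F) = D.x F r t} := by
    unfold Good.posSub
    congr 1
    ext g
    exact ⟨fun ⟨r, t, h, e⟩ => ⟨r, t, h, by rw [e]; rfl⟩, fun ⟨r, t, h, e⟩ => ⟨r, t, h, G.eq_xg e⟩⟩
  rw [e]; exact this

theorem par_le_normalizer_Lset {m : ℤ} (hm : 1 ≤ m) :
    par a F ≤ Subgroup.normalizer (G.posSub (F := F) (Lset G a m) : Set (GL D.Idx F)) := by
  rw [par, G.parabolic_eq]
  refine sup_le (diagonal_le_normalizer_Lset G a) ((Subgroup.closure_le _).2 ?_)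
  rintro g ⟨r, t, hr, hg⟩
  rw [G.eq_xg hg]
  rcases hr with h | h
  · exact xg_mem_normalizer_Lset G a h.1 (G.rc_nonneg h a) hm t
  · exact xg_mem_normalizer_Lset G a h.1 ((inRootSub_iff_lev G a).1 h).2.ge hm t

theorem conj_mem_Lset {p : GL D.Idx F} (hp : p ∈ par a F) {m : ℤ} (hm : 1 ≤ m) {u : GL D.Idx F}
    (hu : u ∈ G.posSub (Lset G a m)) : p * u * p⁻¹ ∈ G.posSub (Lset G a m) :=
  (Subgroup.mem_normalizer_iff.1 (par_le_normalizer_Lset G a hm hp) _).1 hu

/-- Monomial elements of `P` do not lower levels. -/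
theorem lev_le_lev_perm {n : GL D.Idx F} (hn : n ∈ D.monomialSubgroup F) (hnP : n ∈ par a F)
    (s : Fin D.nroots) (hs : 1 ≤ lev G a s) : lev G a s ≤ lev G a (G.perm n s) := by
  obtain ⟨c, hc⟩ := G.conj_xg_eq hn s
  have h1 : G.xg s (1 : F) ∈ G.posSub (Lset G a (lev G a s)) :=
    G.xg_mem_posSub (S := Lset G a (lev G a s)) (isPosRoot_of_lev G a s.2 hs) ⟨s.2, le_rfl⟩ 1
  have h2 := conj_mem_Lset G a hnP hs h1
  rw [hc, mul_one] at h2
  exact (G.mem_of_xg_mem_posSub (posClosed_Lset G a (by omega)) (G.perm n s).2 c.ne_zero h2).2.2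

theorem lev_perm {n : GL D.Idx F} (hn : n ∈ D.monomialSubgroup F) (hnP : n ∈ par a F)
    (s : Fin D.nroots) (hs : 1 ≤ lev G a s) : lev G a (G.perm n s) = lev G a s := by
  refine le_antisymm ?_ (lev_le_lev_perm G a hn hnP s hs)
  have h1 := lev_le_lev_perm G a hn hnP s hs
  have h := lev_le_lev_perm G a (inv_mem hn) (inv_mem hnP) (G.perm n s) (by omega)
  rwa [G.perm_inv hn, Equiv.Perm.coe_inv, Equiv.symm_apply_apply] at h

/-- Conjugation by a monomial element maps `posSub` along the permutation. -/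
theorem conj_posSub {n : GL D.Idx F} (hn : n ∈ D.monomialSubgroup F) {S T : Set ℕ}
    (h : ∀ r : Fin D.nroots, D.IsPosRoot r → r.val ∈ S → D.IsPosRoot (G.perm n r) ∧ (G.perm n r).val ∈ T)
    {u : GL D.Idx F} (hu : u ∈ G.posSub S) : n * u * n⁻¹ ∈ G.posSub T := by
  have : G.posSub (F := F) S ≤ (G.posSub T).comap (MulAut.conj n).toMonoidHom := by
    refine (Subgroup.closure_le _).2 ?_
    rintro x ⟨r, t, ⟨hr, hr'⟩, rfl⟩
    obtain ⟨c, hc⟩ := G.conj_xg_eq hn ⟨r, hr.1⟩
    simp only [SetLike.mem_coe, Subgroup.mem_comap, MulEquiv.coe_toMonoidHom, MulAut.conj_apply]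
    rw [show n * G.xg r t * n⁻¹ = _ from hc t]
    obtain ⟨h1, h2⟩ := h ⟨r, hr.1⟩ hr hr'
    exact G.xg_mem_posSub h1 h2 _
  simpa using this hu

/-- The fundamental monomial element outside `P`. -/
noncomputable def out (F : Type*) [Field F] : GL D.Idx F := G.ng (D.simple a) 1

theorem out_mem_monomial : out G a F ∈ D.monomialSubgroup F := G.ng_mem_monomial (G.simple_lt a.2)

theorem perm_out (s : Fin D.nroots) : (G.perm (out G a F) s).val = D.reflectRoot a s := by
  rw [out, G.perm_ng_simple a]; rfl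

theorem out_notMem_par : out G a F ∉ par a F := by
  intro h
  have h1 : (1 : ℤ) ≤ lev G a (G.simpleF a).val := by
    simp [lev, Good.simpleF, G.rc_simple a.2]
  have := lev_perm G a (out_mem_monomial G a) h (G.simpleF a) h1
  rw [perm_out] at this
  simp only [Good.simpleF, lev, G.reflectRoot_simple a.2, G.rc_neg (G.simple_lt a.2)] at this
  simp [G.rc_simple a.2] at this

theorem neg_simple_notMem_par {t : F} (ht : t ≠ 0) : G.xg (D.neg (D.simple a)) t ∉ par a F := by
  intro h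
  refine out_notMem_par G a (F := F) ?_
  set s := D.simple a with hs
  have hx : ∀ u : F, G.xg s u ∈ par a F := fun u =>
    xg_mem_par G a (G.simple_lt a.2) (by simp [lev, hs, G.rc_simple a.2]) u
  have hd : ∀ c : F, c ≠ 0 → G.hg s c ∈ par a F := fun c hc =>
    borel_le_par a (Subgroup.mem_sup_right (Subgroup.subset_closure ⟨s, c, G.simple_lt a.2, hc, G.coe_hg s c⟩))
  have hn : G.ng s (-t⁻¹) ∈ par a F := by
    unfold Good.ng
    simp only [inv_neg, inv_inv, neg_neg]
    exact mul_mem (mul_mem (hx _) h) (hx _)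
  have h1 := mul_mem (inv_mem hn) (hd (-t⁻¹) (by simp [ht]))
  have h2 : G.ng s (1 : F) ∈ par a F := by
    have e : G.ng s (-1 : F) = (G.ng s (-t⁻¹))⁻¹ * G.hg s (-t⁻¹) := by simp [Good.hg]
    have := inv_mem (e ▸ h1)
    rwa [G.ng_inv, neg_neg] at this
  exact h2

variable (F) in
/-- `n_a` moves levels `≥ m` to levels `≥ m - 1` (`m ≥ 2`). -/
def Low : Prop := ∀ r, r < D.nroots → 2 ≤ lev G a r → lev G a r - 1 ≤ lev G a (D.reflectRoot a r)

/-- One step of the descent: a `P`-invariant subgroup inside a translate of the level filtration drops a level. -/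
theorem descend {K : Subgroup (GL D.Idx F)} (hK : ∀ p ∈ par a F, ∀ k ∈ K, p * k * p⁻¹ ∈ K) {m m' : ℤ}
    (hm : 1 ≤ m) (hm' : 0 ≤ m') (hT : K ≤ G.posSub (Tset G a m m' (out G a F)))
    (hexit : ∀ r : Fin D.nroots, lev G a r = m → ∃ n ∈ D.monomialSubgroup F, n ∈ par a F ∧
      lev G a (D.reflectRoot a (G.perm n r)) < m') :
    K ≤ G.posSub (Lset G a (m + 1)) := by
  intro u hu
  have hcl := posClosed_Lset G a (m := m) (by omega)
  have hLT : G.posSub (F := F) (Tset G a m m' (out G a F)) ≤ G.posSub (Lset G a m) :=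
    G.posSub_mono fun r _ h => ⟨h.1, h.2.1⟩
  obtain ⟨t, ⟨ht, e⟩, -⟩ := G.posSub_normal_form hcl (hLT (hT hu))
  rw [e]
  refine G.ordProd_half_mem fun r hr hrS => ?_
  by_cases hrm : r ∈ Lset G a m
  swap
  · exact ht r (Or.inl hrm)
  have hlev : lev G a r = m := by
    have := hrm.2
    have : ¬ m + 1 ≤ lev G a r := fun h => hrS ⟨hr.1, h⟩
    omega
  obtain ⟨n, hn, hnP, hlt⟩ := hexit ⟨r, hr.1⟩ hlev
  have h1 := hT (hK n hnP u hu)
  have h2 := conj_posSub G (n := n⁻¹) (inv_mem hn) (S := Tset G a m m' (out G a F))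
    (T := Tset G a m m' (out G a F * n)) (fun s _ hs => ?_) h1
  · rw [show n⁻¹ * (n * u * n⁻¹) * n⁻¹⁻¹ = u by group] at h2
    obtain ⟨t', ⟨ht', e'⟩, -⟩ := G.posSub_normal_form
      (posClosed_Tset G a (mul_mem (out_mem_monomial G a) hn) (by omega) hm') h2
    rw [G.ordProd_injective _ le_rfl t t' (e.symm.trans e') r (G.isPosRoot_iff.1 hr).1 hr.1]
    refine ht' r (Or.inl fun hmem => ?_)
    obtain ⟨_, -, h3⟩ := hmem
    rw [G.perm_mul (out_mem_monomial G a) hn, Equiv.Perm.mul_apply, perm_out] at h3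
    omega
  · obtain ⟨hs0, hs1, hs2⟩ := hs
    have hs1' : 1 ≤ lev G a s := by omega
    have hl := lev_perm G a (inv_mem hn) (inv_mem hnP) s hs1'
    refine ⟨isPosRoot_of_lev G a (G.perm n⁻¹ s).2 (by omega), (G.perm n⁻¹ s).2, by omega, ?_⟩
    rw [G.perm_mul (out_mem_monomial G a) hn, Equiv.Perm.mul_apply, G.perm_inv hn]
    simpa using hs2

/-- An element of level `≥ m` whose `n_a`-conjugate has level `≥ m` lies in the common subgroup (`m ≥ 2`). -/
theorem mem_Tset_of_conj (hlow : Low G a) {m : ℤ} (hm : 2 ≤ m) (hsq : out G a F * out G a F = 1) {u : GL D.Idx F}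
    (hu : u ∈ G.posSub (Lset G a m)) (hu' : out G a F * u * out G a F ∈ G.posSub (Lset G a m)) :
    u ∈ G.posSub (Tset G a m m (out G a F)) := by
  have hinv : (out G a F)⁻¹ = out G a F := inv_eq_of_mul_eq_one_right hsq
  have hself : ∀ s, G.perm (out G a F) (G.perm (out G a F) s) = s := fun s => by
    rw [← Equiv.Perm.mul_apply, ← G.perm_mul (out_mem_monomial G a) (out_mem_monomial G a), hsq,
      G.perm_eq G.monRel_one, Equiv.Perm.one_apply]
  have h2 := conj_posSub G (out_mem_monomial G a (F := F)) (S := Lset G a m)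
    (T := Tset G a 1 m (out G a F)) (fun s _ hs => ?_) hu'
  · rw [hinv, show out G a F * (out G a F * u * out G a F) * out G a F =
      (out G a F * out G a F) * u * (out G a F * out G a F) by group, hsq, one_mul, mul_one] at h2
    have h3 : u ∈ G.posSub (Lset G a m ∩ Tset G a 1 m (out G a F)) := by
      rw [← G.posSub_inf (posClosed_Lset G a (by omega))
        (posClosed_Tset G a (out_mem_monomial G a) zero_le_one (by omega))]
      exact ⟨hu, h2⟩
    exact G.posSub_mono (S := Lset G a m ∩ Tset G a 1 m (out G a F)) (T := Tset G a m m (out G a F)) (fun r _ hr => ⟨hr.1.1, hr.1.2, hr.2.2.2⟩) h3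
  · have h1 : 1 ≤ lev G a (G.perm (out G a F) s) := by
      rw [perm_out]
      have := hlow s s.2 (by have := hs.2; omega)
      have := hs.2
      omega
    exact ⟨isPosRoot_of_lev G a (G.perm (out G a F) s).2 h1, (G.perm (out G a F) s).2, h1, by
      rw [hself]; exact hs.2⟩

/-- Level `≥ m + 1` is inside the `n_a`-translate of level `≥ m`. -/
theorem conj_out_mem (hlow : Low G a) {m : ℤ} (hm : 1 ≤ m) (hsq : out G a F * out G a F = 1) {u : GL D.Idx F}
    (hu : u ∈ G.posSub (Lset G a (m + 1))) : out G a F * u * out G a F ∈ G.posSub (Lset G a m) := by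
  have hinv : (out G a F)⁻¹ = out G a F := inv_eq_of_mul_eq_one_right hsq
  have h := conj_posSub G (out_mem_monomial G a (F := F)) (S := Lset G a (m + 1)) (T := Lset G a m)
    (fun s _ hs => ?_) hu
  · rwa [hinv] at h
  · have := hlow s s.2 (by have := hs.2; omega)
    have := hs.2
    have h1 : m ≤ lev G a (G.perm (out G a F) s) := by rw [perm_out]; omega
    exact ⟨isPosRoot_of_lev G a (G.perm (out G a F) s).2 (by omega), (G.perm (out G a F) s).2, h1⟩

end Cfsg.Agent.H88.LevelParabolic
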