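import Cfsg.Agent.H88.LevelParabolic

/-!
# Subgroups invariant under a maximal parabolic inside its translate
-/

set_option autoImplicit false

namespace Cfsg.Agent.H88.LevelParabolic

open Cfsg.Lie Cfsg.Agent.H46
open scoped Matrix MatrixGroups

variable {D : ChevalleyDatum} (G : Good D) (a : Fin D.rank) {F : Type*} [Field F]

theorem ng_mem_par {j : ℕ} (hj : j < D.rank) (hja : j ≠ a.val) : G.ng (D.simple j) (1 : F) ∈ par a F :=
  G.ng_simple_mem_parabolic hj hja

/-- Within a level every root is connected to the unique unraisable one, hence to any given one. -/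
theorem exists_perm_eq
    (hconn : ∀ r r', r < D.nroots → r' < D.nroots → 1 ≤ lev G a r → lev G a r = lev G a r' →
      (∀ j, j < D.rank → j ≠ a.val → D.reflectRoot j r ≤ r) →
      (∀ j, j < D.rank → j ≠ a.val → D.reflectRoot j r' ≤ r') → r = r')
    (r s : Fin D.nroots) (h1 : 1 ≤ lev G a r) (h2 : lev G a r = lev G a s) :
    ∃ n ∈ D.monomialSubgroup F, n ∈ par a F ∧ G.perm n r = s := by
  have top : ∀ k (r : Fin D.nroots), D.nroots - r.val = k → 1 ≤ lev G a r →
      ∃ n ∈ D.monomialSubgroup F, n ∈ par a F ∧ ∀ j, j < D.rank → j ≠ a.val →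
        D.reflectRoot j (G.perm n r) ≤ (G.perm n r).val := by
    intro k
    induction k using Nat.strong_induction_on with
    | _ k ih =>
      intro r hk hlev
      by_cases hc : ∀ j, j < D.rank → j ≠ a.val → D.reflectRoot j r ≤ r.val
      · exact ⟨1, one_mem _, one_mem _, by rw [G.perm_eq G.monRel_one]; exact hc⟩
      · simp only [not_forall, not_le] at hc
        obtain ⟨j, hj, hja, hlt⟩ := hc
        have hN := G.ng_mem_monomial (F := F) (G.simple_lt hj)
        have hP := ng_mem_par G a (F := F) hj hja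
        have hperm : (G.perm (G.ng (D.simple j) (1 : F)) r).val = D.reflectRoot j r := by
          rw [G.perm_ng_simple ⟨j, hj⟩]; rfl
        obtain ⟨n, hn, hnP, hmax⟩ := ih _ (by have := r.2; omega) (G.perm (G.ng (D.simple j) (1 : F)) r) rfl
          (by rw [lev_perm G a hN hP r hlev]; exact hlev)
        exact ⟨n * G.ng (D.simple j) 1, mul_mem hn hN, mul_mem hnP hP, by
          rw [G.perm_mul hn hN, Equiv.Perm.mul_apply]; exact hmax⟩
  obtain ⟨n, hn, hnP, hn'⟩ := top _ r rfl h1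
  obtain ⟨m, hm, hmP, hm'⟩ := top _ s rfl (h2 ▸ h1)
  refine ⟨m⁻¹ * n, mul_mem (inv_mem hm) hn, mul_mem (inv_mem hmP) hnP, ?_⟩
  have e : G.perm n r = G.perm m s := Fin.ext (hconn _ _ (G.perm n r).2 (G.perm m s).2
    (by rw [lev_perm G a hn hnP r h1]; exact h1)
    (by rw [lev_perm G a hn hnP r h1, lev_perm G a hm hmP s (h2 ▸ h1)]; exact h2) hn' hm')
  rw [G.perm_mul (inv_mem hm) hn, G.perm_inv hm, Equiv.Perm.mul_apply, e, Equiv.Perm.coe_inv,
    Equiv.symm_apply_apply]

/-- A `P`-invariant subgroup of `U⁺` lies in the radical. -/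
theorem le_radical_of_le_pos {K : Subgroup (GL D.Idx F)} (hK : ∀ p ∈ par a F, ∀ k ∈ K, p * k * p⁻¹ ∈ K)
    (hU : K ≤ D.posUnipotent F) : K ≤ G.posSub (Lset G a 1) := by
  intro u hu
  have huU := hU hu
  rw [G.posUnipotent_eq] at huU
  obtain ⟨t, ⟨ht, e⟩, -⟩ := G.posSub_normal_form G.posClosed_univ huU
  rw [e]
  refine G.ordProd_half_mem fun r hr hrS => ?_
  have hlev : lev G a r = 0 := by
    have h0 := G.rc_nonneg hr a
    have : ¬ 1 ≤ lev G a r := fun h => hrS ⟨hr.1, h⟩
    unfold lev at *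
    omega
  have key : ∀ s, D.IsPosRoot s → D.InRootSub (Jset a) s → ∀ hs : s < D.nroots,
      ∃ n ∈ D.monomialSubgroup F, n ∈ par a F ∧ D.IsNegRoot (G.perm n ⟨s, hs⟩) := by
    refine G.inRootSub_induction (P := fun s => ∀ hs : s < D.nroots,
      ∃ n ∈ D.monomialSubgroup F, n ∈ par a F ∧ D.IsNegRoot (G.perm n ⟨s, hs⟩)) ?_ ?_
    · intro j hj hja hs
      refine ⟨_, G.ng_mem_monomial (G.simple_lt hj), ng_mem_par G a hj hja, ?_⟩
      rw [G.perm_ng_simple ⟨j, hj⟩, G.sPerm_apply, G.reflectRoot_simple hj]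
      exact G.isNegRoot_neg (G.isPosRoot_simple hj)
    · intro j s hj hja hsp _ ih hs
      obtain ⟨n, hn, hnP, hneg⟩ := ih hsp.1
      have hN := G.ng_mem_monomial (F := F) (G.simple_lt hj)
      refine ⟨n * G.ng (D.simple j) 1, mul_mem hn hN, mul_mem hnP (ng_mem_par G a hj hja), ?_⟩
      rw [G.perm_mul hn hN, Equiv.Perm.mul_apply]
      have : G.perm (G.ng (D.simple j) (1 : F)) ⟨D.reflectRoot j s, hs⟩ = ⟨s, hsp.1⟩ := by
        rw [G.perm_ng_simple ⟨j, hj⟩]
        exact Fin.ext (G.reflectRoot_reflectRoot hj hsp.1)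
      rw [this]; exact hneg
  obtain ⟨n, hn, hnP, hneg⟩ := key r hr ((inRootSub_iff_lev G a).2 ⟨hr.1, hlev⟩) hr.1
  -- `u` lies in the part of `U⁺` that `n` keeps positive
  obtain ⟨x, hx, y, hy, exy⟩ := G.factor (G.invSet n) (hU hu)
  have h1 : n * u * n⁻¹ ∈ D.posUnipotent F := hU (hK n hnP u hu)
  have h2 := G.conj_posSub_invSet hn hx
  have h3 := G.conj_posSub_compl hn hy
  have h4 : n * x * n⁻¹ ∈ D.borelSubgroup F ⊓ D.negUnipotent F := by
    refine Subgroup.mem_inf.2 ⟨Subgroup.mem_sup_left ?_, h2⟩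
    have : n * x * n⁻¹ = (n * u * n⁻¹) * (n * y * n⁻¹)⁻¹ := by rw [exy]; group
    rw [this]; exact mul_mem h1 (inv_mem h3)
  rw [G.borel_inf_neg, Subgroup.mem_bot, mul_inv_eq_one] at h4
  have hx1 : x = 1 := by
    have := congrArg (fun z => n⁻¹ * z) h4
    simpa using this
  rw [hx1, one_mul] at exy
  subst exy
  obtain ⟨t', ⟨ht', e'⟩, -⟩ := G.posSub_normal_form (G.posClosed_invSet_compl hn) hy
  rw [G.ordProd_injective _ le_rfl t t' (e.symm.trans e') r (G.isPosRoot_iff.1 hr).1 hr.1]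
  exact ht' r (Or.inl fun h => h ⟨hr.1, hr, hneg⟩)

/-- The radical meets the `n_a`-translate of `P` in the roots other than `p_a`. -/
theorem mem_Tset_of_conj_par {u : GL D.Idx F} (hu : u ∈ G.posSub (Lset G a 1))
    (hu' : out G a F * u * (out G a F)⁻¹ ∈ par a F) :
    u ∈ G.posSub (Tset G a 1 0 (out G a F)) := by
  set T : Set ℕ := {s | s < D.nroots ∧ 1 ≤ lev G a s ∧ s ≠ D.simple a} with hTdef
  have hkeyc : ∀ {r s}, D.IsPosRoot r → D.IsPosRoot s → ∀ c ∈ D.commTerms r s,
      G.key r < G.key c.1 ∧ G.key s < G.key c.1 := by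
    intro r s hr hs c hc
    obtain ⟨h1, h2, h3, h4⟩ := G.commTerms_spec hr.1 hs.1 hc
    have e := G.key_of_rc _ _ h4
    have := G.key_pos hr
    have := G.key_pos hs
    constructor <;> nlinarith
  have hnorm : D.rootSubgroup F (D.simple a) ≤
      Subgroup.normalizer (G.posSub (F := F) T : Set (GL D.Idx F)) := by
    intro x hx
    obtain ⟨v, rfl⟩ := G.mem_rootSubgroup.1 hx
    refine G.xg_mem_normalizer_posSub (G.isPosRoot_simple a.2) (fun s hs hsT hne c hc => ?_) v
    obtain ⟨h1, i, j, hi, hj, e⟩ := lev_comm G a (G.simple_lt a.2) hs.1 hc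
    have h0 := G.rc_nonneg (G.isPosRoot_simple a.2) a
    refine ⟨h1, ?_, fun he => ?_⟩
    · rw [e]; have := hsT.2.1; unfold lev at *; nlinarith
    · have := (hkeyc (G.isPosRoot_simple a.2) hs c hc).1
      rw [he] at this; exact lt_irrefl _ this
  have hle : G.posSub (F := F) (Lset G a 1) ≤ D.rootSubgroup F (D.simple a) ⊔ G.posSub T := by
    refine (Subgroup.closure_le _).2 ?_
    rintro x ⟨r, v, ⟨hr, hr'⟩, rfl⟩
    by_cases h : r = D.simple a
    · subst h; exact Subgroup.mem_sup_left (G.xg_mem_rootSubgroup _ _)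
    · exact Subgroup.mem_sup_right (G.xg_mem_posSub (S := T) hr ⟨hr'.1, hr'.2, h⟩ v)
  have hg := hle hu
  rw [← SetLike.mem_coe, Subgroup.coe_mul_of_left_le_normalizer_right _ _ hnorm] at hg
  obtain ⟨x, hx, w, hw, rfl⟩ := hg
  obtain ⟨v, rfl⟩ := G.mem_rootSubgroup.1 hx
  have hwP : out G a F * w * (out G a F)⁻¹ ∈ par a F := by
    have h := conj_posSub G (out_mem_monomial G a (F := F)) (S := T) (T := Set.univ) (fun s hs hsT => ?_) hw
    · exact borel_le_par a (Subgroup.mem_sup_left (G.posSub_le_posUnipotent _ h))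
    · refine ⟨?_, trivial⟩
      rw [perm_out]
      exact G.isPosRoot_reflect a.2 hs hsT.2.2
  have hxP : out G a F * G.xg (D.simple a) v * (out G a F)⁻¹ ∈ par a F := by
    have := mul_mem hu' (inv_mem hwP)
    rwa [show out G a F * (G.xg (D.simple a) v * w) * (out G a F)⁻¹ * (out G a F * w * (out G a F)⁻¹)⁻¹ =
      out G a F * G.xg (D.simple a) v * (out G a F)⁻¹ by group] at this
  have hv : v = 0 := by
    by_contra hv
    rw [out, G.ng_mul_xg (G.simple_lt a.2) one_ne_zero, mul_inv_cancel_right] at hxP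
    exact neg_simple_notMem_par G a (by simpa using hv) hxP
  show G.xg (D.simple a) v * w ∈ _
  rw [hv, G.xg_zero, one_mul]
  refine G.posSub_mono (S := T) (T := Tset G a 1 0 (out G a F)) (fun r hr hrT => ?_) hw
  refine ⟨hrT.1, hrT.2.1, ?_⟩
  rw [perm_out]
  exact G.rc_nonneg (G.isPosRoot_reflect a.2 hr hrT.2.2) a

/-- Positive roots of level `≥ 2`, together with those of level `1` from index `r` on. -/
def Uset (r : ℕ) : Set ℕ := {s | s < D.nroots ∧ (2 ≤ lev G a s ∨ (1 ≤ lev G a s ∧ r ≤ s))}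

theorem comm_mem_Uset (r : ℕ) {b s : ℕ} (hb : D.IsPosRoot b) (hs : D.IsPosRoot s) (hsU : s ∈ Uset G a r)
    {c : ℕ × ℤ × ℕ × ℕ} (hc : c ∈ D.commTerms b s) : c.1 ∈ Uset G a r := by
  obtain ⟨h1, h2, h3, h4⟩ := G.commTerms_spec hb.1 hs.1 hc
  have hl : lev G a c.1 = (c.2.2.1 : ℤ) * lev G a b + (c.2.2.2 : ℤ) * lev G a s := by
    show G.rc c.1 a = _
    rw [h4]; simp [lev]
  have h0 := G.rc_nonneg hb a
  have e := G.key_of_rc _ _ h4
  have hp := G.key_pos hb
  have hq := G.key_pos hs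
  have hlt : s < c.1 := (G.key_lt_key_iff hs.1 h1).1 (by nlinarith)
  have hj : (1 : ℤ) ≤ (c.2.2.2 : ℤ) := by omega
  have hi : (0 : ℤ) ≤ (c.2.2.1 : ℤ) := by omega
  refine ⟨h1, ?_⟩
  rcases hsU.2 with h | ⟨h, h'⟩
  · left; rw [hl]; unfold lev at *; nlinarith
  · right; exact ⟨by rw [hl]; unfold lev at *; nlinarith, by omega⟩

theorem posClosed_Uset (r : ℕ) : G.PosClosed (Uset G a r) :=
  fun _ _ hb hs _ hsU _ _ hc => comm_mem_Uset G a r hb hs hsU hc

/-- A `P`-invariant subgroup of `P` inside the `n_a`-translate of `P` lies in level `≥ 2`. -/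
theorem le_level_two {K : Subgroup (GL D.Idx F)} (hKP : K ≤ par a F)
    (hK : ∀ p ∈ par a F, ∀ k ∈ K, p * k * p⁻¹ ∈ K)
    (hKg : ∀ k ∈ K, out G a F * k * (out G a F)⁻¹ ∈ par a F)
    (hdiag : D.diagonalSubgroup F = ⊥) (hF : ∀ t : F, t ≠ 0 → t = 1)
    (hexit : ∀ r : Fin D.nroots, lev G a r = 1 → ∃ n ∈ D.monomialSubgroup F, n ∈ par a F ∧
      lev G a (D.reflectRoot a (G.perm n r)) < 0)
    (hspan : ∀ j, j < D.rank → j ≠ a.val → ∃ r, r < D.nroots ∧ lev G a r = 1 ∧ D.cartan j r = -1) :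
    K ≤ G.posSub (Lset G a 2) := by
  -- the part inside the radical
  have hKU : K ⊓ G.posSub (Lset G a 1) ≤ G.posSub (Lset G a 2) := by
    refine descend G a (m := 1) (m' := 0) (fun p hp k hk => ?_) le_rfl le_rfl (fun k hk => ?_) hexit
    · exact ⟨hK p hp k hk.1, conj_mem_Lset G a hp le_rfl hk.2⟩
    · exact mem_Tset_of_conj_par G a hk.2 (hKg k hk.1)
  suffices hpos : K ≤ D.posUnipotent F from
    fun k hk => hKU ⟨hk, le_radical_of_le_pos G a hK hpos hk⟩
  intro k hk
  obtain ⟨n, hn, hcell⟩ := G.bruhat (G.parabolic_le_group (hKP hk))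
  obtain ⟨b, hb, b', hb', e⟩ := G.mem_bruhatCell.1 hcell
  have hnP : n ∈ par a F := by
    have := mul_mem (mul_mem (inv_mem (borel_le_par a hb)) (hKP hk)) (inv_mem (borel_le_par a hb'))
    rwa [e, show b⁻¹ * (b * n * b') * b'⁻¹ = n by group] at this
  have hBU : D.borelSubgroup F = D.posUnipotent F := by
    rw [ChevalleyDatum.borelSubgroup, hdiag, sup_bot_eq]
  -- `B` normalises the sets `Uset`
  have hBnorm : ∀ r, ∀ b ∈ D.borelSubgroup F, ∀ u ∈ G.posSub (F := F) (Uset G a r),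
      b * u * b⁻¹ ∈ G.posSub (Uset G a r) := by
    intro r b hb u hu
    rw [hBU] at hb
    have : D.posUnipotent F ≤ Subgroup.normalizer (G.posSub (F := F) (Uset G a r) : Set (GL D.Idx F)) := by
      refine (Subgroup.closure_le _).2 ?_
      rintro g ⟨s, v, hs, hg⟩
      rw [G.eq_xg hg]
      exact G.xg_mem_normalizer_posSub hs (fun _ hs' hsU _ _ hc => comm_mem_Uset G a r hs hs' hsU hc) v
    exact (Subgroup.mem_normalizer_iff.1 (this hb) _).1 hu
  -- `n` fixes all roots of level one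
  have hfix : ∀ d (r : Fin D.nroots), D.nroots - r.val = d → lev G a r = 1 → G.perm n r = r := by
    intro d
    induction d using Nat.strong_induction_on with
    | _ d ih =>
      intro r hd hr
      have hrpos := isPosRoot_of_lev G a r.2 (by omega)
      have hup : ∀ s : Fin D.nroots, r.val < s.val → lev G a s = 1 → G.perm n s = s :=
        fun s hs hs1 => ih _ (by have := s.2; omega) s rfl hs1
      set x := G.xg r.val (1 : F) with hx
      have hxL : x ∈ G.posSub (Lset G a 1) := G.xg_mem_posSub (S := Lset G a 1) hrpos ⟨r.2, hr.ge⟩ 1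
      have hxV : x ∈ G.posSub (Uset G a r.val) :=
        G.xg_mem_posSub (S := Uset G a r.val) hrpos ⟨r.2, Or.inr ⟨hr.ge, le_rfl⟩⟩ 1
      have hWV : G.posSub (F := F) (Uset G a (r.val + 1)) ≤ G.posSub (Uset G a r.val) :=
        G.posSub_mono fun s _ hs => ⟨hs.1, hs.2.imp id fun h => ⟨h.1, by omega⟩⟩
      have hcomm : k * x * k⁻¹ * x⁻¹ ∈ G.posSub (Lset G a 2) := by
        refine hKU (Subgroup.mem_inf.2 ⟨?_, mul_mem (conj_mem_Lset G a (hKP hk) le_rfl hxL) (inv_mem hxL)⟩)
        rw [show k * x * k⁻¹ * x⁻¹ = k * (x * k⁻¹ * x⁻¹) by group]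
        exact mul_mem hk (hK x (posSub_Lset_le_par G a hxL) _ (inv_mem hk))
      have hkx : k * x * k⁻¹ ∈ G.posSub (Uset G a r.val) := by
        have := mul_mem (G.posSub_mono (S := Lset G a 2) (T := Uset G a r.val)
          (fun s _ hs => ⟨hs.1, Or.inl hs.2⟩) hcomm) hxV
        rwa [inv_mul_cancel_right] at this
      -- split `b' x b'⁻¹`
      have hnorm : D.rootSubgroup F r.val ≤
          Subgroup.normalizer (G.posSub (F := F) (Uset G a (r.val + 1)) : Set (GL D.Idx F)) := by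
        intro y hy
        obtain ⟨v, rfl⟩ := G.mem_rootSubgroup.1 hy
        exact G.xg_mem_normalizer_posSub hrpos
          (fun _ hs' hsU _ _ hc => comm_mem_Uset G a (r.val + 1) hrpos hs' hsU hc) v
      have hle : G.posSub (F := F) (Uset G a r.val) ≤
          D.rootSubgroup F r.val ⊔ G.posSub (Uset G a (r.val + 1)) := by
        refine (Subgroup.closure_le _).2 ?_
        rintro y ⟨s, v, ⟨hs, hsU⟩, rfl⟩
        by_cases h : s = r.val
        · subst h; exact Subgroup.mem_sup_left (G.xg_mem_rootSubgroup _ _)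
        · exact Subgroup.mem_sup_right (G.xg_mem_posSub (S := Uset G a (r.val + 1)) hs
            ⟨hsU.1, hsU.2.imp id fun h' => ⟨h'.1, by omega⟩⟩ v)
      have hy := hle (hBnorm r.val b' hb' x hxV)
      rw [← SetLike.mem_coe, Subgroup.coe_mul_of_left_le_normalizer_right _ _ hnorm] at hy
      obtain ⟨y, hy, w, hw, exw⟩ := hy
      simp only at exw
      obtain ⟨c, rfl⟩ := G.mem_rootSubgroup.1 hy
      have hc : c ≠ 0 := by
        intro hc
        rw [hc, G.xg_zero, one_mul] at exw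
        have := hBnorm (r.val + 1) b'⁻¹ (inv_mem hb') w hw
        rw [exw, show b'⁻¹ * (b' * x * b'⁻¹) * b'⁻¹⁻¹ = x by group] at this
        have := (G.mem_of_xg_mem_posSub (posClosed_Uset G a _) r.2 one_ne_zero this).2.2
        omega
      rw [hF c hc] at exw
      -- conjugate by `n`
      have hw' : n * w * n⁻¹ ∈ G.posSub (Uset G a (r.val + 1)) := by
        refine conj_posSub G hn (fun s hs hsU => ?_) hw
        rcases hsU.2 with h | ⟨h, h'⟩
        · have := lev_perm G a hn hnP s (by omega)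
          exact ⟨isPosRoot_of_lev G a (G.perm n s).2 (by omega), (G.perm n s).2, Or.inl (by omega)⟩
        · by_cases h2 : 2 ≤ lev G a s
          · have := lev_perm G a hn hnP s (by omega)
            exact ⟨isPosRoot_of_lev G a (G.perm n s).2 (by omega), (G.perm n s).2, Or.inl (by omega)⟩
          · rw [hup s (by omega) (by omega)]
            exact ⟨hs, hsU⟩
      obtain ⟨u, hu⟩ := G.conj_xg_eq hn r
      have h1 := hBnorm r.val b⁻¹ (inv_mem hb) _ hkx
      have e1 : b⁻¹ * (k * x * k⁻¹) * b⁻¹⁻¹ = n * (b' * x * b'⁻¹) * n⁻¹ := by rw [e]; group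
      have e2 : n * (G.xg r.val 1 * w) * n⁻¹ = (n * G.xg r.val 1 * n⁻¹) * (n * w * n⁻¹) := by group
      rw [e1, ← exw, e2, hu, mul_one] at h1
      have h2 := mul_mem h1 (inv_mem (hWV hw'))
      rw [mul_inv_cancel_right] at h2
      have h3 := (G.mem_of_xg_mem_posSub (posClosed_Uset G a _) (G.perm n r).2 u.ne_zero h2).2
      have hl := lev_perm G a hn hnP r (by omega)
      have h4 : r.val ≤ (G.perm n r).val := by
        rcases h3.2 with h | h
        · omega
        · exact h.2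
      rcases eq_or_lt_of_le h4 with h | h
      · exact Fin.ext h.symm
      · exact (G.perm n).injective (hup (G.perm n r) h (by omega))
  -- hence all roots
  have hσ : G.perm n = 1 := by
    obtain ⟨-, -, L, hL⟩ := G.monRel_perm hn
    have hbasis : ∀ j : Fin D.rank, L (Pi.single j 1) = Pi.single j 1 := by
      intro j
      by_cases hja : j = a
      · subst hja
        have := hL (G.simpleF j)
        rw [hfix _ (G.simpleF j) rfl (by simp [lev, Good.simpleF, G.rc_simple j.2])] at this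
        simpa [Good.simpleF, G.rc_simple j.2] using this.symm
      · have hjv : j.val ≠ a.val := fun h => hja (Fin.ext h)
        obtain ⟨r, hr, hr1, hrc⟩ := hspan j j.2 hjv
        have h1 := hL ⟨r, hr⟩
        rw [hfix _ ⟨r, hr⟩ rfl hr1] at h1
        have hr2 : lev G a (D.reflectRoot j r) = 1 := by
          rw [lev, G.rc_reflect j.2 hr, Pi.sub_apply, Pi.smul_apply,
            Pi.single_eq_of_ne (fun h => hja h.symm), smul_zero, sub_zero]
          exact hr1
        have h2 := hL ⟨_, G.reflectRoot_lt j.2 hr⟩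
        rw [hfix _ ⟨_, G.reflectRoot_lt j.2 hr⟩ rfl hr2] at h2
        simp only [G.rc_reflect j.2 hr, hrc] at h2
        rw [map_sub, map_smul, ← h1] at h2
        simpa using h2.symm
    ext s : 1
    rw [Equiv.Perm.one_apply]
    refine Fin.ext (G.rc_injective (G.perm n s).2 s.2 ?_)
    rw [hL]
    have : (L : (Fin D.rank → ℤ) →ₗ[ℤ] (Fin D.rank → ℤ)) = LinearMap.id :=
      (Pi.basisFun ℤ (Fin D.rank)).ext fun j => by simpa using hbasis j
    exact LinearMap.congr_fun this (G.rc s)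
  have hn1 := (G.perm_eq_one_iff hn).1 hσ
  rw [hdiag, Subgroup.mem_bot] at hn1
  rw [e, hn1, mul_one, ← hBU]
  exact mul_mem hb hb'

end Cfsg.Agent.H88.LevelParabolic
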