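import Mathlib
import Cfsg.Prelude.Def_Characters
import Cfsg.Agent.H26.CharBasic
import Cfsg.Agent.H26.CharOrtho
import Cfsg.Agent.H26.CharLinear
import Cfsg.Agent.H20.FixedPoints
import Cfsg.Agent.H20.Abelian
import Cfsg.Agent.H21.Complement
import Cfsg.Agent.H89.PrimaryParts

/-!
# Characters multiplicative on pairs of primary elements for different primes
-/

namespace Cfsg.Agent.H88.MultCharacters

open Subgroup
open scoped commutatorElement ComplexConjugate

variable {G : Type*} [Group G] [Finite G]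

/-- Nontrivial elements of prime power orders for two different primes. -/
def IsPair (x y : G) : Prop :=
  x ≠ 1 ∧ y ≠ 1 ∧ ∃ p q a b : ℕ, p.Prime ∧ q.Prime ∧ p ≠ q ∧ orderOf x = p ^ a ∧ orderOf y = q ^ b

/-- The averaged multiplication formula for an irreducible character. -/
theorem sum_mul_conj [Fintype G] (χ : Cfsg.IrrCharacter G) (x y : G) :
    χ.1 1 * ∑ g : G, χ.1 (x * (g * y * g⁻¹)) = (Nat.card G : ℂ) * χ.1 x * χ.1 y := by
  obtain ⟨n, ρ, hρ, e⟩ := χ.2
  haveI := hρ
  have hcomm : ∀ (h : G) (v : Fin n → ℂ), (∑ g : G, ρ (g * y * g⁻¹)) (ρ h v) =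
      ρ h ((∑ g : G, ρ (g * y * g⁻¹)) v) := by
    intro h v
    simp only [LinearMap.coe_sum, Finset.sum_apply, map_sum]
    symm
    refine Fintype.sum_equiv (Equiv.mulLeft h) _ _ fun g => ?_
    show (ρ h * ρ (g * y * g⁻¹)) v = (ρ (h * g * y * (h * g)⁻¹) * ρ h) v
    rw [← map_mul, ← map_mul, show h * g * y * (h * g)⁻¹ * h = h * (g * y * g⁻¹) by group]
  let T : Representation.IntertwiningMap ρ ρ :=
    ⟨∑ g : G, ρ (g * y * g⁻¹), fun h => LinearMap.ext (hcomm h)⟩
  obtain ⟨c, hc⟩ :=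
    (Representation.IsIrreducible.algebraMap_intertwiningMap_bijective_of_isAlgClosed (ρ := ρ)).2 T
  have hT : (∑ g : G, ρ (g * y * g⁻¹)) = c • (LinearMap.id : (Fin n → ℂ) →ₗ[ℂ] (Fin n → ℂ)) := by
    have := congrArg (fun S : Representation.IntertwiningMap ρ ρ => S.toLinearMap) hc
    exact this.symm
  have h1 : (Nat.card G : ℂ) * χ.1 y = c * χ.1 1 := by
    have := congrArg (LinearMap.trace ℂ (Fin n → ℂ)) hT
    rw [map_sum, map_smul, LinearMap.trace_id, smul_eq_mul] at this
    rw [← e, ρ.char_one, ← this, Nat.card_eq_fintype_card, ← Finset.card_univ, ← nsmul_eq_mul,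
      ← Finset.sum_const]
    exact Finset.sum_congr rfl fun g _ => (ρ.char_conj y g).symm
  have h2 : ∑ g : G, χ.1 (x * (g * y * g⁻¹)) = c * χ.1 x := by
    rw [← e]
    simp only [Representation.character]
    rw [← map_sum, ← smul_eq_mul, ← map_smul]
    congr 1
    rw [Finset.sum_congr rfl fun g _ => map_mul ρ x (g * y * g⁻¹), ← Finset.mul_sum, hT]
    ext v
    simp
  calc χ.1 1 * ∑ g : G, χ.1 (x * (g * y * g⁻¹)) = c * χ.1 1 * χ.1 x := by rw [h2]; ring
    _ = _ := by rw [← h1]; ring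

/-- A character of degree one is multiplicative and trivial on the derived subgroup. -/
theorem exists_hom (χ : Cfsg.IrrCharacter G) (h1 : χ.1 1 = 1) :
    ∃ f : G →* ℂˣ, (∀ g, (f g : ℂ) = χ.1 g) ∧ ∀ g ∈ commutator G, χ.1 g = 1 := by
  obtain ⟨f, hf⟩ := H26.exists_hom_of_isCharacter_one (H26.irr_isCharacter χ) h1
  refine ⟨f, hf, fun g hg => ?_⟩
  rw [← hf g, MonoidHom.mem_ker.mp (Abelianization.commutator_subset_ker f hg), Units.val_one]

section Forward

variable (h : ∀ (x y : G) (χ : Cfsg.IrrCharacter G), IsPair x y → χ.1 (x * y) = χ.1 x * χ.1 y)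

include h

theorem vanish {x y : G} (hxy : IsPair x y) {χ : Cfsg.IrrCharacter G} (hχ : χ.1 1 ≠ 1) :
    χ.1 x * χ.1 y = 0 := by
  have := Fintype.ofFinite G
  have h1 := sum_mul_conj χ x y
  have h2 : ∀ g : G, χ.1 (x * (g * y * g⁻¹)) = χ.1 x * χ.1 y := by
    intro g
    rw [h x (g * y * g⁻¹) χ, H26.irr_conj]
    obtain ⟨hx, hy, p, q, a, b, hp, hq, hpq, ha, hb⟩ := hxy
    refine ⟨hx, fun e => hy ?_, p, q, a, b, hp, hq, hpq, ha, ?_⟩
    · rwa [mul_inv_eq_one, mul_eq_left] at e
    · rw [← hb]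
      exact orderOf_injective (MulAut.conj g).toMonoidHom (MulAut.conj g).injective y
  simp only [h2, Finset.sum_const, Finset.card_univ, nsmul_eq_mul, ← Nat.card_eq_fintype_card] at h1
  have h3 : (χ.1 1 - 1) * ((Nat.card G : ℂ) * (χ.1 x * χ.1 y)) = 0 := by linear_combination h1
  rcases mul_eq_zero.mp h3 with h4 | h4
  · exact absurd (sub_eq_zero.mp h4) hχ
  · exact (mul_eq_zero.mp h4).resolve_left (Nat.cast_ne_zero.2 Nat.card_pos.ne')

omit h in
theorem norm_eq_one [Fintype G] {χ : Cfsg.IrrCharacter G} (hχ : χ.1 1 = 1) (g : G) :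
    χ.1 g * conj (χ.1 g) = 1 := by
  obtain ⟨f, hf, -⟩ := exists_hom χ hχ
  rw [← H26.irr_inv, ← hf, ← hf, ← Units.val_mul, ← map_mul, mul_inv_cancel, map_one, Units.val_one]

omit h in
theorem card_linear [Fintype G] :
    ((Finset.univ.filter fun χ : Cfsg.IrrCharacter G => χ.1 1 = 1).card : ℕ) = (commutator G).index := by
  classical
  rw [← H26.card_linear_irr, Nat.card_eq_fintype_card, Fintype.card_subtype]

theorem card_centralizer_eq {x y : G} (hxy : IsPair x y) :
    Nat.card (centralizer ({x * y} : Set G)) = (commutator G).index := by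
  classical
  have := Fintype.ofFinite G
  have h1 := H26.column_orthogonality (x * y) (x * y)
  rw [H26.classIndicator, if_pos (IsConj.refl _), mul_one,
    ← Finset.sum_filter_add_sum_filter_not Finset.univ (fun χ : Cfsg.IrrCharacter G => χ.1 1 = 1),
    Finset.sum_congr rfl (fun χ hχ => norm_eq_one (Finset.mem_filter.1 hχ).2 (x * y)),
    Finset.sum_eq_zero (s := Finset.univ.filter fun χ : Cfsg.IrrCharacter G => ¬ χ.1 1 = 1)
      (fun χ hχ => by rw [h x y χ hxy, vanish h hxy (Finset.mem_filter.1 hχ).2, zero_mul]),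
    add_zero, Finset.sum_const, nsmul_one, card_linear] at h1
  exact_mod_cast h1.symm

theorem isPGroup_commutator {p : ℕ} [hp : Fact p.Prime] (hpd : p ∣ Nat.card (commutator G)) :
    IsPGroup p (commutator G) := by
  classical
  have := Fintype.ofFinite G
  rw [IsPGroup.iff_card]
  by_contra hno
  obtain ⟨q, hq, hqd, hqp⟩ : ∃ q : ℕ, q.Prime ∧ q ∣ Nat.card (commutator G) ∧ q ≠ p := by
    by_contra hnone
    push Not at hnone
    exact hno ⟨_, Nat.eq_prime_pow_of_unique_prime_dvd Nat.card_pos.ne' fun {d} hd hdd => hnone d hd hdd⟩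
  haveI := Fact.mk hq
  obtain ⟨x, hx⟩ := exists_prime_orderOf_dvd_card' p hpd
  obtain ⟨y, hy⟩ := exists_prime_orderOf_dvd_card' q hqd
  rw [← Subgroup.orderOf_coe] at hx hy
  have hxy : IsPair (x : G) (y : G) := by
    refine ⟨fun e => hp.out.ne_one ?_, fun e => hq.ne_one ?_, p, q, 1, 1, hp.out, hq, hqp.symm,
      by rw [hx, pow_one], by rw [hy, pow_one]⟩
    · rw [← hx, e, orderOf_one]
    · rw [← hy, e, orderOf_one]
  have h1 := H26.column_orthogonality (x : G) (y : G)⁻¹
  have hnc : ¬ IsConj (x : G) (y : G)⁻¹ := by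
    intro hc
    obtain ⟨c, hc⟩ := isConj_iff.1 hc
    apply hqp
    rw [← hy, ← orderOf_inv, ← hc, ← hx]
    exact orderOf_injective (MulAut.conj c).toMonoidHom (MulAut.conj c).injective (x : G)
  rw [H26.classIndicator, if_neg hnc, mul_zero] at h1
  simp only [H26.irr_inv, Complex.conj_conj] at h1
  rw [← Finset.sum_filter_add_sum_filter_not Finset.univ (fun χ : Cfsg.IrrCharacter G => χ.1 1 = 1),
    Finset.sum_congr rfl (fun χ hχ => by
      obtain ⟨f, -, hf⟩ := exists_hom χ (Finset.mem_filter.1 hχ).2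
      rw [hf _ x.2, hf _ y.2, one_mul]),
    Finset.sum_eq_zero (s := Finset.univ.filter fun χ : Cfsg.IrrCharacter G => ¬ χ.1 1 = 1)
      (fun χ hχ => vanish h hxy (Finset.mem_filter.1 hχ).2),
    add_zero, Finset.sum_const, nsmul_one, card_linear] at h1
  exact index_ne_zero_of_finite (H := commutator G) (by exact_mod_cast h1)

theorem forward : (∃ p : ℕ, p.Prime ∧ IsPGroup p G) ∨ IsMulCommutative G ∨
    ∃ (p : ℕ) (_ : Fact p.Prime) (P : Sylow p G) (A : Subgroup G), (P : Subgroup G).Normal ∧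
      IsCyclic A ∧ A ≠ ⊥ ∧ (Nat.card A).Coprime p ∧ A ⊔ (P : Subgroup G) = ⊤ ∧
      IsMulCommutative ((P : Subgroup G) ⊓ centralizer (A : Set G) : Subgroup G) ∧
      (⁅A, (P : Subgroup G)⁆).Normal ∧
      ((P : Subgroup G) ⊓ centralizer (A : Set G)) ⊔ ⁅A, (P : Subgroup G)⁆ = (P : Subgroup G) ∧
      ((P : Subgroup G) ⊓ centralizer (A : Set G)) ⊓ ⁅A, (P : Subgroup G)⁆ = ⊥ ∧
      ∀ a ∈ A, a ≠ 1 → ∀ d ∈ ⁅A, (P : Subgroup G)⁆, a * d = d * a → d = 1 := by
  classical
  by_cases hG' : commutator G = ⊥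
  · refine Or.inr (Or.inl ⟨⟨fun a b => ?_⟩⟩)
    rw [← commutatorElement_eq_one_iff_mul_comm, ← mem_bot, ← hG']
    exact commutator_mem_commutator (mem_top a) (mem_top b)
  obtain ⟨p, hp, hpd⟩ := Nat.exists_prime_and_dvd
    (fun e => hG' ((Subgroup.card_eq_one).1 e) : Nat.card (commutator G) ≠ 1)
  haveI := Fact.mk hp
  obtain ⟨P, hP⟩ := (isPGroup_commutator h hpd).exists_le_sylow
  have hPn : (P : Subgroup G).Normal := ⟨fun a ha g => by
    rw [show g * a * g⁻¹ = ⁅g, a⁆ * a by simp [commutatorElement_def]]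
    exact mul_mem (hP (commutator_mem_commutator (mem_top g) (mem_top a))) ha⟩
  haveI := hPn
  obtain ⟨A, hA⟩ := exists_right_complement'_of_coprime P.card_coprime_index
  have hAcard : Nat.card A = (P : Subgroup G).index := hA.symm.index_eq_card.symm
  have hAcop : (Nat.card A).Coprime p := by
    rw [hAcard]; exact ((hp.coprime_iff_not_dvd).2 P.not_dvd_index).symm
  have hAP : A ⊔ (P : Subgroup G) = ⊤ := sup_comm A (P : Subgroup G) ▸ hA.sup_eq_top
  have hdisj : (P : Subgroup G) ⊓ A = ⊥ := hA.disjoint.eq_bot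
  have hAab : ∀ a ∈ A, ∀ b ∈ A, a * b = b * a := fun a ha b hb => by
    rw [← commutatorElement_eq_one_iff_mul_comm, ← mem_bot, ← hdisj]
    exact ⟨hP (commutator_mem_commutator (mem_top a) (mem_top b)),
      A.mul_mem (A.mul_mem (A.mul_mem ha hb) (A.inv_mem ha)) (A.inv_mem hb)⟩
  by_cases hA1 : A = ⊥
  · refine Or.inl ⟨p, hp, ?_⟩
    rw [hA1, bot_sup_eq] at hAP
    exact (IsPGroup.of_equiv (hAP ▸ P.isPGroup') Subgroup.topEquiv)
  set C := (P : Subgroup G) ⊓ centralizer (A : Set G) with hCdef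
  set D := ⁅A, (P : Subgroup G)⁆ with hDdef
  have hCP : C ≤ P := inf_le_left
  have hord : ∀ x ∈ (P : Subgroup G), ∃ k, orderOf x = p ^ k := fun x hx => by
    obtain ⟨k, hk⟩ := IsPGroup.iff_orderOf.1 P.isPGroup' ⟨x, hx⟩
    exact ⟨k, by rwa [Subgroup.orderOf_mk] at hk⟩
  have hAPn : A ≤ normalizer ((P : Subgroup G) : Set G) := by
    rw [normalizer_eq_top]; exact le_top
  have hcopAP : (Nat.card A).Coprime (Nat.card (P : Subgroup G)) := by
    obtain ⟨k, hk⟩ := IsPGroup.iff_card.1 P.isPGroup'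
    rw [hk]; exact hAcop.pow_right k
  haveI : IsMulCommutative A := ⟨⟨fun a b => Subtype.ext (hAab a a.2 b b.2)⟩⟩
  have hsol : Group.IsSolvable A ∨ Group.IsSolvable (P : Subgroup G) := by
    refine Or.inr ?_
    haveI := P.isPGroup'.isNilpotent
    infer_instance
  have hCD : C ⊔ D = (P : Subgroup G) := by
    rw [sup_comm, hDdef, commutator_comm]
    exact H20.commutator_sup_centralizer hAPn hcopAP hsol
  have hDG' : D ≤ commutator G := by
    rw [_root_.commutator_def]; exact commutator_mono le_top le_top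
  -- pairs of commuting elements
  have hpair : ∀ x ∈ (P : Subgroup G), x ≠ 1 → ∀ y ∈ A, y ≠ 1 → IsPrimePow (orderOf y) → IsPair x y := by
    intro x hx hx1 y hy hy1 hyp
    obtain ⟨r, b, hr, hb, hrb⟩ := (isPrimePow_nat_iff _).1 hyp
    obtain ⟨k, hk⟩ := hord x hx
    refine ⟨hx1, hy1, p, r, k, b, hp, hr, fun e => ?_, hk, hrb.symm⟩
    subst e
    exact hp.one_lt.ne' (Nat.dvd_one.1 (hAcop.gcd_eq_one ▸ Nat.dvd_gcd
      ((dvd_pow_self p hb.ne').trans (hrb ▸ A.orderOf_dvd_natCard hy)) dvd_rfl))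
  have hbound : ∀ x ∈ C, x ≠ 1 → ∀ y ∈ A, y ≠ 1 → IsPrimePow (orderOf y) → ∀ K : Subgroup G,
      K ≤ P → K ≤ centralizer ({x} : Set G) → K ≤ centralizer ({y} : Set G) →
      Nat.card A * Nat.card K ∣ (commutator G).index := by
    intro x hx hx1 y hy hy1 hyp K hKP hKx hKy
    rw [← card_centralizer_eq h (hpair x hx.1 hx1 y hy hy1 hyp)]
    have hK : ∀ S : Subgroup G, S ≤ centralizer ({x} : Set G) → S ≤ centralizer ({y} : Set G) →
        S ≤ centralizer ({x * y} : Set G) := fun S h1 h2 g hg =>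
      mem_centralizer_singleton_iff.2 (Commute.mul_right (mem_centralizer_singleton_iff.1 (h1 hg))
        (mem_centralizer_singleton_iff.1 (h2 hg))).eq
    refine Nat.Coprime.mul_dvd_of_dvd_of_dvd (hcopAP.coprime_dvd_right (card_dvd_of_le hKP))
      (card_dvd_of_le (hK A ?_ ?_)) (card_dvd_of_le (hK K hKx hKy))
    · exact fun a ha => mem_centralizer_singleton_iff.2 (mem_centralizer_iff.1 hx.2 a ha)
    · exact fun a ha => mem_centralizer_singleton_iff.2 (hAab a ha y hy)
  obtain ⟨y₀, hy₀A, hy₀1, hy₀p⟩ : ∃ y ∈ A, y ≠ 1 ∧ IsPrimePow (orderOf y) := by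
    obtain ⟨r, hr, hrd⟩ := Nat.exists_prime_and_dvd (fun e => hA1 (Subgroup.card_eq_one.1 e) : Nat.card A ≠ 1)
    haveI := Fact.mk hr
    obtain ⟨y, hy⟩ := exists_prime_orderOf_dvd_card' r hrd
    rw [← Subgroup.orderOf_coe] at hy
    exact ⟨y, y.2, fun e => hr.ne_one (by rw [← hy, e, orderOf_one]), hy ▸ hr.isPrimePow⟩
  have hidx : (commutator G).index = Nat.card A * (commutator G).relIndex P := by
    rw [← relIndex_mul_index hP, hAcard, mul_comm]
  have hrelC : (commutator G).relIndex P = (commutator G).relIndex C := by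
    conv_lhs => rw [← hCD]
    have e : C ⊔ commutator G = (P : Subgroup G) :=
      le_antisymm (sup_le hCP hP) (hCD ▸ sup_le_sup_left hDG' C)
    rw [hCD, ← e, relIndex_sup_right]
  have hCG' : C ⊓ commutator G = ⊥ := by
    by_contra hne
    have hC1 : C ≠ ⊥ := fun e => hne (by rw [e, bot_inf_eq])
    haveI : Nontrivial C := (Subgroup.nontrivial_iff_ne_bot C).2 hC1
    obtain ⟨⟨z, hzC⟩, hz, hz1⟩ := (bot_or_exists_ne_one _).resolve_left
      (IsPGroup.center_nontrivial (P.isPGroup'.to_le hCP) |>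
        fun hn => (Subgroup.nontrivial_iff_ne_bot _).1 hn)
    have h1 := hbound z hzC (fun e => hz1 (Subtype.ext e)) y₀ hy₀A hy₀1 hy₀p C hCP
      (fun c hc => mem_centralizer_singleton_iff.2
        (congrArg Subtype.val (mem_center_iff.1 hz ⟨c, hc⟩)))
      (fun c hc => mem_centralizer_singleton_iff.2 (mem_centralizer_iff.1 hc.2 y₀ hy₀A).symm)
    rw [hidx, hrelC, Nat.mul_dvd_mul_iff_left Nat.card_pos] at h1
    apply hne
    have h2 := card_mul_index ((commutator G).subgroupOf C)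
    change _ * (commutator G).relIndex C = _ at h2
    have h3 : Nat.card ((commutator G).subgroupOf C) = 1 := by
      have hle : Nat.card C ≤ (commutator G).relIndex C :=
        Nat.le_of_dvd (Nat.pos_of_ne_zero index_ne_zero_of_finite) h1
      rw [← h2] at hle
      have h4 : 0 < Nat.card ((commutator G).subgroupOf C) := Nat.card_pos
      have h5 : 0 < (commutator G).relIndex C := Nat.pos_of_ne_zero index_ne_zero_of_finite
      nlinarith
    rw [Subgroup.card_eq_one, subgroupOf_eq_bot, disjoint_iff] at h3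
    rwa [inf_comm]
  have hrel : (commutator G).relIndex P = Nat.card C := by
    rw [hrelC, Subgroup.relIndex, subgroupOf_eq_bot.2 (disjoint_iff.2 (inf_comm C _ ▸ hCG')), index_bot]
  have hD : D = commutator G := by
    refine le_antisymm hDG' fun g hg => ?_
    have hg' : g ∈ C ⊔ D := hCD.ge (hP hg)
    have hCn : C ≤ normalizer (D : Set G) := fun c hc => by
      have := normalizer_commutator_ge_right A (P : Subgroup G) (hCP hc)
      exact this
    rw [← SetLike.mem_coe, Subgroup.coe_mul_of_left_le_normalizer_right C D hCn] at hg'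
    obtain ⟨c, hc, d, hd, rfl⟩ := hg'
    have : c ∈ C ⊓ commutator G := ⟨hc, by simpa using mul_mem hg (inv_mem (hDG' hd))⟩
    rw [hCG', mem_bot] at this
    simpa [this] using hd
  have hCy : ∀ y ∈ A, y ≠ 1 → IsPrimePow (orderOf y) →
      (P : Subgroup G) ⊓ centralizer ({y} : Set G) = C := by
    intro y hy hy1 hyp
    refine le_antisymm ?_ fun c hc => ⟨hc.1, mem_centralizer_singleton_iff.2 (mem_centralizer_iff.1 hc.2 y hy).symm⟩
    set K := (P : Subgroup G) ⊓ centralizer ({y} : Set G) with hK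
    rcases eq_or_ne K ⊥ with e | e
    · rw [e]; exact bot_le
    haveI : Nontrivial K := (Subgroup.nontrivial_iff_ne_bot K).2 e
    obtain ⟨⟨z, hzK⟩, hz, hz1⟩ := (bot_or_exists_ne_one _).resolve_left
      (IsPGroup.center_nontrivial (P.isPGroup'.to_le (inf_le_left : K ≤ _)) |>
        fun hn => (Subgroup.nontrivial_iff_ne_bot _).1 hn)
    have h1 := card_centralizer_eq h
      (hpair z hzK.1 (fun e => hz1 (Subtype.ext e)) y hy hy1 hyp)
    have hle : K ≤ centralizer ({z * y} : Set G) := fun g hg =>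
      mem_centralizer_singleton_iff.2 (Commute.mul_right
        (congrArg Subtype.val (mem_center_iff.1 hz ⟨g, hg⟩))
        (mem_centralizer_singleton_iff.1 hg.2)).eq
    have h2 : Nat.card K ∣ Nat.card A * Nat.card C := by
      rw [← hrel, ← hidx, ← h1]; exact card_dvd_of_le hle
    have h3 : Nat.card K ∣ Nat.card C :=
      (Nat.Coprime.dvd_of_dvd_mul_left ((hcopAP.coprime_dvd_right (card_dvd_of_le inf_le_left)).symm) h2)
    exact (eq_of_le_of_card_ge (fun c hc => ⟨hc.1, mem_centralizer_singleton_iff.2 (mem_centralizer_iff.1 hc.2 y hy).symm⟩ : C ≤ K)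
      (Nat.le_of_dvd Nat.card_pos h3)).ge
  have hCD0 : C ⊓ D = ⊥ := by rw [hD, hCG']
  have hfpf : ∀ a ∈ A, a ≠ 1 → ∀ d ∈ D, a * d = d * a → d = 1 := by
    intro a ha ha1 d hd had
    obtain ⟨r, hr, hrd⟩ := Nat.exists_prime_and_dvd (fun e => ha1 (orderOf_eq_one_iff.1 e) : orderOf a ≠ 1)
    have hy : orderOf (a ^ (orderOf a / r)) = r := orderOf_pow_orderOf_div (orderOf_pos a).ne' hrd
    rw [← mem_bot, ← hCD0]
    refine ⟨?_, hd⟩
    rw [← hCy (a ^ (orderOf a / r)) (pow_mem ha _)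
      (fun e => hr.ne_one (by rw [← hy, e, orderOf_one])) (by rw [hy]; exact hr.isPrimePow)]
    exact ⟨hP (hDG' hd), mem_centralizer_singleton_iff.2 ((Commute.pow_left had _).eq).symm⟩
  have hDn : D.Normal := by rw [hD]; infer_instance
  have hcyc : IsCyclic A := by
    haveI := hDn
    haveI : Nontrivial D := (Subgroup.nontrivial_iff_ne_bot D).2 (hD ▸ hG')
    refine H21.isCyclic_of_comm_fpf (H20.conjAut (A := A) (V := D) (by rw [normalizer_eq_top]; exact le_top))
      fun e he d hd => Subtype.ext (hfpf e e.2 (fun e1 => he (Subtype.ext e1)) d d.2 ?_)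
    have := congrArg Subtype.val hd
    rw [H20.coe_conjAut, mul_inv_eq_iff_eq_mul] at this
    exact this
  refine Or.inr (Or.inr ⟨p, ⟨hp⟩, P, A, hPn, hcyc, hA1, hAcop, hAP, ⟨⟨fun a b => ?_⟩⟩, hDn, hCD, hCD0, hfpf⟩)
  rw [← commutatorElement_eq_one_iff_mul_comm]
  refine Subtype.ext ((mem_bot (G := G)).1 (hCG'.le ⟨(⁅a, b⁆ : C).2, ?_⟩))
  exact commutator_mem_commutator (mem_top (a : G)) (mem_top (b : G))

end Forward

theorem backward
    (h : (∃ p : ℕ, p.Prime ∧ IsPGroup p G) ∨ IsMulCommutative G ∨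
    ∃ (p : ℕ) (_ : Fact p.Prime) (P : Sylow p G) (A : Subgroup G), (P : Subgroup G).Normal ∧
      IsCyclic A ∧ A ≠ ⊥ ∧ (Nat.card A).Coprime p ∧ A ⊔ (P : Subgroup G) = ⊤ ∧
      IsMulCommutative ((P : Subgroup G) ⊓ centralizer (A : Set G) : Subgroup G) ∧
      (⁅A, (P : Subgroup G)⁆).Normal ∧
      ((P : Subgroup G) ⊓ centralizer (A : Set G)) ⊔ ⁅A, (P : Subgroup G)⁆ = (P : Subgroup G) ∧
      ((P : Subgroup G) ⊓ centralizer (A : Set G)) ⊓ ⁅A, (P : Subgroup G)⁆ = ⊥ ∧
      ∀ a ∈ A, a ≠ 1 → ∀ d ∈ ⁅A, (P : Subgroup G)⁆, a * d = d * a → d = 1)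
    (x y : G) (χ : Cfsg.IrrCharacter G) (hxy : IsPair x y) : χ.1 (x * y) = χ.1 x * χ.1 y := by
  classical
  have := Fintype.ofFinite G
  obtain ⟨hx, hy, r, s, i, j, hr, hs, hrs, hi, hj⟩ := hxy
  have hlin : χ.1 1 = 1 → χ.1 (x * y) = χ.1 x * χ.1 y := fun h1 => by
    obtain ⟨f, hf, -⟩ := exists_hom χ h1
    rw [← hf, ← hf, ← hf, map_mul, Units.val_mul]
  rcases h with ⟨p, hp, hpG⟩ | hab | ⟨p, hp, P, A, hPn, hAc, -, hAcop, hAP, hCab, hDn, hCD, -, hfpf⟩
  · have key : ∀ {z : G} {r i : ℕ}, r.Prime → z ≠ 1 → orderOf z = r ^ i → r = p := by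
      intro z r i hr hz hzr
      haveI := Fact.mk hp
      obtain ⟨k, hk⟩ := IsPGroup.iff_orderOf.1 hpG z
      have hi0 : i ≠ 0 := fun e => hz (orderOf_eq_one_iff.1 (by rw [hzr, e, pow_zero]))
      exact (Nat.prime_dvd_prime_iff_eq hr hp).1 (hr.dvd_of_dvd_pow (hk ▸ hzr ▸ dvd_pow_self r hi0))
    exact absurd ((key hr hx hi).trans (key hs hy hj).symm) hrs
  · exact hlin (H26.irr_one_eq_one_of_comm (fun a b => hab.1.1 a b) χ)
  haveI := hp
  by_cases hχ : χ.1 1 = 1
  · exact hlin hχ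
  set C := (P : Subgroup G) ⊓ centralizer (A : Set G) with hCdef
  set D := ⁅A, (P : Subgroup G)⁆ with hDdef
  haveI := hDn
  haveI := hPn
  have hDP : D ≤ (P : Subgroup G) := hCD ▸ le_sup_right
  have hG'D : commutator G ≤ D := by
    haveI := hAc
    have hAab : ∀ a ∈ A, ∀ b ∈ A, a * b = b * a := fun a ha b hb =>
      congrArg Subtype.val (isMulCommutative_iff.mp IsCyclic.commutative ⟨a, ha⟩ ⟨b, hb⟩)
    have hcomm : ∀ u ∈ (A : Set G) ∪ C, ∀ v ∈ (A : Set G) ∪ C, u * v = v * u := by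
      rintro u (hu | hu) v (hv | hv)
      · exact hAab u hu v hv
      · exact mem_centralizer_iff.1 hv.2 u hu
      · exact (mem_centralizer_iff.1 hu.2 v hv).symm
      · exact congrArg Subtype.val (hCab.1.1 ⟨u, hu⟩ ⟨v, hv⟩)
    rw [← Subgroup.Normal.quotient_commutative_iff_commutator_le]
    have hsurj : (closure ((A : Set G) ∪ C)).map (QuotientGroup.mk' D) = ⊤ := by
      rw [← top_le_iff, ← map_top_of_surjective _ (QuotientGroup.mk'_surjective D), ← hAP, ← hCD,
        Subgroup.map_sup, Subgroup.map_sup, Subgroup.closure_union, Subgroup.closure_eq, Subgroup.closure_eq, Subgroup.map_sup]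
      refine sup_le le_sup_left (sup_le le_sup_right ?_)
      rw [(map_eq_bot_iff D).2 (QuotientGroup.ker_mk' D).ge]
      exact bot_le
    haveI := Subgroup.isMulCommutative_closure hcomm
    refine ⟨⟨fun a b => ?_⟩⟩
    obtain ⟨u, hu, rfl⟩ := hsurj.ge (mem_top a)
    obtain ⟨v, hv, rfl⟩ := hsurj.ge (mem_top b)
    rw [← map_mul, ← map_mul]
    exact congrArg _ (congrArg Subtype.val
      (isMulCommutative_iff.mp (inferInstance : IsMulCommutative (closure ((A : Set G) ∪ C))) ⟨u, hu⟩ ⟨v, hv⟩))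
  have hAidx : Nat.card A = (P : Subgroup G).index := by
    refine Nat.dvd_antisymm ?_ ?_
    · have hcopAP : (Nat.card A).Coprime (Nat.card (P : Subgroup G)) := by
        obtain ⟨k, hk⟩ := IsPGroup.iff_card.1 P.isPGroup'
        rw [hk]; exact hAcop.pow_right k
      refine hcopAP.dvd_of_dvd_mul_left ?_
      rw [card_mul_index]
      exact A.card_subgroup_dvd_card
    · rw [← relIndex_top_right, ← hAP, relIndex_sup_right]
      exact relIndex_dvd_card _ _
  have hzero : ∀ g : G, g ∉ (P : Subgroup G) → χ.1 g = 0 := by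
    intro g hg
    obtain ⟨t, ht, htg⟩ : ∃ t : ℕ, t.Prime ∧ g ^ (orderOf g / t ^ (orderOf g).factorization t) ∉ (P : Subgroup G) := by
      exact H89.exists_primaryPart_notMem (P : Subgroup G) hg
    set u := g ^ (orderOf g / t ^ (orderOf g).factorization t) with hu
    have hut : u ^ t ^ (orderOf g).factorization t = 1 := H89.pow_primaryExp_pow t g
    haveI := Fact.mk ht
    have htp : t ≠ p := by
      rintro rfl
      apply htg
      obtain ⟨k, -, hk⟩ := (Nat.dvd_prime_pow ht).1 (orderOf_dvd_of_pow_eq_one hut)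
      obtain ⟨Q, hQ⟩ := (show IsPGroup t (zpowers u) from
        IsPGroup.of_card (n := k) (by rw [Nat.card_zpowers, hk])).exists_le_sylow
      haveI := P.unique_of_normal hPn
      rw [Subsingleton.elim P Q]
      exact hQ (mem_zpowers u)
    obtain ⟨R⟩ : Nonempty (Sylow t A) := inferInstance
    have hRcard : Nat.card ((R : Subgroup A).map A.subtype) = t ^ (Nat.card G).factorization t := by
      rw [card_map_of_injective (subtype_injective _), R.card_eq_multiplicity]
      congr 1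
      have hnd : ¬ t ∣ Nat.card (P : Subgroup G) := by
        obtain ⟨k, hk⟩ := IsPGroup.iff_card.1 P.isPGroup'
        rw [hk]
        exact fun hd => htp ((Nat.prime_dvd_prime_iff_eq ht hp.out).1 (ht.dvd_of_dvd_pow hd))
      rw [hAidx, ← card_mul_index (P : Subgroup G), Nat.factorization_mul Nat.card_pos.ne'
        index_ne_zero_of_finite, Finsupp.add_apply, Nat.factorization_eq_zero_of_not_dvd hnd, zero_add]
    let R' : Sylow t G := Sylow.ofCard _ hRcard
    obtain ⟨k, -, hk⟩ := (Nat.dvd_prime_pow ht).1 (orderOf_dvd_of_pow_eq_one hut)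
    obtain ⟨Q, hQ⟩ := (show IsPGroup t (zpowers u) from
      IsPGroup.of_card (n := k) (by rw [Nat.card_zpowers, hk])).exists_le_sylow
    obtain ⟨c, hc⟩ := MulAction.exists_smul_eq G Q R'
    have hcA : c * u * c⁻¹ ∈ A := by
      have h2 : c * u * c⁻¹ ∈ ((R' : Sylow t G) : Subgroup G) := by
        rw [← hc, Sylow.coe_subgroup_smul]
        exact ⟨u, hQ (mem_zpowers u), rfl⟩
      exact map_subtype_le _ h2
    have hu1 : c * u * c⁻¹ ≠ 1 := fun e => htg (by
      rw [mul_inv_eq_one, mul_eq_left] at e; rw [e]; exact one_mem _)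
    have hinj : Function.Injective ((QuotientGroup.mk' D).comp (centralizer ({g} : Set G)).subtype) := by
      rw [injective_iff_map_eq_one]
      intro a ha
      have haD : (a : G) ∈ D := (QuotientGroup.eq_one_iff _).1 ha
      have hag : Commute (a : G) u := (show Commute (a : G) g from mem_centralizer_singleton_iff.1 a.2).pow_right _
      have h1 : c * a * c⁻¹ = 1 := by
        refine hfpf _ hcA hu1 _ (hDn.conj_mem _ haD c) ?_
        rw [show c * u * c⁻¹ * (c * a * c⁻¹) = c * (u * a) * c⁻¹ by group, ← hag.eq]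
        group
      refine Subtype.ext ?_
      rwa [mul_inv_eq_one, mul_eq_left] at h1
    have hle : Nat.card (centralizer ({g} : Set G)) ≤ (commutator G).index := by
      refine (Nat.card_le_card_of_injective _ hinj).trans ?_
      rw [← index_eq_card]
      exact Nat.le_of_dvd (Nat.pos_of_ne_zero index_ne_zero_of_finite) (index_dvd_of_le hG'D)
    have h1 := H26.column_orthogonality g g
    rw [H26.classIndicator, if_pos (IsConj.refl _), mul_one,
      ← Finset.sum_filter_add_sum_filter_not Finset.univ (fun χ : Cfsg.IrrCharacter G => χ.1 1 = 1),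
      Finset.sum_congr rfl (fun χ hχ => norm_eq_one (Finset.mem_filter.1 hχ).2 g),
      Finset.sum_const, nsmul_one, card_linear] at h1
    simp only [Complex.mul_conj] at h1
    rw [← Complex.ofReal_sum] at h1
    have h2 := congrArg Complex.re h1
    simp only [Complex.add_re, Complex.natCast_re, Complex.ofReal_re] at h2
    have h3 : ∑ ψ ∈ Finset.univ.filter (fun ψ : Cfsg.IrrCharacter G => ¬ ψ.1 1 = 1),
        Complex.normSq (ψ.1 g) = 0 := by
      refine le_antisymm ?_ (Finset.sum_nonneg fun ψ _ => Complex.normSq_nonneg _)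
      have : (Nat.card (centralizer ({g} : Set G)) : ℝ) ≤ (commutator G).index := by exact_mod_cast hle
      linarith
    exact Complex.normSq_eq_zero.1 ((Finset.sum_eq_zero_iff_of_nonneg fun ψ _ => Complex.normSq_nonneg _).1 h3 χ
      (Finset.mem_filter.2 ⟨Finset.mem_univ _, hχ⟩))
  have hP' : ∀ {z : G} {r i : ℕ}, r.Prime → z ≠ 1 → orderOf z = r ^ i → z ∈ (P : Subgroup G) → r = p := by
    intro z r i hr hz hzr hzP
    obtain ⟨k, hk⟩ := IsPGroup.iff_orderOf.1 P.isPGroup' ⟨z, hzP⟩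
    rw [Subgroup.orderOf_mk] at hk
    have hi0 : i ≠ 0 := fun e => hz (orderOf_eq_one_iff.1 (by rw [hzr, e, pow_zero]))
    exact (Nat.prime_dvd_prime_iff_eq hr hp.out).1 (hr.dvd_of_dvd_pow (hk ▸ hzr ▸ dvd_pow_self r hi0))
  have hxyP : x * y ∉ (P : Subgroup G) := by
    intro hm
    have hx' : x ∈ (P : Subgroup G) := by
      rw [← QuotientGroup.eq_one_iff (N := (P : Subgroup G)), ← orderOf_eq_one_iff]
      have he : (x : G ⧸ (P : Subgroup G)) = (y : G ⧸ (P : Subgroup G))⁻¹ := by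
        rw [eq_inv_iff_mul_eq_one, ← QuotientGroup.mk_mul]
        exact (QuotientGroup.eq_one_iff _).2 hm
      refine Nat.eq_one_of_dvd_coprimes (((Nat.coprime_primes hr hs).2 hrs).pow i j)
        ((orderOf_map_dvd (QuotientGroup.mk' _) x).trans hi.dvd) ?_
      rw [he, orderOf_inv]
      exact (orderOf_map_dvd (QuotientGroup.mk' _) y).trans hj.dvd
    have hy' : y ∈ (P : Subgroup G) := by simpa using mul_mem (inv_mem hx') hm
    exact hrs ((hP' hr hx hi hx').trans (hP' hs hy hj hy').symm)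
  rw [hzero _ hxyP]
  by_cases hxP : x ∈ (P : Subgroup G)
  · have hyP : y ∉ (P : Subgroup G) := fun hy' => hrs ((hP' hr hx hi hxP).trans (hP' hs hy hj hy').symm)
    rw [hzero y hyP, mul_zero]
  · rw [hzero x hxP, zero_mul]

end Cfsg.Agent.H88.MultCharacters
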