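import Mathlib
import Cfsg.Agent.H32.Basic
import Cfsg.Prelude.Def_Local

/-! Spanning orbits and fixed points for `p`-soluble groups in characteristic `p`. -/

namespace Cfsg.Agent.H88

open Subgroup

variable {k V H : Type*} [Field k] [AddCommGroup V] [Module k V] [Group H] [Finite H]

/-- Averaging over the cosets of `M` inside `N`. -/
noncomputable def relAverage (ρ : Representation k H V) (M N : Subgroup H) : V →ₗ[k] V :=
  letI := Fintype.ofFinite (N ⧸ M.subgroupOf N)
  (M.relIndex N : k)⁻¹ • ∑ q : N ⧸ M.subgroupOf N, ρ ((q.out : N) : H)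

theorem rep_mul (ρ : Representation k H V) (g h : H) (v : V) : ρ (g * h) v = ρ g (ρ h v) := by
  rw [map_mul]; rfl

theorem rep_out_eq (ρ : Representation k H V) {M N : Subgroup H} {v : V} (hv : ∀ m ∈ M, ρ m v = v)
    (x : N) : ρ (((QuotientGroup.mk x : N ⧸ M.subgroupOf N).out : N) : H) v = ρ (x : H) v := by
  obtain ⟨m, hm⟩ := QuotientGroup.mk_out_eq_mul (M.subgroupOf N) x
  rw [hm, Subgroup.coe_mul, rep_mul, hv _ (mem_subgroupOf.1 m.2)]

theorem relAverage_eq_self (ρ : Representation k H V) {M N : Subgroup H}
    (hr : (M.relIndex N : k) ≠ 0) {v : V} (hv : ∀ x ∈ N, ρ x v = v) : relAverage ρ M N v = v := by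
  letI := Fintype.ofFinite (N ⧸ M.subgroupOf N)
  simp only [relAverage, LinearMap.smul_apply, LinearMap.sum_apply]
  rw [Finset.sum_congr rfl fun q _ => hv _ q.out.2, Finset.sum_const, Finset.card_univ,
    ← Nat.card_eq_fintype_card, ← Nat.cast_smul_eq_nsmul k, smul_smul]
  change ((M.relIndex N : k)⁻¹ * (M.relIndex N : k)) • v = v
  rw [inv_mul_cancel₀ hr, one_smul]

theorem relAverage_fixed (ρ : Representation k H V) {M N : Subgroup H} {v : V}
    (hv : ∀ m ∈ M, ρ m v = v) {n : H} (hn : n ∈ N) :
    ρ n (relAverage ρ M N v) = relAverage ρ M N v := by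
  letI := Fintype.ofFinite (N ⧸ M.subgroupOf N)
  simp only [relAverage, LinearMap.smul_apply, LinearMap.sum_apply, map_smul, map_sum]
  congr 1
  refine Fintype.sum_equiv (MulAction.toPerm (⟨n, hn⟩ : N)) _ _ fun q => ?_
  rw [← rep_mul]
  have : MulAction.toPerm (⟨n, hn⟩ : N) q = QuotientGroup.mk ((⟨n, hn⟩ : N) * q.out) := by
    conv_lhs => rw [← q.out_eq]
    rfl
  rw [this, rep_out_eq ρ hv]
  rfl

theorem relAverage_comm (ρ : Representation k H V) {M N : Subgroup H} [hM : M.Normal] [hN : N.Normal]
    {v : V} (hv : ∀ m ∈ M, ρ m v = v) (h : H) :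
    ρ h (relAverage ρ M N v) = relAverage ρ M N (ρ h v) := by
  letI := Fintype.ofFinite (N ⧸ M.subgroupOf N)
  simp only [relAverage, LinearMap.smul_apply, LinearMap.sum_apply, map_smul, map_sum]
  congr 1
  have hv' : ∀ m ∈ M, ρ m (ρ h v) = ρ h v := fun m hm => by
    rw [← rep_mul, show m * h = h * (h⁻¹ * m * h) by group, rep_mul,
      hv _ (by simpa using hM.conj_mem m hm h⁻¹)]
  let c : N ⧸ M.subgroupOf N → N ⧸ M.subgroupOf N := Quotient.map'
    (fun x : N => (⟨h * x * h⁻¹, hN.conj_mem x x.2 h⟩ : N)) (fun a b hab => by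
      rw [QuotientGroup.leftRel_apply, mem_subgroupOf] at hab ⊢
      push_cast at hab ⊢
      have := hM.conj_mem _ hab h
      convert this using 1
      group)
  have hcbij : Function.Bijective c := by
    refine (Finite.injective_iff_bijective).1 fun a b hab => ?_
    revert hab
    refine Quotient.inductionOn₂' a b fun a b hab => Quotient.sound' ?_
    have := Quotient.exact' hab
    rw [QuotientGroup.leftRel_apply, mem_subgroupOf] at this ⊢
    push_cast at this ⊢
    have := hM.conj_mem _ this h⁻¹
    convert this using 1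
    group
  refine Fintype.sum_bijective c hcbij _ _ fun q => ?_
  conv_rhs => rw [← q.out_eq]
  show ρ h (ρ ((q.out : N) : H) v) = ρ (((QuotientGroup.mk _ : N ⧸ M.subgroupOf N).out : N) : H) (ρ h v)
  rw [rep_out_eq ρ hv', ← rep_mul, ← rep_mul]
  congr 2
  push_cast
  group

/-- If `K` is transitive on the `N`-orbit of `u`, the `K`-average of `u` is fixed by `N`. -/
theorem sum_orbit_fixed (ρ : Representation k H V) {M N K : Subgroup H} {u : V}
    (hu : ∀ m ∈ M, ρ m u = u) (hKN : K ≤ N)
    (htrans : ∀ g ∈ N, ∃ g' ∈ K, ρ g u = ρ g' u) {y : H} (hy : y ∈ N) :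
    ρ y (relAverage ρ M K u) = relAverage ρ M K u := by
  classical
  letI := Fintype.ofFinite (K ⧸ M.subgroupOf K)
  simp only [relAverage, LinearMap.smul_apply, LinearMap.sum_apply, map_smul]
  congr 1
  let φ : K ⧸ M.subgroupOf K → V := fun q => ρ ((q.out : K) : H) u
  have hφ : ∀ g : K, φ (QuotientGroup.mk g) = ρ (g : H) u := rep_out_eq ρ hu
  set O := Finset.univ.image φ with hO
  have hmemO : ∀ o, o ∈ O ↔ ∃ g ∈ K, ρ g u = o := by
    intro o
    rw [hO, Finset.mem_image]
    constructor
    · rintro ⟨q, -, rfl⟩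
      exact ⟨_, q.out.2, rfl⟩
    · rintro ⟨g, hg, rfl⟩
      exact ⟨QuotientGroup.mk ⟨g, hg⟩, Finset.mem_univ _, hφ ⟨g, hg⟩⟩
  have hfib : ∀ g : K, (Finset.univ.filter fun q => φ q = ρ (g : H) u).card =
      (Finset.univ.filter fun q => φ q = u).card := by
    intro g
    refine (Finset.card_equiv (MulAction.toPerm g) fun q => ?_).symm
    have e : φ (MulAction.toPerm g q) = ρ (g : H) (φ q) := by
      have : MulAction.toPerm g q = QuotientGroup.mk (g * q.out) := by
        conv_lhs => rw [← q.out_eq]
        rfl
      rw [this, hφ, Subgroup.coe_mul, rep_mul]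
    simp only [Finset.mem_filter, Finset.mem_univ, true_and, e]
    constructor
    · intro h; rw [h]
    · intro h
      have hinv : ∀ v, ρ ((g : H)⁻¹) (ρ (g : H) v) = v := fun v => by
        rw [← rep_mul, inv_mul_cancel, map_one]; rfl
      rw [← hinv (φ q), h, hinv]
  set c := (Finset.univ.filter fun q => φ q = u).card with hc
  have hsum : ∑ q, φ q = c • ∑ o ∈ O, o := by
    rw [Finset.sum_comp (fun o : V => o) φ, Finset.smul_sum]
    refine Finset.sum_congr rfl fun o ho => ?_
    obtain ⟨g, hg, rfl⟩ := (hmemO o).1 ho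
    rw [hfib ⟨g, hg⟩]
  show ρ y (∑ q, φ q) = ∑ q, φ q
  rw [hsum, map_nsmul, map_sum]
  congr 1
  have hmaps : ∀ z ∈ N, ∀ o ∈ O, ρ z o ∈ O := by
    intro z hz o ho
    obtain ⟨g, hg, rfl⟩ := (hmemO o).1 ho
    obtain ⟨g', hg', e⟩ := htrans (z * g) (mul_mem hz (hKN hg))
    exact (hmemO _).2 ⟨g', hg', by rw [← e, rep_mul]⟩
  refine Finset.sum_nbij' (fun o => ρ y o) (fun o => ρ y⁻¹ o) (hmaps y hy)
    (hmaps y⁻¹ (inv_mem hy)) ?_ ?_ (fun _ _ => rfl)
  · intro o _
    show ρ y⁻¹ (ρ y o) = o
    rw [← rep_mul, inv_mul_cancel, map_one]; rfl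
  · intro o _
    show ρ y (ρ y⁻¹ o) = o
    rw [← rep_mul, mul_inv_cancel, map_one]; rfl

/-- Spanning orbit of a vector fixed by a Sylow subgroup: invariants and coprime orbits. -/
theorem spanning_orbit_psoluble (p : ℕ) [hp : Fact p.Prime] [CharP k p]
    (hsol : IsPSolvable p H) (ρ : Representation k H V) (a : V)
    (hfix : ∃ P : Sylow p H, ∀ x : H, x ∈ (P : Subgroup H) → ρ x a = a)
    (hspan : Submodule.span k {u : V | ∃ h : H, ρ h a = u} = ⊤) :
    Module.finrank k ρ.invariants ≤ 1 ∧
    ∀ b : V, (Nat.card {u : V | ∃ h : H, ρ h a = u}).Coprime (Nat.card {u : V | ∃ h : H, ρ h b = u}) →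
      ∀ h : H, ρ h b = b := by
  classical
  obtain ⟨P, hP⟩ := hfix
  obtain ⟨n, S, h0, hlast, hmono, hnorm, hstep⟩ := hsol
  have hone : ∀ v : V, ρ 1 v = v := fun v => by rw [map_one]; rfl
  letI : MulAction H V := { smul := fun h v => ρ h v, one_smul := hone, mul_smul := fun g h v => rep_mul ρ g h v }
  let A := MulAction.stabilizer H a
  have key : ∀ i : Fin (n + 1), ∃ ai : V, (∀ x ∈ A, ρ x ai = ai) ∧ (∀ x ∈ S i, ρ x ai = ai) ∧
      (∀ b : V, (∀ x ∈ S i, ρ x b = b) → b ∈ Submodule.span k {u : V | ∃ h : H, ρ h ai = u}) ∧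
      (∀ b : V, A.index.Coprime (MulAction.stabilizer H b).index → ∀ x ∈ S i, ρ x b = b) := by
    intro i
    induction i using Fin.induction with
    | zero =>
      have hb : ∀ (v : V), ∀ x ∈ S 0, ρ x v = v := fun v x hx => by
        rw [h0, mem_bot] at hx; rw [hx, hone]
      exact ⟨a, fun x hx => hx, hb a, fun b _ => hspan ▸ Submodule.mem_top, fun b _ => hb b⟩
    | succ i ih =>
      obtain ⟨ai, hA, hS, hsp, hcop⟩ := ih
      haveI := hnorm i.castSucc
      haveI := hnorm i.succ
      have hle : S i.castSucc ≤ S i.succ := hmono i.castSucc_le_succ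
      have hS' : ∀ h : H, ∀ x ∈ S i.castSucc, ρ x (ρ h ai) = ρ h ai := fun h x hx => by
        rw [← rep_mul, show x * h = h * (h⁻¹ * x * h) by group, rep_mul,
          hS _ (by simpa using (hnorm i.castSucc).conj_mem x hx h⁻¹)]
      rcases hstep i with ⟨e, he⟩ | hco
      · -- a `p`-section lies in `S i` times a conjugate of the fixing subgroup
        have hfixall : ∀ h : H, ∀ x ∈ S i.succ, ρ x (ρ h ai) = ρ h ai := by
          intro h x hx
          have hx' : h⁻¹ * x * h ∈ S i.succ := by simpa using (hnorm i.succ).conj_mem x hx h⁻¹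
          have hT : S i.succ ≤ (P : Subgroup H) ⊔ S i.castSucc := by
            rw [← relIndex_eq_one]
            refine Nat.eq_one_of_dvd_coprimes (Nat.Coprime.pow_left e
              ((hp.out.coprime_iff_not_dvd).2 P.not_dvd_index)) ?_ ?_
            · rw [← he]; exact relIndex_dvd_of_le_left _ le_sup_right
            · refine dvd_trans ?_ (index_dvd_of_le (le_sup_left : (P : Subgroup H) ≤ (P : Subgroup H) ⊔ S i.castSucc))
              have h1 := Subgroup.relIndex_mul_index (inf_le_right : ((P : Subgroup H) ⊔ S i.castSucc) ⊓ S i.succ ≤ S i.succ)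
              have h2 : (((P : Subgroup H) ⊔ S i.castSucc) ⊓ S i.succ).index ∣
                  ((P : Subgroup H) ⊔ S i.castSucc).index * (S i.succ).index := by
                rw [← relIndex_mul_index (inf_le_left : ((P : Subgroup H) ⊔ S i.castSucc) ⊓ S i.succ ≤ _),
                  inf_relIndex_left, mul_comm]
                exact mul_dvd_mul_left _ (relIndex_dvd_index_of_normal _ _)
              rw [← h1, inf_relIndex_right] at h2
              exact (Nat.mul_dvd_mul_iff_right (Nat.pos_of_ne_zero index_ne_zero_of_finite)).1 h2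
          obtain ⟨y, hy, z, hz, hyz⟩ : ∃ y ∈ (P : Subgroup H), ∃ z ∈ S i.castSucc, y * z = h⁻¹ * x * h := by
            have := hT hx'
            rw [← SetLike.mem_coe, mul_normal] at this
            exact this
          have hfx : ρ (h⁻¹ * x * h) ai = ai := by
            rw [← hyz, rep_mul, hS z hz, hA y (MulAction.mem_stabilizer_iff.2 (hP y hy))]
          calc ρ x (ρ h ai) = ρ (h * (h⁻¹ * x * h)) ai := by rw [← rep_mul]; congr 2; group
            _ = ρ h ai := by rw [rep_mul, hfx]
        refine ⟨ai, hA, fun x hx => by simpa [hone] using hfixall 1 x hx,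
          fun b hb => hsp b fun x hx => hb x (hle hx), fun b hb x hx => ?_⟩
        have hmem := hsp b (hcop b hb)
        have hclosed : Submodule.span k {u : V | ∃ h : H, ρ h ai = u} ≤
            LinearMap.eqLocus (ρ x) LinearMap.id := by
          rw [Submodule.span_le]
          rintro _ ⟨h, rfl⟩
          exact hfixall h x hx
        exact hclosed hmem
      · set r := (S i.castSucc).relIndex (S i.succ) with hr
        have hr0 : (r : k) ≠ 0 := by
          rw [Ne, CharP.cast_eq_zero_iff k p]
          exact (hp.out.coprime_iff_not_dvd).1 hco.symm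
        set E := relAverage ρ (S i.castSucc) (S i.succ) with hE
        have hEh : ∀ h : H, ρ h (E ai) = E (ρ h ai) := fun h => relAverage_comm ρ hS h
        refine ⟨E ai, fun x hx => by rw [hEh, hA x hx], fun x hx => relAverage_fixed ρ hS hx,
          fun b hb => ?_, fun b hb x hx => ?_⟩
        · have hmem := Submodule.mem_map_of_mem (f := E) (hsp b fun x hx => hb x (hle hx))
          rw [relAverage_eq_self ρ hr0 hb, Submodule.map_span] at hmem
          refine Submodule.span_mono ?_ hmem
          rintro _ ⟨_, ⟨h, rfl⟩, rfl⟩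
          exact ⟨h, hEh h⟩
        · -- `b` equals its average
          set B := MulAction.stabilizer H b with hB
          have hbS := hcop b hb
          have hKtrans : ∀ h : H, ∀ y ∈ S i.succ, ∃ z ∈ S i.succ ⊓ B, ρ y (ρ h ai) = ρ z (ρ h ai) := by
            intro h y hy
            set A' := MulAction.stabilizer H (ρ h ai) with hA'
            have hA'A : A'.index ∣ A.index := by
              have h1 : A.map (MulAut.conj h).toMonoidHom ≤ A' := by
                rintro _ ⟨x, hx, rfl⟩
                show ρ (h * x * h⁻¹) (ρ h ai) = ρ h ai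
                rw [← rep_mul, show h * x * h⁻¹ * h = h * x by group, rep_mul, hA x hx]
              refine (index_dvd_of_le h1).trans (dvd_of_eq ?_)
              exact index_map_equiv A (MulAut.conj h)
            set N := S i.succ
            have hdA : A'.relIndex N ∣ A'.index := H32.relIndex_dvd_index' A' N
            have hdB : B.relIndex N ∣ B.index := H32.relIndex_dvd_index' B N
            have hc : (A'.relIndex N).Coprime (B.relIndex N) :=
              (hb.coprime_dvd_left hA'A).of_dvd hdA hdB
            have hidx : (A'.subgroupOf N ⊓ B.subgroupOf N).index = (A'.subgroupOf N).index * (B.subgroupOf N).index :=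
              le_antisymm index_inf_le (Nat.le_of_dvd (Nat.pos_of_ne_zero index_ne_zero_of_finite)
                (hc.mul_dvd_of_dvd_of_dvd (index_dvd_of_le inf_le_left) (index_dvd_of_le inf_le_right)))
            -- pigeonhole: the `B`-part maps onto the cosets of `A'` in `N`
            let f : (B.subgroupOf N) ⧸ (A'.subgroupOf N).subgroupOf (B.subgroupOf N) → N ⧸ A'.subgroupOf N :=
              Quotient.map' Subtype.val fun s t hst => by
                rw [QuotientGroup.leftRel_apply] at hst ⊢
                exact hst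
            have hf : Function.Injective f := by
              intro s t
              refine Quotient.inductionOn₂' s t fun s t hst => Quotient.sound' ?_
              have := Quotient.exact' hst
              rw [QuotientGroup.leftRel_apply] at this ⊢
              exact this
            have hcard : Nat.card ((B.subgroupOf N) ⧸ (A'.subgroupOf N).subgroupOf (B.subgroupOf N)) =
                Nat.card (N ⧸ A'.subgroupOf N) := by
              rw [← index_eq_card, ← index_eq_card]
              have h1 := relIndex_mul_index (inf_le_right : A'.subgroupOf N ⊓ B.subgroupOf N ≤ B.subgroupOf N)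
              rw [inf_relIndex_right, hidx] at h1
              exact Nat.eq_of_mul_eq_mul_right (Nat.pos_of_ne_zero index_ne_zero_of_finite) h1
            have hbij := (Nat.bijective_iff_injective_and_card f).2 ⟨hf, hcard⟩
            obtain ⟨q, hq⟩ := hbij.2 (QuotientGroup.mk ⟨y, hy⟩)
            obtain ⟨z, rfl⟩ := QuotientGroup.mk_surjective q
            refine ⟨((z : N) : H), mem_inf.2 ⟨(z : N).2, z.2⟩, ?_⟩
            have hz : ((z : N) : H)⁻¹ * y ∈ A' := by
              have hq' : (QuotientGroup.mk (z : N) : N ⧸ A'.subgroupOf N) = QuotientGroup.mk ⟨y, hy⟩ := hq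
              exact mem_subgroupOf.1 (QuotientGroup.eq.1 hq')
            have hz' : ρ (((z : N) : H)⁻¹ * y) (ρ h ai) = ρ h ai := hz
            calc ρ y (ρ h ai) = ρ (((z : N) : H) * (((z : N) : H)⁻¹ * y)) (ρ h ai) := by
                  rw [mul_inv_cancel_left]
              _ = _ := by rw [rep_mul, hz']
          let K := S i.succ ⊓ B
          have hSK : ∀ x ∈ S i.castSucc, x ∈ K := fun x hx => mem_inf.2 ⟨hle hx, hbS x hx⟩
          let E' := relAverage ρ (S i.castSucc) K
          have hrK : ((S i.castSucc).relIndex K : k) ≠ 0 := by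
            rw [Ne, CharP.cast_eq_zero_iff k p]
            intro hd
            refine (hp.out.coprime_iff_not_dvd).1 hco.symm (hd.trans ?_)
            show _ ∣ (S i.castSucc).relIndex (S i.succ)
            rw [← relIndex_mul_relIndex (S i.castSucc) K (S i.succ) hSK inf_le_left]
            exact dvd_mul_right _ _
          have hKfix : ∀ h : H, ∀ y ∈ S i.succ, ρ y (E' (ρ h ai)) = E' (ρ h ai) := by
            intro h y hy
            exact sum_orbit_fixed ρ (hS' h) inf_le_left (hKtrans h) hy
          have hEb : E' b = b := relAverage_eq_self ρ hrK fun x hx => hx.2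
          have hmem := Submodule.mem_map_of_mem (f := E') (hsp b hbS)
          rw [hEb, Submodule.map_span] at hmem
          have hclosed : Submodule.span k (E' '' {u : V | ∃ h : H, ρ h ai = u}) ≤
              LinearMap.eqLocus (ρ x) LinearMap.id := by
            rw [Submodule.span_le]
            rintro _ ⟨_, ⟨h, rfl⟩, rfl⟩
            exact hKfix h x hx
          exact hclosed hmem
  obtain ⟨at', -, hS, hsp, hcop⟩ := key (Fin.last n)
  have hfixT : ∀ h : H, ρ h at' = at' := fun h => hS h (hlast ▸ mem_top h)
  refine ⟨?_, fun b hb h => hcop b ?_ h (hlast ▸ mem_top h)⟩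
  · have hle : ρ.invariants ≤ k ∙ at' := by
      intro b hb
      refine Submodule.span_mono ?_ (hsp b fun x _ => hb x)
      rintro _ ⟨h, rfl⟩
      exact hfixT h
    refine (Submodule.finrank_mono hle).trans ?_
    rcases eq_or_ne at' 0 with h0' | h0'
    · rw [h0', Submodule.span_zero_singleton, finrank_bot]; exact zero_le_one
    · rw [finrank_span_singleton h0']
  · rw [MulAction.index_stabilizer, MulAction.index_stabilizer, ← Nat.card_coe_set_eq,
      ← Nat.card_coe_set_eq]
    exact hb

end Cfsg.Agent.H88
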