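import Cfsg.Agent.H88.LevelParabolicCore
import Cfsg.Agent.H8.BNParabolic
import Cfsg.Agent.H46.BNPair

/-!
# Iterated cores of a maximal parabolic subgroup of depth six and a conjugate of it
-/

set_option autoImplicit false

namespace Cfsg.Agent.H88.ParabolicCores

open Cfsg.Lie Cfsg.Agent.H46 Cfsg.Agent.H88.LevelParabolic
open scoped Matrix MatrixGroups

section Core

variable {G : Type*} [Group G]

/-- The core in `M` of `Y`, as a subgroup of the ambient group. -/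
def coreIn (M Y : Subgroup G) : Subgroup G := (Y.subgroupOf M).normalCore.map M.subtype

theorem mem_coreIn {M Y : Subgroup G} {x : G} :
    x ∈ coreIn M Y ↔ x ∈ M ∧ ∀ m ∈ M, m * x * m⁻¹ ∈ Y := by
  constructor
  · rintro ⟨y, hy, rfl⟩
    refine ⟨y.2, fun m hm => ?_⟩
    have := Subgroup.mem_subgroupOf.1 (hy ⟨m, hm⟩)
    simpa using this
  · rintro ⟨hx, h⟩
    refine ⟨⟨x, hx⟩, fun m => ?_, rfl⟩
    rw [Subgroup.mem_subgroupOf]
    simpa using h m m.2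

theorem map_coreIn (c : G ≃* G) (M Y : Subgroup G) :
    (coreIn M Y).map c.toMonoidHom = coreIn (M.map c.toMonoidHom) (Y.map c.toMonoidHom) := by
  ext x
  simp only [Subgroup.mem_map_equiv, mem_coreIn]
  refine and_congr_right fun _ => ⟨fun h m hm => ?_, fun h m hm => ?_⟩
  · simpa using h _ hm
  · simpa using h (c m) (by simpa using hm)

end Core

variable {D : ChevalleyDatum} (𝔾 : Good D) (a : Fin D.rank) (F : Type) [Field F]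

/-- The monomial element as an element of the group. -/
noncomputable def g₀ : ↥(D.group F) := ⟨out 𝔾 a F, 𝔾.ng_mem_group _ _⟩

/-- Conjugation by `g₀`. -/
noncomputable def cj : ↥(D.group F) ≃* ↥(D.group F) := MulAut.conj (g₀ 𝔾 a F)

theorem coe_cj (x : ↥(D.group F)) :
    ((cj 𝔾 a F x : ↥(D.group F)) : GL D.Idx F) = out 𝔾 a F * x * (out 𝔾 a F)⁻¹ := rfl

/-- The maximal parabolic subgroup. -/
noncomputable def M₁ : Subgroup ↥(D.group F) := (par a F).subgroupOf (D.group F)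

/-- The descending sequence in `M₁`. -/
noncomputable def A : ℕ → Subgroup ↥(D.group F)
  | 0 => M₁ a F
  | i + 1 => coreIn (M₁ a F) (A i ⊓ (A i).map (cj 𝔾 a F).toMonoidHom)

theorem A_le (i : ℕ) : A 𝔾 a F i ≤ M₁ a F := by
  cases i with
  | zero => exact le_rfl
  | succ i => intro x hx; exact (mem_coreIn.1 hx).1

theorem g₀_notMem : g₀ 𝔾 a F ∉ M₁ a F := fun h => out_notMem_par 𝔾 a (F := F) h

include 𝔾 in
theorem isCoatom_M₁ : IsCoatom (M₁ (D := D) a F) := by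
  refine ⟨fun h => g₀_notMem 𝔾 a F (h ▸ Subgroup.mem_top _), fun H hH => ?_⟩
  set P := 𝔾.bnPair (F := F) with hP
  have hB : P.B ≤ M₁ a F := fun x hx => borel_le_par a hx
  have hBH : P.B ≤ H := hB.trans hH.le
  have eH := Cfsg.Agent.H8.BN.eq_parabolic (P := P) hBH
  have hS : ∀ s ∈ P.S, s = g₀ 𝔾 a F ∨ s ∈ M₁ a F := by
    rintro s ⟨i, hi, hs⟩
    by_cases h : i = a.val
    · subst h
      exact Or.inl (Subtype.ext (𝔾.eq_ng hs))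
    · right
      show (s : GL D.Idx F) ∈ par a F
      rw [𝔾.eq_ng hs]
      exact ng_mem_par 𝔾 a hi h
  by_cases hg : g₀ 𝔾 a F ∈ H
  · refine top_le_iff.1 ?_
    rw [← Cfsg.Agent.H8.BN.parabolic_self (P := P)]
    refine sup_le hBH ((Subgroup.closure_le _).2 fun s hs => ?_)
    rcases hS s hs with h | h
    · exact h ▸ hg
    · exact hH.le h
  · exfalso
    refine not_le_of_gt hH (le_of_eq_of_le eH (sup_le hB ((Subgroup.closure_le _).2 fun s hs => ?_)))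
    rcases hS s hs.1 with h | h
    · exact absurd (h ▸ hs.2) hg
    · exact h

theorem map_ne : M₁ a F ≠ (M₁ a F).map (cj 𝔾 a F).toMonoidHom := by
  intro h
  have hs : 𝔾.xg (D.simple a) (1 : F) ∈ par a F :=
    xg_mem_par 𝔾 a (𝔾.simple_lt a.2) (by simp [lev, 𝔾.rc_simple a.2]) 1
  have hmem : cj 𝔾 a F ⟨_, 𝔾.xg_mem_group (D.simple a) (1 : F)⟩ ∈ M₁ a F := by
    rw [h]; exact ⟨⟨_, 𝔾.xg_mem_group _ _⟩, hs, rfl⟩
  have h2 : out 𝔾 a F * 𝔾.xg (D.simple a) 1 * (out 𝔾 a F)⁻¹ ∈ par a F := hmem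
  rw [out, 𝔾.ng_mul_xg (𝔾.simple_lt a.2) one_ne_zero, mul_inv_cancel_right] at h2
  exact neg_simple_notMem_par 𝔾 a (by simp) h2

variable (hdiag : D.diagonalSubgroup F = ⊥)

include hdiag

theorem out_sq : out 𝔾 a F * out 𝔾 a F = 1 := by
  have := 𝔾.ng_simple_sq_mem (F := F) (a.2)
  rwa [hdiag, Subgroup.mem_bot] at this

theorem out_inv : (out 𝔾 a F)⁻¹ = out 𝔾 a F := inv_eq_of_mul_eq_one_right (out_sq 𝔾 a F hdiag)

theorem cj_cj (x : ↥(D.group F)) : cj 𝔾 a F (cj 𝔾 a F x) = x := by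
  apply Subtype.ext
  have h := out_sq 𝔾 a F hdiag
  rw [coe_cj, coe_cj, out_inv 𝔾 a F hdiag, show out 𝔾 a F * (out 𝔾 a F * ↑x * out 𝔾 a F) * out 𝔾 a F =
    (out 𝔾 a F * out 𝔾 a F) * ↑x * (out 𝔾 a F * out 𝔾 a F) by group, h, one_mul, mul_one]

theorem cj_symm : (cj 𝔾 a F).symm = cj 𝔾 a F :=
  MulEquiv.ext fun x => (cj 𝔾 a F).injective (by rw [MulEquiv.apply_symm_apply, cj_cj 𝔾 a F hdiag])

theorem mem_A_succ {i : ℕ} {x : ↥(D.group F)} :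
    x ∈ A 𝔾 a F (i + 1) ↔ x ∈ M₁ a F ∧ ∀ m ∈ M₁ a F,
      m * x * m⁻¹ ∈ A 𝔾 a F i ∧ cj 𝔾 a F (m * x * m⁻¹) ∈ A 𝔾 a F i := by
  rw [A, mem_coreIn]
  simp only [Subgroup.mem_inf, Subgroup.mem_map_equiv, cj_symm 𝔾 a F hdiag]

theorem A_invariant {i : ℕ} {p : GL D.Idx F} (hp : p ∈ par a F) {y : ↥(D.group F)} (hy : y ∈ A 𝔾 a F (i + 1)) :
    (⟨p, 𝔾.parabolic_le_group hp⟩ : ↥(D.group F)) * y * (⟨p, 𝔾.parabolic_le_group hp⟩ : ↥(D.group F))⁻¹ ∈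
      A 𝔾 a F (i + 1) := by
  rw [mem_A_succ 𝔾 a F hdiag] at hy ⊢
  refine ⟨mul_mem (mul_mem hp hy.1) (inv_mem hp), fun m hm => ?_⟩
  have := hy.2 (m * ⟨p, 𝔾.parabolic_le_group hp⟩) (mul_mem hm hp)
  simpa [mul_assoc] using this

theorem self_mem_of_A_succ {i : ℕ} {y : ↥(D.group F)} (hy : y ∈ A 𝔾 a F (i + 1)) :
    y ∈ A 𝔾 a F i ∧ cj 𝔾 a F y ∈ A 𝔾 a F i := by
  simpa using ((mem_A_succ 𝔾 a F hdiag).1 hy).2 1 (one_mem _)

theorem lower (hlow : Low 𝔾 a) : ∀ (i : ℕ) (x : ↥(D.group F)),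
    (x : GL D.Idx F) ∈ 𝔾.posSub (Lset 𝔾 a ((i : ℤ) + 1)) → x ∈ A 𝔾 a F i := by
  intro i
  induction i with
  | zero => exact fun x hx => posSub_Lset_le_par 𝔾 a hx
  | succ i ih =>
    intro x hx
    rw [mem_A_succ 𝔾 a F hdiag]
    refine ⟨posSub_Lset_le_par 𝔾 a hx, fun m hm => ?_⟩
    have h1 : ((m * x * m⁻¹ : ↥(D.group F)) : GL D.Idx F) ∈ 𝔾.posSub (Lset 𝔾 a ((i : ℤ) + 1 + 1)) := by
      push_cast at hx ⊢
      exact conj_mem_Lset 𝔾 a hm (by omega) hx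
    refine ⟨ih _ (𝔾.posSub_mono (S := Lset 𝔾 a ((i : ℤ) + 1 + 1)) (T := Lset 𝔾 a ((i : ℤ) + 1))
      (fun r _ hr => ⟨hr.1, by have := hr.2; omega⟩) h1), ih _ ?_⟩
    rw [coe_cj, out_inv 𝔾 a F hdiag]
    exact conj_out_mem 𝔾 a hlow (by omega) (out_sq 𝔾 a F hdiag) h1

variable (hF : ∀ t : F, t ≠ 0 → t = 1) (hlow : Low 𝔾 a)
  (hexit1 : ∀ r : Fin D.nroots, lev 𝔾 a r = 1 → ∃ n ∈ D.monomialSubgroup F, n ∈ par a F ∧
    lev 𝔾 a (D.reflectRoot a (𝔾.perm n r)) < 0)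
  (hexit : ∀ m : ℤ, 2 ≤ m → m ≤ 6 → ∀ r : Fin D.nroots, lev 𝔾 a r = m → ∃ n ∈ D.monomialSubgroup F,
    n ∈ par a F ∧ lev 𝔾 a (D.reflectRoot a (𝔾.perm n r)) < m)
  (hspan : ∀ j, j < D.rank → j ≠ a.val → ∃ r, r < D.nroots ∧ lev 𝔾 a r = 1 ∧ D.cartan j r = -1)
  (hlev : ∀ r, r < D.nroots → lev 𝔾 a r ≤ 6)

include hF hlow hexit1 hexit hspan

theorem upper : ∀ (i : ℕ), i < 6 → ∀ x ∈ A 𝔾 a F (i + 1),
    (x : GL D.Idx F) ∈ 𝔾.posSub (Lset 𝔾 a ((i : ℤ) + 2)) := by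
  intro i
  induction i with
  | zero =>
    intro _ x hx
    have key : (A 𝔾 a F 1).map (D.group F).subtype ≤ 𝔾.posSub (Lset 𝔾 a 2) := by
      refine le_level_two 𝔾 a ?_ ?_ ?_ hdiag hF hexit1 hspan
      · rintro _ ⟨y, hy, rfl⟩
        exact A_le 𝔾 a F 1 hy
      · rintro p hp _ ⟨y, hy, rfl⟩
        exact ⟨_, A_invariant 𝔾 a F hdiag hp hy, by simp⟩
      · rintro _ ⟨y, hy, rfl⟩
        exact (self_mem_of_A_succ 𝔾 a F hdiag hy).2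
    simpa using key ⟨x, hx, rfl⟩
  | succ i ih =>
    intro hi x hx
    have key : (A 𝔾 a F (i + 2)).map (D.group F).subtype ≤ 𝔾.posSub (Lset 𝔾 a (((i : ℤ) + 2) + 1)) := by
      refine descend 𝔾 a (m := (i : ℤ) + 2) (m' := (i : ℤ) + 2) ?_ (by omega) (by omega) ?_
        (hexit _ (by omega) (by omega))
      · rintro p hp _ ⟨y, hy, rfl⟩
        exact ⟨_, A_invariant 𝔾 a F hdiag hp hy, by simp⟩
      · rintro _ ⟨y, hy, rfl⟩
        have hy' := self_mem_of_A_succ 𝔾 a F hdiag hy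
        refine mem_Tset_of_conj 𝔾 a hlow (by omega) (out_sq 𝔾 a F hdiag) (ih (by omega) y hy'.1) ?_
        have := ih (by omega) _ hy'.2
        rwa [coe_cj, out_inv 𝔾 a F hdiag] at this
    have e : (((i + 1 : ℕ) : ℤ) + 2) = ((i : ℤ) + 2) + 1 := by push_cast; ring
    rw [e]
    exact key ⟨x, hx, rfl⟩

include hlev

theorem main [Finite ↥(D.group F)] (hsimple : IsSimpleGroup ↥(D.group F))
    (r : ℕ) (hr : r < D.nroots) (hr6 : lev 𝔾 a r = 6) :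
    ∃ (G : Type) (_ : Group G) (_ : Finite G) (M₁ M₂ : Subgroup G) (g : G) (A B : ℕ → Subgroup G),
    IsCoatom M₁ ∧ M₂ = M₁.map (MulAut.conj g).toMonoidHom ∧ M₁ ≠ M₂ ∧ M₁.normalCore = ⊥ ∧ A 0 = M₁ ∧ B 0 = M₂ ∧
    (∀ i, A (i + 1) = ((A i ⊓ B i).subgroupOf M₁).normalCore.map M₁.subtype) ∧
    (∀ i, B (i + 1) = ((A i ⊓ B i).subgroupOf M₂).normalCore.map M₂.subtype) ∧ A 6 = ⊥ ∧ A 5 ≠ ⊥ := by
  have hA6 : A 𝔾 a F 6 = ⊥ := by
    refine (Subgroup.eq_bot_iff_forall _).2 fun x hx => ?_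
    have h := upper 𝔾 a F hdiag hF hlow hexit1 hexit hspan 5 (by norm_num) x hx
    have : 𝔾.posSub (F := F) (Lset 𝔾 a (((5 : ℕ) : ℤ) + 2)) = ⊥ := by
      rw [Good.posSub, Subgroup.closure_eq_bot_iff]
      rintro g ⟨s, t, ⟨-, hs'⟩, -⟩
      have := hlev s hs'.1
      have := hs'.2
      omega
    rw [this, Subgroup.mem_bot] at h
    exact Subtype.ext h
  have hA5 : A 𝔾 a F 5 ≠ ⊥ := by
    have h6 : 1 ≤ lev 𝔾 a r := by omega
    have hmem : 𝔾.xg r (1 : F) ∈ 𝔾.posSub (Lset 𝔾 a (((5 : ℕ) : ℤ) + 1)) :=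
      𝔾.xg_mem_posSub (S := Lset 𝔾 a (((5 : ℕ) : ℤ) + 1)) (isPosRoot_of_lev 𝔾 a hr h6) ⟨hr, by omega⟩ 1
    intro hbot
    have := lower 𝔾 a F hdiag hlow 5 ⟨𝔾.xg r 1, 𝔾.xg_mem_group r 1⟩ hmem
    rw [hbot, Subgroup.mem_bot] at this
    exact one_ne_zero ((𝔾.xg_eq_one_iff hr (1 : F)).1 (congrArg Subtype.val this))
  have hcore : (M₁ (D := D) a F).normalCore = ⊥ := by
    haveI := hsimple
    rcases (inferInstance : (M₁ (D := D) a F).normalCore.Normal).eq_bot_or_eq_top with h | h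
    · exact h
    · exact absurd ((M₁ (D := D) a F).normalCore_le (h ▸ Subgroup.mem_top _)) (g₀_notMem 𝔾 a F)
  refine ⟨↥(D.group F), inferInstance, inferInstance, M₁ a F, (M₁ a F).map (cj 𝔾 a F).toMonoidHom, g₀ 𝔾 a F,
    A 𝔾 a F, fun i => (A 𝔾 a F i).map (cj 𝔾 a F).toMonoidHom, isCoatom_M₁ 𝔾 a F, rfl, map_ne 𝔾 a F,
    hcore, rfl, rfl, fun i => rfl, fun i => ?_, hA6, hA5⟩
  show (coreIn (M₁ a F) (A 𝔾 a F i ⊓ (A 𝔾 a F i).map (cj 𝔾 a F).toMonoidHom)).map (cj 𝔾 a F).toMonoidHom =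
    coreIn _ _
  have hmm : ((A 𝔾 a F i).map (cj 𝔾 a F).toMonoidHom).map (cj 𝔾 a F).toMonoidHom = A 𝔾 a F i := by
    ext x
    simp only [Subgroup.mem_map_equiv, cj_symm 𝔾 a F hdiag, cj_cj 𝔾 a F hdiag]
  rw [map_coreIn, Subgroup.map_inf _ _ (cj 𝔾 a F).toMonoidHom (cj 𝔾 a F).injective, hmm, inf_comm]

end Cfsg.Agent.H88.ParabolicCores
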