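import Mathlib
import Cfsg.Agent.H88.CentralParts

/-! Cossey–Hawkes–Mann: nilpotency is determined by the multiset of class sizes. -/

namespace Cfsg.Agent.H88

open Subgroup

/-- Number of elements whose class size has a given property. -/
noncomputable def countClassSize (G : Type*) [Group G] (S : ℕ → Prop) : ℕ :=
  Nat.card {g : G // S (centralizer ({g} : Set G)).index}

theorem countClassSize_eq {G H : Type*} [Group G] [Finite G] [Group H] [Finite H]
    (h : ∀ k : ℕ, Nat.card {C : ConjClasses G // Nat.card C.carrier = k} =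
      Nat.card {C : ConjClasses H // Nat.card C.carrier = k}) (S : ℕ → Prop) :
    countClassSize G S = countClassSize H S := by
  classical
  have e0 : ∀ k, Nonempty ({C : ConjClasses G // Nat.card C.carrier = k} ≃
      {C : ConjClasses H // Nat.card C.carrier = k}) := fun k => Finite.card_eq.1 (h k)
  let e : ConjClasses G ≃ ConjClasses H := Equiv.ofFiberEquiv (fun k => (e0 k).some)
  have he : ∀ C : ConjClasses G, Nat.card (e C).carrier = Nat.card C.carrier :=
    fun C => Equiv.ofFiberEquiv_map (fun k => (e0 k).some) C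
  haveI := Fintype.ofFinite {C : ConjClasses G // S (Nat.card C.carrier)}
  haveI := Fintype.ofFinite {C : ConjClasses H // S (Nat.card C.carrier)}
  have key : ∀ (K : Type _) [Group K] [Finite K] [Fintype {C : ConjClasses K // S (Nat.card C.carrier)}],
      countClassSize K S = ∑ C : {C : ConjClasses K // S (Nat.card C.carrier)}, Nat.card C.1.carrier := by
    intro K _ _ _
    rw [← Nat.card_sigma]
    refine Nat.card_congr
      { toFun := fun g => ⟨⟨ConjClasses.mk g.1, by
          rw [Nat.card_coe_set_eq, ← index_centralizer_eq_ncard_conj]; exact g.2⟩,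
          g.1, ConjClasses.mem_carrier_mk⟩
        invFun := fun s => ⟨s.2.1, by
          have h1 := ConjClasses.mem_carrier_iff_mk_eq.1 s.2.2
          rw [index_centralizer_eq_ncard_conj, h1, ← Nat.card_coe_set_eq]
          exact s.1.2⟩
        left_inv := fun g => rfl
        right_inv := fun s => by
          rcases s with ⟨⟨C, hC⟩, g, hg⟩
          obtain rfl := ConjClasses.mem_carrier_iff_mk_eq.1 hg
          rfl }
  rw [key G]
  calc ∑ C : {C : ConjClasses G // S (Nat.card C.carrier)}, Nat.card C.1.carrier
      = ∑ C : {C : ConjClasses H // S (Nat.card C.carrier)}, Nat.card C.1.carrier :=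
        Fintype.sum_equiv (e.subtypeEquiv fun C => by rw [he]) _ _ (fun C => (he C.1).symm)
    _ = countClassSize H S := by
        unfold countClassSize
        rw [← Nat.card_sigma]
        refine Nat.card_congr
          { toFun := fun s => ⟨s.2.1, by
              have h1 := ConjClasses.mem_carrier_iff_mk_eq.1 s.2.2
              rw [index_centralizer_eq_ncard_conj, h1, ← Nat.card_coe_set_eq]
              exact s.1.2⟩
            invFun := fun g => ⟨⟨ConjClasses.mk g.1, by
              rw [Nat.card_coe_set_eq, ← index_centralizer_eq_ncard_conj]; exact g.2⟩,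
              g.1, ConjClasses.mem_carrier_mk⟩
            left_inv := fun s => by
              rcases s with ⟨⟨C, hC⟩, g, hg⟩
              obtain rfl := ConjClasses.mem_carrier_iff_mk_eq.1 hg
              rfl
            right_inv := fun g => rfl }

theorem countClassSize_true (G : Type*) [Group G] : countClassSize G (fun _ => True) = Nat.card G :=
  Nat.card_congr (Equiv.subtypeUnivEquiv fun _ => trivial)

theorem countClassSize_one (G : Type*) [Group G] :
    countClassSize G (fun n => n = 1) = Nat.card (center G) :=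
  Nat.card_congr (Equiv.subtypeEquivRight fun g => by
    show (centralizer ({g} : Set G)).index = 1 ↔ g ∈ center G
    rw [index_eq_one, mem_center_iff]
    constructor
    · intro h x
      exact mem_centralizer_singleton.1 (h ▸ mem_top x)
    · intro h
      exact eq_top_iff.2 fun x _ => mem_centralizer_singleton.2 (h x))

/-- The number of central elements in a Sylow `p`-subgroup. -/
theorem nilpotent_counts {H : Type*} [Group H] [Finite H] (hH : Group.IsNilpotent H) {p : ℕ}
    [hp : Fact p.Prime] (P : Sylow p H) :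
    countClassSize H (fun n => ¬ p ∣ n) * Nat.card (P : Subgroup H) =
        Nat.card ((P : Subgroup H) ⊓ center H : Subgroup H) * Nat.card H ∧
    countClassSize H (fun n => ∃ a, n = p ^ a) *
        Nat.card ((P : Subgroup H) ⊓ center H : Subgroup H) =
        Nat.card (P : Subgroup H) * Nat.card (center H) := by
  classical
  haveI : Group.IsNilpotent H := hH
  haveI hPn : (P : Subgroup H).Normal :=
    Sylow.normal_of_normalizerCondition Group.normalizerCondition_of_isNilpotent P
  obtain ⟨N, hN⟩ := Subgroup.exists_right_complement'_of_coprime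
    (N := (P : Subgroup H)) P.card_coprime_index
  have hNcard : Nat.card N = (P : Subgroup H).index := hN.symm.index_eq_card.symm
  have hNp : ¬ p ∣ Nat.card N := hNcard ▸ P.not_dvd_index
  set C := centralizer ((P : Subgroup H) : Set H) with hC
  have hCidx : ∀ q : ℕ, q.Prime → q ≠ p → ¬ q ∣ C.index := by
    intro q hq hqp hdvd
    haveI : Fact q.Prime := ⟨hq⟩
    let Q : Sylow q H := default
    haveI hQn : (Q : Subgroup H).Normal :=
      Sylow.normal_of_normalizerCondition Group.normalizerCondition_of_isNilpotent Q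
    have hQC : (Q : Subgroup H) ≤ C := by
      rw [hC, ← commutator_eq_bot_iff_le_centralizer]
      exact commutator_eq_bot_of_disjoint
        (IsPGroup.disjoint_of_ne q p hqp _ _ Q.isPGroup' P.isPGroup')
    exact Q.not_dvd_index (hdvd.trans (index_dvd_of_le hQC))
  obtain ⟨c, hc⟩ : ∃ c, C.index = p ^ c :=
    ⟨_, Nat.eq_prime_pow_of_unique_prime_dvd index_ne_zero_of_finite fun {q} hq hd => by
      by_contra hne
      exact hCidx q hq hne hd⟩
  have hNC : N ≤ C := by
    intro v hv
    rw [← QuotientGroup.eq_one_iff, ← orderOf_eq_one_iff]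
    refine Nat.eq_one_of_dvd_coprimes (Nat.Coprime.pow_right c (Nat.coprime_comm.1
      ((hp.out.coprime_iff_not_dvd).2 hNp))) ?_ ?_
    · exact (orderOf_map_dvd (QuotientGroup.mk' C) v).trans (orderOf_dvd_natCard N hv)
    · rw [← hc, index_eq_card]
      exact _root_.orderOf_dvd_natCard _
  have hcomm : ∀ u : (P : Subgroup H), ∀ v : N, Commute (u : H) v := fun u v =>
    mem_centralizer_iff.1 (hNC v.2) u u.2
  have hidxu : ∀ u : (P : Subgroup H), ∃ a, (centralizer ({(u : H)} : Set H)).index = p ^ a := by
    intro u
    have hle : N ≤ centralizer ({(u : H)} : Set H) := fun v hv =>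
      mem_centralizer_singleton.2 (hcomm u ⟨v, hv⟩).eq.symm
    obtain ⟨n, hn⟩ := P.isPGroup'.exists_card_eq
    obtain ⟨a, -, ha⟩ := (Nat.dvd_prime_pow hp.out).1
      (show (centralizer ({(u : H)} : Set H)).index ∣ p ^ n by
      rw [← hn, ← hN.index_eq_card]; exact index_dvd_of_le hle)
    exact ⟨a, ha⟩
  have hidxv : ∀ v : N, ¬ p ∣ (centralizer ({(v : H)} : Set H)).index := fun v hd =>
    P.not_dvd_index (hd.trans (index_dvd_of_le fun u hu =>
      mem_centralizer_singleton.2 (hcomm ⟨u, hu⟩ v).eq))
  have hcent : ∀ (u : (P : Subgroup H)) (v : N), centralizer ({(u : H) * v} : Set H) =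
      centralizer ({(u : H)} : Set H) ⊓ centralizer ({(v : H)} : Set H) := fun u v => by
    refine centralizer_mul_of_coprime (hcomm u v) ?_
    obtain ⟨n, hn⟩ := P.isPGroup'.exists_card_eq
    exact Nat.Coprime.of_dvd (orderOf_dvd_natCard _ u.2) (orderOf_dvd_natCard N v.2)
      (hn ▸ Nat.Coprime.pow_left n ((hp.out.coprime_iff_not_dvd).2 hNp))
  have hcenter : ∀ x : H, x ∈ center H ↔ (centralizer ({x} : Set H)).index = 1 := fun x => by
    rw [index_eq_one, mem_center_iff]
    constructor
    · intro h
      exact eq_top_iff.2 fun y _ => mem_centralizer_singleton.2 (h y)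
    · intro h y
      exact mem_centralizer_singleton.1 (h ▸ mem_top y)
  have hY : ∀ (u : (P : Subgroup H)) (v : N),
      (¬ p ∣ (centralizer ({(u : H) * v} : Set H)).index) ↔ (u : H) ∈ center H := by
    intro u v
    rw [hcent u v, hcenter]
    constructor
    · intro h
      obtain ⟨a, ha⟩ := hidxu u
      rcases Nat.eq_zero_or_pos a with rfl | hapos
      · simpa using ha
      · exact absurd ((dvd_pow_self p hapos.ne').trans (ha ▸ index_dvd_of_le inf_le_left)) h
    · intro h
      rw [index_eq_one.1 h, top_inf_eq]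
      exact hidxv v
  have hX : ∀ (u : (P : Subgroup H)) (v : N),
      (∃ a, (centralizer ({(u : H) * v} : Set H)).index = p ^ a) ↔ (v : H) ∈ center H := by
    intro u v
    rw [hcent u v, hcenter]
    constructor
    · rintro ⟨a, ha⟩
      exact Nat.eq_one_of_dvd_coprimes (((hp.out.coprime_iff_not_dvd).2 (hidxv v)).pow_left a)
        (ha ▸ index_dvd_of_le inf_le_right) dvd_rfl
    · intro h
      rw [index_eq_one.1 h, inf_top_eq]
      exact hidxu u
  let e : ↥(P : Subgroup H) × N ≃ H := Equiv.ofBijective (fun z => (z.1 : H) * z.2) hN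
  have hYc : countClassSize H (fun n => ¬ p ∣ n) =
      Nat.card ((P : Subgroup H) ⊓ center H : Subgroup H) * Nat.card N := by
    rw [← Nat.card_prod]
    refine (Nat.card_congr ((e.subtypeEquiv (p := fun z : ↥(P : Subgroup H) × N => (z.1 : H) ∈ center H) fun z =>
      (hY z.1 z.2).symm).symm.trans ?_))
    exact
      { toFun := fun z => (⟨z.1.1, mem_inf.2 ⟨z.1.1.2, z.2⟩⟩, z.1.2)
        invFun := fun z => ⟨(⟨z.1, (mem_inf.1 z.1.2).1⟩, z.2), (mem_inf.1 z.1.2).2⟩
        left_inv := fun z => rfl
        right_inv := fun z => rfl }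
  have hXc : countClassSize H (fun n => ∃ a, n = p ^ a) =
      Nat.card (P : Subgroup H) * Nat.card (N ⊓ center H : Subgroup H) := by
    rw [← Nat.card_prod]
    refine (Nat.card_congr ((e.subtypeEquiv (p := fun z : ↥(P : Subgroup H) × N => (z.2 : H) ∈ center H) fun z =>
      (hX z.1 z.2).symm).symm.trans ?_))
    exact
      { toFun := fun z => (z.1.1, ⟨z.1.2, mem_inf.2 ⟨z.1.2.2, z.2⟩⟩)
        invFun := fun z => ⟨(z.1, ⟨z.2, (mem_inf.1 z.2.2).1⟩), (mem_inf.1 z.2.2).2⟩
        left_inv := fun z => rfl
        right_inv := fun z => rfl }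
  have hZc : Nat.card (center H) = Nat.card ((P : Subgroup H) ⊓ center H : Subgroup H) *
      Nat.card (N ⊓ center H : Subgroup H) := by
    rw [← Nat.card_prod]
    have hz : ∀ z : ↥(P : Subgroup H) × N,
        ((z.1 : H) ∈ center H ∧ (z.2 : H) ∈ center H) ↔ e z ∈ center H := fun z => by
      constructor
      · exact fun h => mul_mem h.1 h.2
      · intro h
        have h' := (hcenter _).1 h
        change (centralizer ({(z.1 : H) * z.2} : Set H)).index = 1 at h'
        rw [hcent, index_eq_one, inf_eq_top_iff] at h'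
        exact ⟨(hcenter _).2 (index_eq_one.2 h'.1), (hcenter _).2 (index_eq_one.2 h'.2)⟩
    refine Nat.card_congr ((e.subtypeEquiv hz).symm.trans ?_)
    exact
      { toFun := fun z => (⟨z.1.1, mem_inf.2 ⟨z.1.1.2, z.2.1⟩⟩, ⟨z.1.2, mem_inf.2 ⟨z.1.2.2, z.2.2⟩⟩)
        invFun := fun z => ⟨(⟨z.1, (mem_inf.1 z.1.2).1⟩, ⟨z.2, (mem_inf.1 z.2.2).1⟩),
          (mem_inf.1 z.1.2).2, (mem_inf.1 z.2.2).2⟩
        left_inv := fun z => rfl
        right_inv := fun z => rfl }
  constructor
  · rw [hYc, hNcard, ← (P : Subgroup H).card_mul_index]; ring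
  · rw [hXc, hZc]; ring

/-- If the class sizes prime to `p` are as numerous as in a nilpotent group, central `p`-elements
are the only `p`-elements centralized by a Sylow `p`-subgroup. -/
theorem mem_center_of_count {G : Type*} [Group G] [Finite G] {p : ℕ} [hp : Fact p.Prime]
    (Q : Sylow p G)
    (hY : ¬ p ∣ countClassSize G (fun n => ¬ p ∣ n) /
      Nat.card ((Q : Subgroup G) ⊓ center G : Subgroup G))
    (u : G) (hu : ∃ k, orderOf u = p ^ k) (hQu : (Q : Subgroup G) ≤ centralizer ({u} : Set G)) :
    u ∈ center G := by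
  classical
  set N := (Q : Subgroup G) ⊓ center G with hN
  have hNc : N ≤ center G := inf_le_right
  haveI : N.Normal := ⟨fun a ha g => by
    rwa [mem_center_iff.1 (hNc ha) g, mul_inv_cancel_right]⟩
  let Y : Set G := {g | ¬ p ∣ (centralizer ({g} : Set G)).index}
  have hinv : ∀ g, ∀ z ∈ N, g * z ∈ Y ↔ g ∈ Y := fun g z hz => by
    simp only [Y, Set.mem_setOf_eq, centralizer_mul_central (hNc hz)]
  let S : Set (G ⧸ N) := QuotientGroup.mk '' Y
  have hSY : (QuotientGroup.mk : G → G ⧸ N) ⁻¹' S = Y := by
    refine Set.Subset.antisymm ?_ (Set.subset_preimage_image _ _)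
    rintro g ⟨y, hy, hyg⟩
    have := QuotientGroup.eq.1 hyg
    rwa [← mul_inv_cancel_left y g, hinv y _ this]
  have hScard : countClassSize G (fun n => ¬ p ∣ n) = Nat.card N * S.ncard := by
    rw [← ncard_preimage_mk N S, hSY, ← Nat.card_coe_set_eq]; rfl
  rw [hScard, Nat.mul_div_cancel_left _ Nat.card_pos] at hY
  have hcl : ∀ (s g : G), g ∈ Y → s * g * s⁻¹ ∈ Y := fun s g hg => by
    simp only [Y, Set.mem_setOf_eq, index_centralizer_eq_ncard_conj] at hg ⊢
    rwa [show ConjClasses.mk (s * g * s⁻¹) = ConjClasses.mk g from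
      ConjClasses.mk_eq_mk_iff_isConj.2 (isConj_comm.1 (isConj_iff.2 ⟨s, rfl⟩))]
  letI act : MulAction (Q : Subgroup G) S :=
    { smul := fun s q => ⟨(QuotientGroup.mk (s : G) : G ⧸ N) * q.1 * (QuotientGroup.mk (s : G) : G ⧸ N)⁻¹, by
        obtain ⟨g, hg, hgq⟩ := q.2
        exact ⟨s * g * (s : G)⁻¹, hcl _ g hg, by
          rw [QuotientGroup.mk_mul, QuotientGroup.mk_mul, QuotientGroup.mk_inv, hgq]⟩⟩
      one_smul := fun q => Subtype.ext (show (QuotientGroup.mk ((1 : (Q : Subgroup G)) : G) : G ⧸ N) *
          q.1 * (QuotientGroup.mk ((1 : (Q : Subgroup G)) : G) : G ⧸ N)⁻¹ = q.1 by simp)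
      mul_smul := fun a b q => Subtype.ext (show (QuotientGroup.mk ((a * b : (Q : Subgroup G)) : G) : G ⧸ N) *
          q.1 * (QuotientGroup.mk ((a * b : (Q : Subgroup G)) : G) : G ⧸ N)⁻¹ =
          (QuotientGroup.mk (a : G) : G ⧸ N) * ((QuotientGroup.mk (b : G) : G ⧸ N) * q.1 *
            (QuotientGroup.mk (b : G) : G ⧸ N)⁻¹) * (QuotientGroup.mk (a : G) : G ⧸ N)⁻¹ by
        simp only [Subgroup.coe_mul, QuotientGroup.mk_mul, mul_inv_rev, mul_assoc]) }
  have hmod := Q.isPGroup'.card_modEq_card_fixedPoints S
  set K := centralizer ((Q : Subgroup G) : Set G) with hK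
  -- fixed cosets are the cosets inside `C(Q)`
  have hNK : N ≤ K := hNc.trans (center_le_centralizer _)
  have hfix : Nat.card (MulAction.fixedPoints (Q : Subgroup G) S) * Nat.card N = Nat.card K := by
    have hset : Subtype.val '' MulAction.fixedPoints (Q : Subgroup G) S =
        QuotientGroup.mk '' (K : Set G) := by
      ext q
      constructor
      · rintro ⟨⟨q, g, hg, rfl⟩, hfixed, rfl⟩
        refine ⟨g, ?_, rfl⟩
        rw [SetLike.mem_coe, hK, mem_centralizer_iff]
        intro s hs
        have h1 : (QuotientGroup.mk (s * g * s⁻¹) : G ⧸ N) = QuotientGroup.mk g := by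
          have h := congrArg Subtype.val (hfixed ⟨s, hs⟩)
          change (QuotientGroup.mk s : G ⧸ N) * QuotientGroup.mk g * (QuotientGroup.mk s : G ⧸ N)⁻¹ = _ at h
          rw [QuotientGroup.mk_mul, QuotientGroup.mk_mul, QuotientGroup.mk_inv]
          exact h
        obtain ⟨z, hz, hzg⟩ : ∃ z ∈ N, s * g * s⁻¹ = g * z :=
          ⟨_, QuotientGroup.eq.1 h1.symm, (mul_inv_cancel_left _ _).symm⟩
        have hz1 : z = 1 := by
          -- multiplication by `z` permutes the class of `g` freely
          have hzc : z ∈ center G := hNc hz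
          let cl := (ConjClasses.mk g).carrier
          have hperm : ∀ y ∈ cl, y * z ∈ cl := by
            intro y hy
            obtain ⟨x, rfl⟩ := mem_carrier_mk.1 hy
            refine mem_carrier_mk.2 ⟨x * s, ?_⟩
            calc x * s * g * (x * s)⁻¹ = x * (s * g * s⁻¹) * x⁻¹ := by group
              _ = x * (g * z) * x⁻¹ := by rw [hzg]
              _ = x * g * (z * x⁻¹) := by group
              _ = x * g * (x⁻¹ * z) := by rw [mem_center_iff.1 hzc x⁻¹]
              _ = _ := by group
          have hpow : ∀ (y : G) (n : ℕ), y ∈ cl → y * z ^ n ∈ cl := by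
            intro y n hy
            induction n with
            | zero => simpa using hy
            | succ n ih => rw [pow_succ, ← mul_assoc]; exact hperm _ ih
          letI za : MulAction (zpowers z) cl :=
            { smul := fun w y => ⟨y * w, by
                obtain ⟨n, hn⟩ := (mem_powers_iff_mem_zpowers.2 w.2)
                simpa [← hn] using hpow y.1 n y.2⟩
              one_smul := fun y => Subtype.ext (mul_one _)
              mul_smul := fun a b y => Subtype.ext (by
                show (y : G) * ((a : G) * b) = y * b * a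
                rw [← mem_center_iff.1 (zpowers_le.2 hzc a.2) (b : G)]
                group) }
          have hfree : ∀ y : cl, MulAction.stabilizer (zpowers z) y = ⊥ := fun y => by
            rw [eq_bot_iff]
            intro w hw
            rw [mem_bot]
            apply Subtype.ext
            have h2 : (y : G) * w = y := congrArg Subtype.val (MulAction.mem_stabilizer_iff.1 hw)
            simpa using h2
          have hdvd : orderOf z ∣ Nat.card cl := by
            rw [Nat.card_congr (MulAction.selfEquivOrbitsQuotientProd hfree), Nat.card_prod,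
              Nat.card_zpowers]
            exact dvd_mul_left _ _
          obtain ⟨n, hn⟩ := Q.isPGroup'.exists_card_eq
          obtain ⟨i, -, hi⟩ := (Nat.dvd_prime_pow hp.out).1
            (hn ▸ orderOf_dvd_natCard _ (inf_le_left (a := (Q : Subgroup G)) hz))
          rcases i with _ | i
          · rwa [pow_zero, orderOf_eq_one_iff] at hi
          · refine absurd ((dvd_pow_self p i.succ_ne_zero).trans (hi ▸ hdvd)) ?_
            rw [Nat.card_coe_set_eq, ← index_centralizer_eq_ncard_conj]
            exact hg
        rw [hz1, mul_one] at hzg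
        exact eq_mul_of_mul_inv_eq hzg
      · rintro ⟨g, hg, rfl⟩
        have hgY : g ∈ Y := fun hd => Q.not_dvd_index (hd.trans (index_dvd_of_le fun s hs =>
          mem_centralizer_singleton.2 (mem_centralizer_iff.1 hg s hs)))
        refine ⟨⟨_, g, hgY, rfl⟩, fun s => Subtype.ext ?_, rfl⟩
        show QuotientGroup.mk (s : G) * QuotientGroup.mk g * (QuotientGroup.mk (s : G))⁻¹ = _
        rw [← QuotientGroup.mk_mul, mem_centralizer_iff.1 hg s s.2, QuotientGroup.mk_mul,
          mul_inv_cancel_right]
    rw [← Nat.card_image_of_injective Subtype.val_injective, hset, Nat.card_coe_set_eq,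
      mul_comm, ← ncard_preimage_mk N, ← Nat.card_coe_set_eq]
    have : (QuotientGroup.mk : G → G ⧸ N) ⁻¹' (QuotientGroup.mk '' (K : Set G)) = K := by
      refine Set.Subset.antisymm ?_ (Set.subset_preimage_image _ _)
      rintro g ⟨k, hk, hkg⟩
      rw [← mul_inv_cancel_left k g]
      exact mul_mem hk (hNK (QuotientGroup.eq.1 hkg))
    rw [this]; rfl
  have hnd : ¬ p ∣ Nat.card (MulAction.fixedPoints (Q : Subgroup G) S) := fun hd => hY (by
    have := (Nat.modEq_zero_iff_dvd).2 hd
    rw [← Nat.card_coe_set_eq]
    exact Nat.modEq_zero_iff_dvd.1 (hmod.trans this))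
  obtain ⟨k, hk⟩ := hu
  have huQ : u ∈ (Q : Subgroup G) := by
    have hz : IsPGroup p (zpowers u) := IsPGroup.of_card (n := k) (by rw [Nat.card_zpowers, hk])
    have hnorm : (Q : Subgroup G) ≤ normalizer (zpowers u : Set G) := fun s hs => by
      have hsu : s * u = u * s := mem_centralizer_singleton.1 (hQu hs)
      rw [mem_normalizer_iff]
      intro w
      constructor
      · intro hw
        obtain ⟨i, rfl⟩ := mem_zpowers_iff.1 hw
        rw [(Commute.zpow_right hsu i).eq, mul_inv_cancel_right]
        exact zpow_mem_zpowers u i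
      · intro hw
        obtain ⟨i, hi⟩ := mem_zpowers_iff.1 hw
        have : w = s⁻¹ * u ^ i * s := by rw [hi]; group
        rw [this, mul_assoc, ← (Commute.zpow_right hsu i).eq, inv_mul_cancel_left]
        exact zpow_mem_zpowers u i
    have := (Q.isPGroup'.to_sup_of_normal_right' hz hnorm)
    exact (le_sup_right.trans (le_of_eq (Q.is_maximal' this le_sup_left))) (mem_zpowers u)
  set Z := (Q : Subgroup G) ⊓ K with hZ
  have hNZ : N ≤ Z := le_inf inf_le_left hNK
  have hzc : N.relIndex Z = 1 := by
    obtain ⟨n, hn⟩ := (Q.isPGroup'.to_le (inf_le_left : Z ≤ (Q : Subgroup G))).exists_card_eq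
    obtain ⟨j, -, hj⟩ := (Nat.dvd_prime_pow hp.out).1
      (show N.relIndex Z ∣ p ^ n from hn ▸ Subgroup.relIndex_dvd_card N Z)
    rcases j with _ | j
    · simpa using hj
    refine absurd ?_ hnd
    have h1 : Nat.card N * N.relIndex Z = Nat.card Z := by
      rw [relIndex, ← Nat.card_congr (subgroupOfEquivOfLe hNZ).toEquiv, card_mul_index]
    have h2 : Nat.card N * N.relIndex Z ∣
        Nat.card N * Nat.card (MulAction.fixedPoints (Q : Subgroup G) S) := by
      rw [h1, mul_comm, hfix]
      exact card_dvd_of_le inf_le_right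
    exact (dvd_pow_self p j.succ_ne_zero).trans (hj ▸ (Nat.mul_dvd_mul_iff_left Nat.card_pos).1 h2)
  refine hNc ((relIndex_eq_one.1 hzc) (mem_inf.2 ⟨huQ, ?_⟩))
  rw [hK, mem_centralizer_iff]
  exact fun s hs => mem_centralizer_singleton.1 (hQu hs)

/-- The order of the central `p`-elements of a Sylow `p`-subgroup. -/
theorem card_sylow_inf_center {K : Type*} [Group K] [Finite K] {p : ℕ} [Fact p.Prime] (P : Sylow p K) :
    Nat.card ((P : Subgroup K) ⊓ center K : Subgroup K) =
      p ^ (Nat.card (center K)).factorization p := by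
  haveI : ((P : Subgroup K).subgroupOf (center K)).Normal := ⟨fun a ha g => by
    rwa [mul_comm' g a, mul_inv_cancel_right]⟩
  have h1 : IsPGroup p ((P : Subgroup K).subgroupOf (center K)) :=
    P.isPGroup'.comap_subtype
  have h2 : ¬ p ∣ ((P : Subgroup K).subgroupOf (center K)).index := by
    let A : Sylow p (center K) := default
    intro hd
    refine A.not_dvd_index (hd.trans (index_dvd_of_le ?_))
    intro a ha
    rw [mem_subgroupOf]
    haveI : ((A : Subgroup (center K)).map (center K).subtype).Normal :=
      ⟨fun b hb g => by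
        rwa [mem_center_iff.1 (map_subtype_le _ hb) g, mul_inv_cancel_right]⟩
    exact (le_sup_right.trans (le_of_eq (P.is_maximal'
      (P.isPGroup'.to_sup_of_normal_right (A.isPGroup'.map (center K).subtype)) le_sup_left)))
      (mem_map_of_mem (center K).subtype ha)
  rw [← Sylow.card_eq_multiplicity (h1.toSylow h2), h1.toSylow_coe h2,
    ← Subgroup.inf_subgroupOf_right]
  exact (Nat.card_congr (subgroupOfEquivOfLe (inf_le_right : (P : Subgroup K) ⊓ center K ≤ center K)).toEquiv).symm

/-- Cossey–Hawkes–Mann: a group with the class-size multiset of a nilpotent group is nilpotent. -/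
theorem isNilpotent_of_same_class_sizes {G H : Type*} [Group G] [Finite G] [Group H] [Finite H]
    (hH : Group.IsNilpotent H)
    (h : ∀ k : ℕ, Nat.card {C : ConjClasses G // Nat.card C.carrier = k} =
      Nat.card {C : ConjClasses H // Nat.card C.carrier = k}) : Group.IsNilpotent G := by
  classical
  have hord : Nat.card G = Nat.card H := by
    rw [← countClassSize_true G, ← countClassSize_true H, countClassSize_eq h]
  have hcen : Nat.card (center G) = Nat.card (center H) := by
    rw [← countClassSize_one G, ← countClassSize_one H, countClassSize_eq h]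
  have hCQ : ∀ (p : ℕ) [Fact p.Prime] (u : G), (∃ k, orderOf u = p ^ k) →
      ¬ p ∣ (centralizer ({u} : Set G)).index → u ∈ center G := by
    intro p hp u hu hidx
    let T : Sylow p (centralizer ({u} : Set G)) := default
    have hT : IsPGroup p ((T : Subgroup (centralizer ({u} : Set G))).map (Subgroup.subtype _)) :=
      T.isPGroup'.map _
    have hTidx : ¬ p ∣ ((T : Subgroup (centralizer ({u} : Set G))).map (Subgroup.subtype _)).index := by
      rw [index_map_subtype]
      exact hp.out.not_dvd_mul T.not_dvd_index hidx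
    refine mem_center_of_count (hT.toSylow hTidx) ?_ u hu ?_
    · have hc := (nilpotent_counts hH (default : Sylow p H)).1
      rw [countClassSize_eq h, card_sylow_inf_center, hcen, ← card_sylow_inf_center (default : Sylow p H)]
      set A := Nat.card (((default : Sylow p H) : Subgroup H) ⊓ center H : Subgroup H)
      set B := countClassSize H (fun n => ¬ p ∣ n)
      have hB : B = A * ((default : Sylow p H) : Subgroup H).index := by
        refine Nat.eq_of_mul_eq_mul_right (Nat.card_pos (α := ((default : Sylow p H) : Subgroup H))) ?_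
        rw [hc, ← ((default : Sylow p H) : Subgroup H).card_mul_index]; ring
      rw [hB, Nat.mul_div_cancel_left _ Nat.card_pos]
      exact Sylow.not_dvd_index _
    · rw [hT.toSylow_coe hTidx]
      exact map_subtype_le _
  refine ((Group.isNilpotent_of_finite_tfae (G := G)).out 0 3).2 ?_
  intro p hp P
  haveI := hp
  let K : Subgroup G := ⨅ Q : Sylow p G, (Q : Subgroup G)
  let X : Set G := {g | ∃ a, (centralizer ({g} : Set G)).index = p ^ a}
  have hXK : X ⊆ (Set.image2 (· * ·) (K : Set G) (center G : Set G)) := by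
    rintro x ⟨a, ha⟩
    obtain ⟨u, v, hu, hv, huv, hk, hvp⟩ :=
      H86.exists_pPart_mul_pPrimePart x (isOfFinOrder_of_finite x) hp.out
    have hle : ∀ w ∈ zpowers x, centralizer ({x} : Set G) ≤ centralizer ({w} : Set G) := by
      intro w hw g hg
      obtain ⟨i, rfl⟩ := mem_zpowers_iff.1 hw
      exact mem_centralizer_singleton.2 (Commute.zpow_right (mem_centralizer_singleton.1 hg) i).eq
    have hvc : v ∈ center G := by
      by_contra hvc
      obtain ⟨q, hq, hqd⟩ := Nat.exists_prime_and_dvd
        (show orderOf (QuotientGroup.mk' (center G) v) ≠ 1 by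
          simpa [orderOf_eq_one_iff, QuotientGroup.eq_one_iff] using hvc)
      haveI : Fact q.Prime := ⟨hq⟩
      obtain ⟨y, z, hy, hz, hyz, hyk, hzq⟩ :=
        H86.exists_pPart_mul_pPrimePart v (isOfFinOrder_of_finite v) hq
      have hyc : y ∈ center G := by
        refine hCQ q y hyk ?_
        intro hd
        have h1 := hd.trans (index_dvd_of_le (hle y (zpowers_le.2 hv hy)))
        rw [ha] at h1
        have hqp : q = p := (Nat.prime_dvd_prime_iff_eq hq hp.out).1 (hq.dvd_of_dvd_pow h1)
        subst hqp
        exact hq.coprime_iff_not_dvd.1 hvp.symm (hqd.trans (orderOf_map_dvd _ v))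
      refine hq.coprime_iff_not_dvd.1 hzq.symm (hqd.trans ?_)
      have hq1 : QuotientGroup.mk' (center G) y = 1 := (QuotientGroup.eq_one_iff _).2 hyc
      rw [← hyz, map_mul, hq1, one_mul]
      exact orderOf_map_dvd _ z
    refine ⟨u, ?_, v, hvc, huv⟩
    rw [SetLike.mem_coe, mem_iInf]
    intro Q
    refine mem_sylow_of_pPower_index u hk a ?_ Q
    rw [← ha, ← huv, centralizer_mul_central hvc]
  have hXcard : countClassSize G (fun n => ∃ a, n = p ^ a) *
      Nat.card ((P : Subgroup G) ⊓ center G : Subgroup G) ≤ Nat.card K * Nat.card (center G) := by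
    have h1 : countClassSize G (fun n => ∃ a, n = p ^ a) ≤
        Nat.card (Set.image2 (· * ·) (K : Set G) (center G : Set G)) :=
      Nat.card_mono (Set.toFinite _) hXK
    refine (Nat.mul_le_mul_right _ h1).trans ?_
    have hzK : ((P : Subgroup G) ⊓ center G) ≤ K := le_iInf fun Q => by
      intro z hz
      obtain ⟨g, hg⟩ := MulAction.exists_smul_eq G P Q
      rw [← hg, Sylow.coe_subgroup_smul]
      refine mem_map.2 ⟨z, (mem_inf.1 hz).1, ?_⟩
      show g * z * g⁻¹ = z
      rw [mem_center_iff.1 (mem_inf.1 hz).2 g, mul_inv_cancel_right]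
    rw [← Nat.card_prod, ← Nat.card_prod]
    -- shift pairs of a representation and a central `p`-element
    have hchoose : ∀ w : Set.image2 (· * ·) (K : Set G) (center G : Set G),
        ∃ k ∈ K, ∃ c ∈ center G, k * c = w := fun w => w.2
    choose kf hkf cf hcf hkc using hchoose
    refine Nat.card_le_card_of_injective (fun wz =>
      (⟨kf wz.1 * wz.2, mul_mem (hkf wz.1) (hzK wz.2.2)⟩,
       ⟨cf wz.1 * (wz.2 : G)⁻¹, mul_mem (hcf wz.1) (inv_mem (mem_inf.1 wz.2.2).2)⟩)) ?_
    rintro ⟨w, z⟩ ⟨w', z'⟩ he
    simp only [Prod.ext_iff, Subtype.ext_iff] at he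
    obtain ⟨he1, he2⟩ := he
    have hw : (w : G) = w' := by
      rw [← hkc w, ← hkc w']
      calc kf w * cf w = kf w * (z : G) * (cf w * (z : G)⁻¹) := by
            have := mem_center_iff.1 (mem_inf.1 z.2).2 (cf w)
            calc kf w * cf w = kf w * (cf w * z) * (z : G)⁻¹ := by group
              _ = kf w * (z * cf w) * (z : G)⁻¹ := by rw [this]
              _ = _ := by group
        _ = kf w' * (z' : G) * (cf w' * (z' : G)⁻¹) := by rw [he1, he2]
        _ = kf w' * cf w' := by
            have := mem_center_iff.1 (mem_inf.1 z'.2).2 (cf w')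
            calc kf w' * z' * (cf w' * (z' : G)⁻¹) = kf w' * (z' * cf w') * (z' : G)⁻¹ := by group
              _ = kf w' * (cf w' * z') * (z' : G)⁻¹ := by rw [this]
              _ = _ := by group
    have hww : w = w' := Subtype.ext hw
    subst hww
    exact Prod.ext rfl (Subtype.ext (mul_left_cancel he1))
  have hc := (nilpotent_counts hH (default : Sylow p H)).2
  rw [← countClassSize_eq h, card_sylow_inf_center, ← hcen, ← card_sylow_inf_center P] at hc
  rw [hc, Sylow.card_eq_multiplicity, ← hord, ← Sylow.card_eq_multiplicity P] at hXcard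
  have hKP : K = (P : Subgroup G) := by
    refine eq_of_le_of_card_ge (iInf_le _ P) ?_
    exact Nat.le_of_mul_le_mul_right hXcard Nat.card_pos
  refine ⟨fun x hx g => ?_⟩
  rw [← hKP, mem_iInf] at hx
  have h1 := hx (g⁻¹ • P)
  rw [Sylow.coe_subgroup_smul] at h1
  obtain ⟨y, hy, hyx⟩ := mem_map.1 h1
  have hgy : g⁻¹ * y * g⁻¹⁻¹ = x := hyx
  rw [← hgy]
  convert hy using 1
  group

end Cfsg.Agent.H88
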