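import Mathlib
import Cfsg.Agent.H88.ClassBasic

/-! Elements in the smallest nontrivial classes and self-centralizing normal abelian subgroups. -/

namespace Cfsg.Agent.H88

open Subgroup
open scoped commutatorElement

/-- Isaacs: if `x` has minimal nontrivial class size and `A` is normal abelian, then `⁅a, x⁆` is
central for every `a ∈ A`. -/
theorem commutator_mem_center_of_minimal_class {G : Type*} [Group G] [Finite G] (A : Subgroup G)
    [A.Normal] (hA : IsMulCommutative A) (x : G)
    (hmin : ∀ y : G, 1 < (centralizer ({y} : Set G)).index →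
      (centralizer ({x} : Set G)).index ≤ (centralizer ({y} : Set G)).index)
    (a : G) (ha : a ∈ A) : ⁅a, x⁆ ∈ center G := by
  classical
  set y := ⁅a, x⁆ with hy
  by_contra hyc
  have hmemA : ∀ b ∈ A, ⁅b, x⁆ ∈ A := fun b hb => by
    rw [commutatorElement_def, mul_assoc, mul_assoc]
    exact A.mul_mem hb (by simpa [mul_assoc] using Subgroup.Normal.conj_mem inferInstance _ (A.inv_mem hb) x)
  set C := centralizer ({x} : Set G) with hC
  set Cy := centralizer ({y} : Set G) with hCy
  have hlt1 : 1 < Cy.index := by
    refine Subgroup.one_lt_index_of_ne_top fun htop => hyc ?_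
    rw [mem_center_iff]
    intro g
    have : g ∈ Cy := htop ▸ mem_top g
    exact mem_centralizer_singleton.1 this
  have hle : C.index ≤ Cy.index := hmin y hlt1
  have hACy : A ≤ Cy := fun b hb => mem_centralizer_singleton.2
    (congrArg Subtype.val (hA.is_comm.comm ⟨b, hb⟩ ⟨y, hmemA a ha⟩))
  let R : Set G := {z | ∃ b ∈ A, ⁅b, x⁆ = z}
  -- the commutators of `A` with `x` are indexed by cosets of `C_A(x)`
  have hR : R.ncard ≤ C.relIndex A := by
    rw [← Nat.card_coe_set_eq]
    refine Nat.card_le_card_of_surjective (α := A ⧸ C.subgroupOf A)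
      (fun q => ⟨⁅(q.out : G), x⁆, q.out, q.out.2, rfl⟩) ?_
    rintro ⟨z, b, hb, rfl⟩
    refine ⟨QuotientGroup.mk ⟨b, hb⟩, Subtype.ext ?_⟩
    obtain ⟨c, hc⟩ := QuotientGroup.mk_out_eq_mul (C.subgroupOf A) (⟨b, hb⟩ : A)
    simp only [hc, Subgroup.coe_mul]
    have : ((c : A) : G) * x = x * ((c : A) : G) := mem_centralizer_singleton.1 c.2
    simp only [commutatorElement_def, mul_inv_rev]
    calc b * ((c : A) : G) * x * (((c : A) : G)⁻¹ * b⁻¹) * x⁻¹
        = b * (((c : A) : G) * x) * ((c : A) : G)⁻¹ * b⁻¹ * x⁻¹ := by group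
      _ = b * x * b⁻¹ * x⁻¹ := by rw [this]; group
  -- the `C`-conjugates of `y` are nontrivial such commutators
  have hO : Cy.relIndex C < R.ncard := by
    have h1 : (1 : G) ∈ R := ⟨1, A.one_mem, commutatorElement_one_left x⟩
    have hfin : R.Finite := Set.toFinite _
    rw [← Set.ncard_sdiff_singleton_add_one h1 hfin, Nat.lt_add_one_iff, ← Nat.card_coe_set_eq]
    refine Nat.card_le_card_of_injective (α := C ⧸ Cy.subgroupOf C)
      (fun q => ⟨(q.out : G) * y * (q.out : G)⁻¹, ⟨⟨(q.out : G) * a * (q.out : G)⁻¹,
        Subgroup.Normal.conj_mem inferInstance _ ha _, ?_⟩, ?_⟩⟩) ?_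
    · have hc : (q.out : G) * x * (q.out : G)⁻¹ = x := by
        rw [mem_centralizer_singleton.1 q.out.2, mul_inv_cancel_right]
      rw [hy, conjugate_commutatorElement, hc]
    · intro h
      simp only [Set.mem_singleton_iff] at h
      exact hyc (by rw [show y = 1 by simpa using h]; exact one_mem _)
    · intro q r h
      have h' : (q.out : G) * y * (q.out : G)⁻¹ = r.out * y * (r.out : G)⁻¹ := congrArg Subtype.val h
      rw [← q.out_eq, ← r.out_eq]
      apply QuotientGroup.eq.2
      rw [mem_subgroupOf]
      refine mem_centralizer_singleton.2 ?_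
      push_cast
      calc (q.out : G)⁻¹ * r.out * y = (q.out : G)⁻¹ * (r.out * y * (r.out : G)⁻¹) * r.out := by group
        _ = (q.out : G)⁻¹ * (q.out * y * (q.out : G)⁻¹) * r.out := by rw [h']
        _ = _ := by group
  have hidx : C.relIndex Cy * Cy.index = Cy.relIndex C * C.index := by
    rw [← inf_relIndex_right C Cy, ← inf_relIndex_right Cy C, relIndex_mul_index inf_le_right,
      relIndex_mul_index inf_le_right, inf_comm]
  have hAC : C.relIndex A ≤ C.relIndex Cy := by
    refine Subgroup.relIndex_le_of_le_right hACy ?_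
    exact Subgroup.index_ne_zero_of_finite
  have : Cy.relIndex C * C.index < C.relIndex Cy * Cy.index :=
    calc Cy.relIndex C * C.index < C.relIndex Cy * C.index :=
          Nat.mul_lt_mul_of_pos_right (hO.trans_le (hR.trans hAC))
            (Nat.pos_of_ne_zero Subgroup.index_ne_zero_of_finite)
      _ ≤ _ := Nat.mul_le_mul_left _ hle
  omega

/-- Isaacs: the subgroup generated by the two smallest classes has class at most 3 if there is a
self-centralizing normal abelian subgroup. -/
theorem upperCentralSeries_three_small_classes {G : Type*} [Group G] [Finite G] (A : Subgroup G)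
    [A.Normal] (hA : IsMulCommutative A) (hCA : centralizer (A : Set G) = A) (m : ℕ)
    (hmin : ∀ x : G, 1 < (centralizer ({x} : Set G)).index → m ≤ (centralizer ({x} : Set G)).index) :
    Subgroup.upperCentralSeries ↥(closure {x : G | (centralizer ({x} : Set G)).index = 1 ∨
      (centralizer ({x} : Set G)).index = m}) 3 = ⊤ := by
  set M := closure {x : G | (centralizer ({x} : Set G)).index = 1 ∨
      (centralizer ({x} : Set G)).index = m} with hM
  have h1 : ⁅A, M⁆ ≤ center G := by
    rw [← QuotientGroup.ker_mk' (center G), ← Subgroup.map_eq_bot_iff, map_commutator,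
      commutator_comm, commutator_eq_bot_iff_le_centralizer, map_le_iff_le_comap, hM, closure_le]
    intro x hx
    rw [SetLike.mem_coe, mem_comap, mem_centralizer_iff]
    rintro _ ⟨b, hb, rfl⟩
    rw [← commutatorElement_eq_one_iff_mul_comm, ← map_commutatorElement,
      QuotientGroup.mk'_apply, QuotientGroup.eq_one_iff]
    rcases hx with hx | hx
    · rw [index_eq_one] at hx
      have : b * x = x * b := mem_centralizer_singleton.1 (hx ▸ mem_top b)
      rw [commutatorElement_eq_one_iff_mul_comm.2 this]
      exact one_mem _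
    · exact commutator_mem_center_of_minimal_class A hA x (fun y hy => hx ▸ hmin y hy) b hb
  have h2 : ⁅M, M⁆ ≤ A := by
    rw [← hCA, ← commutator_eq_bot_iff_le_centralizer]
    have hz : ⁅⁅A, M⁆, M⁆ = ⊥ := by
      rw [commutator_eq_bot_iff_le_centralizer]
      exact h1.trans (center_le_centralizer _)
    refine commutator_commutator_eq_bot_of_rotate ?_ hz
    rwa [commutator_comm M A]
  have hu1 : ∀ u : M, (u : G) ∈ center G → u ∈ Subgroup.upperCentralSeries M 1 := fun u hu => by
    rw [Subgroup.mem_upperCentralSeries_succ_iff]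
    intro v
    rw [Subgroup.upperCentralSeries_zero, mem_bot]
    apply Subtype.ext
    rw [commutatorElement_def]
    push_cast
    rw [← mem_center_iff.1 hu v, mul_inv_cancel_right, mul_inv_cancel]
  have hu2 : ∀ u : M, (u : G) ∈ A → u ∈ Subgroup.upperCentralSeries M 2 := fun u hu => by
    rw [Subgroup.mem_upperCentralSeries_succ_iff]
    intro v
    refine hu1 _ ?_
    have := h1 (commutator_mem_commutator hu v.2)
    simpa [commutatorElement_def] using this
  rw [eq_top_iff]
  intro u _
  rw [Subgroup.mem_upperCentralSeries_succ_iff]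
  intro v
  refine hu2 _ ?_
  have := h2 (commutator_mem_commutator u.2 v.2)
  simpa [commutatorElement_def] using this

end Cfsg.Agent.H88
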