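import Mathlib
import Cfsg.Agent.H88.CentralParts
import Cfsg.Agent.H89.IndexPowers
import Cfsg.Agent.H89.Nilpotent
import Cfsg.Agent.H89.PrimaryParts
import Cfsg.Agent.H32.Supersolvable
import Cfsg.Agent.H19.Cores
import Cfsg.Agent.H19.MinimalNormal
import Cfsg.Agent.H84.FittingTools
import Cfsg.Agent.S0526

/-!
# Square-free class sizes

Structure of solvable groups all of whose class sizes are square-free.
-/

namespace Cfsg.Agent.H88.SquarefreeClasses

open Subgroup
open scoped commutatorElement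

variable {G : Type*} [Group G] [Finite G]

theorem dvd_prime_of_squarefree {q k n : ℕ} (hn : Squarefree n) (h : q ^ k ∣ n) (hq : q.Prime) :
    q ^ k ∣ q := by
  rcases Nat.lt_or_ge k 2 with hk | hk
  · exact (Nat.pow_dvd_pow q (by omega)).trans (pow_one q).dvd
  · exact absurd (hn.squarefree_of_dvd ((Nat.pow_dvd_pow q hk).trans h))
      (fun h2 => hq.ne_one (Nat.isUnit_iff.mp (h2 q (by rw [sq]))))

section General

variable (h : ∀ x : G, Squarefree (centralizer ({x} : Set G)).index)

include h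

theorem relIndex_dvd_prime (N : Subgroup G) [N.Normal] {q : ℕ} [Fact q.Prime] (hN : IsPGroup q N)
    (x : G) : (centralizer ({x} : Set G)).relIndex N ∣ q := by
  obtain ⟨c, hc⟩ := IsPGroup.iff_card.mp hN
  obtain ⟨k, -, hk⟩ := (Nat.dvd_prime_pow Fact.out).mp
    (hc ▸ relIndex_dvd_card (centralizer ({x} : Set G)) N)
  rw [hk]
  exact dvd_prime_of_squarefree (h x) (hk ▸ H89.relIndex_dvd_index_left N) Fact.out

theorem quotient (N : Subgroup G) [N.Normal] :
    ∀ y : G ⧸ N, Squarefree (centralizer ({y} : Set (G ⧸ N))).index := by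
  intro y
  obtain ⟨g, rfl⟩ := QuotientGroup.mk'_surjective N y
  refine (h g).squarefree_of_dvd ((index_dvd_of_le ?_).trans
    (index_map_dvd _ (f := QuotientGroup.mk' N) (QuotientGroup.mk'_surjective N)))
  rintro _ ⟨u, hu, rfl⟩
  rw [SetLike.mem_coe, mem_centralizer_singleton_iff] at hu
  rw [mem_centralizer_singleton_iff, ← map_mul, hu, map_mul]

end General

/-- The map `a ↦ ⁅g, a⁆` on a normal abelian subgroup. -/
def delta (A : Subgroup G) [hA : A.Normal] (hc : ∀ a ∈ A, ∀ b ∈ A, a * b = b * a) (g : G) :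
    A →* A where
  toFun a := ⟨g * a * g⁻¹ * (a : G)⁻¹, A.mul_mem (hA.conj_mem _ a.2 g) (A.inv_mem a.2)⟩
  map_one' := Subtype.ext (by simp)
  map_mul' a b := Subtype.ext (by
    have hb : g * (b : G) * g⁻¹ * (b : G)⁻¹ ∈ A := A.mul_mem (hA.conj_mem _ b.2 g) (A.inv_mem b.2)
    show g * ((a : G) * b) * g⁻¹ * ((a : G) * b)⁻¹ = (g * a * g⁻¹ * (a : G)⁻¹) * (g * b * g⁻¹ * (b : G)⁻¹)
    calc g * ((a : G) * b) * g⁻¹ * ((a : G) * b)⁻¹
        = (g * a * g⁻¹) * ((g * b * g⁻¹ * (b : G)⁻¹) * (a : G)⁻¹) := by group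
      _ = (g * a * g⁻¹) * ((a : G)⁻¹ * (g * b * g⁻¹ * (b : G)⁻¹)) := by
          rw [hc _ hb _ (A.inv_mem a.2)]
      _ = _ := by group)

/-- `⁅g, A⁆` as a subgroup of `G`. -/
def image (A : Subgroup G) [A.Normal] (hc : ∀ a ∈ A, ∀ b ∈ A, a * b = b * a) (g : G) : Subgroup G :=
  (delta A hc g).range.map A.subtype

section RankOne

variable (A : Subgroup G) [A.Normal] (hc : ∀ a ∈ A, ∀ b ∈ A, a * b = b * a) {q : ℕ} [Fact q.Prime]
  (hq : ∀ g : G, (centralizer ({g} : Set G)).relIndex A ∣ q)

theorem image_le (g : G) : image A hc g ≤ A := map_subtype_le _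

theorem mem_image {g a : G} (ha : a ∈ A) : g * a * g⁻¹ * a⁻¹ ∈ image A hc g :=
  ⟨delta A hc g ⟨a, ha⟩, ⟨_, rfl⟩, rfl⟩

theorem card_image (g : G) :
    Nat.card (image A hc g) = (centralizer ({g} : Set G)).relIndex A := by
  have hk : (delta A hc g).ker = (centralizer ({g} : Set G)).subgroupOf A := by
    ext a
    rw [MonoidHom.mem_ker, mem_subgroupOf, mem_centralizer_singleton_iff, Subtype.ext_iff,
      OneMemClass.coe_one]
    exact mul_inv_eq_one.trans (mul_inv_eq_iff_eq_mul.trans eq_comm)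
  unfold image
  rw [card_map_of_injective A.subtype_injective, ← index_ker, hk]
  rfl

include hq

theorem card_image_eq {g : G} (hg : ¬ A ≤ centralizer ({g} : Set G)) :
    Nat.card (image A hc g) = q := by
  rw [card_image]
  exact ((Nat.dvd_prime Fact.out).mp (hq g)).resolve_left fun h1 => hg (relIndex_eq_one.mp h1)

theorem image_eq_of_mem {g l : G} (hg : ¬ A ≤ centralizer ({g} : Set G)) (hl : l ∈ image A hc g)
    (hl1 : l ≠ 1) : zpowers l = image A hc g := by
  refine eq_of_le_of_card_ge (zpowers_le.mpr hl) (le_of_eq ?_)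
  rw [card_image_eq A hc hq hg, Nat.card_zpowers]
  have hd : orderOf l ∣ q := card_image_eq A hc hq hg ▸ (image A hc g).orderOf_dvd_natCard hl
  exact (((Nat.dvd_prime Fact.out).mp hd).resolve_left fun h1 => hl1 (orderOf_eq_one_iff.mp h1)).symm

/-- All the nontrivial commutation maps have the same kernel, or all have the same image. -/
theorem kernel_or_image {x y : G} (hx : ¬ A ≤ centralizer ({x} : Set G))
    (hy : ¬ A ≤ centralizer ({y} : Set G))
    (hne : A ⊓ centralizer ({x} : Set G) ≠ A ⊓ centralizer ({y} : Set G)) :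
    image A hc x = image A hc y := by
  have hcard : ∀ g : G, ¬ A ≤ centralizer ({g} : Set G) →
      Nat.card (A ⊓ centralizer ({g} : Set G) : Subgroup G) * q = Nat.card A := by
    intro g hg
    rw [← card_image_eq A hc hq hg, card_image, ← card_mul_index ((centralizer ({g} : Set G)).subgroupOf A)]
    congr 1
    rw [← inf_subgroupOf_left (centralizer ({g} : Set G)) A,
      Nat.card_congr (subgroupOfEquivOfLe inf_le_left).toEquiv]
  have hsub : ∀ u v : G, ¬ A ≤ centralizer ({u} : Set G) → ¬ A ≤ centralizer ({v} : Set G) →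
      A ⊓ centralizer ({u} : Set G) ≠ A ⊓ centralizer ({v} : Set G) →
      ∃ a ∈ A, a ∈ centralizer ({v} : Set G) ∧ a ∉ centralizer ({u} : Set G) := by
    intro u v hu hv huv
    by_contra hno
    push Not at hno
    exact huv (eq_of_le_of_card_ge (fun a ha => mem_inf.mpr
        ⟨(mem_inf.mp ha).1, hno a (mem_inf.mp ha).1 (mem_inf.mp ha).2⟩)
      (Nat.le_of_mul_le_mul_right ((hcard u hu).trans (hcard v hv).symm).le (Fact.out : q.Prime).pos)).symm
  obtain ⟨a, ha, hay, hax⟩ := hsub x y hx hy hne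
  obtain ⟨b, hb, hbx, hby⟩ := hsub y x hy hx hne.symm
  rw [mem_centralizer_singleton_iff] at hay hax hbx hby
  have e1 : x * y * a * (x * y)⁻¹ * a⁻¹ = x * a * x⁻¹ * a⁻¹ := by
    calc x * y * a * (x * y)⁻¹ * a⁻¹ = x * (y * a) * y⁻¹ * x⁻¹ * a⁻¹ := by group
      _ = _ := by rw [← hay]; group
  have e2 : x * y * b * (x * y)⁻¹ * b⁻¹ = x * (y * b * y⁻¹ * b⁻¹) * x⁻¹ := by
    calc x * y * b * (x * y)⁻¹ * b⁻¹ = x * (y * b * y⁻¹ * b⁻¹) * (b * x⁻¹) * b⁻¹ := by group
      _ = x * (y * b * y⁻¹ * b⁻¹) * (x⁻¹ * b) * b⁻¹ := by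
          rw [show b * x⁻¹ = x⁻¹ * b from (Commute.inv_right hbx).eq]
      _ = _ := by group
  have hl1 : x * a * x⁻¹ * a⁻¹ ≠ 1 := fun h1 =>
    hax (mul_inv_eq_iff_eq_mul.mp (mul_inv_eq_one.mp h1)).symm
  have hxy : ¬ A ≤ centralizer ({x * y} : Set G) := fun h1 => hl1 (by
    rw [← e1, mul_inv_eq_one, mul_inv_eq_iff_eq_mul]
    exact (mem_centralizer_singleton_iff.mp (h1 ha)).symm)
  have hl : image A hc (x * y) = image A hc x := by
    rw [← image_eq_of_mem A hc hq hxy (e1 ▸ mem_image A hc ha) hl1,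
      image_eq_of_mem A hc hq hx (mem_image A hc ha) hl1]
  have h2 : x * (y * b * y⁻¹ * b⁻¹) * x⁻¹ ∈ image A hc x := hl ▸ e2 ▸ mem_image A hc hb
  have h3 : y * b * y⁻¹ * b⁻¹ ∈ image A hc x := by
    obtain ⟨_, ⟨c, rfl⟩, hce⟩ := h2
    have hcA : x⁻¹ * (c : G) * x ∈ A := by simpa using Normal.conj_mem ‹A.Normal› _ c.2 x⁻¹
    refine ⟨delta A hc x ⟨_, hcA⟩, ⟨_, rfl⟩, ?_⟩
    change x * (c : G) * x⁻¹ * (c : G)⁻¹ = _ at hce
    show x * (x⁻¹ * (c : G) * x) * x⁻¹ * (x⁻¹ * (c : G) * x)⁻¹ = _
    calc x * (x⁻¹ * (c : G) * x) * x⁻¹ * (x⁻¹ * (c : G) * x)⁻¹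
        = x⁻¹ * (x * (c : G) * x⁻¹ * (c : G)⁻¹) * x := by group
      _ = _ := by rw [hce]; group
  have hne1 : y * b * y⁻¹ * b⁻¹ ≠ 1 := fun h1 =>
    hby (mul_inv_eq_iff_eq_mul.mp (mul_inv_eq_one.mp h1)).symm
  rw [← image_eq_of_mem A hc hq hx h3 hne1, image_eq_of_mem A hc hq hy (mem_image A hc hb) hne1]

end RankOne

section Solvable

/-- A solvable group with square-free class sizes is supersolvable. -/
theorem isSupersolvable {G : Type*} [Group G] [Finite G] [hs : Group.IsSolvable G]
    (h : ∀ x : G, Squarefree (centralizer ({x} : Set G)).index) : Cfsg.IsSupersolvable G := by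
  induction hn : Nat.card G using Nat.strong_induction_on generalizing G with
  | _ n ih =>
    subst hn
    rcases subsingleton_or_nontrivial G with hG | hG
    · exact H32.isSupersolvable_of_subsingleton
    obtain ⟨A0, q, hA0n, hA0, hA0c, hq, hA0p, -⟩ := H19.exists_normal_elementary (G := G)
    haveI : Fact q.Prime := ⟨hq⟩
    obtain ⟨A, ⟨hAn, hA1, hA0le⟩, hmin⟩ := Set.Finite.exists_minimal
      (s := {A : Subgroup G | A.Normal ∧ A ≠ ⊥ ∧ A ≤ A0}) (Set.toFinite _) ⟨A0, hA0n, hA0, le_rfl⟩
    have hmin' : ∀ B : Subgroup G, B.Normal → B ≤ A → B = ⊥ ∨ B = A := fun B hB hle => by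
      rcases eq_or_ne B ⊥ with h0 | h0
      · exact Or.inl h0
      · exact Or.inr (le_antisymm hle (hmin ⟨hB, h0, hle.trans hA0le⟩ hle))
    haveI := hAn
    have hc : ∀ a ∈ A, ∀ b ∈ A, a * b = b * a := fun a ha b hb =>
      congrArg Subtype.val (hA0c.is_comm.comm ⟨a, hA0le ha⟩ ⟨b, hA0le hb⟩)
    have hAp : IsPGroup q A := hA0p.to_le hA0le
    have hq' : ∀ g : G, (centralizer ({g} : Set G)).relIndex A ∣ q := relIndex_dvd_prime h A hAp
    have hcardA : Nat.card A = q := by
      by_cases hcen : ∀ g : G, A ≤ centralizer ({g} : Set G)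
      · obtain ⟨a, haA, ha1⟩ := (bot_or_exists_ne_one A).resolve_left hA1
        obtain ⟨k, hk⟩ := IsPGroup.iff_orderOf.mp hAp ⟨a, haA⟩
        rw [Subgroup.orderOf_mk] at hk
        have hk0 : k ≠ 0 := fun h0 => ha1 (orderOf_eq_one_iff.mp (by rw [hk, h0, pow_zero]))
        set b := a ^ (orderOf a / q)
        have hb : orderOf b = q :=
          orderOf_pow_orderOf_div (orderOf_pos a).ne' (hk ▸ dvd_pow_self q hk0)
        have hbA : b ∈ A := pow_mem haA _
        have hn : (zpowers b).Normal := by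
          refine ⟨fun c hc' g => ?_⟩
          have hcg := mem_centralizer_singleton_iff.mp (hcen g ((zpowers_le.mpr hbA) hc'))
          rwa [← hcg, mul_inv_cancel_right]
        rcases hmin' _ hn (zpowers_le.mpr hbA) with h0 | h0
        · rw [zpowers_eq_bot] at h0
          rw [h0, orderOf_one] at hb
          exact absurd hb.symm hq.ne_one
        · rw [← h0, Nat.card_zpowers, hb]
      · push Not at hcen
        obtain ⟨x, hx⟩ := hcen
        have hconjC : ∀ g u a : G, g * a * g⁻¹ ∈ centralizer ({g * u * g⁻¹} : Set G) ↔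
            a ∈ centralizer ({u} : Set G) := by
          intro g u a
          rw [mem_centralizer_singleton_iff, mem_centralizer_singleton_iff]
          rw [show g * a * g⁻¹ * (g * u * g⁻¹) = g * (a * u) * g⁻¹ by group,
            show g * u * g⁻¹ * (g * a * g⁻¹) = g * (u * a) * g⁻¹ by group]
          exact ⟨fun e => mul_left_cancel (mul_right_cancel e), fun e => by rw [e]⟩
        have hmove : ∀ g u, ¬ A ≤ centralizer ({u} : Set G) →
            ¬ A ≤ centralizer ({g * u * g⁻¹} : Set G) := fun g u hu hle => hu fun a ha =>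
          (hconjC g u a).mp (hle (Normal.conj_mem hAn a ha g))
        by_cases hK : ∀ y : G, ¬ A ≤ centralizer ({y} : Set G) →
            A ⊓ centralizer ({y} : Set G) = A ⊓ centralizer ({x} : Set G)
        · set K := A ⊓ centralizer ({x} : Set G) with hKdef
          have hKn : K.Normal := by
            refine ⟨fun a ha g => ?_⟩
            rw [← hK _ (hmove g x hx)]
            exact ⟨Normal.conj_mem hAn a ha.1 g, (hconjC g x a).mpr ha.2⟩
          rcases hmin' K hKn inf_le_left with h0 | h0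
          · have h1 : (centralizer ({x} : Set G)).relIndex A = q :=
              ((Nat.dvd_prime hq).mp (hq' x)).resolve_left fun e => hx (relIndex_eq_one.mp e)
            rw [← h1, Subgroup.relIndex, ← inf_subgroupOf_left (centralizer ({x} : Set G)) A, ← hKdef,
              h0, bot_subgroupOf, index_bot]
          · exact absurd (h0.ge.trans inf_le_right) hx
        · push Not at hK
          obtain ⟨y, hy, hne⟩ := hK
          have hall : ∀ z : G, ¬ A ≤ centralizer ({z} : Set G) → image A hc z = image A hc x := by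
            intro z hz
            by_contra hzne
            have h1 : A ⊓ centralizer ({z} : Set G) = A ⊓ centralizer ({x} : Set G) := by
              by_contra h1; exact hzne (kernel_or_image A hc hq' hz hx h1)
            have h2 : A ⊓ centralizer ({z} : Set G) = A ⊓ centralizer ({y} : Set G) := by
              by_contra h2
              exact hzne ((kernel_or_image A hc hq' hz hy h2).trans
                (kernel_or_image A hc hq' hy hx hne))
            exact hne (h2.symm.trans h1)
          have hLn : (image A hc x).Normal := by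
            refine ⟨fun a ha g => ?_⟩
            rw [← hall _ (hmove g x hx)]
            obtain ⟨_, ⟨c, rfl⟩, rfl⟩ := ha
            refine ⟨delta A hc (g * x * g⁻¹) ⟨g * c * g⁻¹, Normal.conj_mem hAn _ c.2 g⟩, ⟨_, rfl⟩, ?_⟩
            show g * x * g⁻¹ * (g * c * g⁻¹) * (g * x * g⁻¹)⁻¹ * (g * c * g⁻¹)⁻¹ =
              g * (x * c * x⁻¹ * (c : G)⁻¹) * g⁻¹
            group
          rcases hmin' _ hLn (image_le A hc x) with h0 | h0
          · have := card_image_eq A hc hq' hx
            rw [h0, card_bot] at this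
            exact absurd this.symm hq.ne_one
          · rw [← h0, card_image_eq A hc hq' hx]
    refine H32.isSupersolvable_of_prime_normal A hq hcardA (ih _ ?_ (quotient h A) rfl)
    rw [card_eq_card_quotient_mul_card_subgroup A, hcardA]
    exact lt_mul_of_one_lt_right Nat.card_pos hq.one_lt

end Solvable

/-- A subgroup of index `≤ H.index` in the sense of divisibility is not a proper subgroup. -/
theorem eq_of_le_of_index_dvd {P : Type*} [Group P] [Finite P] {H K : Subgroup P} (hle : H ≤ K)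
    (hd : H.index ∣ K.index) : H = K := by
  refine eq_of_le_of_card_ge hle (Nat.le_of_mul_le_mul_right ?_
    (Nat.pos_of_ne_zero (index_ne_zero_of_finite (H := H))))
  rw [card_mul_index, Nat.dvd_antisymm hd (index_dvd_of_le hle), card_mul_index]

/-- In a nilpotent group a subgroup of index `1` or `p` contains the derived subgroup. -/
theorem commutator_le_of_index_dvd_prime {P : Type*} [Group P] [Finite P] [Group.IsNilpotent P]
    {H : Subgroup P} {p : ℕ} (hp : p.Prime) (hH : H.index ∣ p) : commutator P ≤ H := by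
  rcases (Nat.dvd_prime hp).mp hH with h1 | h1
  · rw [index_eq_one.mp h1]
    exact le_top
  · haveI : H.Normal := by
      refine NormalizerCondition.normal_of_coatom _ (Group.normalizerCondition_of_isNilpotent) ?_
      refine ⟨fun h0 => hp.ne_one (by rw [← h1, h0, index_top]), fun B hB => index_eq_one.mp ?_⟩
      refine ((Nat.dvd_prime hp).mp (h1 ▸ index_dvd_of_le hB.le)).resolve_right fun h3 => hB.ne ?_
      exact eq_of_le_of_index_dvd hB.le (by rw [h1, h3])
    haveI : Fact p.Prime := ⟨hp⟩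
    haveI : IsCyclic (P ⧸ H) := isCyclic_of_prime_card (by rw [← index_eq_card, h1])
    rw [_root_.commutator_def, commutator_le]
    intro a _ b _
    rw [← QuotientGroup.eq_one_iff]
    show QuotientGroup.mk' H ⁅a, b⁆ = 1
    rw [map_commutatorElement, commutatorElement_eq_one_iff_mul_comm]
    exact isMulCommutative_iff.mp IsCyclic.commutative _ _

/-- A subgroup of prime index and an element outside generate. -/
theorem eq_top_of_index_prime {P : Type*} [Group P] [Finite P] {H K : Subgroup P} {p : ℕ}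
    (hp : p.Prime) (hH : H.index = p) (hle : H ≤ K) {d : P} (hd : d ∈ K) (hdH : d ∉ H) : K = ⊤ := by
  refine index_eq_one.mp (((Nat.dvd_prime hp).mp (hH ▸ index_dvd_of_le hle)).resolve_right fun h1 => ?_)
  exact hdH (eq_of_le_of_index_dvd hle (by rw [hH, h1]) ▸ hd)

/-- If `b` is conjugate to `e * b` with `e` commuting and of coprime order, then `e = 1`. -/
theorem eq_one_of_conj {P : Type*} [Group P] [Finite P] {e b v : P} (hc : Commute e b)
    (hconj : v * b * v⁻¹ = e * b) (hco : (orderOf e).Coprime (orderOf b)) : e = 1 := by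
  have h1 : (v * b * v⁻¹) ^ orderOf b = 1 := by rw [conj_pow, pow_orderOf_eq_one, mul_one, mul_inv_cancel]
  rw [hconj, hc.mul_pow, pow_orderOf_eq_one, mul_one] at h1
  exact orderOf_eq_one_iff.mp (hco.eq_one_of_dvd (orderOf_dvd_of_pow_eq_one h1))

/-- A `p`-group whose classes have size at most `p` has derived subgroup of order at most `p`. -/
theorem card_commutator_dvd {P : Type*} [Group P] [Finite P] {p : ℕ} [Fact p.Prime]
    (hP : IsPGroup p P) (h : ∀ x : P, (centralizer ({x} : Set P)).index ∣ p) :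
    Nat.card (commutator P) ∣ p := by
  have hp : p.Prime := Fact.out
  haveI := hP.isNilpotent
  have hcen : commutator P ≤ center P := by
    intro c hc
    rw [mem_center_iff]
    intro x
    exact (mem_centralizer_singleton_iff.mp (commutator_le_of_index_dvd_prime hp (h x) hc)).symm
  have hcomm : ∀ a b c : P, c * ⁅a, b⁆ * c⁻¹ = ⁅a, b⁆ := fun a b c => by
    rw [mem_center_iff.mp (hcen (commutator_mem_commutator (mem_top a) (mem_top b))) c,
      mul_inv_cancel_right]
  let δ : P → (P →* P) := fun x =>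
    { toFun := fun a => ⁅x, a⁆
      map_one' := by simp
      map_mul' := fun a b => by
        rw [show ⁅x, a * b⁆ = ⁅x, a⁆ * (a * ⁅x, b⁆ * a⁻¹) by simp [commutatorElement_def]; group,
          hcomm] }
  have hker : ∀ x, (δ x).ker = centralizer ({x} : Set P) := fun x => by
    ext a
    rw [MonoidHom.mem_ker, mem_centralizer_singleton_iff]
    exact commutatorElement_eq_one_iff_mul_comm.trans eq_comm
  have hrange : ∀ x, Nat.card (δ x).range = (centralizer ({x} : Set P)).index := fun x => by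
    rw [← index_ker, hker]
  have hnc : ∀ {x : P}, x ∉ center P → (centralizer ({x} : Set P)).index = p := fun {x} hx =>
    ((Nat.dvd_prime hp).mp (h x)).resolve_left fun h1 => hx (mem_center_iff.mpr fun a =>
      mem_centralizer_singleton_iff.mp ((index_eq_one.mp h1).ge (mem_top a)))
  have hgen : ∀ {x l : P}, x ∉ center P → l ∈ (δ x).range → l ≠ 1 → zpowers l = (δ x).range := by
    intro x l hx hl hl1
    refine eq_of_le_of_card_ge (zpowers_le.mpr hl) (le_of_eq ?_)
    rw [hrange, hnc hx, Nat.card_zpowers]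
    have hd : orderOf l ∣ p := (hrange x).trans (hnc hx) ▸ (δ x).range.orderOf_dvd_natCard hl
    exact (((Nat.dvd_prime hp).mp hd).resolve_left fun h1 => hl1 (orderOf_eq_one_iff.mp h1)).symm
  have key : ∀ {x y : P}, x ∉ center P → y ∉ center P →
      centralizer ({x} : Set P) ≠ centralizer ({y} : Set P) → (δ x).range = (δ y).range := by
    intro x y hx hy hne
    have hsub : ∀ {u v : P}, u ∉ center P → v ∉ center P →
        centralizer ({u} : Set P) ≠ centralizer ({v} : Set P) → ∃ a : P, ⁅v, a⁆ = 1 ∧ ⁅u, a⁆ ≠ 1 := by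
      intro u v hu hv huv
      by_contra hno
      push Not at hno
      refine huv (eq_of_le_of_card_ge (fun a ha => ?_) (le_of_eq ?_)).symm
      · rw [← hker] at ha ⊢
        exact hno a ha
      · have e1 := card_mul_index (centralizer ({u} : Set P))
        rw [← card_mul_index (centralizer ({v} : Set P)), hnc hu, hnc hv] at e1
        exact Nat.eq_of_mul_eq_mul_right hp.pos e1
    obtain ⟨a, hay, hax⟩ := hsub hx hy hne
    obtain ⟨b, hbx, hby⟩ := hsub hy hx hne.symm
    have e : ∀ c, ⁅x * y, c⁆ = ⁅y, c⁆ * ⁅x, c⁆ := fun c => by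
      rw [show ⁅x * y, c⁆ = x * ⁅y, c⁆ * x⁻¹ * ⁅x, c⁆ by simp [commutatorElement_def]; group, hcomm]
    have ea : ⁅x * y, a⁆ = ⁅x, a⁆ := by rw [e, hay, one_mul]
    have eb : ⁅x * y, b⁆ = ⁅y, b⁆ := by rw [e, hbx, mul_one]
    have hxy : x * y ∉ center P := fun h1 => hax (by
      rw [← ea, commutatorElement_eq_one_iff_mul_comm]; exact (mem_center_iff.mp h1 a).symm)
    rw [← hgen hx (show ⁅x, a⁆ ∈ _ from ⟨a, rfl⟩) hax, ← hgen hy (show ⁅y, b⁆ ∈ _ from ⟨b, rfl⟩) hby,
      hgen hxy (show ⁅x, a⁆ ∈ _ from ⟨a, ea⟩) hax, hgen hxy (show ⁅y, b⁆ ∈ _ from ⟨b, eb⟩) hby]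
  by_cases hab : ∀ a : P, a ∈ center P
  · have hbot : commutator P = ⊥ := by
      rw [eq_bot_iff, _root_.commutator_def, commutator_le]
      intro a _ b _
      rw [mem_bot, commutatorElement_eq_one_iff_mul_comm]
      exact mem_center_iff.mp (hab b) a
    rw [hbot, card_bot]
    exact one_dvd p
  push Not at hab
  obtain ⟨x, hx⟩ := hab
  obtain ⟨y, hy, hne⟩ : ∃ y, y ∉ center P ∧ centralizer ({y} : Set P) ≠ centralizer ({x} : Set P) := by
    by_contra hno
    push Not at hno
    have htop : centralizer ({x} : Set P) = ⊤ := by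
      rw [eq_top_iff]
      intro z _
      by_cases hz : z ∈ center P
      · exact mem_centralizer_singleton_iff.mpr (mem_center_iff.mp hz x).symm
      · rw [← hno z hz]; exact mem_centralizer_singleton_iff.mpr rfl
    exact hp.ne_one (by rw [← hnc hx, htop, index_top])
  have hall : ∀ z, z ∉ center P → (δ z).range = (δ x).range := by
    intro z hz
    rcases eq_or_ne (centralizer ({z} : Set P)) (centralizer ({x} : Set P)) with h1 | h1
    · exact (key hz hy (h1 ▸ hne.symm)).trans (key hy hx hne)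
    · exact key hz hx h1
  have hle : commutator P ≤ (δ x).range := by
    rw [_root_.commutator_def, commutator_le]
    intro a _ b _
    by_cases ha : a ∈ center P
    · rw [commutatorElement_eq_one_iff_mul_comm.mpr (mem_center_iff.mp ha b).symm]
      exact one_mem _
    · exact hall a ha ▸ ⟨b, rfl⟩
  exact (card_dvd_of_le hle).trans (((hrange x).trans (hnc hx)).dvd)

section Structure

variable (h : ∀ x : G, Squarefree (centralizer ({x} : Set G)).index)

omit [Finite G] in
theorem fittingPrimeTo_coprime' [Finite G] (q : ℕ) [Fact q.Prime] :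
    (Nat.card (H84.fittingPrimeTo q G)).Coprime q := by
  refine (H19.pPrimeCore_coprime (G := G) q).coprime_dvd_left (card_dvd_of_le (iSup_le fun r => ?_))
  haveI : Fact ((r.1 : ℕ)).Prime := ⟨r.1.2⟩
  obtain ⟨k, hk⟩ := IsPGroup.iff_card.mp (H19.pCore_isPGroup (G := G) (r.1 : ℕ))
  refine H19.le_pPrimeCore (H19.pCore_normal _ G) ?_
  rw [hk]
  exact ((Nat.coprime_primes r.1.2 Fact.out).mpr r.2).pow_left k

include h

/-- A `q`-core moved by a `q'`-element is abelian. -/
theorem comm_of_moved (Q : Subgroup G) [Q.Normal] {q : ℕ} [hq : Fact q.Prime] (hQ : IsPGroup q Q)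
    {g : G} (hg : (orderOf g).Coprime q) (hmove : ¬ Q ≤ centralizer ({g} : Set G)) :
    ∀ a ∈ Q, ∀ b ∈ Q, a * b = b * a := by
  haveI := hQ.isNilpotent
  have hord : ∀ a ∈ Q, ∃ k, orderOf a = q ^ k := fun a ha => by
    obtain ⟨k, hk⟩ := IsPGroup.iff_orderOf.mp hQ ⟨a, ha⟩
    exact ⟨k, by rwa [Subgroup.orderOf_mk] at hk⟩
  have hco : ∀ a ∈ Q, (orderOf a).Coprime (orderOf g) := fun a ha => by
    obtain ⟨k, hk⟩ := hord a ha
    rw [hk]; exact hg.symm.pow_left k
  set C := (centralizer ({g} : Set G)).subgroupOf Q with hC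
  have hCi : C.index = q := ((Nat.dvd_prime hq.out).mp (relIndex_dvd_prime h Q hQ g)).resolve_left
    fun e => hmove (relIndex_eq_one.mp e)
  have hmem : ∀ a : Q, a ∈ C ↔ Commute (a : G) g := fun a => mem_centralizer_singleton_iff
  have hCab : ∀ c ∈ C, ∀ a ∈ C, Commute (a : G) (c : G) := by
    intro c hc a ha
    have hcg : Commute (c : G) g := (hmem c).mp hc
    have hle : (centralizer ({(c : G) * g} : Set G)).subgroupOf Q ≤ C := fun u hu => by
      rw [mem_subgroupOf, centralizer_mul_of_coprime hcg (hco _ c.2)] at hu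
      exact (mem_inf.mp hu).2
    have ha' : a ∈ (centralizer ({(c : G) * g} : Set G)).subgroupOf Q := by
      rw [eq_of_le_of_index_dvd hle (hCi ▸ relIndex_dvd_prime h Q hQ _)]
      exact ha
    rw [mem_subgroupOf, centralizer_mul_of_coprime hcg (hco _ c.2)] at ha'
    exact mem_centralizer_singleton_iff.mp (mem_inf.mp ha').1
  obtain ⟨u, hu⟩ : ∃ u : Q, u ∉ C := by
    by_contra hno
    push Not at hno
    exact hq.out.ne_one (by rw [← hCi, index_eq_one, eq_top_iff]; exact fun a _ => hno a)
  have hgu : g * (u : G) * g⁻¹ ∈ Q := Normal.conj_mem ‹Q.Normal› _ u.2 g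
  let d : Q := ⟨(u : G)⁻¹ * (g * (u : G) * g⁻¹), Q.mul_mem (Q.inv_mem u.2) hgu⟩
  have hdc : ∀ c ∈ C, Commute (d : G) (c : G) := by
    intro c hc
    have h1 : u * c * u⁻¹ ∈ C := by
      rw [show u * c * u⁻¹ = ⁅u, c⁆ * c by simp [commutatorElement_def]]
      exact C.mul_mem (commutator_le_of_index_dvd_prime hq.out hCi.dvd
        (commutator_mem_commutator (mem_top u) (mem_top c))) hc
    have h2 : Commute ((u : G) * (c : G) * (u : G)⁻¹) g := by simpa using (hmem _).mp h1
    have h3 : Commute (c : G) g := (hmem _).mp hc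
    show (u : G)⁻¹ * (g * u * g⁻¹) * c = c * ((u : G)⁻¹ * (g * u * g⁻¹))
    calc (u : G)⁻¹ * (g * u * g⁻¹) * c
        = (u : G)⁻¹ * g * ((u : G) * (g⁻¹ * c)) := by group
      _ = (u : G)⁻¹ * g * ((u : G) * (c * g⁻¹)) := by rw [h3.inv_right.eq]
      _ = (u : G)⁻¹ * (g * ((u : G) * c * (u : G)⁻¹)) * (u : G) * g⁻¹ := by group
      _ = (u : G)⁻¹ * (((u : G) * c * (u : G)⁻¹) * g) * (u : G) * g⁻¹ := by rw [h2.eq]
      _ = _ := by group
  have hdC : d ∉ C := by
    intro hd
    have h2 : Commute (d : G) g := (hmem d).mp hd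
    have h1 : (d : G) = 1 := eq_one_of_conj h2 (v := (u : G)⁻¹)
      (by show _ = (u : G)⁻¹ * (g * (u : G) * g⁻¹) * g; group) (hco _ d.2)
    exact hu ((hmem u).mpr (mul_inv_eq_iff_eq_mul.mp (inv_mul_eq_one.mp h1).symm).symm)
  have hcen : ∀ c ∈ C, centralizer ({c} : Set Q) = ⊤ := fun c hc => eq_top_of_index_prime hq.out hCi
    (fun a ha => mem_centralizer_singleton_iff.mpr (Subtype.ext (hCab c hc a ha).eq))
    (mem_centralizer_singleton_iff.mpr (Subtype.ext (hdc c hc).eq)) hdC
  have hdtop : centralizer ({d} : Set Q) = ⊤ := eq_top_of_index_prime hq.out hCi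
    (fun a ha => mem_centralizer_singleton_iff.mpr (Subtype.ext (hdc a ha).eq.symm))
    (mem_centralizer_singleton_iff.mpr rfl) hdC
  have hC' : C ≤ center Q := fun c hc => mem_center_iff.mpr fun a =>
    mem_centralizer_singleton_iff.mp ((hcen c hc).ge (mem_top a))
  have hd' : d ∈ center Q := mem_center_iff.mpr fun a =>
    mem_centralizer_singleton_iff.mp (hdtop.ge (mem_top a))
  intro a ha b hb
  exact congrArg Subtype.val
    (mem_center_iff.mp ((eq_top_of_index_prime hq.out hCi hC' hd' hdC).ge (mem_top (⟨b, hb⟩ : Q))) ⟨a, ha⟩)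

/-- The derived subgroup of the Fitting subgroup is central in it. -/
theorem upperCentralSeries_fitting :
    Subgroup.upperCentralSeries (Cfsg.fittingSubgroup G) 2 = ⊤ := by
  haveI := H19.fitting_normal G
  set F := Cfsg.fittingSubgroup G
  have hF : Group.IsNilpotent F := H19.fitting_isNilpotent
  rw [eq_top_iff]
  intro a _
  rw [Subgroup.mem_upperCentralSeries_succ_iff]
  intro b
  rw [Subgroup.upperCentralSeries_one, mem_center_iff]
  intro y
  refine (mem_centralizer_singleton_iff.mp (?_ : y ∈ centralizer ({a * b * a⁻¹ * b⁻¹} : Set F)))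
  refine H89.mem_of_primaryParts _ y fun p hp _ => ?_
  haveI : Fact p.Prime := ⟨hp⟩
  set x := y ^ H89.primaryExp p y
  have hx : (x : G) ^ p ^ (orderOf y).factorization p = 1 := by
    rw [← Subgroup.coe_pow, H89.pow_primaryExp_pow, Subgroup.coe_one]
  have hrel : ((centralizer ({x} : Set F))).index ∣ p := by
    have heq : centralizer ({x} : Set F) = (centralizer ({(x : G)} : Set G)).subgroupOf F := by
      ext z
      rw [mem_subgroupOf, mem_centralizer_singleton_iff, mem_centralizer_singleton_iff, Subtype.ext_iff]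
      rfl
    rw [heq]
    have hK : H84.fittingPrimeTo p G ≤ centralizer ({(x : G)} : Set G) := fun k hk =>
      mem_centralizer_singleton_iff.mpr (H89.commute_of_nilpotent_coprime hF
        (H84.fittingPrimeTo_le p hk) x.2 (Nat.Coprime.coprime_dvd_right (orderOf_dvd_of_pow_eq_one hx)
          (((fittingPrimeTo_coprime' p).coprime_dvd_left (Subgroup.orderOf_dvd_natCard _ hk)).pow_right _))).eq
    obtain ⟨m, hm⟩ := H84.relIndex_fittingPrimeTo (G := G) p
    change (centralizer ({(x : G)} : Set G)).relIndex F ∣ p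
    obtain ⟨k, -, hk⟩ := (Nat.dvd_prime_pow hp).mp (hm ▸ relIndex_dvd_of_le_left F hK :
      (centralizer ({(x : G)} : Set G)).relIndex F ∣ p ^ m)
    rw [hk]
    exact dvd_prime_of_squarefree (h (x : G)) (hk ▸ H89.relIndex_dvd_index_left F) hp
  haveI := hF
  have hc := commutator_le_of_index_dvd_prime hp hrel
    (commutator_mem_commutator (mem_top a) (mem_top b))
  rw [mem_centralizer_singleton_iff] at hc ⊢
  rw [← commutatorElement_def]
  exact hc.symm

variable [Group.IsSolvable G]

theorem commutator_le_fitting : commutator G ≤ Cfsg.fittingSubgroup G :=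
  H19.le_fitting inferInstance (H32.isNilpotent_commutator_of_isSupersolvable (isSupersolvable h))

omit h [Group.IsSolvable G] in
theorem pCore_le_centralizer_fitting [Finite G] (q : ℕ) [Fact q.Prime]
    (hab : ∀ a ∈ Cfsg.pCore q G, ∀ b ∈ Cfsg.pCore q G, a * b = b * a) :
    Cfsg.pCore q G ≤ centralizer (Cfsg.fittingSubgroup G : Set G) := by
  rw [le_centralizer_iff, H19.fitting_eq_iSup_pCore]
  refine iSup_le fun r => ?_
  haveI : Fact (r : ℕ).Prime := ⟨r.2⟩
  rcases eq_or_ne (r : ℕ) q with he | he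
  · rw [he]
    exact fun a ha => mem_centralizer_iff.mpr fun b hb => hab b hb a ha
  · intro a ha
    exact mem_centralizer_iff.mpr fun b hb =>
      (Subgroup.commute_of_normal_of_disjoint _ _ (H19.pCore_normal _ G) (H19.pCore_normal _ G)
        (IsPGroup.disjoint_of_ne (r : ℕ) q he _ _ (H19.pCore_isPGroup _) (H19.pCore_isPGroup _))
        a b ha hb).eq.symm

/-- `G / F(G)` has no element structure of order `p ^ 2`: a `p`-subgroup meets `F(G)` in index `∣ p`. -/
theorem relIndex_fitting_dvd {p : ℕ} [Fact p.Prime] {P : Subgroup G} (hP : IsPGroup p P) :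
    (Cfsg.fittingSubgroup G).relIndex P ∣ p := by
  have hp : p.Prime := Fact.out
  haveI := H19.fitting_normal G
  haveI := H84.fittingPrimeTo_normal p G
  have hG'F := commutator_le_fitting h
  set F := Cfsg.fittingSubgroup G with hFdef
  set W := H84.fittingPrimeTo p G ⊓ centralizer (F : Set G) with hWdef
  haveI : W.Normal := by rw [hWdef]; infer_instance
  have hordP : ∀ x ∈ P, ∃ k, orderOf x = p ^ k := fun x hx => by
    obtain ⟨k, hk⟩ := IsPGroup.iff_orderOf.mp hP ⟨x, hx⟩
    exact ⟨k, by rwa [Subgroup.orderOf_mk] at hk⟩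
  have key : ∀ x ∈ P, (∀ v ∈ W, Commute x v) → x ∈ F := by
    intro x hx hxW
    obtain ⟨k, hk⟩ := hordP x hx
    refine H84.mem_fitting_of_mem_comap_pCore p x ?_ ?_
    · show QuotientGroup.mk' F x ∈ Cfsg.pCore p (G ⧸ F)
      have hn : (zpowers (QuotientGroup.mk' F x)).Normal := by
        refine ⟨fun c hc g => ?_⟩
        obtain ⟨g, rfl⟩ := QuotientGroup.mk'_surjective F g
        obtain ⟨c, rfl⟩ := QuotientGroup.mk'_surjective F c
        have h1 : QuotientGroup.mk' F ⁅g, c⁆ = 1 :=
          (QuotientGroup.eq_one_iff _).mpr (hG'F (commutator_mem_commutator (mem_top g) (mem_top c)))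
        rw [map_commutatorElement, commutatorElement_def, mul_inv_eq_one] at h1
        rwa [h1]
      refine H19.le_pCore hn (IsPGroup.iff_orderOf.mpr fun c => ?_) (mem_zpowers _)
      obtain ⟨j, -, hj⟩ := (Nat.dvd_prime_pow hp).mp
        (((orderOf_dvd_natCard c).trans (Nat.card_zpowers _).dvd).trans (hk ▸ orderOf_map_dvd _ x) :
          orderOf c ∣ p ^ k)
      exact ⟨j, hj⟩
    · intro r hr hrp
      haveI : Fact r.Prime := ⟨hr⟩
      haveI := H19.pCore_normal r G
      by_cases hm : Cfsg.pCore r G ≤ centralizer ({x} : Set G)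
      · exact mem_centralizer_iff.mpr fun a ha => mem_centralizer_singleton_iff.mp (hm ha)
      · have hab := comm_of_moved h (Cfsg.pCore r G) (H19.pCore_isPGroup r)
          (hk ▸ ((Nat.coprime_primes hp hr).mpr (Ne.symm hrp)).pow_left k) hm
        exact mem_centralizer_iff.mpr fun a ha => (hxW a (mem_inf.mpr
          ⟨le_iSup (fun s : {s : Nat.Primes // (s : ℕ) ≠ p} => Cfsg.pCore (s.1 : ℕ) G) ⟨⟨r, hr⟩, hrp⟩ ha,
            pCore_le_centralizer_fitting r hab ha⟩)).symm.eq
  have hnorm : ∀ v ∈ W, (centralizer ({v} : Set G)).Normal ∧ F ≤ centralizer ({v} : Set G) := by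
    intro v hv
    have hFle : F ≤ centralizer ({v} : Set G) := fun a ha =>
      mem_centralizer_singleton_iff.mpr (mem_centralizer_iff.mp (mem_inf.mp hv).2 a ha)
    refine ⟨⟨fun a ha g => ?_⟩, hFle⟩
    rw [show g * a * g⁻¹ = ⁅g, a⁆ * a by simp [commutatorElement_def]]
    exact mul_mem (hFle (hG'F (commutator_mem_commutator (mem_top g) (mem_top a)))) ha
  have hind : ∀ v ∈ W, (centralizer ({v} : Set G)).relIndex P ∣ p := by
    intro v hv
    haveI := (hnorm v hv).1
    obtain ⟨c, hc⟩ := IsPGroup.iff_card.mp hP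
    obtain ⟨k, -, hk⟩ := (Nat.dvd_prime_pow hp).mp
      (hc ▸ relIndex_dvd_card (centralizer ({v} : Set G)) P)
    rw [hk]
    exact dvd_prime_of_squarefree (h v) (hk ▸ relIndex_dvd_index_of_normal _ P) hp
  by_contra hnd
  obtain ⟨v, hv, hvP⟩ : ∃ v ∈ W, ¬ P ≤ centralizer ({v} : Set G) := by
    by_contra hno
    push Not at hno
    refine hnd ?_
    rw [relIndex_eq_one.mpr fun x hx => key x hx fun v hv => mem_centralizer_singleton_iff.mp (hno v hv hx)]
    exact one_dvd p
  obtain ⟨x, hxP, hxv, hxF⟩ : ∃ x ∈ P, x ∈ centralizer ({v} : Set G) ∧ x ∉ F := by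
    by_contra hno
    push Not at hno
    refine hnd ((?_ : F.relIndex P ∣ (centralizer ({v} : Set G)).relIndex P).trans (hind v hv))
    have hle : (centralizer ({v} : Set G)).subgroupOf P ≤ F.subgroupOf P := fun a ha => hno a a.2 ha
    exact index_dvd_of_le hle
  obtain ⟨w, hw, hxw⟩ : ∃ w ∈ W, x ∉ centralizer ({w} : Set G) := by
    by_contra hno
    push Not at hno
    exact hxF (key x hxP fun u hu => mem_centralizer_singleton_iff.mp (hno u hu))
  obtain ⟨b, hbP, hbw, hbv⟩ : ∃ b ∈ P, b ∈ centralizer ({w} : Set G) ∧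
      b ∉ centralizer ({v} : Set G) := by
    by_contra hno
    push Not at hno
    have hle : (centralizer ({w} : Set G)).subgroupOf P ≤ (centralizer ({v} : Set G)).subgroupOf P :=
      fun a ha => hno a a.2 ha
    have hvi : (centralizer ({v} : Set G)).relIndex P = p :=
      ((Nat.dvd_prime hp).mp (hind v hv)).resolve_left fun e => hvP (relIndex_eq_one.mp e)
    have heq := eq_of_le_of_index_dvd hle
      (show (centralizer ({w} : Set G)).relIndex P ∣ _ from (hind w hw).trans hvi.symm.dvd)
    exact hxw ((heq.ge : _ ≤ _) (show (⟨x, hxP⟩ : P) ∈ _ from hxv))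
  have hvw : v * w ∈ W := W.mul_mem hv hw
  haveI := (hnorm _ hvw).1
  haveI := (hnorm _ hv).1
  set H := (centralizer ({v * w} : Set G)).subgroupOf P with hH
  rw [mem_centralizer_singleton_iff] at hxv hbw
  have hxvw : (⟨x, hxP⟩ : P) ∉ H := fun hm => hxw (mem_centralizer_singleton_iff.mpr (by
    have h1 : x * (v * w) = v * w * x := mem_centralizer_singleton_iff.mp hm
    rw [← mul_assoc, hxv, mul_assoc, mul_assoc] at h1
    exact mul_left_cancel h1))
  have hHi : H.index = p := ((Nat.dvd_prime hp).mp (hind _ hvw)).resolve_left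
    fun e => hxvw ((index_eq_one.mp e).ge (mem_top _))
  have htop : H ⊔ zpowers (⟨x, hxP⟩ : P) = ⊤ := eq_top_of_index_prime hp hHi le_sup_left
    ((le_sup_right : zpowers (⟨x, hxP⟩ : P) ≤ _) (mem_zpowers _)) hxvw
  obtain ⟨y, hy, z, hz, hyz⟩ := mem_sup_of_normal_left.mp (htop.ge (mem_top (⟨b, hbP⟩ : P)))
  have hb : (y : G) * (z : G) = b := congrArg Subtype.val hyz
  set e := b * v * b⁻¹ * v⁻¹ with he
  have hew : e ∈ W := W.mul_mem (Normal.conj_mem ‹W.Normal› v hv b) (W.inv_mem hv)
  have hWc : ∀ a ∈ W, ∀ c ∈ W, Commute a c := fun a ha c hc =>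
    (mem_centralizer_iff.mp (mem_inf.mp ha).2 c (H84.fittingPrimeTo_le p (mem_inf.mp hc).1)).symm
  have hconj : ∀ {u g : G}, u ∈ W → Commute g u → Commute g (b * u * b⁻¹) := by
    intro u g hu hg
    haveI := (hnorm u hu).1
    have h1 : b⁻¹ * g * b ∈ centralizer ({u} : Set G) := by
      simpa using Normal.conj_mem ‹(centralizer ({u} : Set G)).Normal› g
        (mem_centralizer_singleton_iff.mpr hg) b⁻¹
    have h2 : Commute (b⁻¹ * g * b) u := mem_centralizer_singleton_iff.mp h1
    show g * (b * u * b⁻¹) = b * u * b⁻¹ * g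
    calc g * (b * u * b⁻¹) = b * (b⁻¹ * g * b * u) * b⁻¹ := by group
      _ = _ := by rw [h2.eq]; group
  have hxe : Commute x e := (hconj hv hxv).mul_right (Commute.inv_right hxv)
  have hye : Commute (y : G) e := by
    have h1 : Commute (y : G) (v * w) := mem_centralizer_singleton_iff.mp hy
    have h2 := (hconj hvw h1).mul_right h1.inv_right
    rwa [show b * (v * w) * b⁻¹ * (v * w)⁻¹ = b * v * (w * b⁻¹) * w⁻¹ * v⁻¹ by group,
      show w * b⁻¹ = b⁻¹ * w from (Commute.inv_left hbw).symm,
      show b * v * (b⁻¹ * w) * w⁻¹ * v⁻¹ = e by rw [he]; group] at h2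
  have hbe : Commute b e := by
    obtain ⟨i, hi⟩ := mem_zpowers_iff.mp hz
    rw [← hb, ← hi, SubgroupClass.coe_zpow]
    exact hye.mul_left (hxe.zpow_left i)
  refine hbv (mem_centralizer_singleton_iff.mpr ?_)
  obtain ⟨kb, hkb⟩ := hordP b hbP
  have hco : (orderOf e).Coprime (orderOf b) := by
    rw [hkb]
    exact (((fittingPrimeTo_coprime' p).coprime_dvd_left
      (Subgroup.orderOf_dvd_natCard _ (mem_inf.mp hew).1)).pow_right _)
  have h1 : e = 1 := eq_one_of_conj hbe.symm (v := v⁻¹) ?_ hco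
  · rw [he, mul_inv_eq_one, mul_inv_eq_iff_eq_mul] at h1
    exact h1
  · calc v⁻¹ * b * v⁻¹⁻¹ = v⁻¹ * e * v * b := by rw [he]; group
      _ = _ := by rw [mul_assoc v⁻¹, (hWc e hew v hv).eq]; group

theorem squarefree_index_fitting : Squarefree (Cfsg.fittingSubgroup G).index := by
  haveI := H19.fitting_normal G
  refine Nat.squarefree_iff_prime_squarefree.mpr fun p hp hdvd => ?_
  haveI : Fact p.Prime := ⟨hp⟩
  obtain ⟨P⟩ : Nonempty (Sylow p G) := inferInstance
  set F := Cfsg.fittingSubgroup G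
  have hsup : ¬ p ∣ (F ⊔ (P : Subgroup G)).index := fun hd =>
    P.not_dvd_index (hd.trans (index_dvd_of_le le_sup_right))
  have h1 : F.relIndex (F ⊔ P) * (F ⊔ P).index = F.index := relIndex_mul_index le_sup_left
  rw [relIndex_sup_left] at h1
  have h2 := relIndex_fitting_dvd h P.isPGroup'
  have h3 : p * p ∣ F.relIndex P := by
    refine (Nat.Coprime.dvd_of_dvd_mul_right ?_ (h1 ▸ hdvd))
    exact ((hp.coprime_iff_not_dvd).mpr hsup).mul_left ((hp.coprime_iff_not_dvd).mpr hsup)
  have h4 := Nat.le_of_dvd hp.pos (h3.trans h2)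
  exact absurd h4 (by nlinarith [hp.two_le])

theorem isCyclic_quotient_fitting [(Cfsg.fittingSubgroup G).Normal] :
    IsCyclic (G ⧸ Cfsg.fittingSubgroup G) := by
  have hsq : Squarefree (Nat.card (G ⧸ Cfsg.fittingSubgroup G)) := by
    rw [← index_eq_card]; exact squarefree_index_fitting h
  haveI := IsZGroup.of_squarefree hsq
  haveI : IsMulCommutative (G ⧸ Cfsg.fittingSubgroup G) :=
    Subgroup.Normal.quotient_commutative_iff_commutator_le.mpr (commutator_le_fitting h)
  haveI : Group.IsNilpotent (G ⧸ Cfsg.fittingSubgroup G) := by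
    refine ⟨⟨1, ?_⟩⟩
    rw [Subgroup.upperCentralSeries_one, eq_top_iff]
    exact fun a _ => mem_center_iff.mpr fun b => isMulCommutative_iff.mp inferInstance b a
  infer_instance

/-- `|G'|` divides `q` times a number prime to `q`. -/
theorem card_commutator_dvd_mul (q : ℕ) [hq : Fact q.Prime] :
    Nat.card (commutator G) ∣ Nat.card (H84.fittingPrimeTo q G) * q := by
  haveI := H19.fitting_normal G
  haveI := H19.pCore_normal q G
  haveI := H84.fittingPrimeTo_normal q G
  haveI := isCyclic_quotient_fitting h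
  have hG'F := commutator_le_fitting h
  set F := Cfsg.fittingSubgroup G with hFdef
  set Q := Cfsg.pCore q G with hQdef
  set K := H84.fittingPrimeTo q G with hKdef
  have hQp : IsPGroup q Q := H19.pCore_isPGroup q
  have hFQK : F = Q ⊔ K := H84.fitting_eq_sup_fittingPrimeTo q
  have hQF : Q ≤ F := H19.pCore_le_fitting q
  by_cases hmv : ∃ x : G, (orderOf x).Coprime q ∧ ¬ Q ≤ centralizer ({x} : Set G)
  · obtain ⟨x, hxq, hx⟩ := hmv
    have hc := comm_of_moved h Q hQp hxq hx
    have hq' : ∀ g : G, (centralizer ({g} : Set G)).relIndex Q ∣ q := relIndex_dvd_prime h Q hQp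
    have hact : ∀ g g' a, a ∈ Q → g * (g' * a * g'⁻¹) * g⁻¹ = g' * (g * a * g⁻¹) * g'⁻¹ := by
      intro g g' a ha
      have h1 : Commute ⁅g, g'⁆ (g' * (g * a * g⁻¹) * g'⁻¹) :=
        mem_centralizer_iff.mp (pCore_le_centralizer_fitting q hc
          (Normal.conj_mem ‹Q.Normal› _ (Normal.conj_mem ‹Q.Normal› a ha g) g')) _
          (hG'F (commutator_mem_commutator (mem_top g) (mem_top g')))
      calc g * (g' * a * g'⁻¹) * g⁻¹
          = ⁅g, g'⁆ * (g' * (g * a * g⁻¹) * g'⁻¹) * ⁅g, g'⁆⁻¹ := by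
            simp [commutatorElement_def]; group
        _ = _ := by rw [h1.eq, mul_inv_cancel_right]
    set L := image Q hc x with hL
    have hLQ : L ≤ Q := image_le Q hc x
    have hall : ∀ g : G, ¬ Q ≤ centralizer ({g} : Set G) → image Q hc g = L := by
      intro g hg
      obtain ⟨a, ha, hax⟩ := Set.not_subset.mp hx
      set l := x * a * x⁻¹ * a⁻¹ with hl
      have hlQ : l ∈ Q := hLQ (mem_image Q hc ha)
      have hl1 : l ≠ 1 := fun h1 => hax (mem_centralizer_singleton_iff.mpr
        (mul_inv_eq_iff_eq_mul.mp (mul_inv_eq_one.mp h1)).symm)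
      by_cases hgl : g * l * g⁻¹ * l⁻¹ = 1
      · refine kernel_or_image Q hc hq' hg hx fun hK => hl1 ?_
        have hlg : l ∈ Q ⊓ centralizer ({g} : Set G) := mem_inf.mpr ⟨hlQ,
          mem_centralizer_singleton_iff.mpr (mul_inv_eq_iff_eq_mul.mp (mul_inv_eq_one.mp hgl)).symm⟩
        rw [hK, mem_inf, mem_centralizer_singleton_iff] at hlg
        have hla : Commute l a := hc l hlQ a ha
        obtain ⟨k, hk⟩ := IsPGroup.iff_orderOf.mp hQp ⟨l, hlQ⟩
        rw [Subgroup.orderOf_mk] at hk
        refine eq_one_of_conj (b := x) (v := a⁻¹) hlg.2 ?_ (hk ▸ hxq.symm.pow_left k)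
        calc a⁻¹ * x * a⁻¹⁻¹ = a⁻¹ * l * a * x := by rw [hl]; group
          _ = _ := by rw [mul_assoc a⁻¹, hla.eq]; group
      · have ha' : g * a * g⁻¹ * a⁻¹ ∈ Q := Q.mul_mem (Normal.conj_mem ‹Q.Normal› a ha g) (Q.inv_mem ha)
        have heq : g * l * g⁻¹ * l⁻¹ =
            x * (g * a * g⁻¹ * a⁻¹) * x⁻¹ * (g * a * g⁻¹ * a⁻¹)⁻¹ := by
          have e1 : g * l * g⁻¹ = (g * (x * a * x⁻¹) * g⁻¹) * (g * a * g⁻¹)⁻¹ := by rw [hl]; group
          have e2 : x * (g * a * g⁻¹ * a⁻¹) * x⁻¹ =
              (x * (g * a * g⁻¹) * x⁻¹) * (x * a * x⁻¹)⁻¹ := by group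
          rw [e1, e2, hact g x a ha, hl]
          set A := x * (g * a * g⁻¹) * x⁻¹
          set B := g * a * g⁻¹
          set X := x * a * x⁻¹
          have hB : B ∈ Q := Normal.conj_mem ‹Q.Normal› a ha g
          have hX : X ∈ Q := Normal.conj_mem ‹Q.Normal› a ha x
          calc A * B⁻¹ * (X * a⁻¹)⁻¹ = A * (B⁻¹ * (a * X⁻¹)) := by group
            _ = A * ((a * X⁻¹) * B⁻¹) := by
                rw [hc B⁻¹ (Q.inv_mem hB) _ (Q.mul_mem ha (Q.inv_mem hX))]
            _ = A * (X⁻¹ * (a * B⁻¹)) := by rw [hc a ha X⁻¹ (Q.inv_mem hX)]; group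
            _ = _ := by group
        rw [hL, ← image_eq_of_mem Q hc hq' hg (mem_image Q hc hlQ) hgl,
          ← image_eq_of_mem Q hc hq' hx (l := g * l * g⁻¹ * l⁻¹) (heq ▸ mem_image Q hc ha') hgl]
    have hgL : ∀ g : G, ∀ a ∈ Q, g * a * g⁻¹ * a⁻¹ ∈ L := by
      intro g a ha
      by_cases hg : Q ≤ centralizer ({g} : Set G)
      · rw [(mem_centralizer_singleton_iff.mp (hg ha)).symm, mul_inv_cancel_right, mul_inv_cancel]
        exact one_mem _
      · exact hall g hg ▸ mem_image Q hc ha
    haveI : L.Normal := ⟨fun l hl g => by simpa using L.mul_mem (hgL g l (hLQ hl)) hl⟩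
    have hcen : ∀ a ∈ F, QuotientGroup.mk' (K ⊔ L) a ∈ center (G ⧸ (K ⊔ L)) := by
      have hle : F ≤ (center (G ⧸ (K ⊔ L))).comap (QuotientGroup.mk' (K ⊔ L)) := by
        rw [hFQK]
        refine sup_le ?_ ?_
        · intro a ha
          rw [mem_comap, mem_center_iff]
          intro z
          obtain ⟨g, rfl⟩ := QuotientGroup.mk'_surjective _ z
          rw [← commutatorElement_eq_one_iff_mul_comm, ← map_commutatorElement,
            QuotientGroup.mk'_apply, QuotientGroup.eq_one_iff]
          exact mem_sup_right (hgL g a ha)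
        · intro a ha
          rw [mem_comap, QuotientGroup.mk'_apply, (QuotientGroup.eq_one_iff a).mpr (mem_sup_left ha)]
          exact one_mem _
      exact fun a ha => hle ha
    have hKLF : K ⊔ L ≤ F := sup_le (H84.fittingPrimeTo_le q) (hLQ.trans hQF)
    have hker : (QuotientGroup.map (K ⊔ L) F (MonoidHom.id G) hKLF).ker ≤ center (G ⧸ (K ⊔ L)) := by
      intro z hz
      obtain ⟨a, rfl⟩ := QuotientGroup.mk'_surjective _ z
      rw [MonoidHom.mem_ker] at hz
      exact hcen a ((QuotientGroup.eq_one_iff a).mp hz)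
    have hle : commutator G ≤ K ⊔ L := by
      rw [_root_.commutator_def, commutator_le]
      intro a _ b _
      rw [← QuotientGroup.eq_one_iff]
      show QuotientGroup.mk' (K ⊔ L) ⁅a, b⁆ = 1
      rw [map_commutatorElement, commutatorElement_eq_one_iff_mul_comm]
      exact commutative_of_cyclic_center_quotient _ hker _ _
    refine (card_dvd_of_le hle).trans ?_
    exact (H19.card_sup_dvd K L).trans (Nat.mul_dvd_mul_left _ (by rw [hL, card_image_eq Q hc hq' hx]))
  · push Not at hmv
    let π := QuotientGroup.mk' K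
    have hh' : ∀ y : G ⧸ K, Squarefree (centralizer ({y} : Set (G ⧸ K))).index := quotient h K
    have hFimg : ∀ a ∈ F, ∃ b ∈ Q, π b = π a := by
      intro a ha
      rw [hFQK] at ha
      obtain ⟨b, hb, k, hk, rfl⟩ := mem_sup_of_normal_left.mp ha
      exact ⟨b, hb, by rw [map_mul, (QuotientGroup.eq_one_iff k).mpr hk |> (show π k = 1 from ·), mul_one]⟩
    have hcen : ∀ z : G ⧸ K, (orderOf z).Coprime q → z ∈ center (G ⧸ K) := by
      intro z hz
      obtain ⟨g, rfl⟩ := QuotientGroup.mk'_surjective K z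
      -- pass to a `q'`-element with the same image
      obtain ⟨j, hj⟩ := exists_pow_eq_self_of_coprime (x := QuotientGroup.mk' K g)
        ((hz.symm.pow_left ((orderOf g).factorization q)))
      rw [mem_center_iff]
      intro r
      obtain ⟨r, rfl⟩ := QuotientGroup.mk'_surjective K r
      set g' := (g ^ q ^ (orderOf g).factorization q) ^ j with hg'
      have hpi : π g' = QuotientGroup.mk' K g := by rw [hg', map_pow, map_pow]; exact hj
      have hg'q : (orderOf g').Coprime q := by
        refine Nat.Coprime.coprime_dvd_left (orderOf_pow_dvd j) ?_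
        rw [orderOf_pow' g (pow_ne_zero _ hq.out.ne_zero), Nat.gcd_eq_right (Nat.ordProj_dvd _ q)]
        exact (Nat.coprime_ordCompl hq.out (orderOf_pos g).ne').symm
      obtain ⟨b, hb, hbe⟩ := hFimg ⁅r, g'⁆ (hG'F (commutator_mem_commutator (mem_top r) (mem_top g')))
      have hcomm : Commute b g' := mem_centralizer_singleton_iff.mp (hmv g' hg'q hb)
      obtain ⟨k, hk⟩ := IsPGroup.iff_orderOf.mp hQp ⟨b, hb⟩
      rw [Subgroup.orderOf_mk] at hk
      have hco : (orderOf (π b)).Coprime (orderOf (π g')) :=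
        ((hk ▸ hg'q.symm.pow_left k).coprime_dvd_left (orderOf_map_dvd π b)).coprime_dvd_right
          (orderOf_map_dvd π g')
      have h1 := eq_one_of_conj (hcomm.map π) (v := π r) (by
        rw [hbe, map_commutatorElement, commutatorElement_def]; group) hco
      rw [hbe, map_commutatorElement, commutatorElement_eq_one_iff_mul_comm] at h1
      rwa [hpi] at h1
    obtain ⟨S⟩ : Nonempty (Sylow q (G ⧸ K)) := inferInstance
    have htop : (S : Subgroup (G ⧸ K)) ⊔ center (G ⧸ K) = ⊤ := by
      rw [← index_eq_one]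
      by_contra hne
      obtain ⟨r, hr, hrd⟩ := Nat.exists_prime_and_dvd hne
      rcases eq_or_ne r q with rfl | hrq
      · exact S.not_dvd_index (hrd.trans (index_dvd_of_le le_sup_left))
      · haveI : Fact r.Prime := ⟨hr⟩
        obtain ⟨R⟩ : Nonempty (Sylow r (G ⧸ K)) := inferInstance
        refine R.not_dvd_index (hrd.trans (index_dvd_of_le fun z hz => mem_sup_right (hcen z ?_)))
        obtain ⟨k, hk⟩ := IsPGroup.iff_orderOf.mp R.isPGroup' ⟨z, hz⟩
        rw [Subgroup.orderOf_mk] at hk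
        rw [hk]
        exact ((Nat.coprime_primes hr hq.out).mpr hrq).pow_left k
    have hSn : (S : Subgroup (G ⧸ K)).Normal := by
      rw [← normalizer_eq_top_iff, eq_top_iff, ← htop]
      exact sup_le le_normalizer (center_le_normalizer _)
    have hS : Nat.card (commutator (S : Subgroup (G ⧸ K))) ∣ q := by
      refine card_commutator_dvd S.isPGroup' fun s => ?_
      have heq : centralizer ({s} : Set (S : Subgroup (G ⧸ K))) =
          (centralizer ({(s : G ⧸ K)} : Set (G ⧸ K))).subgroupOf S := by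
        ext z
        rw [mem_subgroupOf, mem_centralizer_singleton_iff, mem_centralizer_singleton_iff, Subtype.ext_iff]
        rfl
      rw [heq]
      exact relIndex_dvd_prime hh' (S : Subgroup (G ⧸ K)) S.isPGroup' _
    have hle : commutator (G ⧸ K) ≤
        (commutator (S : Subgroup (G ⧸ K))).map (S : Subgroup (G ⧸ K)).subtype := by
      rw [_root_.commutator_def, commutator_le]
      intro a _ b _
      obtain ⟨s, hs, z, hz, rfl⟩ := mem_sup_of_normal_right.mp (htop.ge (mem_top a))
      obtain ⟨s', hs', z', hz', rfl⟩ := mem_sup_of_normal_right.mp (htop.ge (mem_top b))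
      refine ⟨⁅(⟨s, hs⟩ : (S : Subgroup (G ⧸ K))), ⟨s', hs'⟩⁆,
        commutator_mem_commutator (mem_top _) (mem_top _), ?_⟩
      rw [map_commutatorElement]
      show ⁅s, s'⁆ = ⁅s * z, s' * z'⁆
      have hz1 : ∀ t, Commute t z := fun t => mem_center_iff.mp hz t
      have hz2 : ∀ t, Commute t z' := fun t => mem_center_iff.mp hz' t
      simp only [commutatorElement_def]
      calc s * s' * s⁻¹ * s'⁻¹ = s * s' * (z * z⁻¹) * s⁻¹ * s'⁻¹ * (z' * z'⁻¹) := by group
        _ = s * z * (s' * z') * (s * z)⁻¹ * (s' * z')⁻¹ := by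
          rw [mul_inv_rev s z, mul_inv_rev s' z']
          calc s * s' * (z * z⁻¹) * s⁻¹ * s'⁻¹ * (z' * z'⁻¹)
              = s * (s' * z) * z⁻¹ * s⁻¹ * ((s'⁻¹ * z') * z'⁻¹) := by group
            _ = s * (z * s') * z⁻¹ * s⁻¹ * ((z' * s'⁻¹) * z'⁻¹) := by
              rw [(hz1 s').eq, (hz2 s'⁻¹).eq]
            _ = s * z * (s' * (z⁻¹ * s⁻¹ * z')) * (s'⁻¹ * z'⁻¹) := by group
            _ = s * z * (s' * (z' * (z⁻¹ * s⁻¹))) * (z'⁻¹ * s'⁻¹) := by
              rw [(hz2 (z⁻¹ * s⁻¹)).eq, (hz2 s'⁻¹).inv_right.eq]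
            _ = _ := by group
    have hmap : Nat.card ((commutator G).map π) ∣ q := by
      refine Nat.dvd_trans (card_dvd_of_le (le_trans (le_of_eq ?_) hle)) ?_
      · rw [map_commutator_eq, MonoidHom.range_eq_top.mpr (QuotientGroup.mk'_surjective K)]
        rfl
      · rw [card_map_of_injective (subtype_injective _)]; exact hS
    rw [← card_mul_index (K.subgroupOf (commutator G))]
    refine Nat.mul_dvd_mul ?_ ?_
    · rw [← inf_subgroupOf_right, Nat.card_congr (subgroupOfEquivOfLe inf_le_right).toEquiv]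
      exact card_dvd_of_le inf_le_left
    · have hk : ((π.comp (commutator G).subtype).ker).index = Nat.card ((commutator G).map π) := by
        rw [index_ker, ← MonoidHom.map_range, range_subtype]
      rwa [← hk, ← MonoidHom.comap_ker, QuotientGroup.ker_mk'] at hmap

theorem squarefree_card_commutator : Squarefree (Nat.card (commutator G)) := by
  refine Nat.squarefree_iff_prime_squarefree.mpr fun q hq hdvd => ?_
  haveI : Fact q.Prime := ⟨hq⟩
  have h1 : q * q ∣ Nat.card (H84.fittingPrimeTo q G) * q :=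
    hdvd.trans (card_commutator_dvd_mul h q)
  exact hq.not_dvd_one ((fittingPrimeTo_coprime' (G := G) q).symm ▸
    Nat.dvd_gcd dvd_rfl (Nat.dvd_of_mul_dvd_mul_right hq.pos h1))

/-- The structure of solvable groups with square-free class sizes. -/
theorem structure_of_solvable :
    Cfsg.IsSupersolvable G ∧ (Cfsg.fittingSubgroup G).Normal ∧
    (∀ _h : (Cfsg.fittingSubgroup G).Normal,
      IsCyclic (G ⧸ Cfsg.fittingSubgroup G) ∧ Squarefree (Cfsg.fittingSubgroup G).index) ∧
    IsCyclic (commutator G) ∧ Squarefree (Nat.card (commutator G)) ∧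
    Subgroup.upperCentralSeries (Cfsg.fittingSubgroup G) 2 = ⊤ ∧
    commutator (commutator G) = ⊥ := by
  have hs := squarefree_card_commutator h
  haveI : Group.IsNilpotent (commutator G) := H19.isNilpotent_of_le_fitting (commutator_le_fitting h)
  haveI := IsZGroup.of_squarefree hs
  haveI hcyc : IsCyclic (commutator G) := inferInstance
  refine ⟨isSupersolvable h, H19.fitting_normal G, fun _ => ⟨isCyclic_quotient_fitting h,
    squarefree_index_fitting h⟩, hcyc, hs, upperCentralSeries_fitting h, ?_⟩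
  rw [eq_bot_iff]
  refine commutator_le.mpr fun a _ b _ => ?_
  rw [mem_bot, commutatorElement_eq_one_iff_mul_comm]
  exact isMulCommutative_iff.mp IsCyclic.commutative a b

end Structure

end Cfsg.Agent.H88.SquarefreeClasses
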