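import Cfsg.Agent.H88.FrattiniAut
import Cfsg.Agent.H24.MaxClass
import Cfsg.Agent.H21.Complement

/-!
A `2`-group acting faithfully on a group of odd order `n` is generated by `k` elements with
`2 ^ (k + 1) ≤ n + 1`, and `2 ^ (k + 1) < n` when `5 ≤ n`.
-/

namespace Cfsg.Agent.H88

open Subgroup
open scoped commutatorElement

universe u

/-- `G` is generated by at most `k` elements. -/
def GenBy (G : Type*) [Group G] (k : ℕ) : Prop :=
  ∃ S : Finset G, S.card ≤ k ∧ closure (S : Set G) = ⊤

theorem GenBy.mono {G : Type*} [Group G] {k l : ℕ} (h : GenBy G k) (hkl : k ≤ l) : GenBy G l := by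
  obtain ⟨S, hS, hS'⟩ := h
  exact ⟨S, hS.trans hkl, hS'⟩

theorem genBy_of_isCyclic {G : Type*} [Group G] (h : IsCyclic G) : GenBy G 1 := by
  obtain ⟨g, hg⟩ := h.exists_generator
  refine ⟨{g}, by simp, eq_top_iff.2 fun x _ => ?_⟩
  rw [Finset.coe_singleton, ← zpowers_eq_closure]
  exact hg x

theorem genBy_of_card_eq {G : Type*} [Group G] [Finite G] {p r : ℕ} (hp : p.Prime)
    (h : Nat.card G = p ^ r) : GenBy G r := by
  classical
  obtain ⟨v, hv⟩ := exists_generators hp h
  refine ⟨Finset.univ.image v, Finset.card_image_le.trans (by simp), ?_⟩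
  rw [Finset.coe_image, Finset.coe_univ, Set.image_univ, hv]

/-- Generators of the kernel and of the range generate. -/
theorem genBy_of_ker_range {G H : Type*} [Group G] [Group H] (f : G →* H) {k l : ℕ}
    (hr : GenBy f.range k) (hk : GenBy f.ker l) : GenBy G (k + l) := by
  classical
  obtain ⟨S, hS, hS'⟩ := hr
  obtain ⟨T, hT, hT'⟩ := hk
  set c : f.range → G := fun y => Classical.choose (MonoidHom.mem_range.1 y.2) with hcdef
  have hc : ∀ y : f.range, f (c y) = y := fun y =>
    Classical.choose_spec (MonoidHom.mem_range.1 y.2)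
  refine ⟨S.image c ∪ T.image Subtype.val,
    (Finset.card_union_le _ _).trans (add_le_add (Finset.card_image_le.trans hS)
      (Finset.card_image_le.trans hT)), ?_⟩
  set K := closure ((S.image c ∪ T.image Subtype.val : Finset G) : Set G) with hK
  have hkerK : f.ker ≤ K := by
    have h : (closure (T : Set f.ker)).map f.ker.subtype ≤ K := by
      rw [MonoidHom.map_closure]
      refine closure_mono ?_
      rintro _ ⟨t, ht, rfl⟩
      exact Finset.mem_union_right _ (Finset.mem_image_of_mem _ ht)
    rwa [hT', ← MonoidHom.range_eq_map, Subgroup.range_subtype] at h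
  have hmap : closure (S : Set f.range) ≤ (K.map f).subgroupOf f.range := by
    rw [closure_le]
    intro y hy
    exact ⟨c y, subset_closure (Finset.mem_union_left _ (Finset.mem_image_of_mem _ hy)), hc y⟩
  rw [hS'] at hmap
  rw [eq_top_iff]
  intro g _
  obtain ⟨x, hx, hxg⟩ := hmap (mem_top (⟨f g, g, rfl⟩ : f.range))
  have : x⁻¹ * g ∈ f.ker := by
    rw [MonoidHom.mem_ker, map_mul, map_inv, show f x = f g from hxg, inv_mul_cancel]
  simpa using mul_mem hx (hkerK this)

/-- A group generated by a subgroup of index two and one element. -/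
theorem genBy_of_index_two {G : Type*} [Group G] {M : Subgroup G} (hM : M.index = 2) {k : ℕ}
    (h : GenBy M k) : GenBy G (k + 1) := by
  classical
  obtain ⟨S, hS, hS'⟩ := h
  obtain ⟨g, hg⟩ : ∃ g, g ∉ M := by
    by_contra hcon
    push Not at hcon
    have hMt : M = ⊤ := eq_top_iff.2 fun x _ => hcon x
    rw [hMt, index_top] at hM
    exact absurd hM (by norm_num)
  refine ⟨insert g (S.image Subtype.val),
    (Finset.card_insert_le _ _).trans (by have := Finset.card_image_le (s := S) (f := Subtype.val); omega),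
    eq_top_iff.2 fun x _ => ?_⟩
  set K := closure ((insert g (S.image Subtype.val) : Finset G) : Set G) with hK
  have hgK : g ∈ K := subset_closure (Finset.mem_insert_self _ _)
  have hMK : M ≤ K := by
    have h : (closure (S : Set M)).map M.subtype ≤ K := by
      rw [MonoidHom.map_closure]
      refine closure_mono ?_
      rintro _ ⟨t, ht, rfl⟩
      exact Finset.mem_insert_of_mem (Finset.mem_image_of_mem _ ht)
    rwa [hS', ← MonoidHom.range_eq_map, Subgroup.range_subtype] at h
  by_cases hx : x ∈ M
  · exact hMK hx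
  · have : g⁻¹ * x ∈ M := by
      rw [mul_mem_iff_of_index_two hM, inv_mem_iff]
      simp [hg, hx]
    simpa using mul_mem hgK (hMK this)

/-- A group with a cyclic subgroup of index at most two: every subgroup is two-generated. -/
theorem genBy_two_of_cyclic_index {G : Type*} [Group G] (C : Subgroup G) (hC : IsCyclic C)
    (hi : C.index = 1 ∨ C.index = 2) (S : Subgroup G) : GenBy S 2 := by
  have hcyc : IsCyclic (C.subgroupOf S) := by
    haveI := hC
    exact isCyclic_of_injective (((S.subtype).comp (C.subgroupOf S).subtype).codRestrict C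
      fun x => x.2) (fun a b h => Subtype.ext (Subtype.ext (congrArg Subtype.val h :)))
  rcases hi with h | h
  · have : C.subgroupOf S = ⊤ := subgroupOf_eq_top.2 (by rw [index_eq_one] at h; rw [h]; exact le_top)
    rw [this] at hcyc
    exact (genBy_of_isCyclic ((Subgroup.topEquiv (G := S)).isCyclic.1 hcyc)).mono (by omega)
  · by_cases hSC : S ≤ C
    · have : C.subgroupOf S = ⊤ := subgroupOf_eq_top.2 hSC
      rw [this] at hcyc
      exact (genBy_of_isCyclic ((Subgroup.topEquiv (G := S)).isCyclic.1 hcyc)).mono (by omega)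
    have h2 : (C.subgroupOf S).index = 2 := by
      obtain ⟨s, hs, hsC⟩ := SetLike.not_le_iff_exists.1 hSC
      rw [index_eq_two_iff']
      refine ⟨⟨s, hs⟩, fun b => ?_⟩
      simp only [mem_subgroupOf, coe_mul]
      by_cases hb : (b : G) ∈ C
      · right
        exact ⟨hb, by rw [mul_mem_iff_of_index_two h]; simp [hb, hsC]⟩
      · left
        exact ⟨by rw [mul_mem_iff_of_index_two h]; simp [hb, hsC], hb⟩
    exact genBy_of_index_two h2 (genBy_of_isCyclic hcyc)

/-- Subgroups of the units modulo a power of two are two-generated. -/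
theorem genBy_units_two_pow (n : ℕ) (S : Subgroup (ZMod (2 ^ n))ˣ) : GenBy S 2 := by
  rcases le_or_gt n 2 with hn | hn
  · have hc := (ZMod.isCyclic_units_two_pow_iff n).2 hn
    exact (genBy_of_isCyclic (Subgroup.isCyclic S)).mono (by omega)
  obtain ⟨m, rfl⟩ : ∃ m, n = m + 2 := ⟨n - 2, by omega⟩
  have hu : IsUnit ((5 : ℕ) : ZMod (2 ^ (m + 2))) :=
    (ZMod.isUnit_iff_coprime 5 _).2 (Nat.Coprime.pow_right _ (by norm_num))
  obtain ⟨v, hv⟩ := hu
  have ho : orderOf v = 2 ^ m := by
    rw [← orderOf_units, hv, Nat.cast_ofNat]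
    exact ZMod.orderOf_five m
  refine genBy_two_of_cyclic_index (zpowers v) inferInstance (Or.inr ?_) S
  have h := (zpowers v).card_mul_index
  rw [Nat.card_zpowers, ho, Nat.card_eq_fintype_card, ZMod.card_units_eq_totient,
    Nat.totient_prime_pow Nat.prime_two (by omega), show (2 : ℕ) - 1 = 1 from rfl, mul_one,
    show m + 2 - 1 = m + 1 by omega] at h
  exact Nat.eq_of_mul_eq_mul_left (by positivity) (h.trans (pow_succ 2 m))

/-- The Frattini index of a `p`-group generated by `k` elements is at most `p ^ k`. -/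
theorem index_frattini_le {P : Type*} [Group P] [Finite P] {k : ℕ} (hP : IsPGroup 2 P)
    (h : GenBy P k) : (frattini P).index ≤ 2 ^ k := by
  classical
  haveI : Fact (Nat.Prime 2) := ⟨Nat.prime_two⟩
  haveI : (frattini P).Normal := inferInstance
  obtain ⟨S, hS, hS'⟩ := h
  set f := QuotientGroup.mk' (frattini P) with hf
  have hsq : ∀ q : P ⧸ frattini P, q * q = 1 := by
    intro q
    obtain ⟨x, rfl⟩ := QuotientGroup.mk'_surjective _ q
    rw [← map_mul, QuotientGroup.mk'_apply, QuotientGroup.eq_one_iff, ← pow_two]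
    exact H24.pow_mem_frattini hP x
  have hcomm : ∀ a b : P ⧸ frattini P, a * b = b * a := by
    intro a b
    have h1 := hsq (a * b)
    have ha : a⁻¹ = a := inv_eq_of_mul_eq_one_right (hsq a)
    have hb : b⁻¹ = b := inv_eq_of_mul_eq_one_right (hsq b)
    rw [← inv_eq_iff_mul_eq_one, mul_inv_rev, ha, hb] at h1
    exact h1.symm
  have key : ∀ T : Finset P, Nat.card ((closure (T : Set P)).map f) ≤ 2 ^ T.card := by
    intro T
    induction T using Finset.induction_on with
    | empty => simp
    | insert x T hx ih =>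
      rw [Finset.card_insert_of_notMem hx, pow_succ, Finset.coe_insert, ← Set.singleton_union,
        Subgroup.closure_union, Subgroup.map_sup, MonoidHom.map_closure f {x}, Set.image_singleton]
      set A := (closure (T : Set P)).map f with hA
      haveI : A.Normal := ⟨fun a ha g => by rwa [hcomm g a, mul_inv_cancel_right]⟩
      have hfx : f x ∈ closure ({f x} : Set (P ⧸ frattini P)) :=
        Subgroup.subset_closure (Set.mem_singleton _)
      let g : A × Fin 2 → ↥(closure ({f x} : Set (P ⧸ frattini P)) ⊔ A) := fun z =>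
        ⟨(f x) ^ (z.2 : ℕ) * z.1, mul_mem_sup (pow_mem hfx (z.2 : ℕ)) z.1.2⟩
      have hg : Function.Surjective g := by
        rintro ⟨y, hy⟩
        rw [mem_sup_of_normal_right] at hy
        obtain ⟨a, ha, b, hb, rfl⟩ := hy
        obtain ⟨i, rfl⟩ := mem_closure_singleton.1 ha
        obtain ⟨j, hj, hji⟩ : ∃ j : ℕ, j < 2 ∧ (f x) ^ j = (f x) ^ i := by
          refine ⟨(i % 2).toNat, by omega, ?_⟩
          rw [← zpow_natCast, Int.toNat_of_nonneg (Int.emod_nonneg i (by norm_num))]
          conv_rhs => rw [← Int.mul_ediv_add_emod i 2, zpow_add, zpow_mul, zpow_two, hsq, one_zpow, one_mul]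
        exact ⟨⟨⟨b, hb⟩, ⟨j, hj⟩⟩, Subtype.ext (by simp only [g, hji])⟩
      refine (Nat.card_le_card_of_surjective g hg).trans ?_
      rw [Nat.card_prod, Nat.card_fin]
      exact Nat.mul_le_mul_right _ ih
  have := key S
  rw [hS', ← MonoidHom.range_eq_map, MonoidHom.range_eq_top.2 (QuotientGroup.mk'_surjective _),
    card_top] at this
  exact this.trans (Nat.pow_le_pow_right (by norm_num) hS)

/-- Stability: a `2`-group element fixing `U` and `V / U` pointwise is trivial (`|V|` odd). -/
theorem eq_one_of_stable {V : Type*} [Group V] [Finite V] (hV : Odd (Nat.card V)) (U : Subgroup V)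
    (β : MulAut V) {j : ℕ} (hβ : β ^ 2 ^ j = 1) (hU : ∀ u ∈ U, β u = u)
    (hVU : ∀ v, v⁻¹ * β v ∈ U) : β = 1 := by
  refine MulEquiv.ext fun v => ?_
  have hpow : ∀ i : ℕ, (β ^ i) v = v * (v⁻¹ * β v) ^ i := by
    intro i
    induction i with
    | zero => simp
    | succ i ih =>
      rw [pow_succ', MulAut.mul_apply, ih, map_mul, map_pow, hU _ (hVU v), pow_succ', ← mul_assoc,
        mul_inv_cancel_left]
  have h1 := hpow (2 ^ j)
  rw [hβ, MulAut.one_apply, eq_comm, mul_eq_left] at h1
  have h2 := pow_gcd_eq_one.2 ⟨h1, pow_card_eq_one' (x := v⁻¹ * β v)⟩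
  rw [Nat.Coprime.pow_left _ (Nat.coprime_two_left.2 hV), pow_one, inv_mul_eq_one] at h2
  rw [MulAut.one_apply, ← h2]

/-- A group of automorphisms of an abelian group, restricted to an invariant subgroup. -/
theorem exists_restrict {V : Type*} [Group V] {P : Type*} [Group P] (φ : P →* MulAut V)
    (U : Subgroup V) (hU : ∀ g : P, ∀ u ∈ U, φ g u ∈ U) :
    ∃ ψ : P →* MulAut U, ∀ (g : P) (u : U), (ψ g u : V) = φ g u := by
  have hinv : ∀ (g : P) (u : V), φ g⁻¹ (φ g u) = u := fun g u => by
    rw [← MulAut.mul_apply, ← map_mul, inv_mul_cancel, map_one, MulAut.one_apply]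
  refine ⟨MonoidHom.mk' (fun g =>
    { toFun := fun u => ⟨φ g u, hU g u u.2⟩
      invFun := fun u => ⟨φ g⁻¹ u, hU g⁻¹ u u.2⟩
      left_inv := fun u => Subtype.ext (hinv g u)
      right_inv := fun u => Subtype.ext (by simpa using hinv g⁻¹ u)
      map_mul' := fun u w => Subtype.ext (map_mul (φ g) (u : V) (w : V)) }) ?_, fun g u => rfl⟩
  intro g h
  refine MulEquiv.ext fun u => Subtype.ext ?_
  show φ (g * h) u = φ g (φ h u)
  rw [map_mul, MulAut.mul_apply]

/-- A group of automorphisms of an abelian group on the quotient by an invariant subgroup. -/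
theorem exists_quotient {V : Type*} [Group V] (U : Subgroup V) [U.Normal] {P : Type*} [Group P]
    (φ : P →* MulAut V) (hU : ∀ g : P, ∀ u ∈ U, φ g u ∈ U) :
    ∃ ψ : P →* MulAut (V ⧸ U), ∀ (g : P) (v : V),
      ψ g (QuotientGroup.mk v) = QuotientGroup.mk (φ g v) := by
  have hle : ∀ g : P, U ≤ U.comap (φ g).toMonoidHom := fun g u hu => hU g u hu
  let F : P → (V ⧸ U →* V ⧸ U) := fun g => QuotientGroup.map U U (φ g).toMonoidHom (hle g)
  have hF : ∀ (g : P) (v : V), F g (QuotientGroup.mk v) = QuotientGroup.mk (φ g v) :=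
    fun g v => rfl
  have hinv : ∀ (g : P) (q : V ⧸ U), F g⁻¹ (F g q) = q := by
    intro g q
    induction q using QuotientGroup.induction_on with
    | _ v => rw [hF, hF, ← MulAut.mul_apply, ← map_mul, inv_mul_cancel, map_one, MulAut.one_apply]
  refine ⟨MonoidHom.mk' (fun g =>
    { toFun := F g
      invFun := F g⁻¹
      left_inv := hinv g
      right_inv := fun q => by simpa using hinv g⁻¹ q
      map_mul' := map_mul (F g) }) ?_, fun g v => rfl⟩
  intro g h
  refine MulEquiv.ext fun q => ?_
  induction q using QuotientGroup.induction_on with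
  | _ v =>
    show QuotientGroup.mk (φ (g * h) v) = QuotientGroup.mk (φ g (φ h v))
    rw [map_mul, MulAut.mul_apply]

/-- The bound on the number of generators. -/
def OddBound (P : Type*) [Group P] (n : ℕ) : Prop :=
  ∃ k, GenBy P k ∧ 2 ^ (k + 1) ≤ n + 1 ∧ (5 ≤ n → 2 ^ (k + 1) < n)

theorem oddBound_of_le {P : Type*} [Group P] {n k : ℕ} (h : GenBy P k) (h1 : 2 ^ (k + 1) < n) :
    OddBound P n :=
  ⟨k, h, by omega, fun _ => h1⟩

/-- Composing the bounds along a normal series of length two. -/
theorem oddBound_mul {P H : Type*} [Group P] [Group H] (f : P →* H) {a b : ℕ} (ha : 2 ≤ a)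
    (hb : 2 ≤ b) (ha' : Odd a) (hb' : Odd b) (hr : OddBound f.range a) (hk : OddBound f.ker b) :
    OddBound P (a * b) := by
  obtain ⟨k, hk1, hk2, -⟩ := hr
  obtain ⟨l, hl1, hl2, -⟩ := hk
  refine oddBound_of_le (genBy_of_ker_range f hk1 hl1) ?_
  have h1 : 2 ^ (k + 1) * 2 ^ (l + 1) ≤ (a + 1) * (b + 1) := Nat.mul_le_mul hk2 hl2
  have h2 : 2 ^ (k + l + 1) * 2 = 2 ^ (k + 1) * 2 ^ (l + 1) := by ring
  have ha3 : 3 ≤ a := by rcases ha' with ⟨c, rfl⟩; omega
  have hb3 : 3 ≤ b := by rcases hb' with ⟨c, rfl⟩; omega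
  nlinarith [Nat.mul_le_mul ha3 hb3]

/-- Groups of `2`-power order act on a set of fixed points. -/
theorem fixed_invariant {V : Type*} [Group V] {P : Type*} [Group P] (φ : P →* MulAut V)
    {g e : P} (h : φ (g⁻¹ * e * g) = φ e) {v : V} (hv : φ e v = v) : φ e (φ g v) = φ g v := by
  have : φ g (φ (g⁻¹ * e * g) v) = φ e (φ g v) := by
    rw [← MulAut.mul_apply, ← map_mul, ← MulAut.mul_apply, ← map_mul]
    congr 2
    group
  rw [h, hv] at this
  exact this.symm

/-- The irreducible, imprimitive case. -/
theorem oddBound_imprimitive {V : Type u} [CommGroup V] [Finite V] {P : Type u} [Group P] [Finite P]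
    (hP : IsPGroup 2 P) (hodd : Odd (Nat.card V))
    (φ : P →* MulAut V) (hφ : Function.Injective φ)
    (hirr : ∀ U : Subgroup V, (∀ g : P, ∀ u ∈ U, φ g u ∈ U) → U = ⊥ ∨ U = ⊤)
    (z : P) (hzc : z ∈ center P) (hz : ∀ v, φ z v = v⁻¹)
    (e : P) (he2 : e * e = 1) (he1 : e ≠ 1) (hez : e ≠ z)
    (hconj : ∀ g : P, g * e * g⁻¹ = e ∨ g * e * g⁻¹ = e * z)
    (ih : ∀ (W : Type u) [CommGroup W] [Finite W] (Q : Type u) [Group Q] [Finite Q],
      Nat.card W < Nat.card V → Odd (Nat.card W) → IsPGroup 2 Q → ∀ ψ : Q →* MulAut W,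
      Function.Injective ψ → OddBound Q (Nat.card W)) :
    OddBound P (Nat.card V) := by
  classical
  have hzz : z * z = 1 := hφ (MulEquiv.ext fun v => by
    rw [map_mul, MulAut.mul_apply, hz, hz, inv_inv, map_one, MulAut.one_apply])
  have hzinv : ∀ g : P, g * z = z * g := fun g => mem_center_iff.1 hzc g
  set M := centralizer ({e} : Set P) with hMdef
  have hmem : ∀ x, x ∈ M ↔ x * e * x⁻¹ = e := fun x => by
    rw [hMdef, mem_centralizer_iff]
    simp only [Set.mem_singleton_iff, forall_eq]
    exact ⟨fun h => by rw [← h, mul_inv_cancel_right], fun h => by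
      conv_lhs => rw [← h, inv_mul_cancel_right]⟩
  let Ue : Subgroup V :=
    { carrier := {v | φ e v = v}
      one_mem' := map_one _
      mul_mem' := fun {a b} ha hb => by
        simp only [Set.mem_setOf_eq] at ha hb ⊢
        rw [map_mul, ha, hb]
      inv_mem' := fun {a} ha => by
        simp only [Set.mem_setOf_eq] at ha ⊢
        rw [map_inv, ha] }
  let We : Subgroup V :=
    { carrier := {v | φ e v = v⁻¹}
      one_mem' := by simp
      mul_mem' := fun {a b} ha hb => by
        simp only [Set.mem_setOf_eq] at ha hb ⊢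
        rw [map_mul, ha, hb, mul_inv]
      inv_mem' := fun {a} ha => by
        simp only [Set.mem_setOf_eq] at ha ⊢
        rw [map_inv, ha] }
  have hee : ∀ v, φ e (φ e v) = v := fun v => by
    rw [← MulAut.mul_apply, ← map_mul, he2, map_one, MulAut.one_apply]
  have hsq : ∀ v : V, v * v = 1 → v = 1 := fun v hv => by
    have := pow_gcd_eq_one.2 ⟨(pow_two v).trans hv, pow_card_eq_one' (x := v)⟩
    rwa [Nat.coprime_two_left.2 hodd, pow_one] at this
  have hUne : Ue ≠ ⊤ := fun h => he1 (hφ (MulEquiv.ext fun v => by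
    rw [map_one, MulAut.one_apply]
    exact (h ▸ mem_top v : v ∈ Ue)))
  have hUnb : Ue ≠ ⊥ := fun h => hez (hφ (MulEquiv.ext fun v => by
    rw [hz]
    have h1 : v * φ e v ∈ Ue := by
      show φ e (v * φ e v) = v * φ e v
      rw [map_mul, hee, mul_comm]
    rw [h, mem_bot] at h1
    exact eq_inv_of_mul_eq_one_right h1))
  obtain ⟨g, hgM⟩ : ∃ g, g ∉ M := by
    by_contra hcon
    push Not at hcon
    rcases hirr Ue (fun x v hv => fixed_invariant φ (by
      congr 1
      have := (hmem x⁻¹).1 (hcon _)
      rwa [inv_inv] at this) hv) with h | h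
    · exact hUnb h
    · exact hUne h
  have hg : g * e * g⁻¹ = e * z := (hconj g).resolve_left fun h => hgM ((hmem g).2 h)
  have hMi : M.index = 2 := by
    rw [index_eq_two_iff']
    refine ⟨g, fun b => ?_⟩
    rcases hconj b with h | h
    · refine Or.inr ⟨(hmem b).2 h, fun hc => ?_⟩
      have := (hmem _).1 hc
      rw [show g * b * e * (g * b)⁻¹ = g * (b * e * b⁻¹) * g⁻¹ by group, h] at this
      exact hgM ((hmem g).2 this)
    · refine Or.inl ⟨(hmem _).2 ?_, fun hc => ?_⟩
      · rw [show g * b * e * (g * b)⁻¹ = g * (b * e * b⁻¹) * g⁻¹ by group, h,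
          show g * (e * z) * g⁻¹ = (g * e * g⁻¹) * (g * z * g⁻¹) by group, hg, hzinv g,
          mul_inv_cancel_right, mul_assoc, hzz, mul_one]
      · have := (hmem _).1 hc
        rw [h] at this
        exact he1 (hφ (by
          have hz1 : z = 1 := mul_eq_left.1 this
          refine MulEquiv.ext fun v => ?_
          have hv : v = v⁻¹ := by
            have := hz v
            rwa [hz1, map_one, MulAut.one_apply] at this
          have hv1 : v = 1 := hsq v (mul_eq_one_iff_eq_inv.2 hv)
          rw [hv1, map_one, map_one]))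
  -- the decomposition
  have hdisj : ∀ v, v ∈ Ue → v ∈ We → v = 1 := fun v h1 h2 =>
    hsq v (mul_eq_one_iff_eq_inv.2 (h1.symm.trans h2))
  have hprod : ∀ v : V, v * v ∈ Ue ⊔ We := fun v => by
    have h1 : v * φ e v ∈ Ue := by
      show φ e (v * φ e v) = v * φ e v
      rw [map_mul, hee, mul_comm]
    have h2 : v * (φ e v)⁻¹ ∈ We := by
      show φ e (v * (φ e v)⁻¹) = (v * (φ e v)⁻¹)⁻¹
      rw [map_mul, map_inv, hee, mul_inv, inv_inv, mul_comm]
    have : (v * φ e v) * (v * (φ e v)⁻¹) = v * v := by
      rw [mul_mul_mul_comm, mul_inv_cancel, mul_one]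
    exact this ▸ mul_mem_sup h1 h2
  have hcard : Nat.card V = Nat.card Ue * Nat.card We := by
    refine (IsComplement'.card_mul ?_).symm
    refine isComplement'_of_disjoint_and_mul_eq_univ
      (disjoint_def.2 fun {v} h1 h2 => hdisj v h1 h2) ?_
    rw [Set.eq_univ_iff_forall]
    intro v
    obtain ⟨w, rfl⟩ : ∃ w, w * w = v := by
      refine (Finite.injective_iff_surjective (f := fun w : V => w * w)).1 (fun a b hab => ?_) v
      have : (a / b) * (a / b) = 1 := by
        rw [div_mul_div_comm, show a * a = b * b from hab, div_self']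
      exact div_eq_one.1 (hsq _ this)
    obtain ⟨x, hx, y, hy, hxy⟩ := mem_sup.1 (hprod w)
    exact ⟨x, hx, y, hy, hxy⟩
  have hgU : ∀ v ∈ Ue, φ g v ∈ We := fun v hv => by
    show φ e (φ g v) = (φ g v)⁻¹
    have h1 : φ (g * e * g⁻¹) (φ g v) = φ g v := by
      rw [← MulAut.mul_apply, ← map_mul, inv_mul_cancel_right, map_mul, MulAut.mul_apply,
        show φ e v = v from hv]
    rw [hg, map_mul, MulAut.mul_apply, hz, map_inv] at h1
    exact inv_eq_iff_eq_inv.1 h1
  have hgW : ∀ v ∈ We, φ g v ∈ Ue := fun v hv => by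
    show φ e (φ g v) = φ g v
    have h1 : φ (g * e * g⁻¹) (φ g v) = (φ g v)⁻¹ := by
      rw [← MulAut.mul_apply, ← map_mul, inv_mul_cancel_right, map_mul, MulAut.mul_apply,
        show φ e v = v⁻¹ from hv, map_inv]
    rw [hg, map_mul, MulAut.mul_apply, hz, map_inv] at h1
    exact inv_injective h1
  have hWU : Nat.card We = Nat.card Ue := le_antisymm
    (Nat.card_le_card_of_injective (fun v : We => (⟨φ g v, hgW v v.2⟩ : Ue))
      fun a b h => Subtype.ext ((φ g).injective (congrArg Subtype.val h)))
    (Nat.card_le_card_of_injective (fun v : Ue => (⟨φ g v, hgU v v.2⟩ : We))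
      fun a b h => Subtype.ext ((φ g).injective (congrArg Subtype.val h)))
  have ha : 2 ≤ Nat.card Ue := (one_lt_card_iff_ne_bot Ue).2 hUnb
  have haodd : Odd (Nat.card Ue) := hodd.of_dvd_nat (Ue.card_subgroup_dvd_card)
  have halt : Nat.card Ue < Nat.card V := by
    rw [hcard, hWU]
    nlinarith
  -- M acts on both parts
  have hMU : ∀ m : M, ∀ v ∈ Ue, φ (m : P) v ∈ Ue := fun m v hv =>
    fixed_invariant φ (by
      congr 1
      have := (hmem _).1 (inv_mem m.2)
      rwa [inv_inv] at this) hv
  have hMW : ∀ m : M, ∀ v ∈ We, φ (m : P) v ∈ We := fun m v hv => by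
    show φ e (φ (m : P) v) = (φ (m : P) v)⁻¹
    have hm := (mem_centralizer_iff.1 m.2) e rfl
    rw [← MulAut.mul_apply, ← map_mul, hm, map_mul, MulAut.mul_apply,
      show φ e v = v⁻¹ from hv, map_inv]
  obtain ⟨ψU, hψU⟩ := exists_restrict (φ.comp M.subtype) Ue hMU
  obtain ⟨ψW, hψW⟩ := exists_restrict (φ.comp M.subtype) We hMW
  have hker : Function.Injective (ψW.comp ψU.ker.subtype) := by
    rw [← MonoidHom.ker_eq_bot_iff, eq_bot_iff]
    rintro ⟨m, hm⟩ hm'
    rw [MonoidHom.mem_ker] at hm hm'
    rw [mem_bot]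
    refine Subtype.ext (Subtype.ext (hφ ?_))
    rw [OneMemClass.coe_one, OneMemClass.coe_one, map_one]
    have hle : Ue ⊔ We ≤ MonoidHom.eqLocus (φ (m : P)).toMonoidHom (MonoidHom.id V) := sup_le
      (fun v hv => by
        show φ (m : P) v = v
        have := hψU m ⟨v, hv⟩
        rw [hm] at this
        exact this.symm)
      (fun v hv => by
        show φ (m : P) v = v
        have := hψW m ⟨v, hv⟩
        rw [show ψW m = 1 from hm'] at this
        exact this.symm)
    refine MulEquiv.ext fun v => ?_
    obtain ⟨w, rfl⟩ : ∃ w, w * w = v := by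
      refine (Finite.injective_iff_surjective (f := fun w : V => w * w)).1 (fun a b hab => ?_) v
      have : (a / b) * (a / b) = 1 := by
        rw [div_mul_div_comm, show a * a = b * b from hab, div_self']
      exact div_eq_one.1 (hsq _ this)
    exact hle (hprod w)
  have hM2 : IsPGroup 2 M := hP.to_subgroup M
  obtain ⟨k, hk1, hk2, hk3⟩ := ih Ue ψU.range halt haodd
    (IsPGroup.of_surjective hM2 ψU.rangeRestrict ψU.rangeRestrict_surjective) ψU.range.subtype
    ψU.range.subtype_injective
  obtain ⟨l, hl1, hl2, hl3⟩ := ih We ψU.ker (hWU ▸ halt) (hWU ▸ haodd)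
    (hM2.to_subgroup _) (ψW.comp ψU.ker.subtype) hker
  rw [hWU] at hl2 hl3
  rcases lt_or_ge (Nat.card Ue) 5 with h5 | h5
  · have h3 : Nat.card Ue = 3 := by rcases haodd with ⟨c, hc⟩; omega
    refine oddBound_of_le (k := 2) ⟨{g, e}, Finset.card_le_two, ?_⟩ (by rw [hcard, hWU, h3]; norm_num)
    set K := closure (({g, e} : Finset P) : Set P) with hK
    have hgK : g ∈ K := subset_closure (by simp)
    have heK : e ∈ K := subset_closure (by simp)
    have hzK : z ∈ K := by
      have : e * (g * e * g⁻¹) = z := by rw [hg, ← mul_assoc, he2, one_mul]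
      exact this ▸ mul_mem heK (mul_mem (mul_mem hgK heK) (inv_mem hgK))
    haveI : IsCyclic Ue := by
      haveI : Fact (Nat.Prime 3) := ⟨Nat.prime_three⟩
      exact isCyclic_of_prime_card h3
    haveI : IsCyclic We := by
      haveI : Fact (Nat.Prime 3) := ⟨Nat.prime_three⟩
      exact isCyclic_of_prime_card (hWU.trans h3)
    have hautU : Nat.card (MulAut Ue) = 2 := by rw [IsCyclic.card_mulAut, h3]; rfl
    have hautW : Nat.card (MulAut We) = 2 := by rw [IsCyclic.card_mulAut, hWU, h3]; rfl
    have two : ∀ {A : Type u} [Group A], Nat.card A = 2 → ∀ x y : A, x ≠ 1 → y = 1 ∨ y = x := by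
      intro A _ hA x y hx
      obtain ⟨a, b, hab, hu⟩ := Nat.card_eq_two_iff.1 hA
      have h : ∀ w : A, w = a ∨ w = b := fun w => by
        have : w ∈ ({a, b} : Set A) := hu.symm ▸ Set.mem_univ w
        simpa using this
      rcases h 1 with h1 | h1 <;> rcases h x with h2 | h2 <;> rcases h y with h3 | h3 <;>
        first
          | exact Or.inl (h3.trans h1.symm)
          | exact Or.inr (h3.trans h2.symm)
          | exact absurd (h2.trans h1.symm) hx
    have hzM : z ∈ M := (hmem z).2 (by rw [← hzinv e, mul_inv_cancel_right])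
    have heM : e ∈ M := (hmem e).2 (by group)
    have hzU : ψU ⟨z, hzM⟩ ≠ 1 := fun h => by
      obtain ⟨u, hu, hu1⟩ := (bot_or_exists_ne_one Ue).resolve_left hUnb
      have := hψU ⟨z, hzM⟩ ⟨u, hu⟩
      rw [h] at this
      exact hu1 (hsq u (mul_eq_one_iff_eq_inv.2 (this.trans (hz u))))
    have heW : ψW ⟨e, heM⟩ ≠ 1 := fun h => by
      have hWnb : We ≠ ⊥ := (one_lt_card_iff_ne_bot We).1 (by rw [hWU]; omega)
      obtain ⟨u, hu, hu1⟩ := (bot_or_exists_ne_one We).resolve_left hWnb
      have := hψW ⟨e, heM⟩ ⟨u, hu⟩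
      rw [h] at this
      exact hu1 (hsq u (mul_eq_one_iff_eq_inv.2 (this.trans hu)))
    have heU : ψU ⟨e, heM⟩ = 1 := MulEquiv.ext fun u => Subtype.ext ((hψU _ u).trans u.2)
    have hker2 : ∀ m : M, ψU m = 1 → (m : P) ∈ K := by
      intro m hm
      rcases two hautW _ (ψW m) heW with h | h
      · have := hker (a₁ := ⟨m, hm⟩) (a₂ := 1) (by simpa using h)
        have h1 : m = 1 := congrArg Subtype.val this
        rw [h1]
        exact one_mem K
      · have := hker (a₁ := ⟨m, hm⟩) (a₂ := ⟨⟨e, heM⟩, heU⟩) (by simpa using h)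
        have h1 : m = ⟨e, heM⟩ := congrArg Subtype.val this
        rw [h1]
        exact heK
    have hMK : ∀ m : M, (m : P) ∈ K := by
      intro m
      rcases two hautU _ (ψU m) hzU with h | h
      · exact hker2 m h
      · have := hker2 (⟨z, hzM⟩⁻¹ * m) (by rw [map_mul, map_inv, h, inv_mul_cancel])
        have hx := mul_mem hzK this
        simpa using hx
    rw [eq_top_iff]
    intro x _
    by_cases hx : x ∈ M
    · exact hMK ⟨x, hx⟩
    · have : g⁻¹ * x ∈ M := by
        rw [mul_mem_iff_of_index_two hMi, inv_mem_iff]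
        simp [hgM, hx]
      simpa using mul_mem hgK (hMK ⟨_, this⟩)
  · refine oddBound_of_le (genBy_of_index_two hMi (genBy_of_ker_range ψU hk1 hl1)) ?_
    rw [hcard, hWU]
    calc 2 ^ (k + l + 1 + 1) = 2 ^ (k + 1) * 2 ^ (l + 1) := by ring
      _ < Nat.card Ue * Nat.card Ue := Nat.mul_lt_mul'' (hk3 h5) (hl3 h5)

/-- The irreducible case with a cyclic self-centralizing normal subgroup. -/
theorem oddBound_primitive {V : Type u} [CommGroup V] [Finite V] {P : Type u} [Group P] [Finite P]
    (hP : IsPGroup 2 P) (hodd : Odd (Nat.card V)) (hV : 1 < Nat.card V)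
    (φ : P →* MulAut V) (hφ : Function.Injective φ)
    (hirr : ∀ U : Subgroup V, (∀ g : P, ∀ u ∈ U, φ g u ∈ U) → U = ⊥ ∨ U = ⊤)
    (A : Subgroup P) [A.Normal] (hA : IsCyclic A) (hCA : centralizer (A : Set P) = A) :
    OddBound P (Nat.card V) := by
  classical
  haveI : Fact (Nat.Prime 2) := ⟨Nat.prime_two⟩
  by_cases hVc : IsCyclic V
  · by_cases hprime : (Nat.card V).Prime
    · haveI := Fact.mk hprime
      haveI : IsCyclic (MulAut V) := by
        haveI := ZMod.isCyclic_units_prime hprime
        exact isCyclic_of_injective (IsCyclic.mulAutMulEquiv V).toMonoidHom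
          (IsCyclic.mulAutMulEquiv V).injective
      haveI : IsCyclic P := isCyclic_of_injective φ hφ
      exact ⟨1, genBy_of_isCyclic inferInstance, by have := hprime.two_le; rcases hodd with ⟨c, hc⟩; norm_num; omega,
        fun h => by norm_num; omega⟩
    · exfalso
      obtain ⟨r, hr, hrd⟩ := Nat.exists_prime_and_dvd hV.ne'
      haveI := Fact.mk hr
      obtain ⟨v, hv⟩ := exists_prime_orderOf_dvd_card' r hrd
      let Ω : Subgroup V := (powMonoidHom r).ker
      have hΩ : ∀ g : P, ∀ u ∈ Ω, φ g u ∈ Ω := fun g u hu => by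
        show φ g u ^ r = 1
        rw [← map_pow, show u ^ r = 1 from hu, map_one]
      rcases hirr Ω hΩ with h | h
      · have h1 : v ∈ Ω := by
          show v ^ r = 1
          rw [← hv, pow_orderOf_eq_one]
        rw [h, mem_bot] at h1
        rw [h1, orderOf_one] at hv
        exact hr.one_lt.ne hv
      · obtain ⟨w, hw⟩ := hVc.exists_generator
        have hwr : w ^ r = 1 := (h ▸ mem_top w : w ∈ Ω)
        have hcard : orderOf w = Nat.card V := orderOf_eq_card_of_forall_mem_zpowers hw
        have := (Nat.dvd_prime hr).1 (hcard ▸ orderOf_dvd_of_pow_eq_one hwr)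
        rcases this with h2 | h2
        · exact hV.ne' h2
        · exact hprime (h2 ▸ hr)
  · -- two generators modulo `A`
    let ψ : P →* (ZMod (Nat.card A))ˣ :=
      (IsCyclic.mulAutMulEquiv A).toMonoidHom.comp MulAut.conjNormal
    have hψ : ψ.ker = A := by
      ext x
      rw [MonoidHom.mem_ker]
      show (IsCyclic.mulAutMulEquiv A) (MulAut.conjNormal x) = 1 ↔ _
      rw [MulEquiv.map_eq_one_iff]
      constructor
      · intro h
        rw [← hCA]
        intro a ha
        have := congrArg Subtype.val (DFunLike.congr_fun h ⟨a, ha⟩)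
        rw [MulAut.conjNormal_apply, MulAut.one_apply] at this
        exact (mul_inv_eq_iff_eq_mul.1 this).symm
      · intro hx
        refine MulEquiv.ext fun a => Subtype.ext ?_
        rw [MulAut.conjNormal_apply, MulAut.one_apply]
        have : x ∈ centralizer (A : Set P) := hCA.symm ▸ hx
        rw [← this a a.2, mul_inv_cancel_right]
    obtain ⟨i, hi⟩ := IsPGroup.iff_card.1 (hP.to_subgroup A)
    have hgenker : GenBy ψ.ker 1 := genBy_of_isCyclic (by rw [hψ]; exact hA)
    by_cases h17 : 17 ≤ Nat.card V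
    · have h2 : ∀ (n : ℕ) (hn : n = 2 ^ i) (S : Subgroup (ZMod n)ˣ), GenBy S 2 := by
        rintro n rfl S
        exact genBy_units_two_pow i S
      refine oddBound_of_le (genBy_of_ker_range ψ (h2 _ hi ψ.range) hgenker) ?_
      norm_num
      omega
    -- here `|V| = 9`
    have h9 : Nat.card V = 9 := by
      obtain ⟨r, hr, hrd⟩ := Nat.exists_prime_and_dvd hV.ne'
      haveI := Fact.mk hr
      let Ω : Subgroup V := (powMonoidHom r).ker
      have hΩ : ∀ g : P, ∀ u ∈ Ω, φ g u ∈ Ω := fun g u hu => by
        show φ g u ^ r = 1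
        rw [← map_pow, show u ^ r = 1 from hu, map_one]
      have hexp : ∀ v : V, v ^ r = 1 := by
        rcases hirr Ω hΩ with h | h
        · exfalso
          obtain ⟨v, hv⟩ := exists_prime_orderOf_dvd_card' r hrd
          have h1 : v ∈ Ω := by
            show v ^ r = 1
            rw [← hv, pow_orderOf_eq_one]
          rw [h, mem_bot] at h1
          rw [h1, orderOf_one] at hv
          exact hr.one_lt.ne hv
        · exact fun v => (h ▸ mem_top v : v ∈ Ω)
      obtain ⟨m, hm⟩ := (IsPGroup.iff_card (p := r) (G := V)).1 (fun v => ⟨1, by rw [pow_one]; exact hexp v⟩)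
      have hr3 : 3 ≤ r := by
        have := hr.two_le
        rcases Nat.lt_or_ge r 3 with h | h
        · exfalso
          obtain rfl : r = 2 := by omega
          exact (Nat.not_even_iff_odd.2 hodd) (even_iff_two_dvd.2 hrd)
        · exact h
      have hm2 : 2 ≤ m := by
        by_contra hlt
        apply hVc
        exact H24.isCyclic_of_card_pow_le hm (by omega)
      have hm3 : m ≤ 2 := by
        by_contra hlt
        have : 3 ^ 3 ≤ Nat.card V := hm ▸ (Nat.pow_le_pow_left hr3 3).trans (Nat.pow_le_pow_right (by omega) (by omega))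
        omega
      obtain rfl : m = 2 := by omega
      have : r ≤ 3 := by
        have h1 : r * r < 17 := by rw [← pow_two, ← hm]; omega
        have h4 : r ≠ 4 := by
          rintro rfl
          exact absurd hr (by norm_num)
        have : r < 5 := by
          by_contra hlt
          have : 5 * 5 ≤ r * r := Nat.mul_le_mul (by omega) (by omega)
          omega
        omega
      rw [hm, show r = 3 by omega]
      norm_num
    obtain ⟨u, hu⟩ : ∃ u : V, u ≠ 1 := by
      haveI : Nontrivial V := Finite.one_lt_card_iff_nontrivial.1 hV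
      exact exists_ne 1
    haveI : Fintype V := Fintype.ofFinite V
    haveI : Fintype P := Fintype.ofFinite P
    letI : MulAction P V := MulAction.compHom V φ
    have horb : Nat.card (MulAction.orbit P u) ≤ 8 := by
      have hsub : MulAction.orbit P u ⊆ ({1} : Set V)ᶜ := by
        rintro _ ⟨x, rfl⟩
        show φ x u ≠ 1
        simpa using hu
      have := Set.ncard_le_ncard hsub
      rw [Set.ncard_compl, Set.ncard_singleton, h9] at this
      rwa [← Nat.card_coe_set_eq] at this
    set K := MulAction.stabilizer P u with hK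
    have hKfix : ∀ x : K, φ (x : P) u = u := fun x => MulAction.mem_stabilizer_iff.1 x.2
    set U := zpowers u with hUdef
    have hU : ∀ x : K, ∀ v ∈ U, φ (x : P) v = v := by
      intro x v hv
      obtain ⟨j, rfl⟩ := mem_zpowers_iff.1 hv
      rw [map_zpow, hKfix]
    have hUtop : U ≠ ⊤ := fun h => hVc ⟨⟨u, fun x => (h ▸ mem_top x : x ∈ U)⟩⟩
    have hUbot : U ≠ ⊥ := fun h => hu (zpowers_eq_bot.1 h)
    have hUidx : U.index = 3 := by
      have h1 := U.card_mul_index
      rw [h9] at h1
      have h2 := (one_lt_card_iff_ne_bot U).2 hUbot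
      have h3 : U.index ≠ 1 := fun h => hUtop (index_eq_one.1 h)
      have h4 : Nat.card U ∈ Nat.divisors 9 := Nat.mem_divisors.2 ⟨Dvd.intro _ h1, by norm_num⟩
      rw [show Nat.divisors 9 = {1, 3, 9} from rfl] at h4
      simp only [Finset.mem_insert, Finset.mem_singleton] at h4
      rcases h4 with h | h | h <;> rw [h] at h1 h2 <;> omega
    obtain ⟨χ, hχ⟩ := exists_quotient U (φ.comp K.subtype) fun x v hv => by
      show φ (x : P) v ∈ U
      rwa [hU x v hv]
    have hχinj : Function.Injective χ := by
      rw [← MonoidHom.ker_eq_bot_iff, eq_bot_iff]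
      intro x hx
      rw [MonoidHom.mem_ker] at hx
      rw [mem_bot]
      refine Subtype.ext (hφ ?_)
      obtain ⟨j, hj⟩ := hP (x : P)
      rw [OneMemClass.coe_one, map_one]
      refine eq_one_of_stable hodd U (φ (x : P)) (j := j) (by rw [← map_pow, hj, map_one])
        (hU x) fun v => ?_
      have := hχ x v
      rw [hx, MulAut.one_apply] at this
      exact QuotientGroup.eq.1 this
    have hK2 : Nat.card K ≤ 2 := by
      haveI : Fact (Nat.Prime 3) := ⟨Nat.prime_three⟩
      haveI : IsCyclic (V ⧸ U) := isCyclic_of_prime_card (p := 3) hUidx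
      have h1 := Nat.card_le_card_of_injective χ hχinj
      rw [IsCyclic.card_mulAut, show Nat.card (V ⧸ U) = 3 from hUidx] at h1
      exact h1.trans (by decide)
    have h16 : Nat.card P ≤ 16 := by
      have h := MulAction.card_orbit_mul_card_stabilizer_eq_card_group P u
      rw [← Nat.card_eq_fintype_card, ← Nat.card_eq_fintype_card, ← Nat.card_eq_fintype_card] at h
      rw [← h]
      exact (Nat.mul_le_mul horb hK2).trans (by norm_num)
    obtain ⟨m, hm⟩ := IsPGroup.iff_card.1 hP
    obtain ⟨s, hs⟩ := IsPGroup.iff_card.1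
      (IsPGroup.of_surjective hP ψ.rangeRestrict ψ.rangeRestrict_surjective)
    have hims : i + s = m := by
      have h1 := ψ.ker.card_mul_index
      rw [index_ker, hs, hψ, hi, hm, ← pow_add] at h1
      exact Nat.pow_right_injective le_rfl h1
    have hm4 : m ≤ 4 := by
      rw [hm] at h16
      exact (Nat.pow_le_pow_iff_right (by norm_num)).1 (h16.trans (by norm_num : 16 ≤ 2 ^ 4))
    have hs1 : s ≤ 1 := by
      rcases Nat.lt_or_ge i 3 with hlt | hge
      · have h1 : Nat.card ψ.range ≤ Nat.totient (Nat.card A) := by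
          refine (Subgroup.card_le_card_group _).trans (le_of_eq ?_)
          haveI : NeZero (Nat.card A) := ⟨Nat.card_pos.ne'⟩
          rw [Nat.card_eq_fintype_card, ZMod.card_units_eq_totient]
        rw [hs, hi] at h1
        rw [← Nat.pow_le_pow_iff_right (a := 2) (by norm_num)]
        refine h1.trans ?_
        interval_cases i <;> decide
      · omega
    refine oddBound_of_le (genBy_of_ker_range ψ (genBy_of_card_eq Nat.prime_two hs) hgenker) ?_
    rw [h9]
    exact lt_of_le_of_lt (Nat.pow_le_pow_right (by norm_num) (show s + 1 + 1 ≤ 3 by omega)) (by norm_num)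

/-- **Main bound.** -/
theorem oddBound {V : Type u} [CommGroup V] [Finite V] {P : Type u} [Group P] [Finite P]
    (hP : IsPGroup 2 P) (hodd : Odd (Nat.card V)) (φ : P →* MulAut V) (hφ : Function.Injective φ) :
    OddBound P (Nat.card V) := by
  induction hn : Nat.card V using Nat.strong_induction_on generalizing V P with
  | _ n ih =>
    subst hn
    classical
    rcases Nat.lt_or_ge 1 (Nat.card V) with hV | hV
    swap
    · have h1 : Nat.card V = 1 := by
        have : 0 < Nat.card V := Nat.card_pos
        omega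
      haveI : Subsingleton V := (Nat.card_eq_one_iff_unique.1 h1).1
      refine ⟨0, ⟨∅, by simp, eq_top_iff.2 fun x _ => ?_⟩, by rw [h1]; norm_num, fun h => by omega⟩
      rw [show x = 1 from hφ (MulEquiv.ext fun v => Subsingleton.elim _ _)]
      exact one_mem _
    by_cases hred : ∃ U : Subgroup V, (∀ g : P, ∀ u ∈ U, φ g u ∈ U) ∧ U ≠ ⊥ ∧ U ≠ ⊤
    · obtain ⟨U, hU, hUb, hUt⟩ := hred
      obtain ⟨ψ, hψ⟩ := exists_restrict φ U hU
      obtain ⟨χ, hχ⟩ := exists_quotient U φ hU
      have hmul := U.card_mul_index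
      have hu : 2 ≤ Nat.card U := (one_lt_card_iff_ne_bot U).2 hUb
      have hw : 2 ≤ U.index := one_lt_index_of_ne_top hUt
      have hinj : Function.Injective (χ.comp ψ.ker.subtype) := by
        rw [← MonoidHom.ker_eq_bot_iff, eq_bot_iff]
        rintro ⟨x, hx⟩ hx'
        rw [MonoidHom.mem_ker] at hx hx'
        rw [mem_bot]
        refine Subtype.ext (hφ ?_)
        obtain ⟨j, hj⟩ := hP x
        rw [OneMemClass.coe_one, map_one]
        refine eq_one_of_stable hodd U (φ x) (j := j) (by rw [← map_pow, hj, map_one])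
          (fun v hv => ?_) fun v => ?_
        · have := hψ x ⟨v, hv⟩
          rw [hx] at this
          exact this.symm
        · have := hχ x v
          rw [show χ x = 1 from hx', MulAut.one_apply] at this
          exact QuotientGroup.eq.1 this
      have hltU : Nat.card U < Nat.card V := by rw [← hmul]; nlinarith
      have hltQ : U.index < Nat.card V := by rw [← hmul]; nlinarith
      have hoU : Odd (Nat.card U) := hodd.of_dvd_nat (Dvd.intro _ hmul)
      have hoQ : Odd U.index := hodd.of_dvd_nat (Dvd.intro_left _ hmul)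
      have h1 := ih _ hltU (V := U) (P := ψ.range)
        (IsPGroup.of_surjective hP ψ.rangeRestrict ψ.rangeRestrict_surjective) hoU
        ψ.range.subtype ψ.range.subtype_injective rfl
      have h2 := ih _ hltQ (V := V ⧸ U) (P := ψ.ker)
        (hP.to_subgroup _) hoQ (χ.comp ψ.ker.subtype) hinj rfl
      rw [← hmul]
      exact oddBound_mul ψ hu hw hoU hoQ h1 h2
    push Not at hred
    have hirr : ∀ U : Subgroup V, (∀ g : P, ∀ u ∈ U, φ g u ∈ U) → U = ⊥ ∨ U = ⊤ := fun U hU => by
      rcases eq_or_ne U ⊥ with h | h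
      · exact Or.inl h
      · exact Or.inr (hred U hU h)
    haveI : Fact (Nat.Prime 2) := ⟨Nat.prime_two⟩
    obtain ⟨A, hAn, hAc, hAmax⟩ := H24.exists_maximal_normal_abelian P
    have hCA := H24.centralizer_eq_of_maximal_normal_abelian hP hAc hAmax
    by_cases hcyc : IsCyclic A
    · exact oddBound_primitive hP hodd hV φ hφ hirr A hcyc hCA
    -- the involutions of `A`
    let E : Subgroup P :=
      { carrier := {x | x ∈ A ∧ x * x = 1}
        one_mem' := ⟨one_mem _, one_mul 1⟩
        mul_mem' := fun {a b} ha hb => ⟨mul_mem ha.1 hb.1, by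
          have h : a * b = b * a := congrArg Subtype.val (hAc.is_comm.comm ⟨a, ha.1⟩ ⟨b, hb.1⟩)
          calc a * b * (a * b) = a * (b * a) * b := by group
            _ = a * (a * b) * b := by rw [h]
            _ = (a * a) * (b * b) := by group
            _ = 1 := by rw [ha.2, hb.2, one_mul]⟩
        inv_mem' := fun {a} ha => ⟨inv_mem ha.1, by rw [← mul_inv_rev, ha.2, inv_one]⟩ }
    haveI hEn : E.Normal := ⟨fun x hx g => ⟨hAn.conj_mem x hx.1 g, by
      rw [show g * x * g⁻¹ * (g * x * g⁻¹) = g * (x * x) * g⁻¹ by group, hx.2, mul_one,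
        mul_inv_cancel]⟩⟩
    have hEne : E ≠ ⊥ := fun h => by
      apply hcyc
      refine H21.isCyclic_of_comm_unique (p := 2) (hP.to_subgroup A) fun H L hH _ => ?_
      exfalso
      obtain ⟨x, y, hxy, -⟩ := Nat.card_eq_two_iff.1 hH
      have h1 : ∀ w : H, ((w : A) : P) = 1 := fun w => by
        have hw : w * w = 1 := by
          rw [← pow_two, ← hH, pow_card_eq_one']
        have : ((w : A) : P) ∈ E := ⟨(w : A).2, congrArg (fun t : H => ((t : A) : P)) hw⟩
        rwa [h, mem_bot] at this
      exact hxy (Subtype.ext (Subtype.ext ((h1 x).trans (h1 y).symm)))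
    obtain ⟨z, hzE, hzc, hzo⟩ := H24.exists_central_orderOf hP hEne
    have hzne : z ≠ 1 := fun h => by rw [h, orderOf_one] at hzo; exact absurd hzo (by norm_num)
    have hinvol : ∀ x ∈ center P, x * x = 1 → x ≠ 1 → ∀ v, φ x v = v⁻¹ := by
      intro x hxc hx2 hx1 v
      let F : Subgroup V :=
        { carrier := {w | φ x w = w}
          one_mem' := map_one _
          mul_mem' := fun {a b} ha hb => by
            simp only [Set.mem_setOf_eq] at ha hb ⊢
            rw [map_mul, ha, hb]
          inv_mem' := fun {a} ha => by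
            simp only [Set.mem_setOf_eq] at ha ⊢
            rw [map_inv, ha] }
      rcases hirr F (fun g w hw => fixed_invariant φ (by
          congr 1
          rw [mul_assoc, ← mem_center_iff.1 hxc g, inv_mul_cancel_left]) hw) with h | h
      · have h1 : v * φ x v ∈ F := by
          show φ x (v * φ x v) = v * φ x v
          rw [map_mul, ← MulAut.mul_apply, ← map_mul, hx2, map_one, MulAut.one_apply, mul_comm]
        rw [h, mem_bot] at h1
        exact eq_inv_of_mul_eq_one_right h1
      · exfalso
        exact hx1 (hφ (MulEquiv.ext fun w => by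
          rw [map_one, MulAut.one_apply]
          exact (h ▸ mem_top w : w ∈ F)))
    have hzinv := hinvol z hzc hzE.2 hzne
    haveI hzn : (zpowers z).Normal := H24.normal_of_le_center (zpowers_le.2 hzc)
    have hzE' : zpowers z ≠ E := fun h => by
      apply hcyc
      refine H21.isCyclic_of_comm_unique (p := 2) (hP.to_subgroup A) fun H L hH hL => ?_
      have key : ∀ S : Subgroup A, Nat.card S = 2 → S.map A.subtype = zpowers z := by
        intro S hS
        refine Subgroup.eq_of_le_of_card_ge ?_ ?_
        · rintro _ ⟨w, hw, rfl⟩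
          rw [h]
          have : (⟨w, hw⟩ : S) * ⟨w, hw⟩ = 1 := by rw [← pow_two, ← hS, pow_card_eq_one']
          exact ⟨w.2, congrArg (fun t : S => ((t : A) : P)) this⟩
        · rw [Nat.card_zpowers, hzo, Subgroup.card_map_of_injective A.subtype_injective, hS]
      exact Subgroup.map_injective A.subtype_injective ((key H hH).trans (key L hL).symm)
    obtain ⟨F, hFn, hzF, hFE, hFc, -⟩ := H24.exists_normal_between hP (zpowers_le.2 hzE) hzE'
    rw [Nat.card_zpowers, hzo] at hFc
    obtain ⟨e, heF, hez⟩ : ∃ e ∈ F, e ∉ zpowers z := by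
      by_contra hcon
      push Not at hcon
      have := Subgroup.card_le_of_le (show F ≤ zpowers z from hcon)
      rw [Nat.card_zpowers, hzo, hFc] at this
      omega
    have he1 : e ≠ 1 := fun h => hez (h ▸ one_mem _)
    have hez' : e ≠ z := fun h => hez (h ▸ mem_zpowers z)
    refine oddBound_imprimitive hP hodd φ hφ hirr z hzc hzinv e (hFE heF).2 he1 hez' ?_ ?_
    · intro g
      by_contra hcon
      push Not at hcon
      have hx := hFn.conj_mem e heF g
      haveI : Fintype ↥F := Fintype.ofFinite _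
      have hx1 : g * e * g⁻¹ ≠ 1 := fun h => he1 (conj_eq_one_iff.1 h)
      have hxz : g * e * g⁻¹ ≠ z := fun h => hez' (by
        have h2 : g⁻¹ * (g * e * g⁻¹) * g = g⁻¹ * z * g := by rw [h]
        rwa [show g⁻¹ * (g * e * g⁻¹) * g = e by group, mul_assoc,
          ← mem_center_iff.1 hzc g, inv_mul_cancel_left] at h2)
      have hzF' : z ∈ F := hzF (mem_zpowers z)
      have hS : ({1, z, e, e * z, g * e * g⁻¹} : Finset P) ⊆ F.carrier.toFinset := by
        intro x
        simp only [Finset.mem_insert, Finset.mem_singleton, Set.mem_toFinset]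
        rintro (rfl | rfl | rfl | rfl | rfl)
        exacts [one_mem F, hzF', heF, mul_mem heF hzF', hx]
      have hcard := Finset.card_le_card hS
      rw [Set.toFinset_card] at hcard
      have hFcard : Fintype.card ↥F = 4 := by rw [← Nat.card_eq_fintype_card, hFc]
      have h5 : ({1, z, e, e * z, g * e * g⁻¹} : Finset P).card = 5 := by
        have a1 : e * z ≠ 1 := fun h => hez' (by
          rw [eq_comm, ← inv_eq_of_mul_eq_one_left h]
          exact (inv_eq_of_mul_eq_one_right hzE.2).symm)
        have a2 : e * z ≠ z := fun h => he1 (mul_eq_right.1 h)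
        have a3 : e * z ≠ e := fun h => hzne (mul_eq_left.1 h)
        rw [Finset.card_insert_of_notMem, Finset.card_insert_of_notMem,
          Finset.card_insert_of_notMem, Finset.card_insert_of_notMem, Finset.card_singleton] <;>
          simp only [Finset.mem_insert, Finset.mem_singleton, not_or]
        · exact hcon.2.symm
        · exact ⟨a3.symm, hcon.1.symm⟩
        · exact ⟨hez'.symm, a2.symm, hxz.symm⟩
        · exact ⟨hzne.symm, he1.symm, a1.symm, hx1.symm⟩
      have : Fintype.card F.carrier = Fintype.card ↥F := Fintype.card_congr (Equiv.refl _)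
      omega
    · intro W _ _ Q _ _ hlt hoW hQ ψ hψ
      exact ih _ hlt hQ hoW ψ hψ rfl

end Cfsg.Agent.H88
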