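import Mathlib
import Cfsg.Agent.H88.TwoClassSizes
import Cfsg.Agent.H89.IndexPowers
import Cfsg.Agent.H64.StemBasic

/-!
# Normal subgroups with two `G`-class sizes

If `N ⊴ G` contains a noncentral Sylow `r`-subgroup of `G` and the `G`-classes of its elements have
sizes `1` or `m`, then `N` is nilpotent.
-/

namespace Cfsg.Agent.H88.TwoSizesNormal

open Subgroup

variable {G : Type*} [Group G] [Finite G]

/-- `C(g) ⊓ N` is central in `C(g)`. -/
def Good (N : Subgroup G) (g : G) : Prop :=
  g ∈ N ∧ g ∉ center G ∧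
    ∀ x ∈ centralizer ({g} : Set G), x ∈ N → centralizer ({g} : Set G) ≤ centralizer ({x} : Set G)

/-- `C(g) ⊓ N` has a noncentral `t`-element. -/
def Present (N : Subgroup G) (g : G) (t : ℕ) : Prop :=
  ∃ x ∈ centralizer ({g} : Set G), x ∈ N ∧ x ∉ center G ∧ ∃ k, orderOf x = t ^ k

theorem Good.commute {N : Subgroup G} {g a b : G} (hg : Good N g)
    (ha : a ∈ centralizer ({g} : Set G)) (hb : b ∈ centralizer ({g} : Set G)) (hbN : b ∈ N) :
    Commute a b :=
  mem_centralizer_singleton_iff.mp (hg.2.2 b hb hbN ha)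

variable (N : Subgroup G) (m : ℕ)
  (h : ∀ x ∈ N, (centralizer ({x} : Set G)).index = 1 ∨ (centralizer ({x} : Set G)).index = m)

include h

theorem index_eq {x : G} (hxN : x ∈ N) (hx : x ∉ center G) :
    (centralizer ({x} : Set G)).index = m := by
  refine (h x hxN).resolve_left fun h1 => hx ?_
  rw [mem_center_iff]
  exact fun g => mem_centralizer_singleton_iff.mp ((index_eq_one.mp h1).ge (mem_top g))

theorem card_eq {g g' : G} (hgN : g ∈ N) (hg : g ∉ center G) (hgN' : g' ∈ N)
    (hg' : g' ∉ center G) :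
    Nat.card (centralizer ({g} : Set G)) = Nat.card (centralizer ({g'} : Set G)) := by
  have h1 := card_mul_index (centralizer ({g} : Set G))
  rw [← card_mul_index (centralizer ({g'} : Set G)), index_eq N m h hgN hg,
    index_eq N m h hgN' hg'] at h1
  exact Nat.eq_of_mul_eq_mul_right
    (index_eq N m h hgN hg ▸ Nat.pos_of_ne_zero index_ne_zero_of_finite) h1

theorem eq_of_le {g g' : G} (hgN : g ∈ N) (hg : g ∉ center G) (hgN' : g' ∈ N) (hg' : g' ∉ center G)
    (hle : centralizer ({g} : Set G) ≤ centralizer ({g'} : Set G)) :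
    centralizer ({g} : Set G) = centralizer ({g'} : Set G) :=
  eq_of_le_of_card_ge hle (card_eq N m h hgN hg hgN' hg').ge

/-- Commuting elements of coprime orders, the first noncentral. -/
theorem le_of_coprime {x y : G} (hxN : x ∈ N) (hyN : y ∈ N) (hy : y ∉ center G) (hxy : Commute y x)
    (hco : (orderOf y).Coprime (orderOf x)) :
    centralizer ({y} : Set G) ≤ centralizer ({x} : Set G) := by
  have he := centralizer_mul_of_coprime hxy hco
  have hyx : y * x ∉ center G := by
    intro hc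
    refine hy (mem_center_iff.mpr fun u => mem_centralizer_singleton_iff.mp ?_)
    have : u ∈ centralizer ({y * x} : Set G) :=
      mem_centralizer_singleton_iff.mpr (mem_center_iff.mp hc u)
    exact (he ▸ this).1
  rw [← eq_of_le N m h (N.mul_mem hyN hxN) hyx hyN hy (he ▸ inf_le_left), he]
  exact inf_le_right

theorem Good.eq {g x : G} (hg : Good N g) (hx : x ∈ centralizer ({g} : Set G)) (hxN : x ∈ N)
    (hxZ : x ∉ center G) : centralizer ({x} : Set G) = centralizer ({g} : Set G) :=
  (eq_of_le N m h hg.1 hg.2.1 hxN hxZ (hg.2.2 x hx hxN)).symm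

theorem Good.of_mem {g x : G} (hg : Good N g) (hx : x ∈ centralizer ({g} : Set G)) (hxN : x ∈ N)
    (hxZ : x ∉ center G) : Good N x := by
  have he := Good.eq N m h hg hx hxN hxZ
  exact ⟨hxN, hxZ, fun u hu huN => he ▸ hg.2.2 u (he ▸ hu) huN⟩

theorem mem_center_of_commute {g u c : G} (hg : Good N g)
    (hu : u ∉ centralizer ({g} : Set G)) (hc : c ∈ centralizer ({g} : Set G)) (hcN : c ∈ N)
    (huc : Commute u c) : c ∈ center G := by
  by_contra hcZ
  exact hu (Good.eq N m h hg hc hcN hcZ ▸ mem_centralizer_singleton_iff.mpr huc)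

/-- An element with a `p`-power in `C(g)` fixes, modulo the center, no noncentral `q`-element. -/
theorem mem_center_of_fix {g u c : G} (hg : Good N g) (hu : u ∉ centralizer ({g} : Set G))
    {p q j k : ℕ} (hp : p.Prime) (hq : q.Prime) (hpq : p ≠ q)
    (hup : u ^ p ^ j ∈ centralizer ({g} : Set G))
    (hc : c ∈ centralizer ({g} : Set G)) (hcN : c ∈ N) (hcq : orderOf c = q ^ k)
    (hd : u * c * u⁻¹ * c⁻¹ ∈ center G) : c ∈ center G := by
  refine mem_center_of_commute N m h hg hu hc hcN ?_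
  set d := u * c * u⁻¹ * c⁻¹
  have hdc : u * c * u⁻¹ = d * c := by simp [d]
  have hdu : u * d * u⁻¹ = d := by rw [mem_center_iff.mp hd u, mul_inv_cancel_right]
  have hi : ∀ i : ℕ, u ^ i * c * (u ^ i)⁻¹ = d ^ i * c := by
    intro i
    induction i with
    | zero => simp
    | succ i ih =>
      calc u ^ (i + 1) * c * (u ^ (i + 1))⁻¹ = u * (u ^ i * c * (u ^ i)⁻¹) * u⁻¹ := by
            rw [pow_succ']; group
        _ = (u * d * u⁻¹) ^ i * (u * c * u⁻¹) := by rw [ih, conj_pow]; group
        _ = d ^ (i + 1) * c := by rw [hdu, hdc, pow_succ]; group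
  have h1 : d ^ p ^ j = 1 := by
    have e := hi (p ^ j)
    rw [(hg.commute hup hc hcN).eq, mul_inv_cancel_right] at e
    exact mul_eq_right.mp e.symm
  have h2 : d ^ q ^ k = 1 := by
    have e : (d * c) ^ q ^ k = 1 := by rw [← hdc, conj_pow, ← hcq, pow_orderOf_eq_one]; group
    rwa [(Commute.symm (mem_center_iff.mp hd c)).mul_pow, ← hcq, pow_orderOf_eq_one, mul_one,
      hcq] at e
  have hd1 : d = 1 := by
    rw [← orderOf_eq_one_iff]
    exact Nat.eq_one_of_dvd_coprimes (((Nat.coprime_primes hp hq).mpr hpq).pow j k)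
      (orderOf_dvd_of_pow_eq_one h1) (orderOf_dvd_of_pow_eq_one h2)
  show u * c = c * u
  rw [← mul_inv_eq_iff_eq_mul, hdc, hd1, one_mul]

omit h in
/-- The `q`-elements of `C(g) ⊓ N`. -/
theorem qPart [N.Normal] {g : G} (hg : Good N g) {q : ℕ} (hq : q.Prime) :
    ∃ K : Subgroup G, K ≤ centralizer ({g} : Set G) ⊓ N ∧
      normalizer (centralizer ({g} : Set G) : Set G) ≤ normalizer (K : Set G) ∧
      IsPGroup q K ∧
      ∀ x ∈ centralizer ({g} : Set G), x ∈ N → (∃ k, orderOf x = q ^ k) → x ∈ K := by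
  haveI : Fact q.Prime := ⟨hq⟩
  set C := centralizer ({g} : Set G)
  let K : Subgroup G :=
    { carrier := {x | (x ∈ C ∧ x ∈ N) ∧ ∃ k, x ^ q ^ k = 1}
      one_mem' := ⟨⟨one_mem _, one_mem _⟩, 0, one_pow _⟩
      mul_mem' := fun {a b} ⟨⟨ha, haN⟩, i, hi⟩ ⟨⟨hb, hbN⟩, j, hj⟩ =>
        ⟨⟨mul_mem ha hb, mul_mem haN hbN⟩, i + j, by
          rw [(hg.commute ha hb hbN).mul_pow]
          nth_rw 1 [pow_add]
          rw [pow_mul, hi, one_pow, one_mul, pow_add, mul_comm, pow_mul, hj, one_pow]⟩
      inv_mem' := fun {a} ⟨⟨ha, haN⟩, i, hi⟩ =>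
        ⟨⟨inv_mem ha, inv_mem haN⟩, i, by rw [inv_pow, hi, inv_one]⟩ }
  refine ⟨K, fun x hx => hx.1, fun u hu => ?_, fun x => ?_, fun x hx hxN ⟨k, hk⟩ => ⟨⟨hx, hxN⟩, k, ?_⟩⟩
  · rw [mem_normalizer_iff]
    intro x
    have h1 : ∀ i : ℕ, (u * x * u⁻¹) ^ i = 1 ↔ x ^ i = 1 := fun i => by
      rw [conj_pow, conj_eq_one_iff]
    show ((x ∈ C ∧ x ∈ N) ∧ _) ↔ ((u * x * u⁻¹ ∈ C ∧ _) ∧ _)
    simp only [h1]
    rw [mem_normalizer_iff.mp hu x]
    refine and_congr_left' (and_congr_right fun _ => ⟨fun hx => Normal.conj_mem ‹_› x hx u, fun hx => ?_⟩)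
    simpa [mul_assoc] using Normal.conj_mem ‹N.Normal› _ hx u⁻¹
  · obtain ⟨k, hk⟩ := x.2.2
    exact ⟨k, Subtype.ext (by rw [SubgroupClass.coe_pow]; exact hk)⟩
  · rw [← hk, pow_orderOf_eq_one]

/-- Elements of two different prime-power orders modulo `C(g)` cannot commute modulo `C(g)`. -/
theorem key [N.Normal] {g u v : G} (hg : Good N g)
    (hu : u ∈ normalizer (centralizer ({g} : Set G) : Set G))
    (hv : v ∈ normalizer (centralizer ({g} : Set G) : Set G))
    (hu' : u ∉ centralizer ({g} : Set G)) (hv' : v ∉ centralizer ({g} : Set G))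
    {p q j k : ℕ} (hp : p.Prime) (hq : q.Prime) (hpq : p ≠ q) (hqg : Present N g q)
    (hup : orderOf u = p ^ j) (hvq : orderOf v = q ^ k)
    (hcomm : u * v * u⁻¹ * v⁻¹ ∈ centralizer ({g} : Set G)) : False := by
  haveI : Fact q.Prime := ⟨hq⟩
  set C := centralizer ({g} : Set G) with hC
  obtain ⟨K, hKC, hKn, hKp, hKmem⟩ := qPart N hg hq
  obtain ⟨y, hyC, hyN, hy, hyq⟩ := hqg
  set H := K ⊔ zpowers v
  have hvp : IsPGroup q (zpowers v) := IsPGroup.of_card (n := k) (by rw [Nat.card_zpowers, hvq])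
  have hHp : IsPGroup q H := hKp.to_sup_of_normal_left' hvp (zpowers_le.mpr (hKn hv))
  set Hb := H.map (QuotientGroup.mk' (center G))
  set Kb := (K.map (QuotientGroup.mk' (center G))).subgroupOf Hb
  haveI : Kb.Normal := by
    have hle : K.map (QuotientGroup.mk' (center G)) ≤ Hb := map_mono le_sup_left
    rw [normal_subgroupOf_iff hle]
    rintro _ _ ⟨a, ha, rfl⟩ ⟨b, hb, rfl⟩
    refine ⟨b * a * b⁻¹, ?_, by simp⟩
    exact (mem_normalizer_iff.mp ((sup_le le_normalizer (zpowers_le.mpr (hKn hv)) : H ≤ _) hb) a).mp ha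
  have hKb : Kb ≠ ⊥ := by
    intro h0
    rw [subgroupOf_eq_bot] at h0
    have h1 : (y : G ⧸ center G) ∈ (⊥ : Subgroup (G ⧸ center G)) :=
      h0.le_bot ⟨mem_map_of_mem _ (hKmem y hyC hyN hyq),
        mem_map_of_mem _ (mem_sup_left (hKmem y hyC hyN hyq))⟩
    exact hy ((QuotientGroup.eq_one_iff y).mp (mem_bot.mp h1))
  obtain ⟨cb, hcb, hcb1⟩ := (bot_or_exists_ne_one _).resolve_left
    (H24.inf_center_ne_bot (hHp.map _) hKb)
  obtain ⟨c, hcK, hce⟩ := hcb.1
  change QuotientGroup.mk' (center G) c = (cb : G ⧸ center G) at hce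
  have hcZ : c ∉ center G := fun hc => hcb1 (Subtype.ext (by
    rw [← hce]; exact (QuotientGroup.eq_one_iff c).mpr hc))
  have hz : v * c * v⁻¹ * c⁻¹ ∈ center G := by
    have h1 := congrArg Subtype.val (mem_center_iff.mp hcb.2 ⟨QuotientGroup.mk' (center G) v,
      mem_map_of_mem _ (mem_sup_right (mem_zpowers v))⟩)
    simp only [coe_mul] at h1
    rw [← hce] at h1
    rw [← QuotientGroup.eq_one_iff]
    show QuotientGroup.mk' (center G) (v * c * v⁻¹ * c⁻¹) = 1
    rw [map_mul, map_mul, map_mul, h1, map_inv, map_inv]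
    group
  obtain ⟨l, hl⟩ : ∃ l, orderOf c = q ^ l := by
    obtain ⟨l, hl⟩ := IsPGroup.iff_orderOf.mp hKp ⟨c, hcK⟩
    exact ⟨l, by rwa [Subgroup.orderOf_mk] at hl⟩
  set z := v * c * v⁻¹ * c⁻¹
  have hcC : c ∈ C := (hKC hcK).1
  have hcN : c ∈ N := (hKC hcK).2
  set c' := u * c * u⁻¹
  have hc'C : c' ∈ C := (mem_normalizer_iff.mp hu c).mp hcC
  have hc'N : c' ∈ N := Normal.conj_mem ‹_› c hcN u
  set e' := u⁻¹ * (u * v * u⁻¹ * v⁻¹)⁻¹ * u
  have he' : e' ∈ C := by
    have := (mem_normalizer_iff.mp (inv_mem hu) _).mp (C.inv_mem hcomm)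
    simpa [e'] using this
  have hvc : v * c * v⁻¹ = z * c := by simp [z]
  have hvc' : v * c' * v⁻¹ = z * c' := by
    have h5 : e' * z = z * e' := mem_center_iff.mp hz e'
    calc v * c' * v⁻¹ = u * ((e' * v) * c * (e' * v)⁻¹) * u⁻¹ := by simp [c', e']; group
      _ = u * (e' * (v * c * v⁻¹) * e'⁻¹) * u⁻¹ := by group
      _ = u * ((e' * z) * c * e'⁻¹) * u⁻¹ := by rw [hvc]; group
      _ = u * (z * (e' * c) * e'⁻¹) * u⁻¹ := by rw [h5]; group
      _ = u * z * c * u⁻¹ := by rw [(hg.commute he' hcC hcN).eq]; group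
      _ = z * (u * c * u⁻¹) := by rw [mem_center_iff.mp hz u]; group
  have hd : c' * c⁻¹ ∈ center G := by
    refine mem_center_of_commute N m h hg hv' (C.mul_mem hc'C (C.inv_mem hcC))
      (N.mul_mem hc'N (N.inv_mem hcN)) ?_
    show v * (c' * c⁻¹) = c' * c⁻¹ * v
    rw [← mul_inv_eq_iff_eq_mul]
    calc v * (c' * c⁻¹) * v⁻¹ = (v * c' * v⁻¹) * (v * c * v⁻¹)⁻¹ := by group
      _ = (z * c') * (z * c)⁻¹ := by rw [hvc', hvc]
      _ = z * (c' * c⁻¹) * z⁻¹ := by group
      _ = c' * c⁻¹ := by rw [← mem_center_iff.mp hz (c' * c⁻¹), mul_inv_cancel_right]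
  exact hcZ (mem_center_of_fix N m h hg hu' hp hq hpq (j := j)
    (by rw [← hup, pow_orderOf_eq_one]; exact one_mem _) hcC hcN hl hd)

/-- An element of prime-power order of `H` normalizing `C(g)` and outside it. -/
theorem exists_normalizer_notMem {g : G} (hg : Good N g) {t : ℕ} [Fact t.Prime] (H : Subgroup G)
    (hHN : H ≤ N) {x : G} (hxC : x ∈ centralizer ({g} : Set G)) (hxH : x ∈ H) (hx : x ∉ center G)
    (hxo : ∃ k, orderOf x = t ^ k)
    (hnot : ∀ P : Sylow t H, ¬ (P : Subgroup H).map H.subtype ≤ centralizer ({g} : Set G)) :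
    ∃ u ∈ H, u ∈ normalizer (centralizer ({g} : Set G) : Set G) ∧
      u ∉ centralizer ({g} : Set G) ∧ ∃ k, orderOf u = t ^ k := by
  set C := centralizer ({g} : Set G) with hC
  obtain ⟨k, hk⟩ := hxo
  set CH := C.subgroupOf H
  obtain ⟨S, hS⟩ := (IsPGroup.of_card (p := t) (n := k)
    (G := zpowers (⟨⟨x, hxH⟩, mem_subgroupOf.mpr hxC⟩ : CH))
    (by rw [Nat.card_zpowers, ← orderOf_coe, ← orderOf_coe, hk])).exists_le_sylow
  set T : Subgroup H := (S : Subgroup CH).map CH.subtype
  obtain ⟨P, hP⟩ := (S.isPGroup'.map CH.subtype).exists_le_sylow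
  have hxT : (⟨x, hxH⟩ : H) ∈ T := ⟨⟨⟨x, hxH⟩, mem_subgroupOf.mpr hxC⟩, hS (mem_zpowers _), rfl⟩
  have hlt : T.subgroupOf (P : Subgroup H) ≠ ⊤ := by
    intro h1
    rw [subgroupOf_eq_top] at h1
    exact hnot P ((map_mono (h1.trans (map_subtype_le _))).trans (map_comap_le _ _))
  haveI := P.isPGroup'.isNilpotent
  obtain ⟨v, hvN, hvT⟩ := SetLike.exists_of_lt
    (Group.normalizerCondition_of_isNilpotent (T.subgroupOf (P : Subgroup H)) (lt_top_iff_ne_top.mpr hlt))
  obtain ⟨y, hy⟩ : ∃ y : H, y = (v : H) * ⟨x, hxH⟩ * (v : H)⁻¹ := ⟨_, rfl⟩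
  have hyT : y ∈ T := by
    have := (mem_normalizer_iff.mp hvN ⟨⟨x, hxH⟩, hP hxT⟩).mp (mem_subgroupOf.mpr hxT)
    rw [mem_subgroupOf] at this
    rw [hy]
    exact this
  have hyC : (y : G) ∈ C := mem_subgroupOf.mp (map_subtype_le _ hyT)
  have hye : (y : G) = ((v : H) : G) * x * ((v : H) : G)⁻¹ := by rw [hy]; rfl
  have hyZ : (y : G) ∉ center G := fun h1 => hx (by
    have h2 := Normal.conj_mem (inferInstance : (center G).Normal) _ h1 ((v : H) : G)⁻¹
    rw [hye] at h2
    simpa [mul_assoc] using h2)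
  have hCx := Good.eq N m h hg hxC (hHN hxH) hx
  have hCy := Good.eq N m h hg hyC (hHN y.2) hyZ
  obtain ⟨l, hl⟩ := IsPGroup.iff_orderOf.mp P.isPGroup' v
  rw [← orderOf_coe, ← orderOf_coe] at hl
  refine ⟨((v : H) : G), (v : H).2, mem_normalizer_iff.mpr fun w => ?_, fun hvC => ?_, l, hl⟩
  · show w ∈ C ↔ ((v : H) : G) * w * ((v : H) : G)⁻¹ ∈ C
    rw [hC]
    conv_lhs => rw [← hCx, mem_centralizer_singleton_iff]
    conv_rhs => rw [← hCy, mem_centralizer_singleton_iff, hye]
    constructor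
    · intro e
      calc ((v : H) : G) * w * ((v : H) : G)⁻¹ * (((v : H) : G) * x * ((v : H) : G)⁻¹)
          = ((v : H) : G) * (w * x) * ((v : H) : G)⁻¹ := by group
        _ = _ := by rw [e]; group
    · intro e
      calc w * x = ((v : H) : G)⁻¹ * ((((v : H) : G) * w * ((v : H) : G)⁻¹) *
            (((v : H) : G) * x * ((v : H) : G)⁻¹)) * ((v : H) : G) := by group
        _ = _ := by rw [e]; group
  · apply hvT
    rw [mem_subgroupOf]
    refine ⟨⟨(v : H), mem_subgroupOf.mpr hvC⟩, ?_, rfl⟩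
    refine S.is_maximal' (Q := (P : Subgroup H).subgroupOf CH) ?_ ?_ |>.le (mem_subgroupOf.mpr v.2)
    · exact P.isPGroup'.comap_of_injective _ CH.subtype_injective
    · exact fun a ha => mem_subgroupOf.mpr (hP (mem_map_of_mem _ ha))

section Quot

variable [N.Normal] {g : G} (H : Subgroup G)

/-- `(N(C(g)) ⊓ H)/(C(g) ⊓ H)` has no commuting nontrivial elements of coprime orders. -/
theorem eq_one_of_commute (hg : Good N g) (hHN : H ≤ N)
    (hpres : ∀ p : ℕ, p.Prime → ∀ u ∈ H, u ∉ centralizer ({g} : Set G) → (∃ k, orderOf u = p ^ k) →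
      Present N g p)
    [((centralizer ({g} : Set G)).subgroupOf
      (normalizer (centralizer ({g} : Set G) : Set G) ⊓ H)).Normal]
    {a b : (normalizer (centralizer ({g} : Set G) : Set G) ⊓ H : Subgroup G) ⧸
      (centralizer ({g} : Set G)).subgroupOf (normalizer (centralizer ({g} : Set G) : Set G) ⊓ H)}
    (hab : Commute a b) (hco : (orderOf a).Coprime (orderOf b)) : a = 1 ∨ b = 1 := by
  by_contra hne1
  push Not at hne1
  obtain ⟨a0, rfl⟩ := QuotientGroup.mk'_surjective _ a
  obtain ⟨b0, rfl⟩ := QuotientGroup.mk'_surjective _ b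
  set π := QuotientGroup.mk' ((centralizer ({g} : Set G)).subgroupOf (normalizer (centralizer ({g} : Set G) : Set G) ⊓ H : Subgroup G))
  obtain ⟨p, i, e, hp, hi, he⟩ := exists_pow_notMem
    ((centralizer ({g} : Set G)).subgroupOf _) (fun h1 => hne1.1 ((QuotientGroup.eq_one_iff a0).mpr h1))
  obtain ⟨q, l, f, hq, hl, hf⟩ := exists_pow_notMem
    ((centralizer ({g} : Set G)).subgroupOf _) (fun h1 => hne1.2 ((QuotientGroup.eq_one_iff b0).mpr h1))
  rw [mem_subgroupOf] at hi hl
  rw [← orderOf_coe] at he hf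
  have haux : ∀ (x : (normalizer (centralizer ({g} : Set G) : Set G) ⊓ H : Subgroup G)) (r e : ℕ) (s : ℕ), s.Prime → ((x ^ r : (normalizer (centralizer ({g} : Set G) : Set G) ⊓ H : Subgroup G)) : G) ∉ centralizer ({g} : Set G) →
      orderOf ((x ^ r : (normalizer (centralizer ({g} : Set G) : Set G) ⊓ H : Subgroup G)) : G) = s ^ e → s ∣ orderOf (π x) := by
    intro x r e s hs hr he
    have h1 : orderOf (π (x ^ r)) ∣ s ^ e := by
      refine (orderOf_map_dvd π _).trans (dvd_of_eq ?_)
      rw [← orderOf_coe, he]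
    obtain ⟨f, -, hf⟩ := (Nat.dvd_prime_pow hs).mp h1
    have hf0 : f ≠ 0 := by
      rintro rfl
      rw [pow_zero, orderOf_eq_one_iff] at hf
      exact hr (by simpa [mem_subgroupOf] using (QuotientGroup.eq_one_iff _).mp hf)
    rw [map_pow] at hf
    exact (dvd_pow_self s hf0).trans (hf ▸ orderOf_pow_dvd r)
  have hpq : p ≠ q := by
    rintro rfl
    refine hp.not_dvd_one (?_ : p ∣ 1)
    rw [← hco.gcd_eq_one]
    exact Nat.dvd_gcd (haux a0 i e p hp hi he) (haux b0 l f p hp hl hf)
  refine key N m h hg (a0 ^ i).2.1 (b0 ^ l).2.1 hi hl hp hq hpq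
    (hpres q hq _ (b0 ^ l).2.2 hl ⟨f, hf⟩) he hf ?_
  have hc : Commute (π (a0 ^ i)) (π (b0 ^ l)) := by
    rw [map_pow, map_pow]
    exact hab.pow_pow i l
  have h1 : a0 ^ i * b0 ^ l * (a0 ^ i)⁻¹ * (b0 ^ l)⁻¹ ∈
      (centralizer ({g} : Set G)).subgroupOf (normalizer (centralizer ({g} : Set G) : Set G) ⊓ H : Subgroup G) := by
    rw [← QuotientGroup.eq_one_iff]
    show π (a0 ^ i * b0 ^ l * (a0 ^ i)⁻¹ * (b0 ^ l)⁻¹) = 1
    rw [map_mul, map_mul, map_mul, map_inv, map_inv, hc.eq]
    group
  simpa [mem_subgroupOf] using h1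

omit [N.Normal] in
/-- Conjugation on a section `K Z/Z`. -/
theorem exists_action (K W : Subgroup G) (hW : W ≤ normalizer (K : Set G)) :
    ∃ f : W →* MulAut (K.map (QuotientGroup.mk' (center G))),
      ∀ (u : W) (k : K.map (QuotientGroup.mk' (center G))) (c : G),
        (k : G ⧸ center G) = (c : G ⧸ center G) →
          ((f u k : K.map (QuotientGroup.mk' (center G))) : G ⧸ center G) =
            (((u : G) * c * (u : G)⁻¹ : G) : G ⧸ center G) := by
  set Kb := K.map (QuotientGroup.mk' (center G))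
  have hWb : W.map (QuotientGroup.mk' (center G)) ≤ normalizer (Kb : Set (G ⧸ center G)) :=
    le_trans (map_mono hW) (le_normalizer_map _)
  refine ⟨(Kb.normalizerMonoidHom).comp
    ((inclusion hWb).comp ((QuotientGroup.mk' (center G)).subgroupMap _)), fun u k c hc => ?_⟩
  simp [hc]

/-- A `p`-group modulo `C(g)` acts fixed point freely on a `q`-part of `C(g) ⊓ N`. -/
theorem unique_of_present (hg : Good N g) (W : Subgroup G)
    (hW : W ≤ normalizer (centralizer ({g} : Set G) : Set G))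
    [((centralizer ({g} : Set G)).subgroupOf W).Normal] {p q : ℕ} [Fact p.Prime] (hq : q.Prime)
    (hpq : p ≠ q) (hqg : Present N g q)
    (T : Subgroup (W ⧸ (centralizer ({g} : Set G)).subgroupOf W)) (hT : IsPGroup p T)
    (A B : Subgroup T) (hA : Nat.card A = p) (hB : Nat.card B = p) : A = B := by
  set C := centralizer ({g} : Set G)
  haveI : Fact q.Prime := ⟨hq⟩
  obtain ⟨K, hKC, hKn, hKp, hKmem⟩ := qPart N hg hq
  obtain ⟨y, hyC, hyN, hy, hyq⟩ := hqg
  set Kb := K.map (QuotientGroup.mk' (center G))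
  haveI : Nontrivial Kb := by
    rw [nontrivial_iff_exists_ne_one]
    exact ⟨_, mem_map_of_mem _ (hKmem y hyC hyN hyq), fun h1 => hy ((QuotientGroup.eq_one_iff y).mp h1)⟩
  obtain ⟨f, hf⟩ := exists_action N m h K W (hW.trans hKn)
  have hker : C.subgroupOf W ≤ f.ker := by
    intro u hu
    rw [mem_subgroupOf] at hu
    rw [MonoidHom.mem_ker]
    refine MulEquiv.ext fun kb => ?_
    obtain ⟨c, hc, hce⟩ := kb.2
    apply Subtype.ext
    rw [hf u kb c hce.symm, MulAut.one_apply, (hg.commute hu (hKC hc).1 (hKC hc).2).eq,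
      mul_inv_cancel_right]
    exact hce
  refine H21.unique_subgroup_of_fpf hT ((QuotientGroup.lift _ f hker).comp T.subtype) ?_ A B hA hB
  intro e he k hek
  obtain ⟨u, hu⟩ := QuotientGroup.mk'_surjective (C.subgroupOf W) (e : W ⧸ C.subgroupOf W)
  have huC : (u : G) ∉ C := fun h1 => he (Subtype.ext (by
    rw [← hu, OneMemClass.coe_one]
    exact (QuotientGroup.eq_one_iff u).mpr (mem_subgroupOf.mpr h1)))
  obtain ⟨j, hj⟩ := hT e
  have hup : (u : G) ^ p ^ j ∈ C := by
    have h1 := congrArg Subtype.val hj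
    rw [SubgroupClass.coe_pow, ← hu, OneMemClass.coe_one, ← map_pow] at h1
    simpa [mem_subgroupOf] using (QuotientGroup.eq_one_iff _).mp h1
  obtain ⟨c, hc, hce⟩ := k.2
  obtain ⟨l, hl⟩ := IsPGroup.iff_orderOf.mp hKp ⟨c, hc⟩
  rw [Subgroup.orderOf_mk] at hl
  have hψ : (QuotientGroup.lift _ f hker) (e : W ⧸ C.subgroupOf W) = f u := by rw [← hu]; rfl
  rw [MonoidHom.comp_apply, Subgroup.coe_subtype, hψ] at hek
  have h1 := congrArg Subtype.val hek
  rw [hf u k c hce.symm] at h1
  apply Subtype.ext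
  rw [← hce, OneMemClass.coe_one]
  refine (QuotientGroup.eq_one_iff c).mpr ?_
  refine mem_center_of_fix N m h hg huC Fact.out hq hpq (j := j) hup (hKC hc).1 (hKC hc).2 hl ?_
  rw [← QuotientGroup.eq_one_iff]
  show ((((u : G) * c * (u : G)⁻¹) * c⁻¹ : G) : G ⧸ center G) = 1
  rw [QuotientGroup.mk_mul, h1, ← hce, QuotientGroup.mk'_apply, ← QuotientGroup.mk_mul,
    mul_inv_cancel, QuotientGroup.mk_one]

/-- No three primes in `(N(C(g)) ⊓ H)/(C(g) ⊓ H)`. -/
theorem false_of_three_primes (hg : Good N g) (hHN : H ≤ N)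
    (hpres : ∀ p : ℕ, p.Prime → ∀ u ∈ H, u ∉ centralizer ({g} : Set G) → (∃ k, orderOf u = p ^ k) →
      Present N g p)
    (P : Finset ℕ) (hP : 3 ≤ P.card)
    (hel : ∀ p ∈ P, p.Prime ∧ ∃ u ∈ H, u ∈ normalizer (centralizer ({g} : Set G) : Set G) ∧
      u ∉ centralizer ({g} : Set G) ∧ ∃ k, orderOf u = p ^ k) : False := by
  classical
  set C := centralizer ({g} : Set G) with hC
  set W0 := normalizer (C : Set G) ⊓ H
  haveI : (C.subgroupOf W0).Normal := by
    refine ⟨fun x hx u => ?_⟩
    rw [mem_subgroupOf] at hx ⊢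
    exact (mem_normalizer_iff.mp u.2.1 _).mp hx
  set W := W0 ⧸ C.subgroupOf W0
  have hdiv : ∀ s ∈ P, ∃ w : W, orderOf w = s := by
    intro s hsP
    obtain ⟨hs, u, huH, hu, huC, k, hk⟩ := hel s hsP
    haveI : Fact s.Prime := ⟨hs⟩
    refine exists_prime_orderOf_dvd_card' s ((?_ : s ∣ orderOf ((⟨u, hu, huH⟩ : W0) : W)).trans
      (orderOf_dvd_natCard _))
    have h1 := orderOf_map_dvd (QuotientGroup.mk' (C.subgroupOf W0)) ⟨u, hu, huH⟩
    rw [← orderOf_coe (⟨u, hu, huH⟩ : W0), hk] at h1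
    obtain ⟨f, -, hf⟩ := (Nat.dvd_prime_pow hs).mp h1
    have hf0 : f ≠ 0 := by
      rintro rfl
      rw [pow_zero, orderOf_eq_one_iff] at hf
      exact huC (by simpa [mem_subgroupOf] using (QuotientGroup.eq_one_iff _).mp hf)
    exact hf ▸ dvd_pow_self s hf0
  obtain ⟨p₁, hp₁⟩ := Finset.card_pos.mp (by omega : 0 < P.card)
  obtain ⟨w₁, hw₁⟩ := hdiv p₁ hp₁
  have hW1 : Nat.card W ≠ 1 := by
    intro h0
    have := orderOf_dvd_natCard w₁
    rw [hw₁, h0] at this
    exact (hel p₁ hp₁).1.not_dvd_one this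
  set p := (Nat.card W).minFac
  have hp : p.Prime := Nat.minFac_prime hW1
  haveI : Fact p.Prime := ⟨hp⟩
  obtain ⟨q, hqP, s, hsP, hqs⟩ := Finset.one_lt_card.mp
    (show 1 < (P.erase p).card by have := Finset.pred_card_le_card_erase (a := p) (s := P); omega)
  rw [Finset.mem_erase] at hqP hsP
  have hq := (hel q hqP.2).1
  have hs := (hel s hsP.2).1
  have hqg : Present N g q := by
    obtain ⟨-, u, huH, -, huC, hu⟩ := hel q hqP.2
    exact hpres q hq u huH huC hu
  obtain ⟨T⟩ := (inferInstance : Nonempty (Sylow p W))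
  have huniq := unique_of_present N m h hg W0 inf_le_left hq (Ne.symm hqP.1) hqg
    (T : Subgroup W) T.isPGroup'
  -- `W` has a normal `p`-complement
  obtain ⟨K0, hK0, hK0c⟩ := (S0071.result T).mpr fun U hU x hx hxp => by
    rw [Subgroup.mem_centralizer_iff]
    intro a ha
    by_cases hx1 : x = 1
    · simp [hx1]
    by_cases ha1 : a = 1
    · simp [ha1]
    exfalso
    have haU : a ∈ U := ha
    obtain ⟨i, hi⟩ := IsPGroup.iff_orderOf.mp T.isPGroup' ⟨a, hU haU⟩
    rw [Subgroup.orderOf_mk] at hi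
    have hi0 : i ≠ 0 := fun h0 => ha1 (orderOf_eq_one_iff.mp (by rw [hi, h0, pow_zero]))
    set z := a ^ (orderOf a / p)
    have hz : orderOf z = p := orderOf_pow_orderOf_div (orderOf_pos a).ne' (hi ▸ dvd_pow_self p hi0)
    have hzU : z ∈ U := pow_mem haU _
    have hxzU : x * z * x⁻¹ ∈ U := (mem_normalizer_iff.mp hx z).mp hzU
    have hxz : orderOf (x * z * x⁻¹) = p := by
      rw [← hz]; simpa using MulEquiv.orderOf_eq (MulAut.conj x) z
    have heq : zpowers (x * z * x⁻¹) = zpowers z := by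
      have h1 := huniq (zpowers ⟨_, hU hxzU⟩) (zpowers ⟨_, hU hzU⟩)
        (by rw [Nat.card_zpowers, Subgroup.orderOf_mk, hxz])
        (by rw [Nat.card_zpowers, Subgroup.orderOf_mk, hz])
      have h2 := congrArg (Subgroup.map (T : Subgroup W).subtype) h1
      simpa [MonoidHom.map_zpowers] using h2
    obtain ⟨e, he⟩ : ∃ e : ℤ, z ^ e = x * z * x⁻¹ :=
      mem_zpowers_iff.mp (heq ▸ mem_zpowers _)
    have hpow : ∀ i : ℕ, x ^ i * z * (x ^ i)⁻¹ = z ^ (e ^ i) := by
      intro i
      induction i with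
      | zero => simp
      | succ i ih =>
        calc x ^ (i + 1) * z * (x ^ (i + 1))⁻¹ = x * (x ^ i * z * (x ^ i)⁻¹) * x⁻¹ := by
              rw [pow_succ']; group
          _ = (x * z * x⁻¹) ^ (e ^ i) := by rw [ih, conj_zpow]
          _ = z ^ (e ^ (i + 1)) := by rw [← he, ← zpow_mul, pow_succ']
    have hmod : ((e : ZMod p)) ^ orderOf x = 1 := by
      have h1 := hpow (orderOf x)
      rw [pow_orderOf_eq_one, inv_one, one_mul, mul_one] at h1
      have h2 : z ^ ((e ^ orderOf x : ℤ) - 1) = 1 := by rw [zpow_sub, ← h1]; simp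
      rw [← orderOf_dvd_iff_zpow_eq_one, hz, ← ZMod.intCast_zmod_eq_zero_iff_dvd] at h2
      push_cast at h2
      exact sub_eq_zero.mp h2
    have he0 : (e : ZMod p) ≠ 0 := by
      intro h0
      rw [h0, zero_pow (orderOf_pos x).ne'] at hmod
      exact zero_ne_one hmod
    have he1 : (e : ZMod p) = 1 := by
      rw [← orderOf_eq_one_iff]
      refine Nat.eq_one_of_dvd_coprimes (a := orderOf x) (b := p - 1) ?_
        (orderOf_dvd_of_pow_eq_one hmod) (orderOf_dvd_of_pow_eq_one (ZMod.pow_card_sub_one_eq_one he0))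
      refine Nat.coprime_of_dvd fun r hr hrx hrp => ?_
      have h1 : p ≤ r := Nat.minFac_le_of_dvd hr.two_le (hrx.trans (orderOf_dvd_natCard x))
      have h2 := Nat.le_of_dvd (by have := hp.two_le; omega) hrp
      have h3 := hp.two_le
      omega
    have hcomm : Commute x z := by
      show x * z = z * x
      rw [← mul_inv_eq_iff_eq_mul, ← he]
      have h2 : z ^ (e - 1) = 1 := by
        rw [← orderOf_dvd_iff_zpow_eq_one, hz, ← ZMod.intCast_zmod_eq_zero_iff_dvd]
        push_cast
        rw [he1, sub_self]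
      rw [zpow_sub, zpow_one, mul_inv_eq_one] at h2
      exact h2
    rcases eq_one_of_commute N m h H hg hHN hpres hcomm (by rw [hz]; exact hxp) with h1 | h1
    · exact hx1 h1
    · rw [h1, orderOf_one] at hz
      exact hp.ne_one hz.symm
  haveI := hK0
  have hmem := S0086.result T K0 hK0c
  obtain ⟨t, ht⟩ := exists_prime_orderOf_dvd_card' (G := W) p (Nat.minFac_dvd _)
  have hfix : ∀ x ∈ K0, t * x * t⁻¹ = x → x = 1 := by
    intro x hx hfx
    refine (eq_one_of_commute N m h H hg hHN hpres (mul_inv_eq_iff_eq_mul.mp hfx)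
      (by rw [ht]; exact ((hmem x).mp hx).symm)).resolve_left fun h1 => ?_
    rw [h1, orderOf_one] at ht
    exact hp.ne_one ht.symm
  obtain ⟨wq, hwq⟩ := hdiv q hqP.2
  obtain ⟨ws, hws⟩ := hdiv s hsP.2
  have h2 : wq ∈ K0 := (hmem wq).mpr (hwq ▸ (Nat.coprime_primes hq hp).mpr hqP.1)
  have h3 : ws ∈ K0 := (hmem ws).mpr (hws ▸ (Nat.coprime_primes hs hp).mpr hsP.1)
  let φ : MulAut K0 := MulAut.conjNormal t
  have hord : orderOf φ = p := by
    have h1 : φ ^ p = 1 := by rw [← map_pow, ← ht, pow_orderOf_eq_one, map_one]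
    refine ((Nat.dvd_prime hp).mp (orderOf_dvd_of_pow_eq_one h1)).resolve_left fun h0 => ?_
    rw [orderOf_eq_one_iff] at h0
    have h5 : wq = 1 := hfix wq h2 (by
      have h2 := congrArg Subtype.val (DFunLike.congr_fun h0 (⟨wq, h2⟩ : K0))
      simpa [φ, MulAut.conjNormal_apply] using h2)
    rw [h5, orderOf_one] at hwq
    exact hq.ne_one hwq.symm
  have hnil : Group.IsNilpotent K0 := S0033.result φ (fun u hu => by
    refine Subtype.ext (hfix u u.2 ?_)
    have h2 := congrArg Subtype.val hu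
    simpa [φ, MulAut.conjNormal_apply] using h2) p hp hord
  have hco : (orderOf wq).Coprime (orderOf ws) := by
    rw [hwq, hws]; exact (Nat.coprime_primes hq hs).mpr hqs
  rcases eq_one_of_commute N m h H hg hHN hpres
    (H89.commute_of_nilpotent_coprime hnil h2 h3 hco) hco with h1 | h1
  · rw [h1, orderOf_one] at hwq; exact hq.ne_one hwq.symm
  · rw [h1, orderOf_one] at hws; exact hs.ne_one hws.symm

end Quot

section Main

variable [N.Normal] {r : ℕ} [Fact r.Prime] (R : Sylow r G)

omit h in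
/-- Every `r`-element lies in `N`. -/
theorem mem_of_r (hRN : (R : Subgroup G) ≤ N) {x : G} (hx : ∃ k, orderOf x = r ^ k) : x ∈ N := by
  obtain ⟨k, hk⟩ := hx
  obtain ⟨S, hS⟩ := (IsPGroup.of_card (p := r) (n := k) (G := zpowers x)
    (by rw [Nat.card_zpowers, hk])).exists_le_sylow
  obtain ⟨c, hc⟩ := MulAction.exists_smul_eq G R S
  have h1 := hS (mem_zpowers x)
  rw [← hc, Sylow.coe_subgroup_smul] at h1
  obtain ⟨a, ha, rfl⟩ := h1
  simpa using Normal.conj_mem ‹N.Normal› a (hRN ha) c

omit [N.Normal] in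
theorem center_sylow (hrm : r ∣ m) (hRN : (R : Subgroup G) ≤ N) {z : G}
    (hz : z ∈ (R : Subgroup G)) (hzc : ∀ y ∈ (R : Subgroup G), y * z = z * y) : z ∈ center G := by
  by_contra hzZ
  refine R.not_dvd_index ((index_eq N m h (hRN hz) hzZ ▸ hrm : r ∣ _).trans
    (index_dvd_of_le fun y hy => ?_))
  exact mem_centralizer_singleton_iff.mpr (hzc y hy)

omit [N.Normal] in
theorem not_commutative (hrm : r ∣ m) (hR : ¬ (R : Subgroup G) ≤ center G)
    (hRN : (R : Subgroup G) ≤ N) : ¬ ∀ a ∈ (R : Subgroup G), ∀ b ∈ (R : Subgroup G), a * b = b * a :=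
  fun hc => hR fun z hz => center_sylow N m h R hrm hRN hz fun y hy => hc y hy z hz

/-- Every noncentral element of `N` centralizes a noncentral `r`-element. -/
theorem present_r (hR : ¬ (R : Subgroup G) ≤ center G) (hRN : (R : Subgroup G) ≤ N)
    {g : G} (hgN : g ∈ N) (hg : g ∉ center G) : Present N g r := by
  have hr : r.Prime := Fact.out
  by_contra hno
  obtain ⟨y, hyR, hy⟩ := SetLike.not_le_iff_exists.mp hR
  set C := centralizer ({g} : Set G)
  obtain ⟨S⟩ := (inferInstance : Nonempty (Sylow r C))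
  have hS : (S : Subgroup C).map C.subtype ≤ (R : Subgroup G) ⊓ center G := by
    rintro _ ⟨s, hs, rfl⟩
    obtain ⟨k, hk⟩ := IsPGroup.iff_orderOf.mp S.isPGroup' ⟨s, hs⟩
    rw [← orderOf_coe, ← orderOf_coe] at hk
    have hsZ : (s : G) ∈ center G := by
      by_contra h1
      exact hno ⟨s, s.2, mem_of_r N R hRN ⟨k, hk⟩, h1, k, hk⟩
    exact ⟨mem_sylow_of_central R hsZ ⟨k, hk⟩, hsZ⟩
  set A := ((R : Subgroup G) ⊓ center G) ⊔ zpowers y
  have hAR : A ≤ (R : Subgroup G) := sup_le inf_le_left (zpowers_le.mpr hyR)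
  have hAC : A ≤ centralizer ({y} : Set G) := by
    refine sup_le (fun u hu => ?_) (zpowers_le.mpr (mem_centralizer_singleton_iff.mpr rfl))
    exact mem_centralizer_singleton_iff.mpr (mem_center_iff.mp hu.2 y).symm
  obtain ⟨c, hc⟩ := IsPGroup.iff_card.mp (R.isPGroup'.to_le hAR)
  have h1 : r ^ c ∣ Nat.card C := by
    rw [card_eq N m h hgN hg (hRN hyR) hy, ← hc]
    exact card_dvd_of_le hAC
  rw [hr.pow_dvd_iff_le_factorization Nat.card_pos.ne'] at h1
  have h2 : Nat.card A ≤ Nat.card ((R : Subgroup G) ⊓ center G : Subgroup G) := by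
    refine le_trans ?_ (card_le_of_le hS)
    rw [card_map_of_injective C.subtype_injective, hc, S.card_eq_multiplicity]
    exact Nat.pow_le_pow_right hr.pos h1
  have h3 := eq_of_le_of_card_ge (le_sup_left : (R : Subgroup G) ⊓ center G ≤ A) h2
  exact hy (h3.ge (mem_sup_right (mem_zpowers y))).2

theorem good_primary (hR : ¬ (R : Subgroup G) ≤ center G) (hRN : (R : Subgroup G) ≤ N)
    {y : G} {s k : ℕ} (hs : s.Prime) (hsr : s ≠ r) (hyN : y ∈ N) (hy : y ∉ center G)
    (hk : orderOf y = s ^ k) : Good N y := by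
  have hr : r.Prime := Fact.out
  obtain ⟨w, hwy, hwN, hw, l, hl⟩ := present_r N m h R hR hRN hyN hy
  have hwy' : Commute y w := (mem_centralizer_singleton_iff.mp hwy).symm
  have hyw : centralizer ({y} : Set G) = centralizer ({w} : Set G) :=
    eq_of_le N m h hyN hy hwN hw (le_of_coprime N m h hwN hyN hy hwy'
      (by rw [hk, hl]; exact ((Nat.coprime_primes hs hr).mpr hsr).pow k l))
  refine ⟨hyN, hy, fun x hx hxN u hu => ?_⟩
  rw [mem_centralizer_singleton_iff]
  have : x ∈ centralizer ({u} : Set G) := by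
    refine H89.mem_of_primaryParts _ x fun q hq hqx => ?_
    obtain ⟨e, -, he⟩ := (Nat.dvd_prime_pow hq).mp (H89.orderOf_primaryPart_dvd q x)
    set xq := x ^ H89.primaryExp q x
    have hxq : xq ∈ centralizer ({y} : Set G) := pow_mem hx _
    have hle : centralizer ({y} : Set G) ≤ centralizer ({xq} : Set G) := by
      rcases eq_or_ne q s with rfl | hqs
      · rw [hyw]
        refine le_of_coprime N m h (pow_mem hxN _) hwN hw ?_ ?_
        · exact (mem_centralizer_singleton_iff.mp (hyw ▸ hxq)).symm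
        · rw [hl, he]; exact ((Nat.coprime_primes hr hq).mpr (Ne.symm hsr)).pow l e
      · refine le_of_coprime N m h (pow_mem hxN _) hyN hy ?_ ?_
        · exact (mem_centralizer_singleton_iff.mp hxq).symm
        · rw [hk, he]; exact ((Nat.coprime_primes hs hq).mpr (Ne.symm hqs)).pow k e
    exact mem_centralizer_singleton_iff.mpr (mem_centralizer_singleton_iff.mp (hle hu)).symm
  exact (mem_centralizer_singleton_iff.mp this).symm

theorem good_of_exists (hR : ¬ (R : Subgroup G) ≤ center G) (hRN : (R : Subgroup G) ≤ N)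
    {g y : G} {s k : ℕ} (hs : s.Prime) (hsr : s ≠ r) (hgN : g ∈ N) (hg : g ∉ center G)
    (hyC : y ∈ centralizer ({g} : Set G)) (hyN : y ∈ N) (hy : y ∉ center G)
    (hk : orderOf y = s ^ k) : Good N g :=
  Good.of_mem N m h (good_primary N m h R hR hRN hs hsr hyN hy hk)
    (mem_centralizer_singleton_iff.mpr (mem_centralizer_singleton_iff.mp hyC).symm) hgN hg

omit h [N.Normal] [Fact r.Prime] in
/-- A Sylow subgroup inside an abelian subgroup makes all Sylow subgroups abelian. -/
theorem sylow_commutative_of_le {K : Type*} [Group K] [Finite K] {t : ℕ} [Fact t.Prime]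
    (P Q : Sylow t K) (hP : ∀ a ∈ (P : Subgroup K), ∀ b ∈ (P : Subgroup K), a * b = b * a) :
    ∀ a ∈ (Q : Subgroup K), ∀ b ∈ (Q : Subgroup K), a * b = b * a := by
  obtain ⟨c, hc⟩ := MulAction.exists_smul_eq K P Q
  rw [← hc, Sylow.coe_subgroup_smul]
  rintro _ ⟨a, ha, rfl⟩ _ ⟨b, hb, rfl⟩
  show MulAut.conj c a * MulAut.conj c b = MulAut.conj c b * MulAut.conj c a
  rw [← map_mul, hP a ha b hb, map_mul]

omit h [Fact r.Prime] in
/-- The perfect residual of `N`. -/
theorem exists_perfect : ∃ L : Subgroup G, L.Normal ∧ L ≤ N ∧ ⁅L, L⁆ = L ∧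
    (¬ Group.IsSolvable N → L ≠ ⊥) := by
  classical
  obtain ⟨k, hk⟩ : ∃ k, derivedSeries N (k + 1) = derivedSeries N k := by
    by_contra hne
    push Not at hne
    have hdec : ∀ j, Nat.card (derivedSeries N j) + j ≤ Nat.card N := by
      intro j
      induction j with
      | zero => exact card_le_card_group _
      | succ j ih =>
        have h1 : derivedSeries N (j + 1) < derivedSeries N j :=
          lt_of_le_of_ne (derivedSeries_antitone _ (Nat.le_succ j)) (hne j)
        have h2 : Nat.card (derivedSeries N (j + 1)) < Nat.card (derivedSeries N j) := by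
          by_contra h3
          push Not at h3
          exact h1.ne (eq_of_le_of_card_ge h1.le h3)
        omega
    have := hdec (Nat.card N + 1)
    omega
  refine ⟨(derivedSeries N k).map N.subtype, inferInstance, map_subtype_le _, ?_, fun hns h0 => hns ?_⟩
  · rw [← map_commutator, ← derivedSeries_succ, hk]
  · refine ⟨⟨k, ?_⟩⟩
    exact (map_eq_bot_iff_of_injective _ N.subtype_injective).mp h0

/-- In the perfect part every good centralizer contains a noncentral element for each prime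
`t ≠ r`, and the Sylow subgroups are nonabelian. -/
theorem present_of_perfect (hrm : r ∣ m) (hR : ¬ (R : Subgroup G) ≤ center G)
    (hRN : (R : Subgroup G) ≤ N) (L : Subgroup G) [L.Normal] (hLN : L ≤ N) (hL : ⁅L, L⁆ = L)
    {t : ℕ} (ht : t.Prime) (htr : t ≠ r) {y0 : G} (hy0 : y0 ∈ L) (hy0Z : y0 ∉ center G)
    (hy0t : ∃ k, orderOf y0 = t ^ k) {g : G} (hg : Good N g) :
    (∃ x ∈ centralizer ({g} : Set G), x ∈ L ∧ x ∉ center G ∧ ∃ k, orderOf x = t ^ k) ∧
      ∀ P : Sylow t L, ¬ (P : Subgroup L).map L.subtype ≤ centralizer ({g} : Set G) := by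
  haveI : Fact t.Prime := ⟨ht⟩
  have hr : r.Prime := Fact.out
  obtain ⟨k0, hk0⟩ := hy0t
  obtain ⟨S, hS⟩ := (IsPGroup.of_card (p := t) (n := k0) (G := zpowers y0)
    (by rw [Nat.card_zpowers, hk0])).exists_le_sylow
  -- an element of `S ∩ L` central in `S` modulo the center
  obtain ⟨y, hyS, hyL, hy, hySc⟩ : ∃ y ∈ (S : Subgroup G), y ∈ L ∧ y ∉ center G ∧
      ∀ a ∈ (S : Subgroup G), a * y * a⁻¹ * y⁻¹ ∈ center G := by
    set π := QuotientGroup.mk' (center G)
    set Sb := (S : Subgroup G).map π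
    set Lb := (((S : Subgroup G) ⊓ L).map π).subgroupOf Sb
    haveI : Lb.Normal := by
      rw [normal_subgroupOf_iff (map_mono inf_le_left)]
      rintro _ _ ⟨a, ha, rfl⟩ ⟨b, hb, rfl⟩
      exact ⟨b * a * b⁻¹, ⟨mul_mem (mul_mem hb ha.1) ((S : Subgroup G).inv_mem hb),
        Normal.conj_mem ‹L.Normal› a ha.2 b⟩, by simp⟩
    have hLb : Lb ≠ ⊥ := by
      intro h0
      rw [subgroupOf_eq_bot] at h0
      have h1 : (y0 : G ⧸ center G) ∈ (⊥ : Subgroup (G ⧸ center G)) :=
        h0.le_bot ⟨mem_map_of_mem _ ⟨hS (mem_zpowers _), hy0⟩, mem_map_of_mem _ (hS (mem_zpowers _))⟩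
      exact hy0Z ((QuotientGroup.eq_one_iff y0).mp (mem_bot.mp h1))
    obtain ⟨yb, hyb, hyb1⟩ := (bot_or_exists_ne_one _).resolve_left
      (H24.inf_center_ne_bot (S.isPGroup'.map _) hLb)
    obtain ⟨y, hy, hye⟩ := hyb.1
    change π y = (yb : G ⧸ center G) at hye
    refine ⟨y, hy.1, hy.2, fun hc => hyb1 (Subtype.ext (by
      rw [← hye]; exact (QuotientGroup.eq_one_iff y).mpr hc)), fun a ha => ?_⟩
    have h1 := congrArg Subtype.val (mem_center_iff.mp hyb.2 ⟨π a, mem_map_of_mem _ ha⟩)
    simp only [coe_mul] at h1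
    rw [← hye] at h1
    rw [← QuotientGroup.eq_one_iff]
    show π (a * y * a⁻¹ * y⁻¹) = 1
    rw [map_mul, map_mul, map_mul, h1, map_inv, map_inv]
    group
  obtain ⟨ky, hky⟩ := IsPGroup.iff_orderOf.mp S.isPGroup' ⟨y, hyS⟩
  rw [Subgroup.orderOf_mk] at hky
  have hyN : y ∈ N := hLN hyL
  have hgy := good_primary N m h R hR hRN ht htr hyN hy hky
  set C := centralizer ({y} : Set G) with hC
  set SL := (S : Subgroup G) ⊓ L
  set M := SL ⊓ C
  -- the Sylow subgroup of `L`
  have hSLp : IsPGroup t ((S : Subgroup G).subgroupOf L) :=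
    S.isPGroup'.comap_of_injective _ L.subtype_injective
  let PL : Sylow t L := hSLp.toSylow (fun hd =>
    S.not_dvd_index (hd.trans (H89.relIndex_dvd_index_left L)))
  have hPL : (PL : Subgroup L) = (S : Subgroup G).subgroupOf L := rfl
  have hLin : ∀ u ∈ (S : Subgroup G), u ∈ normalizer (C : Set G) := by
    intro u hu
    have hz := hySc u hu
    rw [mem_normalizer_iff]
    intro w
    show w ∈ C ↔ u * w * u⁻¹ ∈ C
    rw [hC, mem_centralizer_singleton_iff, mem_centralizer_singleton_iff]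
    obtain ⟨z, hzdef⟩ : ∃ z, z = u * y * u⁻¹ * y⁻¹ := ⟨_, rfl⟩
    rw [← hzdef] at hz
    have huy : u * y * u⁻¹ = z * y := by simp [hzdef]
    have e1 : ∀ v : G, v * (z * y) = (z * y) * v ↔ v * y = y * v := fun v => by
      rw [← mul_assoc, mem_center_iff.mp hz v, mul_assoc, mul_assoc]
      exact mul_right_inj z
    rw [← e1 (u * w * u⁻¹), ← huy]
    constructor
    · intro e
      calc u * w * u⁻¹ * (u * y * u⁻¹) = u * (w * y) * u⁻¹ := by group
        _ = _ := by rw [e]; group
    · intro e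
      calc w * y = u⁻¹ * ((u * w * u⁻¹) * (u * y * u⁻¹)) * u := by group
        _ = _ := by rw [e]; group
  -- `S ∩ L` is not abelian
  have hnab : ¬ ∀ a ∈ SL, ∀ b ∈ SL, a * b = b * a := by
    intro hab
    have hScy : ∀ a ∈ (S : Subgroup G), a * y = y * a := by
      intro a ha
      have hz := hySc a ha
      have hzSL : a * y * a⁻¹ * y⁻¹ ∈ SL :=
        ⟨mul_mem (mul_mem (mul_mem ha hyS) ((S : Subgroup G).inv_mem ha)) ((S : Subgroup G).inv_mem hyS),
          mul_mem (Normal.conj_mem ‹L.Normal› y hyL a) (L.inv_mem hyL)⟩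
      set z : L := ⟨_, hzSL.2⟩
      have hzc : z ∈ commutator L := by
        have : commutator L = ⊤ := by
          apply map_injective L.subtype_injective
          rw [_root_.commutator_def, map_commutator, ← MonoidHom.range_eq_map, range_subtype, hL]
        rw [this]; exact mem_top _
      have h1 := H64.mem_commutator_sylow_of_central PL
        (z := z) (mem_center_iff.mpr fun u => Subtype.ext (mem_center_iff.mp hz u)) hzc
        (show z ∈ (PL : Subgroup L) from hPL ▸ mem_subgroupOf.mpr hzSL.1)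
      have h2 : ⁅(PL : Subgroup L), (PL : Subgroup L)⁆ = ⊥ := by
        rw [eq_bot_iff, commutator_le]
        intro p hp q hq
        rw [mem_bot, commutatorElement_eq_one_iff_mul_comm]
        rw [hPL, mem_subgroupOf] at hp hq
        exact Subtype.ext (hab _ ⟨hp, p.2⟩ _ ⟨hq, q.2⟩)
      rw [h2, mem_bot] at h1
      have h3 := congrArg Subtype.val h1
      exact mul_inv_eq_iff_eq_mul.mp (mul_inv_eq_one.mp h3)
    have hnd : ¬ t ∣ m := by
      intro hd
      refine S.not_dvd_index ((index_eq N m h hyN hy ▸ hd : t ∣ _).trans (index_dvd_of_le fun a ha => ?_))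
      exact mem_centralizer_singleton_iff.mpr (hScy a ha)
    obtain ⟨P, hP⟩ := (IsPGroup.of_card (p := t) (n := ky) (G := zpowers (⟨y, hyN⟩ : N))
      (by rw [Nat.card_zpowers, Subgroup.orderOf_mk, hky])).exists_le_sylow
    have hyc : (⟨y, hyN⟩ : N) ∈ center N := by
      refine H89.le_center_of_not_vertex P (fun u hu => ?_) (hP (mem_zpowers _))
      have e : (centralizer ({(u : G)} : Set G)).subgroupOf N = centralizer ({u} : Set N) := by
        ext w
        simp [mem_subgroupOf, mem_centralizer_singleton_iff, Subtype.ext_iff]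
      rw [← e] at hu
      have hu' := hu.trans (H89.relIndex_dvd_index_left N)
      rcases h u u.2 with h1 | h1
      · rw [h1] at hu'; exact ht.not_dvd_one hu'
      · exact hnd (h1 ▸ hu')
    have hNC : ∀ a ∈ N, a ∈ C := fun a ha => mem_centralizer_singleton_iff.mpr
      (congrArg Subtype.val (mem_center_iff.mp hyc ⟨a, ha⟩))
    exact not_commutative N m h R hrm hR hRN fun a ha b hb =>
      (hgy.commute (hNC a (hRN ha)) (hNC b (hRN hb)) (hRN hb)).eq
  have hnot : ∀ (g' : G), Good N g' → ∀ P : Sylow t L,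
      ¬ (P : Subgroup L).map L.subtype ≤ centralizer ({g'} : Set G) := by
    intro g' hg' P hP
    apply hnab
    have hPc : ∀ a ∈ (P : Subgroup L), ∀ b ∈ (P : Subgroup L), a * b = b * a := fun a ha b hb =>
      Subtype.ext (hg'.commute (hP (mem_map_of_mem _ ha)) (hP (mem_map_of_mem _ hb)) (hLN b.2)).eq
    intro a ha b hb
    exact congrArg Subtype.val (sylow_commutative_of_le P PL hPc ⟨a, ha.2⟩
      (hPL ▸ mem_subgroupOf.mpr ha.1) ⟨b, hb.2⟩ (hPL ▸ mem_subgroupOf.mpr hb.1))
  refine ⟨?_, hnot g hg⟩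
  by_contra hno
  push Not at hno
  -- `S ∩ L = ⟨u⟩ M`
  obtain ⟨u, hu, huM⟩ : ∃ u ∈ SL, u ∉ C := by
    by_contra hall
    push Not at hall
    exact hnab fun a ha b hb => (hgy.commute (hall a ha) (hall b hb) (hLN hb.2)).eq
  obtain ⟨w, hwC, hwN, hwZ, hwr⟩ := present_r N m h R hR hRN hyN hy
  have hSLn : SL ≤ normalizer (C : Set G) := fun a ha => hLin a ha.1
  haveI hCn : (C.subgroupOf SL).Normal := by
    refine ⟨fun x hx a => ?_⟩
    rw [mem_subgroupOf] at hx ⊢
    exact (mem_normalizer_iff.mp (hSLn a.2) _).mp hx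
  set Q := SL ⧸ C.subgroupOf SL
  have hQp : IsPGroup t Q := (S.isPGroup'.to_le inf_le_left).to_quotient _
  have hexp : ∀ q : Q, q ^ t = 1 := by
    intro q
    obtain ⟨a, rfl⟩ := QuotientGroup.mk'_surjective (C.subgroupOf SL) q
    rw [← map_pow]
    refine (QuotientGroup.eq_one_iff _).mpr (mem_subgroupOf.mpr ?_)
    by_contra hat
    rw [SubgroupClass.coe_pow] at hat
    -- a noncentral fixed point of `a` in the `t`-part of `C ⊓ N`
    obtain ⟨K, hKC, hKn, hKp, hKmem⟩ := qPart N hgy ht
    have hyK : y ∈ K := hKmem y (mem_centralizer_singleton_iff.mpr rfl) hyN ⟨ky, hky⟩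
    set π := QuotientGroup.mk' (center G)
    obtain ⟨la, hla⟩ := IsPGroup.iff_orderOf.mp S.isPGroup' ⟨a, a.2.1⟩
    rw [Subgroup.orderOf_mk] at hla
    set H := K ⊔ zpowers (a : G)
    have hHn : H ≤ normalizer (K : Set G) :=
      sup_le le_normalizer (zpowers_le.mpr (hKn (hSLn a.2)))
    have hHp : IsPGroup t (H.map π) := (hKp.to_sup_of_normal_left'
      (IsPGroup.of_card (p := t) (n := la) (G := zpowers (a : G)) (by rw [Nat.card_zpowers, hla]))
      (zpowers_le.mpr (hKn (hSLn a.2)))).map _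
    set V := (K.map π).subgroupOf (H.map π)
    haveI : V.Normal := by
      rw [normal_subgroupOf_iff (map_mono le_sup_left)]
      rintro _ _ ⟨c, hc, rfl⟩ ⟨b, hb, rfl⟩
      exact ⟨b * c * b⁻¹, (mem_normalizer_iff.mp (hHn hb) c).mp hc, by simp⟩
    have hV : V ≠ ⊥ := by
      intro h0
      rw [subgroupOf_eq_bot] at h0
      have h1 : (y : G ⧸ center G) ∈ (⊥ : Subgroup (G ⧸ center G)) :=
        h0.le_bot ⟨mem_map_of_mem _ hyK, mem_map_of_mem _ (mem_sup_left hyK)⟩
      exact hy ((QuotientGroup.eq_one_iff y).mp (mem_bot.mp h1))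
    obtain ⟨cb, hcb, hcb1⟩ := (bot_or_exists_ne_one _).resolve_left (H24.inf_center_ne_bot hHp hV)
    obtain ⟨j, hj⟩ := IsPGroup.iff_orderOf.mp hHp cb
    have hj0 : j ≠ 0 := fun h0 => hcb1 (orderOf_eq_one_iff.mp (by rw [hj, h0, pow_zero]))
    set cc := cb ^ (orderOf cb / t)
    have hcc : orderOf cc = t := orderOf_pow_orderOf_div (orderOf_pos cb).ne' (hj ▸ dvd_pow_self t hj0)
    have hccm : cc ∈ V ⊓ center (H.map π) := pow_mem hcb _
    obtain ⟨c, hcK, hce⟩ := hccm.1
    change π c = (cc : G ⧸ center G) at hce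
    have hcZ : c ∉ center G := fun h1 => by
      have : cc = 1 := Subtype.ext (by rw [← hce]; exact (QuotientGroup.eq_one_iff c).mpr h1)
      rw [this, orderOf_one] at hcc
      exact ht.ne_one hcc.symm
    have hct : c ^ t ∈ center G := by
      rw [← QuotientGroup.eq_one_iff]
      show π (c ^ t) = 1
      rw [map_pow, hce, ← SubgroupClass.coe_pow, ← hcc, pow_orderOf_eq_one]
      rfl
    set e := (a : G) * c * (a : G)⁻¹ * c⁻¹
    have he : e ∈ center G := by
      have h1 := congrArg Subtype.val (mem_center_iff.mp hccm.2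
        ⟨π (a : G), mem_map_of_mem _ (mem_sup_right (mem_zpowers (a : G)))⟩)
      simp only [coe_mul] at h1
      rw [← hce] at h1
      rw [← QuotientGroup.eq_one_iff]
      show π ((a : G) * c * (a : G)⁻¹ * c⁻¹) = 1
      rw [map_mul, map_mul, map_mul, h1, map_inv, map_inv]
      group
    have hac : (a : G) * c * (a : G)⁻¹ = e * c := by simp [e]
    have het : e ^ t = 1 := by
      have h2 : (e * c) ^ t = c ^ t := by
        rw [← hac, conj_pow, mem_center_iff.mp hct (a : G), mul_inv_cancel_right]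
      rw [(Commute.symm (mem_center_iff.mp he c)).mul_pow, mul_eq_right] at h2
      exact h2
    have hi : ∀ i : ℕ, (a : G) ^ i * c * ((a : G) ^ i)⁻¹ = e ^ i * c := by
      intro i
      induction i with
      | zero => simp
      | succ i ih =>
        calc (a : G) ^ (i + 1) * c * ((a : G) ^ (i + 1))⁻¹
            = (a : G) * ((a : G) ^ i * c * ((a : G) ^ i)⁻¹) * (a : G)⁻¹ := by rw [pow_succ']; group
          _ = ((a : G) * e * (a : G)⁻¹) ^ i * ((a : G) * c * (a : G)⁻¹) := by rw [ih, conj_pow]; group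
          _ = e ^ (i + 1) * c := by
              rw [mem_center_iff.mp he (a : G), mul_inv_cancel_right, hac, pow_succ]; group
    have h4 := hi t
    rw [het, one_mul, mul_inv_eq_iff_eq_mul] at h4
    exact hcZ (mem_center_of_commute N m h hgy hat (hKC hcK).1 (hKC hcK).2 h4)
  obtain ⟨ub, hub⟩ : ∃ ub : Q, ub = ((⟨u, hu⟩ : SL) : Q) := ⟨_, rfl⟩
  have hub1 : ub ≠ 1 := fun h1 => huM (mem_subgroupOf.mp ((QuotientGroup.eq_one_iff _).mp (hub ▸ h1)))
  have hgen : ∀ q : Q, q ∈ zpowers ub := by
    intro q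
    by_cases hq1 : q = 1
    · rw [hq1]; exact one_mem _
    have hcard : ∀ x : Q, x ≠ 1 → orderOf x = t := fun x hx =>
      ((Nat.dvd_prime ht).mp (orderOf_dvd_of_pow_eq_one (hexp x))).resolve_left
        fun h1 => hx (orderOf_eq_one_iff.mp h1)
    have hu2 := unique_of_present N m h hgy SL hSLn Fact.out htr
      ⟨w, hwC, hwN, hwZ, hwr⟩ (⊤ : Subgroup Q) (hQp.to_subgroup _)
      (zpowers ⟨q, mem_top q⟩) (zpowers ⟨ub, mem_top ub⟩)
      (by rw [Nat.card_zpowers, Subgroup.orderOf_mk, hcard q hq1])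
      (by rw [Nat.card_zpowers, Subgroup.orderOf_mk, hcard ub hub1])
    have h1 : (⟨q, mem_top q⟩ : (⊤ : Subgroup Q)) ∈ zpowers (⟨ub, mem_top ub⟩ : (⊤ : Subgroup Q)) :=
      hu2 ▸ mem_zpowers _
    obtain ⟨i, hi⟩ := mem_zpowers_iff.mp h1
    exact mem_zpowers_iff.mpr ⟨i, by simpa using congrArg Subtype.val hi⟩
  have hdec : ∀ x ∈ SL, ∃ i : ℤ, ∃ a ∈ M, x = u ^ i * a := by
    intro x hx
    obtain ⟨i, hi⟩ := mem_zpowers_iff.mp (hgen ((⟨x, hx⟩ : SL) : Q))
    rw [hub, ← QuotientGroup.mk_zpow, QuotientGroup.eq, mem_subgroupOf] at hi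
    simp only [coe_mul, coe_inv, SubgroupClass.coe_zpow] at hi
    exact ⟨i, (u ^ i)⁻¹ * x, ⟨SL.mul_mem (SL.inv_mem (zpow_mem hu i)) hx, hi⟩, by group⟩
  -- the derived subgroup of `S ∩ L` lies in `[u, M]`
  have hMc : ∀ a ∈ M, ∀ b ∈ M, Commute a b := fun a ha b hb =>
    hgy.commute ha.2 hb.2 (hLN hb.1.2)
  have hMu : ∀ i : ℤ, ∀ a ∈ M, u ^ i * a * (u ^ i)⁻¹ ∈ M := fun i a ha =>
    ⟨SL.mul_mem (SL.mul_mem (zpow_mem hu i) ha.1) (SL.inv_mem (zpow_mem hu i)),
      (mem_normalizer_iff.mp (hSLn (zpow_mem hu i)) a).mp ha.2⟩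
  let φ : M →* M :=
    { toFun := fun a => ⟨u * a * u⁻¹ * (a : G)⁻¹,
        M.mul_mem (by simpa using hMu 1 a a.2) (M.inv_mem a.2)⟩
      map_one' := Subtype.ext (by simp)
      map_mul' := fun a b => Subtype.ext (by
        show u * ((a : G) * b) * u⁻¹ * ((a : G) * b)⁻¹ =
          (u * a * u⁻¹ * (a : G)⁻¹) * (u * b * u⁻¹ * (b : G)⁻¹)
        have hb' : u * b * u⁻¹ * (b : G)⁻¹ ∈ M :=
          M.mul_mem (by simpa using hMu 1 b b.2) (M.inv_mem b.2)
        calc u * ((a : G) * b) * u⁻¹ * ((a : G) * b)⁻¹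
            = (u * a * u⁻¹) * ((u * b * u⁻¹ * (b : G)⁻¹) * (a : G)⁻¹) := by group
          _ = (u * a * u⁻¹) * ((a : G)⁻¹ * (u * b * u⁻¹ * (b : G)⁻¹)) := by
              rw [(hMc _ hb' _ (M.inv_mem a.2)).eq]
          _ = _ := by group) }
  set D := φ.range.map M.subtype
  have hDM : D ≤ M := map_subtype_le _
  have hconjD : ∀ i : ℤ, ∀ d ∈ D, u ^ i * d * (u ^ i)⁻¹ ∈ D := by
    rintro i _ ⟨_, ⟨b, rfl⟩, rfl⟩
    refine ⟨φ ⟨_, hMu i b b.2⟩, ⟨_, rfl⟩, ?_⟩
    show u * (u ^ i * b * (u ^ i)⁻¹) * u⁻¹ * (u ^ i * b * (u ^ i)⁻¹)⁻¹ =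
      u ^ i * (u * b * u⁻¹ * (b : G)⁻¹) * (u ^ i)⁻¹
    group
  have hpowD : ∀ i : ℤ, ∀ a ∈ M, u ^ i * a * (u ^ i)⁻¹ * a⁻¹ ∈ D := by
    intro i
    have h1 : ∀ a ∈ M, u * a * u⁻¹ * a⁻¹ ∈ D := fun a ha => ⟨φ ⟨a, ha⟩, ⟨_, rfl⟩, rfl⟩
    induction i with
    | zero => intro a _; simp
    | succ i ih =>
      intro a ha
      have := D.mul_mem (h1 _ (hMu i a ha)) (ih a ha)
      rw [show u ^ ((i : ℤ) + 1) = u * u ^ (i : ℤ) by group]
      convert this using 1
      group
    | pred i ih =>
      intro a ha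
      have e := h1 _ (hMu (-(i : ℤ) - 1) a ha)
      have := D.mul_mem (D.inv_mem e) (ih a ha)
      convert this using 1
      group
  have hder : ∀ x ∈ SL, ∀ x' ∈ SL, x * x' * x⁻¹ * x'⁻¹ ∈ D := by
    intro x hx x' hx'
    obtain ⟨i, a, ha, rfl⟩ := hdec x hx
    obtain ⟨j, b, hb, rfl⟩ := hdec x' hx'
    have e : u ^ i * a * (u ^ j * b) * (u ^ i * a)⁻¹ * (u ^ j * b)⁻¹ =
        u ^ (i + j) * ((u ^ (-j) * a * (u ^ (-j))⁻¹ * a⁻¹) *
          (u ^ (-i) * b * (u ^ (-i))⁻¹ * b⁻¹)⁻¹) * (u ^ (i + j))⁻¹ := by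
      have hc1 : Commute a⁻¹ b := hMc _ (M.inv_mem ha) _ hb
      have hc2 : Commute b (a⁻¹) := hc1.symm
      calc u ^ i * a * (u ^ j * b) * (u ^ i * a)⁻¹ * (u ^ j * b)⁻¹
          = u ^ i * a * u ^ j * (b * a⁻¹) * (u ^ i)⁻¹ * b⁻¹ * (u ^ j)⁻¹ := by group
        _ = u ^ i * a * u ^ j * (a⁻¹ * b) * (u ^ i)⁻¹ * b⁻¹ * (u ^ j)⁻¹ := by rw [hc2.eq]
        _ = _ := by group
    rw [e]
    exact hconjD _ _ (D.mul_mem (hpowD _ a ha) (D.inv_mem (hpowD _ b hb)))
  -- `[y, S]` lies in `D`
  have hzD : ∀ a ∈ (S : Subgroup G), a * y * a⁻¹ * y⁻¹ ∈ D := by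
    intro a ha
    have hz := hySc a ha
    have hzSL : a * y * a⁻¹ * y⁻¹ ∈ SL :=
      ⟨mul_mem (mul_mem (mul_mem ha hyS) ((S : Subgroup G).inv_mem ha)) ((S : Subgroup G).inv_mem hyS),
        mul_mem (Normal.conj_mem ‹L.Normal› y hyL a) (L.inv_mem hyL)⟩
    set z : L := ⟨_, hzSL.2⟩
    have hzc : z ∈ commutator L := by
      have : commutator L = ⊤ := by
        apply map_injective L.subtype_injective
        rw [_root_.commutator_def, map_commutator, ← MonoidHom.range_eq_map, range_subtype, hL]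
      rw [this]; exact mem_top _
    have h1 := H64.mem_commutator_sylow_of_central PL
      (z := z) (mem_center_iff.mpr fun u => Subtype.ext (mem_center_iff.mp hz u)) hzc
      (show z ∈ (PL : Subgroup L) from hPL ▸ mem_subgroupOf.mpr hzSL.1)
    have h2 : ⁅(PL : Subgroup L), (PL : Subgroup L)⁆ ≤ D.comap L.subtype := by
      rw [commutator_le]
      intro p hp q hq
      rw [hPL, mem_subgroupOf] at hp hq
      rw [mem_comap]
      exact hder _ ⟨hp, p.2⟩ _ ⟨hq, q.2⟩
    exact h2 h1
  -- counting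
  let f : (S : Subgroup G) →* center G :=
    { toFun := fun a => ⟨(a : G) * y * (a : G)⁻¹ * y⁻¹, hySc a a.2⟩
      map_one' := Subtype.ext (by simp)
      map_mul' := fun a b => Subtype.ext (by
        obtain ⟨z, hzdef⟩ : ∃ z, z = (b : G) * y * (b : G)⁻¹ * y⁻¹ := ⟨_, rfl⟩
        have hb : z ∈ center G := hzdef ▸ hySc b b.2
        show (a : G) * b * y * ((a : G) * b)⁻¹ * y⁻¹ =
          ((a : G) * y * (a : G)⁻¹ * y⁻¹) * ((b : G) * y * (b : G)⁻¹ * y⁻¹)
        rw [← hzdef, mem_center_iff.mp hb]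
        calc (a : G) * b * y * ((a : G) * b)⁻¹ * y⁻¹
            = (a : G) * ((b : G) * y * (b : G)⁻¹ * y⁻¹) * y * (a : G)⁻¹ * y⁻¹ := by group
          _ = z * ((a : G) * y * (a : G)⁻¹ * y⁻¹) := by
              rw [← hzdef, mem_center_iff.mp hb (a : G)]; group) }
  have hker : f.ker = C.subgroupOf (S : Subgroup G) := by
    ext a
    rw [MonoidHom.mem_ker, mem_subgroupOf, hC, mem_centralizer_singleton_iff, Subtype.ext_iff,
      OneMemClass.coe_one]
    exact mul_inv_eq_one.trans mul_inv_eq_iff_eq_mul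
  have hfD : Nat.card f.range ≤ Nat.card D := by
    rw [show Nat.card f.range = Nat.card (f.range.map (center G).subtype) from
      (card_map_of_injective (center G).subtype_injective).symm]
    refine card_le_of_le ?_
    rintro _ ⟨_, ⟨a, rfl⟩, rfl⟩
    exact hzD a a.2
  have hS1 : Nat.card f.ker * Nat.card f.range = Nat.card (S : Subgroup G) := by
    rw [← index_ker, card_mul_index]
  -- `S ∩ C` is a Sylow subgroup of `C`
  set v := (Nat.card C).factorization t
  have hCS : t ^ v ∣ Nat.card f.ker := by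
    rw [hker]
    obtain ⟨T, hT⟩ : ∃ T : Subgroup C, IsPGroup t T ∧ ¬ t ∣ T.index ∧
        Nat.card T = Nat.card (C.subgroupOf (S : Subgroup G)) := by
      refine ⟨(S : Subgroup G).subgroupOf C, S.isPGroup'.comap_of_injective _ C.subtype_injective,
        fun hd => ?_, ?_⟩
      · have hrel : (S : Subgroup G).relIndex C ∣ (S : Subgroup G).relIndex (C ⊔ (S : Subgroup G)) := by
          haveI hn : (C.subgroupOf (C ⊔ (S : Subgroup G))).Normal :=
            normal_subgroupOf_of_le_normalizer (sup_le le_normalizer fun a ha => hLin a ha)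
          rw [← relIndex_subgroupOf (H := (S : Subgroup G)) (le_sup_left : C ≤ C ⊔ (S : Subgroup G))]
          exact H89.relIndex_dvd_index_left _
        exact S.not_dvd_index (hd.trans (hrel.trans (relIndex_dvd_index_of_le le_sup_right)))
      · rw [← inf_subgroupOf_right, Nat.card_congr (subgroupOfEquivOfLe inf_le_right).toEquiv,
          ← inf_subgroupOf_left C (S : Subgroup G),
          Nat.card_congr (subgroupOfEquivOfLe inf_le_left).toEquiv]
    obtain ⟨hTp, hTi, hTc⟩ := hT
    rw [← hTc, ← (hTp.toSylow hTi).card_eq_multiplicity]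
    rfl
  -- a Sylow subgroup of `C(g)` meets `L` in the center
  obtain ⟨T⟩ := (inferInstance : Nonempty (Sylow t (centralizer ({g} : Set G))))
  have hTc : Nat.card (T : Subgroup (centralizer ({g} : Set G))) = t ^ v := by
    rw [T.card_eq_multiplicity, card_eq N m h hg.1 hg.2.1 hyN hy]
  set T' := (T : Subgroup (centralizer ({g} : Set G))).map (centralizer ({g} : Set G)).subtype
  have hTL : T' ⊓ L ≤ SL ⊓ center G := by
    rintro x ⟨hx, hxL⟩
    obtain ⟨x', hx', rfl⟩ := hx
    obtain ⟨j, hj⟩ := IsPGroup.iff_orderOf.mp T.isPGroup' ⟨x', hx'⟩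
    rw [← orderOf_coe, ← orderOf_coe] at hj
    have hxZ : (x' : G) ∈ center G := by
      by_contra h1
      exact hno _ x'.2 hxL h1 j hj
    exact ⟨⟨mem_sylow_of_central S hxZ ⟨j, hj⟩, hxL⟩, hxZ⟩
  have hTd : L.relIndex T' ∣ t ^ (L.index.factorization t) := by
    have hT'p : IsPGroup t T' := T.isPGroup'.map _
    obtain ⟨c, hc⟩ := IsPGroup.iff_card.mp hT'p
    obtain ⟨d, -, hd⟩ := (Nat.dvd_prime_pow ht).mp (hc ▸ relIndex_dvd_card L T')
    rw [hd]
    refine Nat.pow_dvd_pow t ((ht.pow_dvd_iff_le_factorization index_ne_zero_of_finite).mp ?_)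
    rw [← hd]
    exact relIndex_dvd_index_of_normal L T'
  have hSd : L.relIndex (S : Subgroup G) = t ^ (L.index.factorization t) := by
    have h1 : L.relIndex (S : Subgroup G) * (L ⊔ (S : Subgroup G)).index = L.index := by
      have e := relIndex_mul_index (show L ≤ L ⊔ (S : Subgroup G) from le_sup_left)
      rwa [sup_comm, relIndex_sup_right, sup_comm] at e
    obtain ⟨c, hc⟩ := IsPGroup.iff_card.mp S.isPGroup'
    obtain ⟨d, -, hd⟩ := (Nat.dvd_prime_pow ht).mp (hc ▸ relIndex_dvd_card L (S : Subgroup G))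
    have h2 : ¬ t ∣ (L ⊔ (S : Subgroup G)).index := fun h3 =>
      S.not_dvd_index (h3.trans (index_dvd_of_le le_sup_right))
    rw [hd, ← h1, hd, Nat.factorization_mul (pow_ne_zero _ ht.ne_zero) index_ne_zero_of_finite,
      Finsupp.add_apply, ht.factorization_pow, Finsupp.single_eq_same,
      Nat.factorization_eq_zero_of_not_dvd h2, add_zero]
  have hinfcard : ∀ A : Subgroup G, Nat.card (A ⊓ L : Subgroup G) * L.relIndex A = Nat.card A := by
    intro A
    rw [Subgroup.relIndex, ← card_mul_index (L.subgroupOf A), ← inf_subgroupOf_left L A,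
      Nat.card_congr (subgroupOfEquivOfLe inf_le_left).toEquiv]
  have hSLle : Nat.card SL ≤ Nat.card D * Nat.card (SL ⊓ center G : Subgroup G) := by
    have h1 : Nat.card f.ker * Nat.card SL ≤
        Nat.card (S : Subgroup G) * Nat.card (SL ⊓ center G : Subgroup G) := by
      have hker_le : Nat.card f.ker ≤ t ^ v := by
        have h2 : Nat.card f.ker ∣ Nat.card C := by
          rw [hker, ← inf_subgroupOf_left C (S : Subgroup G),
            Nat.card_congr (subgroupOfEquivOfLe inf_le_left).toEquiv]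
          exact card_dvd_of_le inf_le_right
        obtain ⟨c, hc⟩ := IsPGroup.iff_card.mp (S.isPGroup'.to_subgroup f.ker)
        rw [hc] at h2 ⊢
        exact Nat.pow_le_pow_right ht.pos ((ht.pow_dvd_iff_le_factorization Nat.card_pos.ne').mp h2)
      have hT' : Nat.card T' = t ^ v := by
        rw [← hTc]; exact card_map_of_injective (centralizer ({g} : Set G)).subtype_injective
      have h3 : Nat.card T' * Nat.card SL ≤
          Nat.card (S : Subgroup G) * Nat.card (T' ⊓ L : Subgroup G) := by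
        rw [← hinfcard T', ← hinfcard (S : Subgroup G), hSd]
        have h4 := Nat.le_of_dvd (pow_pos ht.pos _) hTd
        calc Nat.card (T' ⊓ L : Subgroup G) * L.relIndex T' * Nat.card SL
            ≤ Nat.card (T' ⊓ L : Subgroup G) * t ^ (L.index.factorization t) * Nat.card SL :=
              Nat.mul_le_mul_right _ (Nat.mul_le_mul_left _ h4)
          _ = _ := by ring
      calc Nat.card f.ker * Nat.card SL ≤ Nat.card T' * Nat.card SL :=
            Nat.mul_le_mul_right _ (hT' ▸ hker_le)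
        _ ≤ _ := h3
        _ ≤ _ := Nat.mul_le_mul_left _ (card_le_of_le hTL)
    rw [← hS1, mul_assoc] at h1
    refine (Nat.le_of_mul_le_mul_left h1 Nat.card_pos).trans ?_
    exact Nat.mul_le_mul_right _ hfD
  -- but `[u, M]` is small
  have hDle : Nat.card D * Nat.card (SL ⊓ center G : Subgroup G) ≤ Nat.card M := by
    have h1 : Nat.card φ.ker * Nat.card φ.range = Nat.card M := by
      rw [← index_ker, card_mul_index]
    rw [card_map_of_injective M.subtype_injective, ← h1, mul_comm]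
    refine Nat.mul_le_mul_right _ ?_
    have hle : SL ⊓ center G ≤ M := fun x hx =>
      ⟨hx.1, mem_centralizer_singleton_iff.mpr (mem_center_iff.mp hx.2 y).symm⟩
    rw [← Nat.card_congr (subgroupOfEquivOfLe hle).toEquiv]
    refine card_le_of_le fun x hx => ?_
    rw [MonoidHom.mem_ker]
    apply Subtype.ext
    show u * (x : G) * u⁻¹ * (x : G)⁻¹ = 1
    rw [mem_center_iff.mp (mem_subgroupOf.mp hx).2 u, mul_inv_cancel_right, mul_inv_cancel]
  have hMlt : Nat.card M < Nat.card SL := by
    by_contra hle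
    push Not at hle
    exact huM ((eq_of_le_of_card_ge (inf_le_left : M ≤ SL) hle).ge hu).2
  omega

/-- With `r ∣ m`, elements of order prime to `r` in `N` are central. -/
theorem mem_center_of_not_dvd (hrm : r ∣ m) (hR : ¬ (R : Subgroup G) ≤ center G)
    (hRN : (R : Subgroup G) ≤ N) {x : G} (hx : x ∈ N) (hxr : ¬ r ∣ orderOf x) : x ∈ center G := by
  classical
  have hr : r.Prime := Fact.out
  by_contra hxZ
  obtain ⟨s, i, k, hs, hi, hk⟩ := exists_pow_notMem (center G) hxZ
  set y0 := x ^ i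
  have hy0N : y0 ∈ N := pow_mem hx i
  have hsr : s ≠ r := by
    rintro rfl
    have hk0 : k ≠ 0 := fun h0 => hi (by
      rw [orderOf_eq_one_iff.mp (show orderOf y0 = 1 by rw [hk, h0, pow_zero])]; exact one_mem _)
    exact hxr ((dvd_pow_self s hk0).trans (hk ▸ orderOf_pow_dvd i))
  have hRnc := not_commutative N m h R hrm hR hRN
  have hRnot : ∀ g, Good N g → ¬ (R : Subgroup G) ≤ centralizer ({g} : Set G) := fun g hg hle =>
    hRnc fun a ha b hb => (hg.commute (hle ha) (hle hb) (hRN hb)).eq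
  by_cases hsol : Group.IsSolvable N
  · -- a normal `t`-subgroup in `N`
    set π := QuotientGroup.mk' (center G)
    haveI : (N.map π).Normal := ‹N.Normal›.map _ (QuotientGroup.mk'_surjective _)
    haveI : Group.IsSolvable N := hsol
    obtain ⟨Ab, t, hAb, hAbN, hAb1, -, ht, hAbp, -⟩ := H19.exists_normal_elementary_le (N.map π)
      (solvable_of_surjective (π.subgroupMap_surjective N))
      (fun h0 => hi ((QuotientGroup.eq_one_iff y0).mp (mem_bot.mp (h0 ▸ mem_map_of_mem π hy0N))))
    haveI : Fact t.Prime := ⟨ht⟩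
    haveI := hAb
    -- the `t`-elements of the preimage
    let R1 : Subgroup G :=
      { carrier := {a | (a ∈ N ∧ π a ∈ Ab) ∧ ∃ j, a ^ t ^ j = 1}
        one_mem' := ⟨⟨one_mem _, by rw [map_one]; exact one_mem _⟩, 0, one_pow _⟩
        mul_mem' := fun {a b} ⟨⟨ha, ha'⟩, i, hi⟩ ⟨⟨hb, hb'⟩, j, hj⟩ => ⟨⟨mul_mem ha hb, by
          rw [map_mul]; exact mul_mem ha' hb'⟩, by
          -- the `t`-elements of a central extension of a `t`-group form a subgroup
          set X := Ab.comap π
          haveI : Group.IsNilpotent X := by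
            haveI : Group.IsNilpotent Ab := hAbp.isNilpotent
            refine Subgroup.isNilpotent_of_ker_le_center (π.subgroupComap Ab) ?_
            intro c hc
            rw [MonoidHom.mem_ker] at hc
            exact mem_center_iff.mpr fun w => Subtype.ext
              (mem_center_iff.mp ((QuotientGroup.eq_one_iff (c : G)).mp (congrArg Subtype.val hc)) w)
          obtain ⟨P⟩ := (inferInstance : Nonempty (Sylow t X))
          have hPn : (P : Subgroup X).Normal := inferInstance
          haveI := Sylow.unique_of_normal P hPn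
          have hin : ∀ (c : G) (hc : π c ∈ Ab) (l : ℕ), c ^ t ^ l = 1 →
              (⟨c, hc⟩ : X) ∈ (P : Subgroup X) := by
            intro c hc l hl
            obtain ⟨l', -, hl'⟩ := (Nat.dvd_prime_pow ht).mp (orderOf_dvd_of_pow_eq_one hl)
            obtain ⟨P', hP'⟩ := (IsPGroup.of_card (p := t) (n := l')
              (G := zpowers (⟨c, hc⟩ : X)) (by rw [Nat.card_zpowers, ← orderOf_coe, ← hl'])).exists_le_sylow
            rw [Subsingleton.elim P' P] at hP'
            exact hP' (mem_zpowers _)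
          obtain ⟨l, hl⟩ := P.isPGroup' ⟨_, mul_mem (hin a ha' i hi) (hin b hb' j hj)⟩
          exact ⟨l, by simpa using congrArg Subtype.val (congrArg Subtype.val hl)⟩⟩
        inv_mem' := fun {a} ⟨⟨ha, ha'⟩, j, hj⟩ => ⟨⟨inv_mem ha, by rw [map_inv]; exact inv_mem ha'⟩,
          j, by rw [inv_pow, hj, inv_one]⟩ }
    haveI hR1n : R1.Normal := ⟨fun a ⟨⟨ha, ha'⟩, j, hj⟩ g => ⟨⟨Normal.conj_mem ‹N.Normal› a ha g, by
      rw [map_mul, map_mul, map_inv]; exact hAb.conj_mem _ ha' _⟩, j, by rw [conj_pow, hj]; group⟩⟩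
    have hR1p : IsPGroup t R1 := fun ⟨a, _, j, hj⟩ => ⟨j, Subtype.ext (by simpa using hj)⟩
    have hR1N : R1 ≤ N := fun a ha => ha.1.1
    obtain ⟨a1, ha1, ha1Z⟩ : ∃ a ∈ R1, a ∉ center G := by
      obtain ⟨ab, hab, hab1⟩ := (bot_or_exists_ne_one _).resolve_left hAb1
      obtain ⟨a, ha, rfl⟩ := hAbN hab
      have haZ : a ∉ center G := fun h0 => hab1 ((QuotientGroup.eq_one_iff a).mpr h0)
      obtain ⟨q, j, e, hq, hj, he⟩ := exists_pow_notMem (center G) haZ
      have hmem : π (a ^ j) ∈ Ab := by rw [map_pow]; exact pow_mem hab j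
      have hqt : q = t := by
        by_contra hne
        refine hj ((QuotientGroup.eq_one_iff _).mp (orderOf_eq_one_iff.mp ?_))
        obtain ⟨l, hl⟩ := IsPGroup.iff_orderOf.mp hAbp ⟨_, hmem⟩
        rw [Subgroup.orderOf_mk] at hl
        exact Nat.eq_one_of_dvd_coprimes (((Nat.coprime_primes hq ht).mpr hne).pow e l)
          (he ▸ orderOf_map_dvd π (a ^ j)) hl.dvd
      subst hqt
      exact ⟨a ^ j, ⟨⟨pow_mem ha j, hmem⟩, e, by rw [← he, pow_orderOf_eq_one]⟩, hj⟩
    -- elements of `R1` central in it modulo the center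
    set V : Subgroup G := R1 ⊓ ((centralizer ((R1.map π : Subgroup (G ⧸ center G)) : Set (G ⧸ center G))).comap π)
    haveI : (R1.map π).Normal := hR1n.map _ (QuotientGroup.mk'_surjective _)
    have hV : ∀ a ∈ V, ∀ b ∈ R1, a * b * a⁻¹ * b⁻¹ ∈ center G := by
      intro a ha b hb
      have h1 := Subgroup.mem_centralizer_iff.mp ha.2 (π b) (mem_map_of_mem π hb)
      rw [← QuotientGroup.eq_one_iff]
      show π (a * b * a⁻¹ * b⁻¹) = 1
      rw [map_mul, map_mul, map_mul, ← h1, map_inv, map_inv]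
      group
    haveI hVn : V.Normal := by
      haveI : ((centralizer ((R1.map π : Subgroup (G ⧸ center G)) : Set (G ⧸ center G))).comap π).Normal :=
        inferInstance
      exact inferInstance
    obtain ⟨f0, hf0V, hf0Z⟩ : ∃ f ∈ V, f ∉ center G := by
      haveI : Nontrivial (R1.map π) := by
        rw [nontrivial_iff_exists_ne_one]
        exact ⟨_, mem_map_of_mem π ha1, fun h0 => ha1Z ((QuotientGroup.eq_one_iff a1).mp h0)⟩
      haveI := (hR1p.map π).center_nontrivial
      obtain ⟨cb, hcb⟩ := exists_ne (1 : center (R1.map π))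
      obtain ⟨f, hf, hfe⟩ := (cb : R1.map π).2
      refine ⟨f, ⟨hf, ?_⟩, fun h0 => hcb (Subtype.ext (Subtype.ext (by
        rw [← hfe]; exact (QuotientGroup.eq_one_iff f).mpr h0)))⟩
      show π f ∈ centralizer ((R1.map π : Subgroup (G ⧸ center G)) : Set (G ⧸ center G))
      rw [Subgroup.mem_centralizer_iff]
      intro w hw
      have := congrArg Subtype.val (mem_center_iff.mp cb.2 ⟨w, hw⟩)
      simp only [coe_mul] at this
      rwa [← hfe] at this
    have htrick : ∀ a ∈ V, ∀ (v : G) (q j : ℕ), q.Prime → q ≠ t → Good N a → Commute v a → v ∈ N →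
        v ∉ center G → orderOf v = q ^ j → ∀ b ∈ R1, b ∈ centralizer ({a} : Set G) := by
      intro a ha v q j hq hqt hga hva hvN hvZ hvo b hb
      have hvC : v ∈ centralizer ({a} : Set G) := mem_centralizer_singleton_iff.mpr hva
      obtain ⟨z, hzdef⟩ : ∃ z, z = a * b * a⁻¹ * b⁻¹ := ⟨_, rfl⟩
      have hz : z ∈ center G := hzdef ▸ hV a ha b hb
      have hb1 : v * b * v⁻¹ ∈ R1 := hR1n.conj_mem b hb v
      set e := v * b * v⁻¹ * b⁻¹
      have he : e ∈ R1 := mul_mem hb1 (R1.inv_mem hb)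
      have hea : Commute a e := by
        have h3 : a * b * a⁻¹ = z * b := by simp [hzdef]
        have h4 : a * (v * b * v⁻¹) * a⁻¹ = z * (v * b * v⁻¹) := by
          calc a * (v * b * v⁻¹) * a⁻¹ = (a * v) * b * (a * v)⁻¹ := by group
            _ = v * (a * b * a⁻¹) * v⁻¹ := by rw [← hva.eq]; group
            _ = v * z * b * v⁻¹ := by rw [h3]; group
            _ = _ := by rw [mem_center_iff.mp hz v]; group
        show a * e = e * a
        rw [← mul_inv_eq_iff_eq_mul]
        calc a * e * a⁻¹ = (a * (v * b * v⁻¹) * a⁻¹) * (a * b * a⁻¹)⁻¹ := by simp [e]; group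
          _ = z * e * z⁻¹ := by rw [h3, h4]; simp [e]; group
          _ = e := by rw [← mem_center_iff.mp hz, mul_inv_cancel_right]
      have hev : Commute v e := hga.commute hvC (mem_centralizer_singleton_iff.mpr hea.symm.eq) (hR1N he)
      have hi : ∀ i : ℕ, v ^ i * b * (v ^ i)⁻¹ = e ^ i * b := by
        intro i
        induction i with
        | zero => simp
        | succ i ih =>
          calc v ^ (i + 1) * b * (v ^ (i + 1))⁻¹ = v * (v ^ i * b * (v ^ i)⁻¹) * v⁻¹ := by
                rw [pow_succ']; group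
            _ = (v * e * v⁻¹) ^ i * (v * b * v⁻¹) := by rw [ih, conj_pow]; group
            _ = e ^ (i + 1) * b := by
                rw [hev.eq, mul_inv_cancel_right, pow_succ]; simp [e, mul_assoc]
      have h5 := hi (q ^ j)
      rw [← hvo, pow_orderOf_eq_one, inv_one, one_mul, mul_one, hvo] at h5
      have h6 : e ^ q ^ j = 1 := mul_eq_right.mp h5.symm
      obtain ⟨l, hl⟩ := IsPGroup.iff_orderOf.mp hR1p ⟨e, he⟩
      rw [Subgroup.orderOf_mk] at hl
      have he1 : e = 1 := by
        rw [← orderOf_eq_one_iff]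
        exact Nat.eq_one_of_dvd_coprimes (((Nat.coprime_primes hq ht).mpr hqt).pow j l)
          (orderOf_dvd_of_pow_eq_one h6) hl.dvd
      rw [← Good.eq N m h hga hvC hvN hvZ, mem_centralizer_singleton_iff]
      exact (mul_inv_eq_iff_eq_mul.mp (mul_inv_eq_one.mp he1)).symm
    -- a good element in `V` with `R1` in its centralizer
    obtain ⟨a, haV, hga, haR1, q, z, hqr, hzC, hzN, hz, hqp, e, hze⟩ :
        ∃ a ∈ V, Good N a ∧ (∀ b ∈ R1, b ∈ centralizer ({a} : Set G)) ∧ ∃ q : ℕ, ∃ z : G,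
          q ≠ r ∧ z ∈ centralizer ({a} : Set G) ∧ z ∈ N ∧ z ∉ center G ∧ q.Prime ∧
            ∃ e, orderOf z = q ^ e := by
      by_cases htr : t = r
      · subst htr
        by_cases hlon : ∀ a ∈ V, a ∉ center G → ∀ z ∈ centralizer ({a} : Set G), z ∈ N →
            z ∉ center G → ∀ q e : ℕ, q.Prime → q ≠ t → orderOf z ≠ q ^ e
        · exfalso
          have hgy := good_primary N m h R hR hRN hs hsr hy0N hi hk
          obtain ⟨w, hwC, hwN, hw, l, hl⟩ := present_r N m h R hR hRN hy0N hi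
          set Hb := (V ⊔ zpowers w).map π
          have hHp : IsPGroup t Hb := ((hR1p.to_le (inf_le_left : V ≤ R1)).to_sup_of_normal_left
            (IsPGroup.of_card (p := t) (n := l) (G := zpowers w) (by rw [Nat.card_zpowers, hl]))).map _
          set Vb := (V.map π).subgroupOf Hb
          haveI : Vb.Normal := (hVn.map π (QuotientGroup.mk'_surjective _)).subgroupOf Hb
          have hVb : Vb ≠ ⊥ := by
            intro h0
            rw [subgroupOf_eq_bot] at h0
            have h1 : (f0 : G ⧸ center G) ∈ (⊥ : Subgroup (G ⧸ center G)) :=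
              h0.le_bot ⟨mem_map_of_mem π hf0V, mem_map_of_mem π (mem_sup_left hf0V)⟩
            exact hf0Z ((QuotientGroup.eq_one_iff f0).mp (mem_bot.mp h1))
          obtain ⟨cb, hcb, hcb1⟩ := (bot_or_exists_ne_one _).resolve_left (H24.inf_center_ne_bot hHp hVb)
          obtain ⟨a, haV, hae⟩ := hcb.1
          change π a = (cb : G ⧸ center G) at hae
          have haZ : a ∉ center G := fun h0 => hcb1 (Subtype.ext (by
            rw [← hae]; exact (QuotientGroup.eq_one_iff a).mpr h0))
          have hwa : w * a * w⁻¹ * a⁻¹ ∈ center G := by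
            have h1 := congrArg Subtype.val (mem_center_iff.mp hcb.2
              ⟨π w, mem_map_of_mem π (mem_sup_right (mem_zpowers w))⟩)
            simp only [coe_mul] at h1
            rw [← hae] at h1
            rw [← QuotientGroup.eq_one_iff]
            show π (w * a * w⁻¹ * a⁻¹) = 1
            rw [map_mul, map_mul, map_mul, h1, map_inv, map_inv]
            group
          obtain ⟨z, hzdef⟩ : ∃ z, z = w * a * w⁻¹ * a⁻¹ := ⟨_, rfl⟩
          rw [← hzdef] at hwa
          have hwy : w * y0 = y0 * w := mem_centralizer_singleton_iff.mp hwC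
          set e := y0 * a * y0⁻¹ * a⁻¹
          have heV : e ∈ V := V.mul_mem (hVn.conj_mem a haV y0) (V.inv_mem haV)
          have hew : Commute w e := by
            have h3 : w * a * w⁻¹ = z * a := by simp [hzdef]
            have h4 : w * (y0 * a * y0⁻¹) * w⁻¹ = z * (y0 * a * y0⁻¹) := by
              calc w * (y0 * a * y0⁻¹) * w⁻¹ = (w * y0) * a * (w * y0)⁻¹ := by group
                _ = y0 * (w * a * w⁻¹) * y0⁻¹ := by rw [hwy]; group
                _ = y0 * z * a * y0⁻¹ := by rw [h3]; group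
                _ = _ := by rw [mem_center_iff.mp hwa y0]; group
            show w * e = e * w
            rw [← mul_inv_eq_iff_eq_mul]
            calc w * e * w⁻¹ = (w * (y0 * a * y0⁻¹) * w⁻¹) * (w * a * w⁻¹)⁻¹ := by simp [e]; group
              _ = z * e * z⁻¹ := by rw [h3, h4]; simp [e]; group
              _ = e := by rw [← mem_center_iff.mp hwa, mul_inv_cancel_right]
          have heC : e ∈ centralizer ({y0} : Set G) := by
            rw [← Good.eq N m h hgy hwC hwN hw]
            exact mem_centralizer_singleton_iff.mpr hew.symm.eq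
          have heZ : e ∈ center G := by
            by_contra heZ
            exact hlon e heV heZ y0
              (mem_centralizer_singleton_iff.mpr (mem_centralizer_singleton_iff.mp heC).symm)
              hy0N hi s k hs hsr hk
          obtain ⟨la, hla⟩ := IsPGroup.iff_orderOf.mp hR1p ⟨a, haV.1⟩
          rw [Subgroup.orderOf_mk] at hla
          have hga' : a ∈ centralizer ({y0} : Set G) := by
            rw [mem_centralizer_singleton_iff, eq_comm]
            have hya : y0 * a * y0⁻¹ = e * a := by simp [e]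
            have hi' : ∀ i : ℕ, y0 ^ i * a * (y0 ^ i)⁻¹ = e ^ i * a := by
              intro i
              induction i with
              | zero => simp
              | succ i ih =>
                calc y0 ^ (i + 1) * a * (y0 ^ (i + 1))⁻¹
                    = y0 * (y0 ^ i * a * (y0 ^ i)⁻¹) * y0⁻¹ := by rw [pow_succ']; group
                  _ = (y0 * e * y0⁻¹) ^ i * (y0 * a * y0⁻¹) := by rw [ih, conj_pow]; group
                  _ = e ^ (i + 1) * a := by
                      rw [mem_center_iff.mp heZ y0, mul_inv_cancel_right, hya, pow_succ]; group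
            have h5 := hi' (s ^ k)
            rw [← hk, pow_orderOf_eq_one, inv_one, one_mul, mul_one, hk] at h5
            have h6 : e ^ s ^ k = 1 := mul_eq_right.mp h5.symm
            obtain ⟨le', hle⟩ := IsPGroup.iff_orderOf.mp hR1p ⟨e, heV.1⟩
            rw [Subgroup.orderOf_mk] at hle
            have he1 : e = 1 := by
              rw [← orderOf_eq_one_iff]
              exact Nat.eq_one_of_dvd_coprimes (((Nat.coprime_primes hs ht).mpr hsr).pow k le')
                (orderOf_dvd_of_pow_eq_one h6) hle.dvd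
            exact mul_inv_eq_iff_eq_mul.mp (mul_inv_eq_one.mp he1)
          exact hlon a haV haZ y0
            (mem_centralizer_singleton_iff.mpr (mem_centralizer_singleton_iff.mp hga').symm)
            hy0N hi s k hs hsr hk
        · push Not at hlon
          obtain ⟨a, haV, haZ, z, hzC, hzN, hz, q, e, hq, hqt, hze⟩ := hlon
          have hga := good_of_exists N m h R hR hRN hq hqt (hR1N haV.1) haZ hzC hzN hz hze
          exact ⟨a, haV, hga, htrick a haV z q e hq hqt hga (mem_centralizer_singleton_iff.mp hzC)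
            hzN hz hze, q, z, hqt, hzC, hzN, hz, hq, e, hze⟩
      · obtain ⟨l, hl⟩ := IsPGroup.iff_orderOf.mp hR1p ⟨f0, hf0V.1⟩
        rw [Subgroup.orderOf_mk] at hl
        have hga := good_primary N m h R hR hRN ht htr (hR1N hf0V.1) hf0Z hl
        obtain ⟨w, hwC, hwN, hw, j, hj⟩ := present_r N m h R hR hRN (hR1N hf0V.1) hf0Z
        exact ⟨f0, hf0V, hga, htrick f0 hf0V w r j hr (Ne.symm htr) hga
          (mem_centralizer_singleton_iff.mp hwC) hwN hw hj, t, f0, htr,
          mem_centralizer_singleton_iff.mpr rfl, hR1N hf0V.1, hf0Z, ht, l, hl⟩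
    -- `C(a)` is normal
    set C := centralizer ({a} : Set G) with hC
    have hCn : ∀ g : G, g ∈ normalizer (C : Set G) := by
      intro g
      have hcj := hR1n.conj_mem a haV.1 g
      have hcjZ : g * a * g⁻¹ ∉ center G := fun h0 => hga.2.1 (by
        have h2 := Normal.conj_mem (inferInstance : (center G).Normal) _ h0 g⁻¹
        simpa [mul_assoc] using h2)
      have hCga := Good.eq N m h hga (haR1 _ hcj) (hR1N hcj) hcjZ
      rw [mem_normalizer_iff]
      intro w
      show w ∈ C ↔ g * w * g⁻¹ ∈ C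
      conv_rhs => rw [hC, ← hCga, mem_centralizer_singleton_iff]
      rw [hC, mem_centralizer_singleton_iff]
      constructor
      · intro e
        calc g * w * g⁻¹ * (g * a * g⁻¹) = g * (w * a) * g⁻¹ := by group
          _ = _ := by rw [e]; group
      · intro e
        calc w * a = g⁻¹ * ((g * w * g⁻¹) * (g * a * g⁻¹)) * g := by group
          _ = _ := by rw [e]; group
    haveI : Fact q.Prime := ⟨hqp⟩
    obtain ⟨u, huR, huC⟩ := SetLike.not_le_iff_exists.mp (hRnot a hga)
    obtain ⟨j, hj⟩ := IsPGroup.iff_orderOf.mp R.isPGroup' ⟨u, huR⟩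
    rw [Subgroup.orderOf_mk] at hj
    have huZ : u ∉ center G := fun h0 =>
      huC (mem_centralizer_singleton_iff.mpr (mem_center_iff.mp h0 a).symm)
    set Cu := centralizer ({u} : Set G)
    -- all `q`-elements of `C(u)` are in `C`
    have hall : ∀ v ∈ Cu, (∃ l, orderOf v = q ^ l) → v ∈ C := by
      rintro v hv ⟨l, hl⟩
      by_contra hvC
      refine key N m h hga (hCn u) (hCn v) huC hvC hr hqp hqr.symm ⟨z, hzC, hzN, hz, e, hze⟩ hj hl ?_
      rw [(mem_centralizer_singleton_iff.mp hv).symm]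
      simp
    obtain ⟨K, hKC, hKn, hKp, hKmem⟩ := qPart N hga hqp
    have hzK : z ∈ K := hKmem z hzC hzN ⟨e, hze⟩
    obtain ⟨T⟩ := (inferInstance : Nonempty (Sylow q Cu))
    have hTC : (T : Subgroup Cu).map Cu.subtype ≤ C := by
      rintro _ ⟨v, hv, rfl⟩
      obtain ⟨l, hl⟩ := IsPGroup.iff_orderOf.mp T.isPGroup' ⟨v, hv⟩
      rw [← orderOf_coe, ← orderOf_coe] at hl
      exact hall v v.2 ⟨l, hl⟩
    set A := K ⊔ (T : Subgroup Cu).map Cu.subtype
    have hAC : A ≤ C := sup_le (fun x hx => (hKC hx).1) hTC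
    have hAp : IsPGroup q A := hKp.to_sup_of_normal_left' (T.isPGroup'.map _)
      (fun x _ => hKn (hCn x))
    have hle : Nat.card A ≤ Nat.card ((T : Subgroup Cu).map Cu.subtype) := by
      obtain ⟨c, hc⟩ := IsPGroup.iff_card.mp hAp
      rw [hc, card_map_of_injective Cu.subtype_injective, T.card_eq_multiplicity,
        card_eq N m h (hRN huR) huZ hga.1 hga.2.1]
      refine Nat.pow_le_pow_right hqp.pos ((hqp.pow_dvd_iff_le_factorization Nat.card_pos.ne').mp ?_)
      rw [← hc]
      exact card_dvd_of_le hAC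
    have hzT := (eq_of_le_of_card_ge (le_sup_right : _ ≤ A) hle).ge (mem_sup_left hzK)
    obtain ⟨z', -, hz'⟩ := hzT
    have hzu : z * u = u * z := mem_centralizer_singleton_iff.mp (hz' ▸ z'.2)
    exact hz (mem_center_of_commute N m h hga huC hzC hzN hzu.symm)
  · -- `N` has a perfect part
    obtain ⟨L, hLn, hLN, hLp, hLne⟩ := exists_perfect N
    haveI := hLn
    have hLne := hLne hsol
    have hLns : ¬ Group.IsSolvable L := by
      intro hs'
      refine hLne ?_
      obtain ⟨k, hk⟩ := hs'.1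
      have hd : ∀ j, (derivedSeries L j).map L.subtype = L := by
        intro j
        induction j with
        | zero => rw [derivedSeries_zero, ← MonoidHom.range_eq_map, range_subtype]
        | succ j ih => rw [derivedSeries_succ, map_commutator, ih, hLp]
      rw [← hd k, hk, Subgroup.map_bot]
    -- two primes different from `r`
    set π := QuotientGroup.mk' (center G)
    set S0 := (Nat.card (L.map π)).primeFactors.erase r
    have hS0 : 2 ≤ S0.card := by
      by_contra hlt
      apply hLns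
      obtain ⟨p, hp, hsub⟩ : ∃ p : ℕ, p.Prime ∧ ∀ q ∈ S0, q = p := by
        rcases Finset.eq_empty_or_nonempty S0 with h0 | ⟨p, hp⟩
        · exact ⟨r, hr, by simp [h0]⟩
        · exact ⟨p, (Nat.mem_primeFactors.mp (Finset.mem_erase.mp hp).2).1,
            fun q hq => Finset.card_le_one.mp (by omega) q hq p hp⟩
      haveI : Group.IsSolvable (L.map π) := by
        set n := Nat.card (L.map π) with hn
        have hn0 : n ≠ 0 := Nat.card_pos.ne'
        rcases eq_or_ne r p with hrp | hrp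
        · refine S0144.result r r (n.factorization r) 0 hr hr ?_
          rw [← hn, pow_zero, mul_one]
          refine Nat.eq_of_factorization_eq hn0 (pow_ne_zero _ hr.ne_zero) fun q => ?_
          rw [hr.factorization_pow, Finsupp.single_apply]
          split_ifs with hq
          · rw [hq]
          · by_contra hq0
            have hqm : q ∈ S0 := Finset.mem_erase.mpr ⟨Ne.symm hq,
              Nat.support_factorization n ▸ Finsupp.mem_support_iff.mpr hq0⟩
            exact hq (hrp.trans (hsub q hqm).symm)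
        · refine S0144.result r p (n.factorization r) (n.factorization p) hr hp ?_
          rw [← hn]
          refine Nat.eq_of_factorization_eq hn0 (mul_ne_zero (pow_ne_zero _ hr.ne_zero)
            (pow_ne_zero _ hp.ne_zero)) fun q => ?_
          rw [Nat.factorization_mul (pow_ne_zero _ hr.ne_zero) (pow_ne_zero _ hp.ne_zero),
            Finsupp.add_apply, hr.factorization_pow, hp.factorization_pow, Finsupp.single_apply,
            Finsupp.single_apply]
          by_cases h1 : r = q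
          · subst h1; simp [Ne.symm hrp]
          by_cases h2 : p = q
          · subst h2; simp [hrp]
          simp only [h1, h2, if_false, add_zero]
          by_contra hq0
          exact h2 (hsub q (Finset.mem_erase.mpr ⟨Ne.symm h1,
            Nat.support_factorization n ▸ Finsupp.mem_support_iff.mpr hq0⟩)).symm
      haveI : Group.IsSolvable ((center G).subgroupOf L) :=
        Group.isSolvable_of_comm fun a b => Subtype.ext (Subtype.ext
          (mem_center_iff.mp (mem_subgroupOf.mp b.2) _))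
      refine Group.isSolvable_of_ker_le_range ((center G).subgroupOf L).subtype (π.subgroupMap L) ?_
      intro x hx
      rw [range_subtype, mem_subgroupOf]
      exact (QuotientGroup.eq_one_iff _).mp (congrArg Subtype.val (MonoidHom.mem_ker.mp hx))
    have hS0el : ∀ q ∈ S0, q.Prime ∧ q ≠ r ∧ ∃ y ∈ L, y ∉ center G ∧ ∃ e, orderOf y = q ^ e := by
      intro q hq
      rw [Finset.mem_erase, Nat.mem_primeFactors] at hq
      haveI : Fact q.Prime := ⟨hq.2.1⟩
      refine ⟨hq.2.1, hq.1, ?_⟩
      obtain ⟨xb, hxb⟩ := exists_prime_orderOf_dvd_card' (G := L.map π) q hq.2.2.1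
      obtain ⟨x, hxL, hxe⟩ := xb.2
      rw [← orderOf_coe] at hxb
      have hxe' : π x = (xb : G ⧸ center G) := hxe
      refine ⟨x ^ H89.primaryExp q x, pow_mem hxL _, fun h0 => ?_, ?_⟩
      · have h1 : orderOf (π x) ∣ H89.primaryExp q x := orderOf_dvd_of_pow_eq_one (by
          rw [← map_pow]; exact (QuotientGroup.eq_one_iff _).mpr h0)
        rw [hxe', hxb] at h1
        exact Nat.not_dvd_ordCompl hq.2.1 (orderOf_pos x).ne' h1
      · obtain ⟨e, -, he⟩ := (Nat.dvd_prime_pow hq.2.1).mp (H89.orderOf_primaryPart_dvd q x)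
        exact ⟨e, he⟩
    obtain ⟨q1, hq1⟩ := Finset.card_pos.mp (by omega : 0 < S0.card)
    obtain ⟨hq1p, hq1r, y, hyL, hyZ, e, hye⟩ := hS0el q1 hq1
    have hgy := good_primary N m h R hR hRN hq1p hq1r (hLN hyL) hyZ hye
    obtain ⟨w, hwC, hwN, hw, hwr⟩ := present_r N m h R hR hRN (hLN hyL) hyZ
    obtain ⟨v, hvN, hvn, hvC, j, hj⟩ := exists_normalizer_notMem N m h hgy N le_rfl hwC hwN hw hwr
      (fun P hP => hRnc (by
        have hRp : IsPGroup r ((R : Subgroup G).subgroupOf N) :=
          R.isPGroup'.comap_of_injective _ N.subtype_injective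
        set RN : Sylow r N := hRp.toSylow (fun hd =>
          R.not_dvd_index (hd.trans (H89.relIndex_dvd_index_left N)))
        intro a ha b hb
        exact congrArg Subtype.val (sylow_commutative_of_le P RN (fun a ha b hb =>
          Subtype.ext (hgy.commute (hP (mem_map_of_mem _ ha)) (hP (mem_map_of_mem _ hb)) b.2).eq)
          ⟨a, hRN ha⟩ (mem_subgroupOf.mpr ha) ⟨b, hRN hb⟩ (mem_subgroupOf.mpr hb))))
    set H := L ⊔ zpowers v
    have hHN : H ≤ N := sup_le hLN (zpowers_le.mpr hvN)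
    refine false_of_three_primes N m h H hgy hHN ?_ (insert r S0) ?_ ?_
    · rintro p hp u huH huC ⟨l, hl⟩
      have huN := hHN huH
      rcases eq_or_ne p r with rfl | hpr
      · exact present_r N m h R hR hRN (hLN hyL) hyZ
      · have huL : u ∈ L := by
          obtain ⟨a, ha, b, hb, hab⟩ := mem_sup_of_normal_left.mp huH
          rw [← QuotientGroup.eq_one_iff, ← orderOf_eq_one_iff]
          refine Nat.eq_one_of_dvd_coprimes (((Nat.coprime_primes hp hr).mpr hpr).pow l j) ?_ ?_
          · rw [← hl]; exact orderOf_map_dvd (QuotientGroup.mk' L) u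
          · rw [← hab, QuotientGroup.mk_mul, (QuotientGroup.eq_one_iff a).mpr ha, one_mul]
            refine (orderOf_map_dvd (QuotientGroup.mk' L) b).trans ?_
            rw [← hj]
            exact ((zpowers v).orderOf_dvd_natCard hb).trans (dvd_of_eq (Nat.card_zpowers v))
        have huZ : u ∉ center G := fun h0 =>
          huC (mem_centralizer_singleton_iff.mpr (mem_center_iff.mp h0 y).symm)
        obtain ⟨x, hxC, hxL, hxZ, hxo⟩ := (present_of_perfect N m h R hrm hR hRN L hLN hLp hp hpr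
          huL huZ ⟨l, hl⟩ hgy).1
        exact ⟨x, hxC, hLN hxL, hxZ, hxo⟩
    · have hnr : r ∉ S0 := Finset.notMem_erase r _
      rw [Finset.card_insert_of_notMem hnr]
      omega
    · intro p hp
      rcases Finset.mem_insert.mp hp with rfl | hp
      · exact ⟨hr, v, mem_sup_right (mem_zpowers v), hvn, hvC, j, hj⟩
      · obtain ⟨hpp, hpr, y', hy'L, hy'Z, hy'o⟩ := hS0el p hp
        haveI : Fact p.Prime := ⟨hpp⟩
        obtain ⟨⟨x, hxC, hxL, hxZ, hxo⟩, hnot⟩ :=
          present_of_perfect N m h R hrm hR hRN L hLN hLp hpp hpr hy'L hy'Z hy'o hgy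
        obtain ⟨u, huL, hun, huC, huo⟩ :=
          exists_normalizer_notMem N m h hgy L hLN hxC hxL hxZ hxo hnot
        exact ⟨hpp, u, mem_sup_left huL, hun, huC, huo⟩

/-- A normal subgroup with two class sizes containing a noncentral Sylow subgroup is nilpotent. -/
theorem isNilpotent (hR : ¬ (R : Subgroup G) ≤ center G) (hRN : (R : Subgroup G) ≤ N) :
    Group.IsNilpotent N := by
  have hr : r.Prime := Fact.out
  by_cases hrm : r ∣ m
  · haveI : Group.IsNilpotent (N.map (QuotientGroup.mk' (center G))) := by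
      refine (IsPGroup.isNilpotent (p := r) fun xb => ?_)
      obtain ⟨x, hx, hxe⟩ := xb.2
      refine ⟨(orderOf x).factorization r, Subtype.ext ?_⟩
      rw [SubgroupClass.coe_pow, OneMemClass.coe_one, ← hxe, ← map_pow]
      refine (QuotientGroup.eq_one_iff _).mpr
        (mem_center_of_not_dvd N m h R hrm hR hRN (pow_mem hx _) ?_)
      rw [orderOf_pow_of_dvd (pow_ne_zero _ hr.ne_zero) (Nat.ordProj_dvd _ r)]
      exact Nat.not_dvd_ordCompl hr (orderOf_pos x).ne'
    refine Subgroup.isNilpotent_of_ker_le_center ((QuotientGroup.mk' (center G)).subgroupMap N) ?_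
    intro c hc
    exact mem_center_iff.mpr fun w => Subtype.ext (mem_center_iff.mp
      ((QuotientGroup.eq_one_iff (c : G)).mp (congrArg Subtype.val (MonoidHom.mem_ker.mp hc))) w)
  · -- `R` is central in `N`
    have hRp : IsPGroup r ((R : Subgroup G).subgroupOf N) :=
      R.isPGroup'.comap_of_injective _ N.subtype_injective
    set RN : Sylow r N := hRp.toSylow (fun hd =>
      R.not_dvd_index (hd.trans (H89.relIndex_dvd_index_left N)))
    have hRc : (RN : Subgroup N) ≤ center N := by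
      refine H89.le_center_of_not_vertex RN fun u hu => ?_
      have e : (centralizer ({(u : G)} : Set G)).subgroupOf N = centralizer ({u} : Set N) := by
        ext w
        simp [mem_subgroupOf, mem_centralizer_singleton_iff, Subtype.ext_iff]
      rw [← e] at hu
      have hu' := hu.trans (H89.relIndex_dvd_index_left N)
      rcases h u u.2 with h1 | h1
      · rw [h1] at hu'; exact hr.not_dvd_one hu'
      · exact hrm (h1 ▸ hu')
    obtain ⟨x, hxR, hx⟩ := SetLike.not_le_iff_exists.mp hR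
    obtain ⟨k, hk⟩ := IsPGroup.iff_orderOf.mp R.isPGroup' ⟨x, hxR⟩
    rw [Subgroup.orderOf_mk] at hk
    have hxc : ∀ y ∈ N, y * x = x * y := fun y hy =>
      congrArg Subtype.val (mem_center_iff.mp (hRc (show (⟨x, hRN hxR⟩ : N) ∈ (RN : Subgroup N) from
        mem_subgroupOf.mpr hxR)) ⟨y, hy⟩)
    -- noncentral `r'`-elements share the centralizer of `x`
    have hsame : ∀ y ∈ N, y ∉ center G → ¬ r ∣ orderOf y →
        centralizer ({y} : Set G) = centralizer ({x} : Set G) := fun y hy hyZ hyr =>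
      eq_of_le N m h hy hyZ (hRN hxR) hx (le_of_coprime N m h (hRN hxR) hy hyZ (hxc y hy)
        (by rw [hk]; exact ((hr.coprime_iff_not_dvd.mpr hyr).symm).pow_right k))
    have hcom : ∀ a ∈ N, ∀ b ∈ N, a * b = b * a := by
      intro a ha b hb
      have : a ∈ centralizer ({b} : Set G) := by
        refine H89.mem_of_primaryParts _ a fun p hp _ => mem_centralizer_singleton_iff.mpr ?_
        obtain ⟨i, -, hi⟩ := (Nat.dvd_prime_pow hp).mp (H89.orderOf_primaryPart_dvd p a)
        set a' := a ^ H89.primaryExp p a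
        have ha' : a' ∈ N := pow_mem ha _
        have : b ∈ centralizer ({a'} : Set G) := by
          refine H89.mem_of_primaryParts _ b fun q hq _ => mem_centralizer_singleton_iff.mpr ?_
          obtain ⟨l, -, hl⟩ := (Nat.dvd_prime_pow hq).mp (H89.orderOf_primaryPart_dvd q b)
          set b' := b ^ H89.primaryExp q b
          have hb' : b' ∈ N := pow_mem hb _
          have hrc : ∀ (z : G) (j : ℕ), z ∈ N → orderOf z = r ^ j → ∀ y ∈ N, y * z = z * y := by
            intro z j hz hzo y hy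
            obtain ⟨S, hS⟩ := (IsPGroup.of_card (p := r) (n := j) (G := zpowers (⟨z, hz⟩ : N))
              (by rw [Nat.card_zpowers, Subgroup.orderOf_mk, hzo])).exists_le_sylow
            haveI : (RN : Subgroup N).Normal := ⟨fun c hc g => by
              rw [mem_center_iff.mp (hRc hc) g, mul_inv_cancel_right]; exact hc⟩
            haveI := Sylow.unique_of_normal RN ‹_›
            rw [Subsingleton.elim S RN] at hS
            exact congrArg Subtype.val (mem_center_iff.mp (hRc (hS (mem_zpowers _))) ⟨y, hy⟩)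
          rcases eq_or_ne p r with rfl | hpr
          · exact hrc a' i ha' hi b' hb'
          rcases eq_or_ne q r with rfl | hqr
          · exact (hrc b' l hb' hl a' ha').symm
          by_cases haZ : a' ∈ center G
          · exact mem_center_iff.mp haZ b'
          by_cases hbZ : b' ∈ center G
          · exact (mem_center_iff.mp hbZ a').symm
          have h1 : b' ∈ centralizer ({a'} : Set G) := by
            rw [hsame a' ha' haZ fun hd => hpr ((Nat.prime_dvd_prime_iff_eq hr hp).mp
              (hr.dvd_of_dvd_pow (hi ▸ hd))).symm]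
            exact mem_centralizer_singleton_iff.mpr (hxc b' hb')
          exact mem_centralizer_singleton_iff.mp h1
        exact (mem_centralizer_singleton_iff.mp this).symm
      exact mem_centralizer_singleton_iff.mp this
    refine Subgroup.isNilpotent_of_ker_le_center (1 : N →* Multiplicative (Fin 1)) ?_
    intro c _
    exact mem_center_iff.mpr fun w => Subtype.ext (hcom w w.2 c c.2)

end Main

end Cfsg.Agent.H88.TwoSizesNormal
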